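import Mathlib

/-! Binary linear groups, part 1. -/

set_option autoImplicit false

namespace Cfsg.Agent.H3

open Module

/-- The binary property for a linear group, i.e. for the corresponding affine group. -/
def LBin (H V : Type*) [Group H] [AddCommGroup V] [DistribMulAction H V] : Prop :=
  ∀ S : Set (V × V), (∀ a ∈ S, ∃ h : H, h • a.1 = a.2) →
    (∀ a ∈ S, ∀ b ∈ S, ∃ h : H, h • (a.1 - b.1) = a.2 - b.2) → ∃ h : H, ∀ a ∈ S, h • a.1 = a.2

/-- A faithful binary linear group with `m` a lower bound for the rank of `g - 1`. -/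
structure BD (k V H : Type*) [Field k] [AddCommGroup V] [Module k V] [Group H]
    [DistribMulAction H V] [SMulCommClass H k V] where
  m : ℕ
  bin : LBin H V
  faith : ∀ g : H, (∀ v : V, g • v = v) → g = 1
  min : ∀ g : H, g ≠ 1 →
    m ≤ finrank k (LinearMap.range (DistribSMul.toLinearMap k V g - LinearMap.id))

namespace BD

variable {k V H : Type*} [Field k] [AddCommGroup V] [Module k V] [Group H]
  [DistribMulAction H V] [SMulCommClass H k V] (D : BD k V H)

/-- Fixed space. -/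
def C (_ : BD k V H) (g : H) : Submodule k V :=
  LinearMap.ker (DistribSMul.toLinearMap k V g - LinearMap.id)

/-- Commutator space. -/
def W (_ : BD k V H) (g : H) : Submodule k V :=
  LinearMap.range (DistribSMul.toLinearMap k V g - LinearMap.id)

/-- Elements of minimal rank. -/
def R (g : H) : Prop := g ≠ 1 ∧ finrank k (D.W g) = D.m

include D

theorem mem_C {g : H} {x : V} : x ∈ D.C g ↔ g • x = x := by simp [C, sub_eq_zero]

theorem mem_W {g : H} {x : V} : x ∈ D.W g ↔ ∃ v, g • v - v = x := by simp [W]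

theorem sub_mem_W (g : H) (v : V) : g • v - v ∈ D.W g := D.mem_W.mpr ⟨v, rfl⟩

theorem min' {g : H} (h : g ≠ 1) : D.m ≤ finrank k (D.W g) := D.min g h

theorem dim_WC [FiniteDimensional k V] (g : H) :
    finrank k (D.W g) + finrank k (D.C g) = finrank k V :=
  LinearMap.finrank_range_add_finrank_ker _

theorem dim_inf_C [FiniteDimensional k V] (X : Submodule k V) (g : H) :
    finrank k X ≤ finrank k (D.W g) + finrank k (X ⊓ D.C g : Submodule k V) := by
  have h1 := Submodule.finrank_sup_add_finrank_inf_eq X (D.C g)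
  have h2 := D.dim_WC g
  have h3 := Submodule.finrank_le (X ⊔ D.C g)
  omega

theorem eq_one_of_W {g : H} (h : D.W g = ⊥) : g = 1 := D.faith g (fun v => by
  have := D.sub_mem_W g v
  rwa [h, Submodule.mem_bot, sub_eq_zero] at this)

theorem exists_W {g : H} (h : g ≠ 1) : ∃ x ∈ D.W g, x ≠ 0 :=
  (Submodule.ne_bot_iff _).mp (fun e => h (D.eq_one_of_W e))

theorem exists_move {g : H} (h : g ≠ 1) : ∃ v : V, g • v ≠ v := by
  by_contra hc
  push Not at hc
  exact h (D.faith g hc)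

theorem ext {g h : H} (e : ∀ v : V, g • v = h • v) : g = h := by
  have := D.faith (h⁻¹ * g) (fun v => by rw [mul_smul, e, inv_smul_smul])
  exact (inv_mul_eq_one.mp this).symm

variable {D} in
theorem R.pos [FiniteDimensional k V] {r : H} (h : D.R r) : 0 < D.m := by
  rw [← h.2, Nat.pos_iff_ne_zero, ne_eq, Submodule.finrank_eq_zero]
  exact fun e => h.1 (D.eq_one_of_W e)

theorem invol_W {g : H} (h : g * g = 1) {x : V} (hx : x ∈ D.W g) : g • x = -x := by
  obtain ⟨v, rfl⟩ := D.mem_W.mp hx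
  rw [smul_sub, ← mul_smul, h, one_smul, neg_sub]

theorem smul_mem_W {r : H} (g : H) {x : V} (hx : x ∈ D.W r) : g • x ∈ D.W (g * r * g⁻¹) := by
  obtain ⟨v, rfl⟩ := D.mem_W.mp hx
  exact D.mem_W.mpr ⟨g • v, by simp [mul_smul, smul_sub]⟩

theorem mem_W_conj {r g : H} {x : V} : x ∈ D.W (g * r * g⁻¹) ↔ g⁻¹ • x ∈ D.W r := by
  constructor
  · intro h
    have := D.smul_mem_W g⁻¹ h
    simpa [mul_assoc] using this
  · intro h
    simpa using D.smul_mem_W g h

theorem mem_C_conj {r g : H} {x : V} : x ∈ D.C (g * r * g⁻¹) ↔ g⁻¹ • x ∈ D.C r := by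
  rw [D.mem_C, D.mem_C, mul_smul, mul_smul, smul_eq_iff_eq_inv_smul]

theorem W_conj (r g : H) :
    D.W (g * r * g⁻¹) = (D.W r).map (DistribMulAction.toLinearEquiv k V g : V →ₗ[k] V) := by
  ext x
  rw [D.mem_W_conj, Submodule.mem_map_equiv]
  rfl

theorem dim_W_conj (r g : H) : finrank k (D.W (g * r * g⁻¹)) = finrank k (D.W r) := by
  rw [W_conj, LinearEquiv.finrank_map_eq]

variable {D} in
theorem R.conj {r : H} (h : D.R r) (g : H) : D.R (g * r * g⁻¹) :=
  ⟨by rw [ne_eq, conj_eq_one_iff]; exact h.1, by rw [dim_W_conj, h.2]⟩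

theorem W_mul_le (a b : H) : D.W (a * b) ≤ D.W a ⊔ D.W b := by
  intro x hx
  obtain ⟨v, rfl⟩ := D.mem_W.mp hx
  have : (a * b) • v - v = (a • (b • v) - b • v) + (b • v - v) := by rw [mul_smul]; abel
  rw [this]
  exact Submodule.add_mem_sup (D.sub_mem_W _ _) (D.sub_mem_W _ _)

theorem W_inv_le (a : H) : D.W a⁻¹ ≤ D.W a := by
  intro x hx
  obtain ⟨v, rfl⟩ := D.mem_W.mp hx
  have := (D.W a).neg_mem (D.sub_mem_W a (a⁻¹ • v))
  simpa using this

theorem W_pow_le (a : H) (j : ℕ) : D.W (a ^ j) ≤ D.W a := by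
  induction j with
  | zero => intro x hx; obtain ⟨v, rfl⟩ := D.mem_W.mp hx; simp
  | succ j ih => rw [pow_succ]; exact (D.W_mul_le _ _).trans (sup_le ih le_rfl)

theorem smul_mem_of_W_le {g : H} {Y : Submodule k V} (h : D.W g ≤ Y) {y : V} (hy : y ∈ Y) :
    g • y ∈ Y := by
  have := Y.add_mem (h (D.sub_mem_W g y)) hy
  rwa [sub_add_cancel] at this

theorem le_C_mul {X : Submodule k V} {a b : H} (ha : X ≤ D.C a) (hb : X ≤ D.C b) :
    X ≤ D.C (a * b) := fun x hx => by
  rw [D.mem_C, mul_smul, D.mem_C.mp (hb hx), D.mem_C.mp (ha hx)]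

theorem le_C_inv {X : Submodule k V} {a : H} (ha : X ≤ D.C a) : X ≤ D.C a⁻¹ := fun x hx => by
  rw [D.mem_C, inv_smul_eq_iff, D.mem_C.mp (ha hx)]

theorem le_C_one {X : Submodule k V} : X ≤ D.C 1 := fun x _ => by rw [D.mem_C, one_smul]

theorem le_C_pow {X : Submodule k V} {a : H} (ha : X ≤ D.C a) (j : ℕ) : X ≤ D.C (a ^ j) := by
  induction j with
  | zero => rw [pow_zero]; exact D.le_C_one
  | succ j ih => rw [pow_succ]; exact D.le_C_mul ih ha

theorem le_C_zpow {X : Submodule k V} {a : H} (ha : X ≤ D.C a) (j : ℤ) : X ≤ D.C (a ^ j) := by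
  rcases j with j | j
  · simpa using D.le_C_pow ha j
  · rw [zpow_negSucc]; exact D.le_C_inv (D.le_C_pow ha _)

theorem comm_of_le {a b : H} (h1 : D.W a ≤ D.C b) (h2 : D.W b ≤ D.C a) : a * b = b * a := by
  refine D.ext (fun v => ?_)
  have e1 := D.mem_C.mp (h1 (D.sub_mem_W a v))
  have e2 := D.mem_C.mp (h2 (D.sub_mem_W b v))
  rw [smul_sub] at e1 e2
  rw [mul_smul, mul_smul]
  linear_combination (norm := abel) e2 - e1

theorem W_le_C_of_comm {a b : H} (h : a * b = b * a) (hd : D.W a ⊓ D.W b = ⊥) : D.W a ≤ D.C b := by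
  intro x hx
  have h1 : b • x ∈ D.W a := by
    have := D.smul_mem_W b hx
    rwa [← h, mul_inv_cancel_right] at this
  have h2 : b • x - x ∈ D.W a ⊓ D.W b := ⟨(D.W a).sub_mem h1 hx, D.sub_mem_W _ _⟩
  rwa [hd, Submodule.mem_bot, sub_eq_zero, ← D.mem_C] at h2

omit D in
theorem decomp [FiniteDimensional k V] {A B : Submodule k V} (h : A ⊓ B = ⊥)
    (hd : finrank k V ≤ finrank k A + finrank k B) (v : V) : ∃ a ∈ A, ∃ b ∈ B, a + b = v := by
  have h1 := Submodule.finrank_sup_add_finrank_inf_eq A B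
  rw [h, finrank_bot] at h1
  have h2 : A ⊔ B = ⊤ := Submodule.eq_top_of_finrank_eq
    (le_antisymm (Submodule.finrank_le _) (by omega))
  exact Submodule.mem_sup.mp (h2 ▸ Submodule.mem_top)

/-! ### Consequences of the binary property -/

theorem fixstar (X : Set V) (S : Set (V × V))
    (h1 : ∀ a ∈ S, ∃ h : H, (∀ c ∈ X, h • c = c) ∧ h • a.1 = a.2)
    (h2 : ∀ a ∈ S, ∀ b ∈ S, ∃ h : H, h • (a.1 - b.1) = a.2 - b.2) :
    ∃ h : H, (∀ c ∈ X, h • c = c) ∧ ∀ a ∈ S, h • a.1 = a.2 := by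
  obtain ⟨h, hh⟩ := D.bin (S ∪ (fun c => (c, c)) '' X) (by
    rintro a (ha | ⟨c, -, rfl⟩)
    · obtain ⟨h, -, e⟩ := h1 a ha; exact ⟨h, e⟩
    · exact ⟨1, one_smul _ _⟩) (by
    rintro a (ha | ⟨c, hc, rfl⟩) b (hb | ⟨d, hd, rfl⟩)
    · exact h2 a ha b hb
    · obtain ⟨h, e, e'⟩ := h1 a ha; exact ⟨h, by rw [smul_sub, e', e d hd]⟩
    · obtain ⟨h, e, e'⟩ := h1 b hb; exact ⟨h, by rw [smul_sub, e', e c hc]⟩
    · exact ⟨1, one_smul _ _⟩)
  exact ⟨h, fun c hc => hh (c, c) (Or.inr ⟨c, hc, rfl⟩), fun a ha => hh a (Or.inl ha)⟩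

theorem bin2 {x y x' y' : V} (h1 : ∃ h : H, h • x = x') (h2 : ∃ h : H, h • y = y')
    (h3 : ∃ h : H, h • (x - y) = x' - y') : ∃ h : H, h • x = x' ∧ h • y = y' := by
  obtain ⟨h, hh⟩ := D.bin {(x, x'), (y, y')} (by rintro a (rfl | rfl) <;> assumption) (by
    rintro a (rfl | rfl) b (rfl | rfl)
    · exact ⟨1, by simp⟩
    · exact h3
    · obtain ⟨h, e⟩ := h3; exact ⟨h, by rw [← neg_sub x y, smul_neg, e, neg_sub]⟩
    · exact ⟨1, by simp⟩)
  exact ⟨h, hh (x, x') (by simp), hh (y, y') (by simp)⟩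

theorem swap (h : H) (x : V) : ∃ g : H, D.C h ≤ D.C g ∧ g • x = h • x ∧ g • h • x = x := by
  obtain ⟨g, h1, h2⟩ := D.fixstar (D.C h) {(x, h • x), (x + h • x, x + h • x)} (by
    rintro a (rfl | rfl)
    · exact ⟨h, fun c hc => D.mem_C.mp hc, rfl⟩
    · exact ⟨1, fun c _ => one_smul _ _, one_smul _ _⟩) (by
    rintro a (rfl | rfl) b (rfl | rfl)
    · exact ⟨1, by simp⟩
    · exact ⟨h⁻¹, by simp⟩
    · exact ⟨h⁻¹, by simp⟩
    · exact ⟨1, by simp⟩)
  have e1 : g • x = h • x := h2 (x, h • x) (by simp)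
  have e2 : g • (x + h • x) = x + h • x := h2 (x + h • x, x + h • x) (by simp)
  refine ⟨g, fun c hc => D.mem_C.mpr (h1 c hc), e1, ?_⟩
  rw [smul_add, e1] at e2
  linear_combination (norm := abel) e2

theorem inv (h : H) (v : V) : ∃ g : H, D.C h ≤ D.C g ∧ ∀ i : ℤ, g • h ^ i • v = h ^ (-i) • v := by
  obtain ⟨g, h1, h2⟩ := D.fixstar (D.C h) (Set.range (fun i : ℤ => (h ^ i • v, h ^ (-i) • v))) (by
    rintro a ⟨i, rfl⟩
    refine ⟨h ^ (-i - i), fun c hc => D.mem_C.mp (D.le_C_zpow le_rfl _ hc), ?_⟩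
    simp only [← mul_smul, ← zpow_add, sub_add_cancel]) (by
    rintro a ⟨i, rfl⟩ b ⟨j, rfl⟩
    obtain ⟨g, -, e1, e2⟩ := D.swap (h ^ (j - i)) (h ^ i • v)
    simp only [← mul_smul, ← zpow_add, sub_add_cancel] at e1 e2
    refine ⟨h ^ (-i - j) * g, ?_⟩
    simp only
    rw [mul_smul, smul_sub g, ← mul_smul g, e1, ← mul_smul g, e2, smul_sub, ← mul_smul,
      ← mul_smul, ← zpow_add, ← zpow_add]
    congr 3 <;> ring)
  exact ⟨g, fun c hc => D.mem_C.mpr (h1 c hc), fun i => h2 _ ⟨i, rfl⟩⟩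

theorem inv' (h : H) (v : V) : ∃ g : H, D.C h ≤ D.C g ∧ g • v = v ∧ g • h • v = h⁻¹ • v ∧
    g • h⁻¹ • v = h • v ∧ g • h • h • v = h⁻¹ • h⁻¹ • v ∧ g • h⁻¹ • h⁻¹ • v = h • h • v := by
  obtain ⟨g, h1, h2⟩ := D.inv h v
  refine ⟨g, h1, by simpa using h2 0, by simpa using h2 1, by simpa using h2 (-1), ?_, ?_⟩
  · have := h2 2
    rwa [zpow_neg, zpow_two, mul_inv_rev, mul_smul, mul_smul] at this
  · have := h2 (-2)
    rwa [neg_neg, zpow_neg, zpow_two, mul_inv_rev, mul_smul, mul_smul] at this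

omit D in
theorem pow_smul_of_fix {h : H} {v : V} (hw : h • (h • v - v) = h • v - v) (i : ℕ) :
    h ^ i • v = v + i • (h • v - v) := by
  induction i with
  | zero => simp
  | succ i ih => rw [pow_succ', mul_smul, ih, smul_add, smul_comm, hw, succ_nsmul]; abel

omit D in
theorem two_smul_eq_zero (h2 : (2 : k) ≠ 0) {v : V} (h : v + v = 0) : v = 0 := by
  rw [← two_smul k] at h
  exact (smul_eq_zero.mp h).resolve_left h2

omit D in
theorem add_self_of_two (h2 : (2 : k) = 0) (v : V) : v + v = 0 := by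
  rw [← two_smul k, h2, zero_smul]

omit D in
theorem neg_eq_of_two (h2 : (2 : k) = 0) (v : V) : -v = v :=
  neg_eq_of_add_eq_zero_left (add_self_of_two h2 v)

theorem odd_disj [Finite k] (h2 : (2 : k) ≠ 0) (h : H) : D.C h ⊓ D.W h = ⊥ := by
  rw [eq_bot_iff]
  rintro w ⟨hc, hw⟩
  obtain ⟨v, rfl⟩ := D.mem_W.mp hw
  have hc' := D.mem_C.mp hc
  obtain ⟨p, hp⟩ := CharP.exists k
  obtain ⟨i, hi⟩ : Odd p := (CharP.char_is_prime k p).odd_of_ne_two (by
    rintro rfl
    exact h2 (CharP.cast_eq_zero k 2))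
  obtain ⟨g, e1, e2⟩ := D.bin2 (x := v) (y := -v) (x' := h • v) (y' := -v) ⟨h, rfl⟩ ⟨1, by simp⟩
    ⟨h ^ (i + 1), by
      have e : (p : ℕ) • (h • v - v) = 0 := by
        rw [← Nat.cast_smul_eq_nsmul k, CharP.cast_eq_zero, zero_smul]
      rw [hi, succ_nsmul, two_mul, add_nsmul] at e
      rw [sub_neg_eq_add, smul_add, pow_smul_of_fix hc', succ_nsmul]
      linear_combination (norm := abel) e⟩
  rw [smul_neg, e1, neg_inj] at e2
  rw [e2, sub_self]; exact Submodule.zero_mem _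

theorem disj_of_odd_order (h2 : (2 : k) = 0) {h : H} (ho : Odd (orderOf h)) :
    D.C h ⊓ D.W h = ⊥ := by
  rw [eq_bot_iff]
  rintro w ⟨hc, hw⟩
  obtain ⟨v, rfl⟩ := D.mem_W.mp hw
  have := pow_smul_of_fix (D.mem_C.mp hc) (orderOf h)
  obtain ⟨i, hi⟩ := ho
  rw [pow_orderOf_eq_one, one_smul, hi, succ_nsmul, two_mul, add_nsmul, add_self_of_two h2,
    zero_add, left_eq_add] at this
  rw [this]; exact Submodule.zero_mem _

theorem bin3 {x y z x' y' z' : V} (h1 : ∃ h : H, h • x = x') (h2 : ∃ h : H, h • y = y')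
    (h3 : ∃ h : H, h • z = z') (h4 : ∃ h : H, h • (x - y) = x' - y')
    (h5 : ∃ h : H, h • (x - z) = x' - z') (h6 : ∃ h : H, h • (y - z) = y' - z') :
    ∃ h : H, h • x = x' ∧ h • y = y' ∧ h • z = z' := by
  have hn : ∀ {a b a' b' : V}, (∃ h : H, h • (a - b) = a' - b') → ∃ h : H, h • (b - a) = b' - a' := by
    rintro a b a' b' ⟨h, e⟩
    exact ⟨h, by rw [← neg_sub a b, smul_neg, e, neg_sub]⟩
  obtain ⟨h, hh⟩ := D.bin {(x, x'), (y, y'), (z, z')} (by rintro a (rfl | rfl | rfl) <;> assumption) (by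
    rintro a (rfl | rfl | rfl) b (rfl | rfl | rfl)
    · exact ⟨1, by simp⟩
    · exact h4
    · exact h5
    · exact hn h4
    · exact ⟨1, by simp⟩
    · exact h6
    · exact hn h5
    · exact hn h6
    · exact ⟨1, by simp⟩)
  exact ⟨h, hh (x, x') (by simp), hh (y, y') (by simp), hh (z, z') (by simp)⟩

theorem nil3 (h2 : (2 : k) = 0) (h : H) {v w x : V} (hv : h • v = v + w) (hw : h • w = w + x)
    (hx : h • x = x) : x = 0 := by
  have a := add_self_of_two (V := V) h2
  have e1 : (h * h) • v = v + x := by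
    rw [mul_smul, hv, smul_add, hv, hw]; linear_combination (norm := abel) a w
  have e2 : (h * h) • w = w := by
    rw [mul_smul, hw, smul_add, hw, hx]; linear_combination (norm := abel) a x
  obtain ⟨g, g1, g2, g3⟩ := D.bin3 (x := v) (y := w) (z := v + w) (x' := v) (y' := w)
    (z' := v + w + x) ⟨1, by simp⟩ ⟨1, by simp⟩ ⟨h * h, by rw [smul_add, e1, e2]; abel⟩ ⟨1, by simp⟩
    ⟨h, by rw [show v - (v + w) = -w by abel, smul_neg, hw]; abel⟩
    ⟨h * h, by rw [show w - (v + w) = -v by abel, smul_neg, e1]; abel⟩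
  rw [smul_add, g1, g2] at g3
  exact left_eq_add.mp g3

theorem no4 (h2 : (2 : k) = 0) {h : H} (h4 : h * h * (h * h) = 1) : h * h = 1 := by
  have a := add_self_of_two (V := V) h2
  refine D.faith _ (fun u => ?_)
  have e4 : h • h • h • h • u = u := by rw [← mul_smul, ← mul_smul, ← mul_smul, mul_assoc, h4, one_smul]
  have e1 : u + h • u + h • h • u + h • h • h • u = 0 :=
    D.nil3 h2 h (v := u + h • u) (w := u + h • h • u)
      (by simp only [smul_add]; linear_combination (norm := abel) -a u)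
      (by simp only [smul_add]; linear_combination (norm := abel) -a u - a (h • h • u))
      (by simp only [smul_add, e4]; abel)
  have e2 : u + h • h • u = 0 :=
    D.nil3 h2 h (v := u) (w := u + h • u) (by linear_combination (norm := abel) -a u)
      (by simp only [smul_add]; linear_combination (norm := abel) -a u)
      (by simp only [smul_add]; linear_combination (norm := abel) e1 - a u - a (h • h • u))
  rw [mul_smul]
  linear_combination (norm := abel) e2 - a u

theorem odd_sq [Finite H] (h2 : (2 : k) = 0) (h : H) : Odd (orderOf (h * h)) := by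
  by_contra ho
  obtain ⟨i, hi⟩ := Nat.not_odd_iff_even.mp ho
  have h0 := orderOf_pos (h * h)
  have e : ∀ j : ℕ, (h * h) ^ j = h ^ j * h ^ j := fun j => (Commute.refl h).mul_pow j
  have h1 : h ^ i * h ^ i = 1 := D.no4 h2 (by rw [← e, ← pow_add, ← hi, pow_orderOf_eq_one])
  exact pow_ne_one_of_lt_orderOf (x := h * h) (n := i) (by omega) (by omega) (by rw [e, h1])

omit D in
theorem fix_of_odd {c : H} (ho : Odd (orderOf c)) {v : V} (h : c • c • v = v) : c • v = v := by
  obtain ⟨i, hi⟩ := ho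
  have e1 : (c ^ 2) ^ i • v = v :=
    (MulAction.stabilizer H v).pow_mem (by rw [MulAction.mem_stabilizer_iff, pow_two, mul_smul, h]) i
  have e2 := pow_orderOf_eq_one c
  rw [hi, pow_succ', pow_mul] at e2
  have := congrArg (fun z : H => z • v) e2
  simpa only [mul_smul, e1, one_smul] using this

theorem disj_sq [Finite k] [Finite H] (h : H) : D.C (h * h) ⊓ D.W (h * h) = ⊥ := by
  by_cases h2 : (2 : k) = 0
  · exact D.disj_of_odd_order h2 (D.odd_sq h2 h)
  · exact D.odd_disj h2 _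

theorem quad (h2 : (2 : k) = 0) {s t : H} (hs : s * s = 1) (ht : t * t = 1) (hc : s * t = t * s) :
    D.W s ≤ D.C t := by
  have a := add_self_of_two (V := V) h2
  intro x hx
  obtain ⟨v, rfl⟩ := D.mem_W.mp hx
  have es : ∀ u : V, s • s • u = u := fun u => by rw [← mul_smul, hs, one_smul]
  have et : ∀ u : V, t • t • u = u := fun u => by rw [← mul_smul, ht, one_smul]
  have ec : ∀ u : V, t • s • u = s • t • u := fun u => by rw [← mul_smul, ← hc, mul_smul]
  obtain ⟨g, g1, g2, g3⟩ := D.bin3 (x := v + s • v) (y := v + t • v) (z := v + s • t • v)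
    (x' := t • v + s • t • v) (y' := v + t • v) (z' := v + s • t • v)
    ⟨t, by rw [smul_add, ec]⟩ ⟨1, by simp⟩ ⟨1, by simp⟩
    ⟨s, by simp only [smul_sub, smul_add, es]; linear_combination (norm := abel) a v - a (s • t • v)⟩
    ⟨s, by simp only [smul_sub, smul_add, es]; linear_combination (norm := abel) a v - a (t • v)⟩
    ⟨1, by simp⟩
  have e : g • (v + s • v + (v + t • v) + (v + s • t • v)) = 0 := by
    rw [smul_add, smul_add, g1, g2, g3]
    linear_combination (norm := abel) a v + a (t • v) + a (s • t • v)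
  rw [smul_eq_zero_iff_eq] at e
  rw [D.mem_C, smul_sub, ec]
  linear_combination (norm := abel) e - a v - a (t • v) - a (s • v)

end BD

end Cfsg.Agent.H3
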