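import Mathlib
import Cfsg.Agent.H3.AffBin1

/-! Binary linear groups, part 2. -/

set_option autoImplicit false

namespace Cfsg.Agent.H3

open Module

namespace BD

variable {k V H : Type*} [Field k] [AddCommGroup V] [Module k V] [Group H]
  [DistribMulAction H V] [SMulCommClass H k V] (D : BD k V H) [FiniteDimensional k V]

variable {D} in
theorem R.C_eq {r g : H} (hr : D.R r) (g1 : g ≠ 1) (h : D.C r ≤ D.C g) : D.C g = D.C r := by
  have h1 := D.dim_WC r
  have h2 := D.dim_WC g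
  have h3 := D.min' g1
  exact (Submodule.eq_of_le_of_finrank_le h (by rw [hr.2] at h1; omega)).symm

variable {D} in
theorem R.of_le {r g : H} (hr : D.R r) (g1 : g ≠ 1) (h : D.C r ≤ D.C g) : D.R g := by
  have h1 := D.dim_WC r
  have h2 := D.dim_WC g
  rw [hr.C_eq g1 h] at h2
  exact ⟨g1, by rw [hr.2] at h1; omega⟩

variable {D} in
theorem R.sq {r : H} (hr : D.R r) : r * r = 1 := by
  obtain ⟨v, hv⟩ := D.exists_move hr.1
  have key : ∀ g : H, D.C r ≤ D.C g → g • v = v → g = 1 := fun g h1 h2 => by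
    by_contra g1
    exact hv (D.mem_C.mp (hr.C_eq g1 h1 ▸ D.mem_C.mpr h2))
  obtain ⟨g, h1, h2, h3, -⟩ := D.inv' r v
  rw [key g h1 h2, one_smul] at h3
  exact key _ (D.le_C_mul le_rfl le_rfl) (by rw [mul_smul, h3, smul_inv_smul])

omit [FiniteDimensional k V] in
theorem C_mul_le_of_disj {a b : H} (ha : a * a = 1) (hd : D.W a ⊓ D.W b = ⊥) :
    D.C (a * b) ≤ D.C a ∧ D.C (a * b) ≤ D.C b := by
  have key : ∀ x ∈ D.C (a * b), b • x = a • x ∧ a • x = x := by
    intro x hx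
    have h1 : b • x = a • x := by
      have := congrArg (fun y => a • y) (D.mem_C.mp hx)
      simpa only [← mul_smul, ← mul_assoc, ha, one_mul] using this
    have h2 : a • x - x ∈ D.W a ⊓ D.W b := ⟨D.sub_mem_W _ _, h1 ▸ D.sub_mem_W _ _⟩
    rw [hd, Submodule.mem_bot, sub_eq_zero] at h2
    exact ⟨h1, h2⟩
  exact ⟨fun x hx => D.mem_C.mpr (key x hx).2,
    fun x hx => D.mem_C.mpr ((key x hx).1.trans (key x hx).2)⟩

theorem W_le_of_inv {a c : H} (hac : a * c * a⁻¹ = c⁻¹) (hd : D.C c ⊓ D.W c = ⊥)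
    (h1 : D.C c ≤ D.C a) : D.W a ≤ D.W c := by
  intro w hw
  obtain ⟨v, rfl⟩ := D.mem_W.mp hw
  obtain ⟨x, hx, y, hy, rfl⟩ := decomp hd (by rw [← D.dim_WC c, add_comm]) v
  have h2 := D.smul_mem_W a hy
  rw [hac] at h2
  have := (D.W c).sub_mem (D.W_inv_le c h2) hy
  rwa [smul_add, D.mem_C.mp (h1 hx), add_sub_add_left_eq_sub]

theorem DS {a b c : H} (ha : a * a = 1) (hb : b * b = 1) (hc : c = a * b ∨ c = a * b * (a * b))
    (hd : D.C c ⊓ D.W c = ⊥) (h1 : D.C c ≤ D.C a) (h2 : D.C c ≤ D.C b) :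
    D.W a ≤ D.W c ∧ D.W b ≤ D.W c ∧ D.W a ⊓ D.W b = ⊥ ∧
      finrank k (D.W a) + finrank k (D.W b) ≤ finrank k (D.W c) := by
  have ea := inv_eq_of_mul_eq_one_right ha
  have eb := inv_eq_of_mul_eq_one_right hb
  have e1 : D.W a ≤ D.W c := D.W_le_of_inv (by
    rcases hc with rfl | rfl <;> simp only [mul_inv_rev, ea, eb, ← mul_assoc, ha, one_mul]) hd h1
  have e2 : D.W b ≤ D.W c := D.W_le_of_inv (by
    rcases hc with rfl | rfl <;> simp only [mul_inv_rev, ea, eb, mul_assoc, hb, mul_one]) hd h2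
  have e3 : D.W a ⊓ D.W b = ⊥ := by
    rw [eq_bot_iff, ← hd]
    refine le_inf (fun x hx => ?_) (inf_le_left.trans e1)
    have : x ∈ D.C (a * b) := by
      rw [D.mem_C, mul_smul, D.invol_W hb hx.2, smul_neg, D.invol_W ha hx.1, neg_neg]
    rcases hc with rfl | rfl
    · exact this
    · exact D.le_C_mul le_rfl le_rfl this
  refine ⟨e1, e2, e3, ?_⟩
  have h3 := Submodule.finrank_sup_add_finrank_inf_eq (D.W a) (D.W b)
  rw [e3, finrank_bot] at h3
  have h4 := Submodule.finrank_mono (sup_le e1 e2)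
  omega

omit [FiniteDimensional k V] in
theorem neg_comp {a b : H} (ha : a * a = 1) (hb : b * b = 1) : ∃ f : H,
    (∀ x ∈ D.W a ⊓ D.W b, f • x = -x) ∧ D.C a ≤ D.C f ∧ D.C b ≤ D.C f := by
  obtain ⟨f, hf⟩ := D.bin ((fun x => (x, -x)) '' (D.W a ⊓ D.W b : Submodule k V) ∪
    (fun x => (x, x)) '' (D.C a ∪ D.C b)) (by
      rintro _ (⟨x, hx, rfl⟩ | ⟨x, hx, rfl⟩)
      · exact ⟨a, D.invol_W ha hx.1⟩
      · exact ⟨1, one_smul _ _⟩) (by
      rintro _ (⟨x, hx, rfl⟩ | ⟨x, hx, rfl⟩) _ (⟨y, hy, rfl⟩ | ⟨y, hy, rfl⟩)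
      · exact ⟨a, by rw [smul_sub, D.invol_W ha hx.1, D.invol_W ha hy.1]⟩
      · rcases hy with hy | hy
        · exact ⟨a, by rw [smul_sub, D.invol_W ha hx.1, D.mem_C.mp hy]⟩
        · exact ⟨b, by rw [smul_sub, D.invol_W hb hx.2, D.mem_C.mp hy]⟩
      · rcases hx with hx | hx
        · exact ⟨a, by rw [smul_sub, D.invol_W ha hy.1, D.mem_C.mp hx]⟩
        · exact ⟨b, by rw [smul_sub, D.invol_W hb hy.2, D.mem_C.mp hx]⟩
      · exact ⟨1, one_smul _ _⟩)
  exact ⟨f, fun x hx => hf (x, -x) (Or.inl ⟨x, hx, rfl⟩),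
    fun x hx => D.mem_C.mpr (hf (x, x) (Or.inr ⟨x, Or.inl hx, rfl⟩)),
    fun x hx => D.mem_C.mpr (hf (x, x) (Or.inr ⟨x, Or.inr hx, rfl⟩))⟩

theorem comm_W (h2 : (2 : k) ≠ 0) {a b : H} (ha : a * a = 1) (hb : b * b = 1) (hc : a * b = b * a)
    (hne : D.W a ⊓ D.W b ≠ ⊥) : D.m ≤ finrank k (D.W a ⊓ D.W b : Submodule k V) := by
  obtain ⟨f, f1, f2, f3⟩ := D.neg_comp ha hb
  have hf : f ≠ 1 := by
    rintro rfl
    obtain ⟨x, hx, x0⟩ := (Submodule.ne_bot_iff _).mp hne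
    have := f1 x hx
    rw [one_smul, eq_neg_iff_add_eq_zero] at this
    exact x0 (two_smul_eq_zero h2 this)
  refine (D.min' hf).trans (Submodule.finrank_mono (fun w hw => ?_))
  obtain ⟨v, rfl⟩ := D.mem_W.mp hw
  have ea : ∀ u : V, a • a • u = u := fun u => by rw [← mul_smul, ha, one_smul]
  have eb : ∀ u : V, b • b • u = u := fun u => by rw [← mul_smul, hb, one_smul]
  have ec : ∀ u : V, b • a • u = a • b • u := fun u => by rw [← mul_smul, ← hc, mul_smul]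
  have z1 : a • (b • v - v) - (b • v - v) ∈ D.W a ⊓ D.W b := ⟨D.sub_mem_W _ _, by
    have := D.sub_mem_W b (a • v - v)
    rwa [show b • (a • v - v) - (a • v - v) = a • (b • v - v) - (b • v - v) by
      simp only [smul_sub, ec]; abel] at this⟩
  have z2 : v + a • v ∈ D.C a := by rw [D.mem_C, smul_add, ea, add_comm]
  have z3 : (v - a • v) + b • (v - a • v) ∈ D.C b := by rw [D.mem_C, smul_add, eb, add_comm]
  have e1 := f1 _ z1
  have e2 := D.mem_C.mp (f2 z2)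
  have e3 := D.mem_C.mp (f3 z3)
  have e4 : (2 : k) • (2 : k) • (f • v - v) = (-2 : k) • (a • (b • v - v) - (b • v - v)) := by
    simp only [smul_sub, smul_add, ec, neg_smul, two_smul] at e1 e2 e3 ⊢
    linear_combination (norm := abel) e1 + e2 + e2 + e3
  have := (D.W a ⊓ D.W b).smul_mem (-2 : k) z1
  rwa [← e4, Submodule.smul_mem_iff _ h2, Submodule.smul_mem_iff _ h2] at this

variable [Finite k]

theorem two_invol (h2 : (2 : k) ≠ 0) {a b : H} (ha : a * a = 1) (hb : b * b = 1)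
    (hc : a * b = b * a) (a1 : a ≠ 1) (b1 : b ≠ 1) (hne : a ≠ b) :
    finrank k (D.C a ⊓ D.C b : Submodule k V) + 2 * D.m ≤ finrank k V := by
  have key : ∀ {a b : H}, a * a = 1 → b * b = 1 → a ≠ 1 → b ≠ 1 → D.W a ⊓ D.W b = ⊥ →
      finrank k (D.C a ⊓ D.C b : Submodule k V) + 2 * D.m ≤ finrank k V := by
    intro a b ha hb a1 b1 hd
    obtain ⟨h3, h4⟩ := D.C_mul_le_of_disj ha hd
    have h5 := (D.DS ha hb (Or.inl rfl) (D.odd_disj h2 _) h3 h4).2.2.2
    have h6 := D.min' a1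
    have h7 := D.min' b1
    have h8 := D.dim_WC (a * b)
    have h9 := Submodule.finrank_mono (D.le_C_mul (X := D.C a ⊓ D.C b) inf_le_left inf_le_right)
    omega
  by_cases h3 : D.W a ⊓ D.W b = ⊥
  · exact key ha hb a1 b1 h3
  have hab : a * b * (a * b) = 1 := by
    rw [mul_assoc, ← mul_assoc b, ← hc, mul_assoc, hb, mul_one, ha]
  have ab1 : a * b ≠ 1 := fun e => hne (by rw [← mul_one a, ← hb, ← mul_assoc, e, one_mul])
  by_cases h4 : D.W a ⊓ D.W (a * b) = ⊥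
  · have h5 := key ha hab a1 ab1 h4
    have h6 := Submodule.finrank_mono (le_inf inf_le_left
      (D.le_C_mul (X := D.C a ⊓ D.C b) inf_le_left inf_le_right))
    omega
  have h5 := D.comm_W h2 ha hb hc h3
  have h6 := D.comm_W h2 ha hab (by rw [← mul_assoc, hc, mul_assoc, hc, ← mul_assoc, hc]) h4
  have h7 := Submodule.finrank_sup_add_finrank_inf_eq (D.W a ⊓ D.W b) (D.W a ⊓ D.W (a * b))
  have h8 : (D.W a ⊓ D.W b) ⊓ (D.W a ⊓ D.W (a * b)) = ⊥ := by
    rw [eq_bot_iff]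
    rintro x ⟨⟨x1, x2⟩, -, x3⟩
    have := D.invol_W hab x3
    rw [mul_smul, D.invol_W hb x2, smul_neg, D.invol_W ha x1, neg_neg, eq_neg_iff_add_eq_zero] at this
    exact two_smul_eq_zero h2 this
  rw [h8, finrank_bot] at h7
  have h9 := Submodule.finrank_mono (sup_le (inf_le_left : D.W a ⊓ D.W b ≤ _)
    (inf_le_left : D.W a ⊓ D.W (a * b) ≤ _))
  have h10 := D.dim_WC a
  have h11 := Submodule.finrank_mono (inf_le_left : D.C a ⊓ D.C b ≤ _)
  omega

omit [FiniteDimensional k V] [Finite k] in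
omit D in
theorem comm_of_sq {a b : H} (ha : a * a = 1) (hb : b * b = 1) (h : a * b * (a * b) = 1) :
    a * b = b * a := by
  rw [← inv_eq_of_mul_eq_one_right h, mul_inv_rev, inv_eq_of_mul_eq_one_right ha,
    inv_eq_of_mul_eq_one_right hb]

variable [Finite H]

theorem F1 {h : H} (hh : h * h ≠ 1) : 2 * D.m ≤ finrank k (D.W h) := by
  obtain ⟨h', ⟨h1, h2⟩, hmax⟩ := Set.exists_max_image {g : H | g * g ≠ 1 ∧ D.C h ≤ D.C g}
    (fun g => finrank k (D.C g)) (Set.toFinite _) ⟨h, hh, le_rfl⟩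
  have hM : ∀ g : H, D.C h' ≤ D.C g → g * g ≠ 1 → D.C g = D.C h' := fun g e1 e2 =>
    (Submodule.eq_of_le_of_finrank_le e1 (hmax g ⟨e2, h2.trans e1⟩)).symm
  suffices finrank k (D.C h') + 2 * D.m ≤ finrank k V by
    have h3 := Submodule.finrank_mono h2
    have h4 := D.dim_WC h
    omega
  obtain ⟨v, hv⟩ := D.exists_move h1
  rw [mul_smul] at hv
  have hv1 : v ∉ D.C h' := fun e => hv (by rw [D.mem_C.mp e, D.mem_C.mp e])
  obtain ⟨g, g1, g2, g3, g4, g5, g6⟩ := D.inv' h' v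
  have gg : g * g = 1 := by
    by_contra e
    exact hv1 (hM g g1 e ▸ D.mem_C.mpr g2)
  have gne : g ≠ 1 := by
    rintro rfl
    rw [one_smul] at g3
    exact hv (by rw [g3, smul_inv_smul])
  set g' := h'⁻¹ * g * h' with hg'
  have gg' : g' * g' = 1 := by
    rw [hg', show h'⁻¹ * g * h' * (h'⁻¹ * g * h') = h'⁻¹ * (g * g) * h' by group, gg]; group
  have gne' : g' ≠ 1 := fun e => gne (by
    rw [show g = h' * g' * h'⁻¹ by rw [hg']; group, e]; group)
  have g1' : D.C h' ≤ D.C g' := D.le_C_mul (D.le_C_mul (D.le_C_inv le_rfl) g1) le_rfl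
  have b1 : (g * g') • v = h' • h' • v := by
    rw [hg', mul_smul, mul_smul, mul_smul, g3, g6]
  have hne : g ≠ g' := fun e => hv (by rw [← b1, ← e, gg, one_smul])
  have fin : ∀ c, (c = g * g' ∨ c = g * g' * (g * g')) → c * c ≠ 1 → D.C c ⊓ D.W c = ⊥ →
      finrank k (D.C h') + 2 * D.m ≤ finrank k V := by
    intro c hc c2 hd
    have e : D.C c = D.C h' := hM c (by
      rcases hc with rfl | rfl
      · exact D.le_C_mul g1 g1'
      · exact D.le_C_mul (D.le_C_mul g1 g1') (D.le_C_mul g1 g1')) c2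
    have h5 := (D.DS gg gg' hc hd (e ▸ g1) (e ▸ g1')).2.2.2
    have h6 := D.min' gne
    have h7 := D.min' gne'
    have h8 := D.dim_WC c
    rw [e] at h8
    omega
  by_cases b4 : g * g' * (g * g') * (g * g' * (g * g')) = 1
  swap
  · exact fin _ (Or.inr rfl) b4 (D.disj_sq _)
  by_cases h2 : (2 : k) = 0
  · exfalso
    have b2 := D.no4 h2 b4
    have e1 : (g' * g) • v = h' • h' • v := by rw [← comm_of_sq gg gg' b2, b1]
    rw [hg', mul_smul, g2, mul_smul, mul_smul, g3] at e1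
    refine hv ?_
    rw [← mul_smul]
    refine fix_of_odd (D.odd_sq h2 h') ?_
    rw [mul_smul, mul_smul, ← e1, smul_inv_smul, smul_inv_smul]
  by_cases b2 : g * g' * (g * g') = 1
  · have := D.two_invol h2 gg gg' (comm_of_sq gg gg' b2) gne gne' hne
    have h3 := Submodule.finrank_mono (le_inf g1 g1')
    omega
  · exact fin _ (Or.inl rfl) b2 (D.odd_disj h2 _)

end BD

end Cfsg.Agent.H3
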