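import Mathlib
import Cfsg.Agent.H3.AffBin2

/-! Binary linear groups, part 3: lines. -/

set_option autoImplicit false

namespace Cfsg.Agent.H3

open Module

namespace BD

variable {k V H : Type*} [Field k] [AddCommGroup V] [Module k V] [Group H]
  [DistribMulAction H V] [SMulCommClass H k V] (D : BD k V H)

/-- Two non-commuting reflections. -/
structure Ln (s t : H) : Prop where
  rs : D.R s
  rt : D.R t
  nc : s * t ≠ t * s

/-- Common fixed space. -/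
abbrev LC (s t : H) : Submodule k V := D.C s ⊓ D.C t

/-- Span of the commutator spaces. -/
abbrev LU (s t : H) : Submodule k V := D.W s ⊔ D.W t

variable {D} {s t : H}

theorem Ln.symm (L : D.Ln s t) : D.Ln t s := ⟨L.rt, L.rs, L.nc.symm⟩

variable [FiniteDimensional k V] [Finite k] [Finite H]

omit [Finite k] [Finite H] in
theorem Ln.sq_ne (L : D.Ln s t) : s * t * (s * t) ≠ 1 :=
  fun e => L.nc (comm_of_sq L.rs.sq L.rt.sq e)

theorem Ln.dims (L : D.Ln s t) : finrank k (D.LU s t) = 2 * D.m ∧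
    finrank k (D.LC s t) + 2 * D.m = finrank k V ∧ D.W s ⊓ D.W t = ⊥ := by
  have h1 := D.F1 L.sq_ne
  have h2 := Submodule.finrank_mono (D.W_mul_le s t)
  have h3 := Submodule.finrank_sup_add_finrank_inf_eq (D.W s) (D.W t)
  have h4 := D.dim_inf_C (D.C s) t
  have h5 := D.dim_WC s
  have h6 := D.dim_WC (s * t)
  have h7 := Submodule.finrank_mono (D.le_C_mul (X := D.C s ⊓ D.C t) inf_le_left inf_le_right)
  rw [L.rs.2, L.rt.2] at h3
  rw [L.rt.2] at h4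
  rw [L.rs.2] at h5
  refine ⟨by unfold LU; omega, by unfold LC; omega, Submodule.finrank_eq_zero.mp (by omega)⟩

theorem Ln.M (L : D.Ln s t) {g : H} (hg : D.LC s t ≤ D.C g) (g2 : g * g ≠ 1) :
    D.C g = D.LC s t := by
  have h1 := D.F1 g2
  have h2 := D.dim_WC g
  have h3 := L.dims.2.1
  exact (Submodule.eq_of_le_of_finrank_le hg (by omega)).symm

theorem Ln.sq_of_fix (L : D.Ln s t) {g : H} (hg : D.LC s t ≤ D.C g) {v : V} (hv : v ∉ D.LC s t)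
    (e : g • v = v) : g * g = 1 := by
  by_contra g2
  exact hv (L.M hg g2 ▸ D.mem_C.mpr e)

theorem Ln.comm_of_fix (L : D.Ln s t) {a b : H} (ha : D.LC s t ≤ D.C a) (hb : D.LC s t ≤ D.C b)
    {v : V} (hv : v ∉ D.LC s t) (ea : a • v = v) (eb : b • v = v) : a * b = b * a :=
  comm_of_sq (L.sq_of_fix ha hv ea) (L.sq_of_fix hb hv eb)
    (L.sq_of_fix (D.le_C_mul ha hb) hv (by rw [mul_smul, eb, ea]))

theorem Ln.uniq_odd (L : D.Ln s t) (h2 : (2 : k) ≠ 0) {a b : H} (ha : D.LC s t ≤ D.C a)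
    (hb : D.LC s t ≤ D.C b) {v : V} (hv : v ∉ D.LC s t) (ea : a • v = v) (eb : b • v = v)
    (a1 : a ≠ 1) (b1 : b ≠ 1) : a = b := by
  by_contra hne
  have h3 := D.two_invol h2 (L.sq_of_fix ha hv ea) (L.sq_of_fix hb hv eb)
    (L.comm_of_fix ha hb hv ea eb) a1 b1 hne
  have h4 := L.dims.2.1
  have h5 := Submodule.eq_of_le_of_finrank_le (le_inf ha hb) (by omega)
  exact hv (h5 ▸ ⟨D.mem_C.mpr ea, D.mem_C.mpr eb⟩)

theorem Ln.M2 (L : D.Ln s t) {g : H} (hg : D.LC s t ≤ D.C g) (g2 : g * g ≠ 1) :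
    D.C (g * g) = D.LC s t := by
  by_cases g4 : g * g * (g * g) = 1
  swap
  · exact L.M (D.le_C_mul hg hg) g4
  by_cases h2 : (2 : k) = 0
  · exact absurd (D.no4 h2 g4) g2
  refine le_antisymm (fun c₀ hc₀ => ?_) (D.le_C_mul hg hg)
  by_contra hc
  have hCg := L.M hg g2
  have e0 : g • g • c₀ = c₀ := by rw [← mul_smul]; exact D.mem_C.mp hc₀
  set c := c₀ - g • c₀ with hc'
  have e1 : g • c = -c := by rw [hc', smul_sub, e0, neg_sub]
  have hcC : c ∉ D.LC s t := by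
    intro e
    have := D.mem_C.mp (hg e)
    rw [e1, neg_eq_iff_add_eq_zero] at this
    have := two_smul_eq_zero h2 this
    exact hc (hCg ▸ D.mem_C.mpr (sub_eq_zero.mp this).symm)
  have e2 : (g * g) • c = c := by rw [mul_smul, e1, smul_neg, e1, neg_neg]
  obtain ⟨w, hw, w0⟩ := D.exists_W g2
  have e3 := D.invol_W g4 hw
  obtain ⟨f, f1, f2, f3, -, f5, -⟩ := D.inv' g (c + w)
  have e4 : g • g • (c + w) = c - w := by rw [← mul_smul, smul_add, e2, e3, sub_eq_add_neg]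
  have e5 : g⁻¹ • g⁻¹ • (c + w) = c - w := by
    rw [inv_smul_eq_iff, inv_smul_eq_iff, ← mul_smul, smul_sub, e2, e3, sub_neg_eq_add]
  rw [e4, e5, smul_sub] at f5
  rw [smul_add] at f2
  have fc : f • c = c := by
    rw [← sub_eq_zero]; exact two_smul_eq_zero h2 (by linear_combination (norm := abel) f2 + f5)
  have fw : f • w = w := by rwa [fc, add_right_inj] at f2
  have hne : ∀ a : H, a • w = w → a ≠ g * g := by
    rintro _ e rfl
    rw [e, eq_neg_iff_add_eq_zero] at e3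
    exact w0 (two_smul_eq_zero h2 e3)
  refine hne f fw (L.uniq_odd h2 (hCg ▸ f1) (D.le_C_mul hg hg) hcC fc e2 ?_ g2)
  rintro rfl
  rw [one_smul] at f3
  rw [f3, smul_inv_smul] at e4
  exact w0 (two_smul_eq_zero h2 (by linear_combination (norm := abel) e4))

theorem Ln.W_sq (L : D.Ln s t) {g : H} (hg : D.LC s t ≤ D.C g) (g2 : g * g ≠ 1) :
    D.LC s t ⊓ D.W (g * g) = ⊥ ∧ finrank k (D.W (g * g)) = 2 * D.m := by
  have h1 := D.disj_sq g
  have h2 := D.dim_WC (g * g)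
  have h3 := L.dims.2.1
  rw [L.M2 hg g2] at h1 h2
  exact ⟨h1, by omega⟩

omit [FiniteDimensional k V] [Finite k] [Finite H] in
theorem LC_le_mul (s t : H) : D.LC s t ≤ D.C (s * t) := D.le_C_mul inf_le_left inf_le_right

theorem Ln.U_eq (L : D.Ln s t) : D.W (s * t * (s * t)) = D.LU s t :=
  Submodule.eq_of_le_of_finrank_le ((D.W_mul_le _ _).trans (sup_le (D.W_mul_le _ _) (D.W_mul_le _ _)))
    (by rw [L.dims.1, (L.W_sq (LC_le_mul s t) L.sq_ne).2])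

theorem Ln.disj (L : D.Ln s t) : D.LC s t ⊓ D.LU s t = ⊥ := by
  rw [← L.U_eq]; exact (L.W_sq (LC_le_mul s t) L.sq_ne).1

theorem Ln.eq_zero (L : D.Ln s t) {x : V} (h1 : x ∈ D.LC s t) (h2 : x ∈ D.LU s t) : x = 0 := by
  have : x ∈ D.LC s t ⊓ D.LU s t := ⟨h1, h2⟩
  rwa [L.disj, Submodule.mem_bot] at this

theorem Ln.decomp (L : D.Ln s t) (v : V) : ∃ c ∈ D.LC s t, ∃ u ∈ D.LU s t, c + u = v :=
  BD.decomp L.disj (by rw [L.dims.1, L.dims.2.1]) v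

theorem Ln.C_eq_sup (L : D.Ln s t) (h2 : (2 : k) = 0) {g : H} (hg : D.R g) (h1 : D.LC s t ≤ D.C g)
    (hd : D.LC s t ⊓ D.W g = ⊥) : D.LC s t ⊔ D.W g = D.C g := by
  refine Submodule.eq_of_le_of_finrank_le (sup_le h1 (D.quad h2 hg.sq hg.sq rfl)) ?_
  have h3 := Submodule.finrank_sup_add_finrank_inf_eq (D.LC s t) (D.W g)
  have h4 := L.dims.2.1
  have h5 := D.dim_WC g
  rw [hd, finrank_bot, hg.2] at h3
  rw [hg.2] at h5
  omega

theorem Ln.G (L : D.Ln s t) {h : H} (hh : D.LC s t ≤ D.C h) (h2' : h * h ≠ 1) {v : V}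
    (hv : v ∉ D.LC s t) : ∃ g : H, D.R g ∧ D.LC s t ≤ D.C g ∧ g • v = v ∧ g * h * g = h⁻¹ ∧
      D.W g ≤ D.W (h * h) := by
  obtain ⟨g, g1, g2, g3, g4, g5, g6⟩ := D.inv' h v
  replace g1 := hh.trans g1
  have hv2 : h • h • v ≠ v := fun e => hv (L.M2 hh h2' ▸ D.mem_C.mpr (by rwa [mul_smul]))
  have gg := L.sq_of_fix g1 hv g2
  have gne : g ≠ 1 := by
    rintro rfl
    rw [one_smul] at g3
    exact hv2 (by rw [g3, smul_inv_smul])
  set g' := h⁻¹ * g * h with hg'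
  have gg' : g' * g' = 1 := by
    rw [hg', show h⁻¹ * g * h * (h⁻¹ * g * h) = h⁻¹ * (g * g) * h by group, gg]; group
  have g1' : D.LC s t ≤ D.C g' := D.le_C_mul (D.le_C_mul (D.le_C_inv hh) g1) hh
  have hR : ∀ c : H, finrank k (D.W g) + finrank k (D.W g') ≤ finrank k (D.W c) →
      finrank k (D.W c) = 2 * D.m → D.R g := by
    intro c e1 e2
    have e3 := D.dim_W_conj g h⁻¹
    rw [inv_inv, ← hg'] at e3
    have := D.min' gne
    exact ⟨gne, by omega⟩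
  have he : D.LC s t ≤ D.C (g * h * g * h) := D.le_C_mul (D.le_C_mul (D.le_C_mul g1 hh) g1) hh
  have ev : (g * h * g * h) • v = v := by
    rw [mul_smul, mul_smul, mul_smul, g3, smul_inv_smul, g2]
  have hC := L.M2 hh h2'
  have fin : g * h * g * h = 1 → D.R g → ∃ g : H, D.R g ∧ D.LC s t ≤ D.C g ∧ g • v = v ∧
      g * h * g = h⁻¹ ∧ D.W g ≤ D.W (h * h) := by
    intro e hr
    have e' : g * h * g = h⁻¹ := eq_inv_of_mul_eq_one_left e
    refine ⟨g, hr, g1, g2, e', D.W_le_of_inv ?_ (D.disj_sq h) (hC ▸ g1)⟩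
    rw [mul_inv_rev, ← e', inv_eq_of_mul_eq_one_right gg]
    rw [show g * h * g * (g * h * g) = g * h * (g * g) * h * g by group, gg]; group
  by_cases h2 : (2 : k) = 0
  · have b1 : (g * g') • v = h • h • v := by
      rw [hg', mul_smul, mul_smul, mul_smul, g3, g6]
    have b2 : g * g' * (g * g') ≠ 1 := by
      intro b2
      have e1 : (g' * g) • v = h • h • v := by rw [← comm_of_sq gg gg' b2, b1]
      rw [hg', mul_smul, g2, mul_smul, mul_smul, g3] at e1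
      refine hv2 ?_
      rw [← mul_smul]
      refine fix_of_odd (D.odd_sq h2 h) ?_
      rw [mul_smul, mul_smul, ← e1, smul_inv_smul, smul_inv_smul]
    have hb := D.le_C_mul g1 g1'
    have e := L.M2 hb b2
    obtain ⟨d1, -, -, d2⟩ := D.DS gg gg' (Or.inr rfl) (D.disj_sq _) (e ▸ g1) (e ▸ g1')
    obtain ⟨d3, d4⟩ := L.W_sq hb b2
    have hr := hR _ d2 d4
    refine fin ?_ hr
    by_contra e1
    have e2 := L.C_eq_sup h2 hr g1 (eq_bot_iff.mpr (d3 ▸ inf_le_inf_left _ d1))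
    have e3 := hr.C_eq e1 (e2 ▸ sup_le he (D.quad h2 gg (L.sq_of_fix he hv ev)
      (L.comm_of_fix g1 he hv g2 ev)))
    have e4 : h • v ∈ D.C g := e3 ▸ D.mem_C.mpr (by
      rw [mul_smul, mul_smul, mul_smul, g5, smul_inv_smul, g4])
    rw [D.mem_C, g3] at e4
    exact hv2 (by rw [← e4, smul_inv_smul])
  · have e : g * h * g * h = 1 := by
      by_contra e1
      have e2 := L.uniq_odd h2 he g1 hv ev g2 e1 gne
      have e3 : h * g * h = 1 := by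
        rw [mul_assoc, mul_assoc, mul_eq_left, ← mul_assoc] at e2; exact e2
      have e4 := congrArg (fun z : H => z • h • v) e3
      simp only [mul_smul, g5, smul_inv_smul, one_smul] at e4
      exact hv2 (by rw [← e4, smul_inv_smul])
    have e' : g * h * g = h⁻¹ := eq_inv_of_mul_eq_one_left e
    have e5 : h * h = g * g' := by
      rw [hg', ← e', show g * (g * h * g * g * h) = g * g * h * (g * g) * h by group, gg]; group
    exact fin e (hR _ (D.DS gg gg' (Or.inl e5) (D.disj_sq h) (hC ▸ g1) (hC ▸ g1')).2.2.2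
      (L.W_sq hh h2').2)

theorem Ln.G0 (L : D.Ln s t) {v : V} (hv : v ∉ D.LC s t) :
    ∃ g : H, D.R g ∧ D.LC s t ≤ D.C g ∧ g • v = v ∧ D.W g ≤ D.LU s t := by
  obtain ⟨g, g1, g2, g3, -, g4⟩ := L.G (LC_le_mul s t) L.sq_ne hv
  exact ⟨g, g1, g2, g3, L.U_eq ▸ g4⟩

theorem Ln.exists_fix (L : D.Ln s t) {r : H} (hr : D.R r) : ∃ v, v ∉ D.LC s t ∧ r • v = v := by
  by_contra hc
  push Not at hc
  have h1 := Submodule.finrank_mono (show D.C r ≤ D.LC s t from fun v hv => by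
    by_contra e; exact hc v e (D.mem_C.mp hv))
  have h2 := D.dim_WC r
  have h3 := L.dims.2.1
  have h4 := hr.pos
  rw [hr.2] at h2
  omega

theorem Ln.same (L : D.Ln s t) (h2 : (2 : k) = 0) {v : V} (hv : v ∉ D.LC s t) :
    ∃ X : Submodule k V, ∀ g : H, g ≠ 1 → D.LC s t ≤ D.C g → g • v = v → D.R g ∧ D.C g = X := by
  obtain ⟨r, r1, r2, r3, r4⟩ := L.G0 hv
  refine ⟨D.C r, fun g g1 g2 g3 => ?_⟩
  have e2 := L.C_eq_sup h2 r1 r2 (eq_bot_iff.mpr (L.disj ▸ inf_le_inf_left _ r4))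
  have e3 : D.C r ≤ D.C g := e2 ▸ sup_le g2 (D.quad h2 r1.sq (L.sq_of_fix g2 hv g3)
    (L.comm_of_fix r2 g2 hv r3 g3))
  exact ⟨r1.of_le g1 e3, r1.C_eq g1 e3⟩

theorem Ln.same' (L : D.Ln s t) (h2 : (2 : k) = 0) {v : V} (hv : v ∉ D.LC s t) {a b : H}
    (a1 : a ≠ 1) (b1 : b ≠ 1) (ha : D.LC s t ≤ D.C a) (hb : D.LC s t ≤ D.C b) (ea : a • v = v)
    (eb : b • v = v) : D.C a = D.C b := by
  obtain ⟨X, hX⟩ := L.same h2 hv
  rw [(hX a a1 ha ea).2, (hX b b1 hb eb).2]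

theorem Ln.exists_other (L : D.Ln s t) (X : Submodule k V) :
    ∃ r : H, D.R r ∧ D.LC s t ≤ D.C r ∧ D.W r ≤ D.LU s t ∧ D.C r ≠ X := by
  by_cases h : D.C s = X
  · refine ⟨t, L.rt, inf_le_right, le_sup_right, fun e => ?_⟩
    obtain ⟨v, h1, h2⟩ := L.exists_fix L.rs
    exact h1 ⟨D.mem_C.mpr h2, (e.trans h.symm) ▸ D.mem_C.mpr h2⟩
  · exact ⟨s, L.rs, inf_le_left, le_sup_left, h⟩

theorem Ln.ne_of_W (L : D.Ln s t) (h2 : (2 : k) = 0) {r x : H} (hr : D.R r)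
    (r1 : D.LC s t ≤ D.C r) (r2 : D.LC s t ⊓ D.W r = ⊥) (x1 : x ≠ 1) (x2 : D.LC s t ≤ D.C x)
    (h : D.W r ≤ D.C x) : D.C x = D.C r := by
  obtain ⟨w, hw, w0⟩ := D.exists_W hr.1
  refine L.same' h2 (v := w) (fun e => w0 ?_) x1 hr.1 x2 r1 (D.mem_C.mp (h hw))
    (D.mem_C.mp (D.quad h2 hr.sq hr.sq rfl hw))
  have : w ∈ D.LC s t ⊓ D.W r := ⟨e, hw⟩
  rwa [r2, Submodule.mem_bot] at this

theorem Ln.WI (L : D.Ln s t) (h2 : (2 : k) = 0) {x : H} (hx : D.R x) (x1 : D.LC s t ≤ D.C x) :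
    D.LC s t ⊓ D.W x = ⊥ := by
  obtain ⟨r, r1, r2, r3, r4⟩ := L.exists_other (D.C x)
  have b2 : x * r * (x * r) ≠ 1 := fun e => r4 (L.ne_of_W h2 r1 r2
    (eq_bot_iff.mpr (L.disj ▸ inf_le_inf_left _ r3)) hx.1 x1
    (D.quad h2 r1.sq hx.sq (comm_of_sq hx.sq r1.sq e).symm)).symm
  have hb := D.le_C_mul x1 r2
  have e := L.M2 hb b2
  obtain ⟨d1, -⟩ := D.DS hx.sq r1.sq (Or.inr rfl) (D.disj_sq _) (e ▸ x1) (e ▸ r2)
  exact eq_bot_iff.mpr ((L.W_sq hb b2).1 ▸ inf_le_inf_left _ d1)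

theorem Ln.pres (L : D.Ln s t) (h2 : (2 : k) = 0) {r a : H} (hr : D.R r)
    (r1 : D.LC s t ≤ D.C r) (ha : D.LC s t ≤ D.C a) (h : ∀ y ∈ D.C r, a⁻¹ • y ∈ D.C r) :
    D.W r ≤ D.C a := by
  obtain ⟨v, hv, rv⟩ := L.exists_fix hr
  by_cases a2 : a * a = 1
  · have e1 : (a * r * a⁻¹ * r) • v = v := by
      rw [mul_smul, rv]; exact D.mem_C.mp (D.mem_C_conj.mpr (h v (D.mem_C.mpr rv)))
    have e2 := L.sq_of_fix (D.le_C_mul (D.le_C_mul (D.le_C_mul ha r1) (D.le_C_inv ha)) r1) hv e1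
    rw [inv_eq_of_mul_eq_one_right a2, mul_assoc (a * r) a r] at e2
    exact D.quad h2 hr.sq a2 (comm_of_sq a2 hr.sq (D.no4 h2 e2)).symm
  · exfalso
    obtain ⟨g, g1, g2, g3, g4, -⟩ := L.G ha a2 hv
    have e1 := L.same' h2 hv g1.1 hr.1 g2 r1 g3 rv
    have e2 : g • a⁻¹ • v = a⁻¹ • v := D.mem_C.mp (e1 ▸ h v (D.mem_C.mpr rv))
    have e3 := congrArg (fun z : H => z • a⁻¹ • v) g4
    simp only [mul_smul, e2, smul_inv_smul, g3] at e3
    refine hv (L.M2 ha a2 ▸ D.mem_C.mpr ?_)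
    rw [mul_smul]
    nth_rewrite 1 [e3]
    rw [smul_inv_smul, smul_inv_smul]

theorem Ln.uniq_two (L : D.Ln s t) (h2 : (2 : k) = 0) {a b : H} (ha : D.R a) (hb : D.R b)
    (a1 : D.LC s t ≤ D.C a) (b1 : D.LC s t ≤ D.C b) (e : D.C a = D.C b) : a = b := by
  obtain ⟨r, r1, r2, -, r4⟩ := L.exists_other (D.C a)
  have r3 := L.WI h2 r1 r2
  let I : Set H := {x | D.R x ∧ D.LC s t ≤ D.C x ∧ D.C x ≠ D.C r}
  have hmap : ∀ x ∈ I, D.C (x * r * x⁻¹) ∈ (fun x => D.C x) '' I := by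
    rintro x ⟨x1, x2, x3⟩
    refine ⟨x * r * x⁻¹, ⟨r1.conj x, D.le_C_mul (D.le_C_mul x2 r2) (D.le_C_inv x2), fun e => ?_⟩, rfl⟩
    exact x3 (L.ne_of_W h2 r1 r2 r3 x1.1 x2 (L.pres h2 r1 r2 x2
      (fun y hy => D.mem_C_conj.mp (e ▸ hy))))
  have hinj : Set.InjOn (fun x => D.C (x * r * x⁻¹)) I := by
    rintro x ⟨x1, x2, x3⟩ y ⟨y1, y2, y3⟩ e
    by_contra hne
    have c1 : y⁻¹ * x ≠ 1 := fun e => hne (inv_mul_eq_one.mp e).symm
    have c2 := D.le_C_mul (D.le_C_inv y2) x2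
    have c3 := L.pres h2 r1 r2 c2 (fun z hz => by
      rw [mul_inv_rev, inv_inv, mul_smul, ← D.mem_C_conj]
      simp only at e
      rw [e, D.mem_C_conj, inv_smul_smul]; exact hz)
    have c4 := L.ne_of_W h2 r1 r2 r3 c1 c2 c3
    obtain ⟨v, hv, rv⟩ := L.exists_fix r1
    have c5 := L.sq_of_fix c2 hv (D.mem_C.mp (c4 ▸ D.mem_C.mpr rv))
    rw [inv_eq_of_mul_eq_one_right y1.sq] at c5 c4
    have c6 : D.W x ≤ D.C r := c4 ▸ D.le_C_mul (D.quad h2 x1.sq y1.sq (comm_of_sq y1.sq x1.sq c5).symm)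
      (D.quad h2 x1.sq x1.sq rfl)
    exact x3 (L.ne_of_W h2 x1 x2 (L.WI h2 x1 x2) r1.1 r2 c6).symm
  have hfin : I.Finite := Set.toFinite _
  have h3 := Set.ncard_le_ncard_of_injOn _ hmap hinj (hfin.image _)
  have h4 := Set.injOn_of_ncard_image_eq (le_antisymm (Set.ncard_image_le hfin) h3) hfin
  exact h4 ⟨ha, a1, r4.symm⟩ ⟨hb, b1, e ▸ r4.symm⟩ e

theorem Ln.uniq (L : D.Ln s t) {a b : H} (ha : D.LC s t ≤ D.C a)
    (hb : D.LC s t ≤ D.C b) {v : V} (hv : v ∉ D.LC s t) (ea : a • v = v) (eb : b • v = v)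
    (a1 : a ≠ 1) (b1 : b ≠ 1) : a = b := by
  by_cases h2 : (2 : k) = 0
  · obtain ⟨X, hX⟩ := L.same h2 hv
    exact L.uniq_two h2 (hX a a1 ha ea).1 (hX b b1 hb eb).1 ha hb (L.same' h2 hv a1 b1 ha hb ea eb)
  · exact L.uniq_odd h2 ha hb hv ea eb a1 b1

theorem Ln.R_of_fix (L : D.Ln s t) {a : H} (ha : D.LC s t ≤ D.C a) {v : V} (hv : v ∉ D.LC s t)
    (ea : a • v = v) (a1 : a ≠ 1) : D.R a := by
  obtain ⟨g, g1, g2, g3, -⟩ := L.G0 hv
  rwa [L.uniq ha g2 hv ea g3 a1 g1.1]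

theorem Ln.W_le (L : D.Ln s t) {r : H} (hr : D.R r) (r1 : D.LC s t ≤ D.C r) : D.W r ≤ D.LU s t := by
  obtain ⟨v, hv, rv⟩ := L.exists_fix hr
  obtain ⟨g, g1, g2, g3, g4⟩ := L.G0 hv
  rwa [L.uniq r1 g2 hv rv g3 hr.1 g1.1]

theorem Ln.inverts (L : D.Ln s t) {r h : H} (hr : D.R r) (r1 : D.LC s t ≤ D.C r)
    (hh : D.LC s t ≤ D.C h) (h2 : h * h ≠ 1) : r * h * r = h⁻¹ := by
  obtain ⟨v, hv, rv⟩ := L.exists_fix hr
  obtain ⟨g, g1, g2, g3, g4, -⟩ := L.G hh h2 hv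
  rwa [L.uniq r1 g2 hv rv g3 hr.1 g1.1]

theorem Ln.line_eq (L : D.Ln s t) {a b : H} (L' : D.Ln a b) (ha : D.LC s t ≤ D.C a)
    (hb : D.LC s t ≤ D.C b) : D.LC a b = D.LC s t ∧ D.LU a b = D.LU s t := by
  have h1 := L.dims
  have h2 := L'.dims
  exact ⟨(Submodule.eq_of_le_of_finrank_le (le_inf ha hb) (by unfold LC at *; omega)).symm,
    Submodule.eq_of_le_of_finrank_le (sup_le (L.W_le L'.rs ha) (L.W_le L'.rt hb))
      (by unfold LU at *; omega)⟩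

theorem Ln.WC (L : D.Ln s t) (h2 : (2 : k) = 0) {a b : H} (ha : D.R a) (b0 : b ≠ 1)
    (a1 : D.LC s t ≤ D.C a) (b1 : D.LC s t ≤ D.C b) {x : V} (x1 : x ∈ D.W a) (x2 : x ∈ D.C b)
    (x0 : x ≠ 0) : a = b :=
  L.uniq a1 b1 (fun e => x0 (L.eq_zero e (L.W_le ha a1 x1)))
    (D.mem_C.mp (D.quad h2 ha.sq ha.sq rfl x1)) (D.mem_C.mp x2) ha.1 b0

theorem Ln.WC' (L : D.Ln s t) (h2 : (2 : k) = 0) {x : V} (x1 : x ∈ D.W s) (x2 : x ∈ D.C t) :
    x = 0 := by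
  by_contra x0
  exact L.nc (by rw [L.WC h2 L.rs L.rt.1 inf_le_left inf_le_right x1 x2 x0])

end BD

end Cfsg.Agent.H3
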