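import Mathlib
import Cfsg.Agent.H3.AffBin3

/-! Binary linear groups, part 4: there are no planes. -/

set_option autoImplicit false

namespace Cfsg.Agent.H3

open Module

namespace BD

variable {k V H : Type*} [Field k] [AddCommGroup V] [Module k V] [Group H]
  [DistribMulAction H V] [SMulCommClass H k V] {D : BD k V H} {s t : H}
  [FiniteDimensional k V] [Finite k] [Finite H]

omit [FiniteDimensional k V] [Finite k] [Finite H] in
theorem mem_W_of_neg (h2 : (2 : k) ≠ 0) {r : H} {u : V} (h : r • u = -u) : u ∈ D.W r := by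
  have := (D.W r).neg_mem (D.sub_mem_W r u)
  rw [h, show -(-u - u) = (2 : k) • u by rw [two_smul]; abel] at this
  exact (Submodule.smul_mem_iff _ h2).mp this

omit [FiniteDimensional k V] [Finite k] [Finite H] in
theorem eq_zero_of_neg (h2 : (2 : k) ≠ 0) {u : V} (h : -u = u) : u = 0 :=
  two_smul_eq_zero h2 (by linear_combination (norm := abel) -h)

theorem R.disj (h2 : (2 : k) ≠ 0) {a b : H} (ha : D.R a) (hb : D.R b) (hne : a ≠ b) :
    D.W a ⊓ D.W b = ⊥ := by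
  by_cases hc : a * b = b * a
  swap
  · exact (Ln.mk ha hb hc).dims.2.2
  by_contra h
  have h3 := D.comm_W h2 ha.sq hb.sq hc h
  have e1 := Submodule.eq_of_le_of_finrank_le (inf_le_left : D.W a ⊓ D.W b ≤ _) (ha.2 ▸ h3)
  have e2 := Submodule.eq_of_le_of_finrank_le (inf_le_right : D.W a ⊓ D.W b ≤ _) (hb.2 ▸ h3)
  refine hne (D.ext (fun v => ?_))
  have f1 := D.invol_W hb.sq (e1.symm.trans e2 ▸ D.sub_mem_W a v)
  have f2 := D.invol_W ha.sq (e2.symm.trans e1 ▸ D.sub_mem_W b v)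
  rw [smul_sub, ← mul_smul] at f1 f2
  rw [← hc] at f1
  rw [← sub_eq_zero]
  exact two_smul_eq_zero h2 (by linear_combination (norm := abel) f1 - f2)

theorem R.eq_of_mem (h2 : (2 : k) ≠ 0) {a b : H} (ha : D.R a) (hb : D.R b) {x : V}
    (x1 : x ∈ D.W a) (x2 : x ∈ D.W b) (x0 : x ≠ 0) : a = b := by
  by_contra hne
  have : x ∈ D.W a ⊓ D.W b := ⟨x1, x2⟩
  rw [ha.disj h2 hb hne, Submodule.mem_bot] at this
  exact x0 this

theorem R.comm_of_fix (h2 : (2 : k) ≠ 0) {r g : H} (hr : D.R r) {x : V} (x1 : x ∈ D.W r)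
    (x0 : x ≠ 0) (h : g • x = x) : g * r = r * g := by
  have := (hr.conj g).eq_of_mem h2 hr (h ▸ D.smul_mem_W g x1) x1 x0
  rwa [mul_inv_eq_iff_eq_mul] at this

theorem R.W_le_C (h2 : (2 : k) ≠ 0) {a b : H} (ha : D.R a) (hb : D.R b) (hne : a ≠ b)
    (hc : a * b = b * a) : D.W a ≤ D.C b := D.W_le_C_of_comm hc (ha.disj h2 hb hne)

theorem Ln.sup_eq (L : D.Ln s t) (h2 : (2 : k) ≠ 0) {a b : H} (ha : D.R a) (hb : D.R b)
    (hne : a ≠ b) (a1 : D.LC s t ≤ D.C a) (b1 : D.LC s t ≤ D.C b) : D.W a ⊔ D.W b = D.LU s t := by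
  refine Submodule.eq_of_le_of_finrank_le (sup_le (L.W_le ha a1) (L.W_le hb b1)) ?_
  have h3 := Submodule.finrank_sup_add_finrank_inf_eq (D.W a) (D.W b)
  rw [ha.disj h2 hb hne, finrank_bot, ha.2, hb.2] at h3
  rw [L.dims.1]; omega

theorem Ln.exists_z (L : D.Ln s t) (h2 : (2 : k) ≠ 0) :
    ∃ z : H, D.LC s t ≤ D.C z ∧ ∀ u ∈ D.LU s t, z • u = -u := by
  obtain ⟨w, hw, w0⟩ := D.exists_W L.rs.1
  obtain ⟨g, g1, g2, g3, g4⟩ := L.G0 (v := w) (fun e => w0 (L.eq_zero e (Submodule.mem_sup_left hw)))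
  have hc := L.rs.comm_of_fix h2 hw w0 g3
  have hne : s ≠ g := by
    rintro rfl
    exact w0 (eq_zero_of_neg h2 ((D.invol_W L.rs.sq hw).symm.trans g3))
  refine ⟨s * g, D.le_C_mul inf_le_left g2, fun u hu => ?_⟩
  rw [← L.sup_eq h2 L.rs g1 hne inf_le_left g2] at hu
  obtain ⟨x, hx, y, hy, rfl⟩ := Submodule.mem_sup.mp hu
  rw [mul_smul, smul_add, D.mem_C.mp (L.rs.W_le_C h2 g1 hne hc.symm hx), D.invol_W g1.sq hy,
    smul_add, smul_neg, D.invol_W L.rs.sq hx, D.mem_C.mp (g1.W_le_C h2 L.rs hne.symm hc hy), neg_add]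

theorem Ln.cover (L : D.Ln s t) {u : V} (hu : u ∈ D.LU s t) (u0 : u ≠ 0) :
    ∃ r : H, D.R r ∧ D.LC s t ≤ D.C r ∧ u ∈ D.W r := by
  obtain ⟨g, g1, g2, g3, g4⟩ := L.G0 (v := u) (fun e => u0 (L.eq_zero e hu))
  by_cases h2 : (2 : k) = 0
  · refine ⟨g, g1, g2, ?_⟩
    have h3 := D.mem_C.mpr g3
    rw [← L.C_eq_sup h2 g1 g2 (L.WI h2 g1 g2)] at h3
    obtain ⟨c, hc, w, hw, rfl⟩ := Submodule.mem_sup.mp h3
    have : c = 0 := L.eq_zero hc (by simpa using (D.LU s t).sub_mem hu (g4 hw))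
    rwa [this, zero_add]
  · obtain ⟨z, z1, z2⟩ := L.exists_z h2
    have e : (z * g) • u = -u := by rw [mul_smul, g3, z2 u hu]
    obtain ⟨w, hw, w0⟩ := D.exists_W g1.1
    refine ⟨z * g, L.R_of_fix (D.le_C_mul z1 g2) (v := w) (fun e => w0 (L.eq_zero e (g4 hw))) ?_ ?_,
      D.le_C_mul z1 g2, mem_W_of_neg h2 e⟩
    · rw [mul_smul, D.invol_W g1.sq hw, smul_neg, z2 w (g4 hw), neg_neg]
    · intro e1
      rw [e1, one_smul] at e
      exact u0 (eq_zero_of_neg h2 e.symm)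

theorem Ln.exists_conj (L : D.Ln s t) (h2 : (2 : k) = 0) {r g : H} (hr : D.R r) (hg : D.R g)
    (r1 : D.LC s t ≤ D.C r) (g1 : D.LC s t ≤ D.C g) (hne : g ≠ r) :
    ∃ x : H, D.R x ∧ D.LC s t ≤ D.C x ∧ x * r * x⁻¹ = g := by
  let I : Set H := {x | D.R x ∧ D.LC s t ≤ D.C x ∧ x ≠ r}
  have hnc : ∀ {x y : H}, D.R x → D.R y → D.LC s t ≤ D.C x → D.LC s t ≤ D.C y → x * y = y * x →
      x = y := by
    intro x y hx hy x1 y1 e
    obtain ⟨w, hw, w0⟩ := D.exists_W hx.1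
    exact L.WC h2 hx hy.1 x1 y1 hw (D.quad h2 hx.sq hy.sq e hw) w0
  have hmap : Set.MapsTo (fun x => x * r * x⁻¹) I I := by
    rintro x ⟨x1, x2, x3⟩
    exact ⟨hr.conj x, D.le_C_mul (D.le_C_mul x2 r1) (D.le_C_inv x2),
      fun e => x3 (hnc x1 hr x2 r1 (mul_inv_eq_iff_eq_mul.mp e))⟩
  have hinj : Set.InjOn (fun x => x * r * x⁻¹) I := by
    rintro x ⟨x1, x2, x3⟩ y ⟨y1, y2, y3⟩ e
    simp only [inv_eq_of_mul_eq_one_right x1.sq, inv_eq_of_mul_eq_one_right y1.sq] at e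
    refine hnc x1 y1 x2 y2 (comm_of_sq x1.sq y1.sq ?_)
    by_contra a2
    have e1 := L.inverts hr r1 (D.le_C_mul x2 y2) a2
    have e2 : r * (x * y) = x * y * r := by
      calc r * (x * y) = x * (x * r * x) * y := by rw [← mul_assoc, ← mul_assoc, ← mul_assoc, x1.sq, one_mul]
        _ = x * y * r := by rw [e, mul_assoc, mul_assoc, mul_assoc, y1.sq, mul_one, mul_assoc]
    rw [e2, mul_assoc, hr.sq, mul_one] at e1
    exact a2 (by nth_rewrite 1 [e1]; exact inv_mul_cancel _)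
  obtain ⟨x, ⟨x1, x2, -⟩, e⟩ :=
    (((Set.toFinite I).injOn_iff_bijOn_of_mapsTo hmap).mp hinj).surjOn ⟨hg, g1, hne⟩
  exact ⟨x, x1, x2, e⟩

theorem tri (h2 : (2 : k) = 0) {r : H} (L : D.Ln s r) (L' : D.Ln t r) (hc : s * t = t * s) :
    s = t := by
  by_contra hne
  have q := fun {a b : H} (ha : D.R a) (hb : D.R b) (e : a * b = b * a) => D.quad h2 ha.sq hb.sq e
  set S := D.W s ⊔ D.W t with hS
  set Y := S ⊔ D.W r with hY
  have S1 : S ≤ D.C s := sup_le (q L.rs L.rs rfl) (q L'.rs L.rs hc.symm)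
  have S2 : S ≤ D.C t := sup_le (q L.rs L'.rs hc) (q L'.rs L'.rs rfl)
  have hYS : ∀ {a : H}, D.Ln a r → S ≤ D.C a → ∀ y ∈ Y, y ∈ D.C a → y ∈ S := by
    intro a La ha y hy hya
    obtain ⟨x, hx, w, hw, rfl⟩ := Submodule.mem_sup.mp hy
    have : w = 0 := La.symm.WC' h2 hw (by simpa using (D.C a).sub_mem hya (ha hx))
    rwa [this, add_zero]
  have U1 : D.LU s r ≤ Y := sup_le (le_sup_left.trans le_sup_left) le_sup_right
  have U2 : D.LU t r ≤ Y := sup_le (le_sup_right.trans le_sup_left) le_sup_right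
  have rr := q L.rt L.rt rfl
  obtain ⟨w, hw, w0⟩ := D.exists_W L.rt.1
  have wY : w ∈ Y := Submodule.mem_sup_right hw
  have swY : s • w ∈ Y := D.smul_mem_of_W_le (le_sup_left.trans U1) wY
  have sw : s • w ≠ w := fun e => w0 (L.symm.WC' h2 hw (D.mem_C.mpr e))
  have ss : ∀ u : V, s • s • u = u := fun u => by rw [← mul_smul, L.rs.sq, one_smul]
  obtain ⟨z, hz, u, hu, e⟩ := L'.decomp (s • w)
  have zS : z ∈ S := hYS L' S2 z (by
    have := Y.sub_mem swY (U2 hu); rwa [← e, add_sub_cancel_right] at this) hz.1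
  have sz : s • z = z := D.mem_C.mp (S1 zS)
  have su : s • u = w - z := by
    rw [eq_sub_iff_add_eq', ← sz, ← smul_add, e, ss]
  have u0 : u ≠ 0 := by
    rintro rfl
    rw [add_zero] at e
    exact sw (by rw [← ss w, ← e, sz, sz])
  obtain ⟨g, g1, g2, g3⟩ := L'.cover hu u0
  have gr : g ≠ r := by
    rintro rfl
    have h3 : s • w - w ∈ D.C g := (D.C g).sub_mem (e ▸ (D.C g).add_mem hz.2 (rr g3)) (rr hw)
    exact sw (sub_eq_zero.mp (L.WC' h2 (D.sub_mem_W _ _) h3))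
  obtain ⟨x, x1, x2, x3⟩ := L'.exists_conj h2 L.rt g1 inf_le_right g2 gr
  have xx : ∀ u : V, x • x • u = u := fun u => by rw [← mul_smul, x1.sq, one_smul]
  have hw' : x • u ∈ D.W r := by
    rw [← x3, D.mem_W_conj, inv_eq_of_mul_eq_one_right x1.sq] at g3; exact g3
  have w'0 : x • u ≠ 0 := by rwa [ne_eq, smul_eq_zero_iff_eq]
  by_cases hxt : x = t
  · subst hxt
    have st2 : s * x * (s * x) = 1 := by
      rw [mul_assoc, ← mul_assoc x, ← hc, mul_assoc, x1.sq, mul_one, L.rs.sq]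
    have WE : D.W (s * x) ≤ S := D.W_mul_le _ _
    have e1 : (s * x) • x • u = w - z := by rw [mul_smul, xx, su]
    have e2 : x • u = w := by
      have h3 : w - x • u ∈ S := by
        have := S.add_mem (WE (D.sub_mem_W (s * x) (x • u))) zS
        rwa [e1, show w - z - x • u + z = w - x • u by abel] at this
      exact (sub_eq_zero.mp (L.symm.WC' h2 ((D.W r).sub_mem hw hw') (S1 h3))).symm
    rw [e2] at e1
    have hZ : S ⊓ D.C r ≤ D.C (s * x * r) :=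
      D.le_C_mul (D.le_C_mul (inf_le_left.trans S1) (inf_le_left.trans S2)) inf_le_right
    by_cases b1 : s * x * r * (s * x * r) = 1
    · have c1 := comm_of_sq st2 L.rt.sq b1
      have c2 := D.quad h2 L.rt.sq st2 c1.symm
      have c3 := D.quad h2 st2 L.rt.sq c1
      have c4 : D.W s ≤ D.W x := by
        intro y hy
        obtain ⟨v, rfl⟩ := D.mem_W.mp hy
        obtain ⟨c, hc', y, hy', rfl⟩ := BD.decomp (A := D.C s) (B := D.W r)
          (eq_bot_iff.mpr (fun y hy => L.symm.WC' h2 hy.2 hy.1))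
          (by have := D.dim_WC s; rw [L.rs.2] at this; rw [L.rt.2]; omega) v
        have h3 : s • y = x • y := by
          have := congrArg (fun y => s • y) (D.mem_C.mp (c2 hy'))
          simpa only [mul_smul, ss] using this.symm
        rw [smul_add, D.mem_C.mp hc', add_sub_add_left_eq_sub, h3]
        exact D.sub_mem_W _ _
      have c5 : D.W s = D.W x := Submodule.eq_of_le_of_finrank_le c4 (by rw [L.rs.2, x1.2])
      have c6 : s * x = 1 := D.eq_one_of_W (eq_bot_iff.mpr (fun y hy => L.WC' h2 (by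
        have := WE hy
        rwa [hS, ← c5, sup_idem] at this) (c3 hy)))
      exact hne (by rw [← mul_one s, ← x1.sq, ← mul_assoc, c6, one_mul])
    · set b := s * x * r * (s * x * r) with hb
      have b2 := D.F1 (h := b) (fun e => b1 (D.no4 h2 e))
      have b3 : D.W b ≤ Y := (D.W_mul_le _ _).trans (sup_le ((D.W_mul_le _ _).trans
        (sup_le_sup_right WE _)) ((D.W_mul_le _ _).trans (sup_le_sup_right WE _)))
      have b4 : w ∈ D.C b := by
        have f1 : (s * x * r) • w = w - z := by rw [mul_smul, D.mem_C.mp (rr hw), e1]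
        rw [D.mem_C, hb, mul_smul, f1, smul_sub, f1, D.mem_C.mp (hZ ⟨zS, hz.2⟩), sub_sub,
          add_self_of_two h2, sub_zero]
      have b5 : S ⊓ D.C r < Y ⊓ D.C b := by
        refine lt_of_le_of_ne (le_inf (inf_le_left.trans le_sup_left) (D.le_C_mul hZ hZ)) (fun e => ?_)
        have : w ∈ S ⊓ D.C r := e ▸ ⟨wY, b4⟩
        exact sw (D.mem_C.mp (S1 this.1))
      have b6 := Submodule.finrank_lt_finrank_of_lt b5
      have b7 := Submodule.finrank_sup_add_finrank_inf_eq (D.W b) (Y ⊓ D.C b)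
      have b8 : D.W b ⊓ (Y ⊓ D.C b) = ⊥ :=
        eq_bot_iff.mpr (D.disj_sq (s * x * r) ▸ le_inf (inf_le_right.trans inf_le_right) inf_le_left)
      rw [b8, finrank_bot] at b7
      have b9 := Submodule.finrank_mono (sup_le b3 (inf_le_left : Y ⊓ D.C b ≤ Y))
      have b10 : Y ≤ D.LU s r ⊔ (S ⊓ D.C r) := by
        intro y hy
        obtain ⟨c, hc', u, hu, rfl⟩ := L.decomp y
        rw [add_comm]
        exact Submodule.add_mem_sup hu ⟨hYS L S1 c (by simpa using Y.sub_mem hy (U1 hu)) hc'.1, hc'.2⟩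
      have b11 := (Submodule.finrank_mono b10).trans (Submodule.finrank_add_le_finrank_add_finrank _ _)
      rw [L.dims.1] at b11
      omega
  · have WX : D.W x ≤ Y := (L'.W_le x1 x2).trans U2
    have ntx : ∀ y ∈ D.W x, y ∈ D.C t → y = 0 := fun y h3 h4 => by
      by_contra y0
      exact hxt (L'.WC h2 x1 L'.rs.1 x2 inf_le_left h3 h4 y0)
    have L2 : D.Ln s x := ⟨L.rs, x1, fun e => x1.1 (D.eq_one_of_W (eq_bot_iff.mpr (fun y hy =>
      ntx y hy (S2 (hYS L S1 y (WX hy) (q x1 L.rs e.symm hy))))))⟩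
    have L3 : D.Ln t x := ⟨L'.rs, x1, fun e => x1.1 (D.eq_one_of_W (eq_bot_iff.mpr (fun y hy =>
      ntx y hy (q x1 L'.rs e.symm hy))))⟩
    have e3 := (L'.line_eq L3 inf_le_left x2).1
    have U3 : D.LU s x ≤ Y := sup_le (le_sup_left.trans U1) WX
    obtain ⟨c, hc', y, hy, e4⟩ := L2.decomp (x • u)
    have cS : c ∈ S := hYS L S1 c (by
      have := Y.sub_mem (Submodule.mem_sup_right hw' : x • u ∈ Y) (U3 hy)
      rwa [← e4, add_sub_cancel_right] at this) hc'.1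
    have cr : c ∈ D.C r := by
      have : c ∈ D.LC t x := ⟨S2 cS, hc'.2⟩
      exact (e3 ▸ this).2
    have nC : x • u ∉ D.LC s x := fun e => w'0 (L.symm.WC' h2 hw' e.1)
    have y0 : y ≠ 0 := by
      rintro rfl
      rw [add_zero] at e4
      exact nC (e4 ▸ hc')
    obtain ⟨f, f1, f2, f3⟩ := L2.cover hy y0
    have fr : D.W r ≤ D.C f := by
      refine q L.rt f1 ?_
      by_contra e
      refine y0 ((Ln.mk L.rt f1 e).symm.WC' h2 f3 ?_)
      have := (D.C r).sub_mem (rr hw') cr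
      rwa [← e4, add_sub_cancel_left] at this
    have a1 := LC_le_mul (D := D) s x
    have f4 := L2.inverts f1 f2 a1 L2.sq_ne
    have f5 : (s * x)⁻¹ * f * (s * x) = f := by
      refine L2.uniq (D.le_C_mul (D.le_C_mul (D.le_C_inv a1) f2) a1) f2 nC ?_ (D.mem_C.mp (fr hw'))
        (by simpa using (f1.conj (s * x)⁻¹).1) f1.1
      rw [mul_smul, mul_smul, inv_smul_eq_iff, mul_smul s, xx, su, smul_sub, D.mem_C.mp (fr hw),
        D.mem_C.mp (f2 ⟨S1 zS, x2 hz⟩)]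
    rw [mul_assoc, inv_mul_eq_iff_eq_mul] at f5
    rw [f5, mul_assoc, f1.sq, mul_one] at f4
    exact L2.sq_ne (by nth_rewrite 1 [f4]; exact inv_mul_cancel _)

theorem Ln.exists_mem (L : D.Ln s t) {r : H} (hr : D.R r) :
    ∃ u ∈ D.LU s t, u ≠ 0 ∧ r • u = u := by
  have h1 := D.dim_inf_C (D.LU s t) r
  have h2 := hr.pos
  rw [L.dims.1, hr.2] at h1
  obtain ⟨u, hu, u0⟩ := (Submodule.ne_bot_iff (D.LU s t ⊓ D.C r)).mp (fun e => by
    rw [e, finrank_bot] at h1; omega)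
  exact ⟨u, hu.1, u0, D.mem_C.mp hu.2⟩

theorem Ln.dich_two (L : D.Ln s t) (h2 : (2 : k) = 0) {r : H} (hr : D.R r)
    (h : ¬ D.LC s t ≤ D.C r) : D.LU s t ≤ D.C r ∧ D.W r ≤ D.LC s t := by
  obtain ⟨u, hu, u0, ru⟩ := L.exists_mem hr
  obtain ⟨a, a1, a2, a3⟩ := L.cover hu u0
  have hc : a * r = r * a := by
    by_contra e
    exact u0 ((Ln.mk a1 hr e).WC' h2 a3 (D.mem_C.mpr ru))
  have key : ∀ b : H, D.R b → D.LC s t ≤ D.C b → b * r = r * b := by
    intro b b1 b2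
    by_contra e
    have hab : a * b ≠ b * a := fun e' => e (by
      obtain ⟨w, hw, w0⟩ := D.exists_W a1.1
      rw [← L.WC h2 a1 b1.1 a2 b2 hw (D.quad h2 a1.sq b1.sq e' hw) w0, hc])
    exact h (tri h2 (Ln.mk a1 b1 hab) (Ln.mk hr b1 (Ne.symm e)) hc ▸ a2)
  have e1 := key s L.rs inf_le_left
  have e2 := key t L.rt inf_le_right
  exact ⟨sup_le (D.quad h2 L.rs.sq hr.sq e1) (D.quad h2 L.rt.sq hr.sq e2),
    le_inf (D.quad h2 hr.sq L.rs.sq e1.symm) (D.quad h2 hr.sq L.rt.sq e2.symm)⟩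

theorem no_plane (h2 : (2 : k) ≠ 0) {Y : Submodule k V} (hY : 2 * D.m < finrank k Y)
    (h : ∀ y ∈ Y, y ≠ 0 → ∃ g : H, D.R g ∧ y ∈ D.W g) : False := by
  classical
  have : Finite V := Module.finite_of_finite k
  have := Fintype.ofFinite Y
  have h1 : ∀ y : Y, ∃ g : H, (y = 0 ∧ g = 1) ∨ (y ≠ 0 ∧ D.R g ∧ (y : V) ∈ D.W g) := by
    intro y
    by_cases y0 : y = 0
    · exact ⟨1, Or.inl ⟨y0, rfl⟩⟩
    · obtain ⟨g, hg⟩ := h y y.2 (by simpa using y0)
      exact ⟨g, Or.inr ⟨y0, hg⟩⟩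
  choose ρ hρ using h1
  have hself : ∀ a : Y, ρ a • (a : V) = a ↔ a = 0 := by
    intro a
    rcases hρ a with ⟨e, -⟩ | ⟨a0, a1, a2⟩
    · simp [e]
    · rw [D.invol_W a1.sq a2]
      exact ⟨fun e => Subtype.ext (eq_zero_of_neg h2 e), fun e => absurd e a0⟩
  have hsym : ∀ a b : Y, ρ a • (b : V) = b → ρ b • (a : V) = a := by
    intro a b e
    rcases hρ a with ⟨e1, -⟩ | ⟨a0, a1, a2⟩
    · simp [e1]
    rcases hρ b with ⟨-, e1⟩ | ⟨b0, b1, b2⟩
    · simp [e1]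
    refine D.mem_C.mp (a1.W_le_C h2 b1 (fun e1 => b0 ((hself b).mp (e1 ▸ e)))
      (b1.comm_of_fix h2 b2 (by simpa using b0) e) a2)
  have hdim : ∀ a : Y, finrank k (D.W (ρ a)) ≤ D.m := by
    intro a
    rcases hρ a with ⟨-, e⟩ | ⟨-, a1, -⟩
    · have h3 := D.dim_WC (ρ a)
      rw [show D.C (ρ a) = ⊤ from eq_top_iff.mpr (e ▸ D.le_C_one), finrank_top] at h3
      omega
    · exact a1.2.le
  let M : Matrix Y Y k := fun a b => if ρ a • (b : V) = b then 1 else 0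
  have hM : M * M = 0 := by
    ext a b
    let X : Submodule k V := (Y ⊓ D.C (ρ a)) ⊓ D.C (ρ b)
    have h3 : ∀ c : Y, M a c * M c b = if (c : V) ∈ X then 1 else 0 := by
      intro c
      have : (c : V) ∈ X ↔ ρ a • (c : V) = c ∧ ρ c • (b : V) = b := by
        simp only [X, Submodule.mem_inf, D.mem_C, c.2, true_and]
        exact and_congr_right (fun _ => ⟨hsym _ _, hsym _ _⟩)
      simp only [M, this]
      by_cases e1 : ρ a • (c : V) = c <;> by_cases e2 : ρ c • (b : V) = b <;> simp [e1, e2]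
    rw [Matrix.mul_apply, Finset.sum_congr rfl (fun c _ => h3 c), Finset.sum_boole, Matrix.zero_apply]
    have h4 : (Finset.univ.filter (fun c : Y => (c : V) ∈ X)).card = Nat.card X := by
      rw [← Fintype.card_subtype, ← Nat.card_eq_fintype_card]
      exact Nat.card_congr ⟨fun c => ⟨c.1.1, c.2⟩, fun c => ⟨⟨c.1, c.2.1.1⟩, c.2⟩, fun _ => rfl,
        fun _ => rfl⟩
    have h5 := D.dim_inf_C Y (ρ a)
    have h6 := D.dim_inf_C (Y ⊓ D.C (ρ a)) (ρ b)
    have h7 := hdim a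
    have h8 := hdim b
    have := Fintype.ofFinite k
    rw [h4, Module.natCard_eq_pow_finrank (K := k), Nat.cast_pow, Nat.card_eq_fintype_card,
      FiniteField.cast_card_eq_zero, zero_pow (by simp only [X]; omega)]
  have h9 := (Matrix.isNilpotent_trace_of_isNilpotent (M := M) ⟨2, by rw [pow_two, hM]⟩).eq_zero
  simp only [Matrix.trace, Matrix.diag, M, hself, Finset.sum_ite_eq', Finset.mem_univ, if_true] at h9
  exact one_ne_zero h9

theorem Ln.dich_odd (L : D.Ln s t) (h2 : (2 : k) ≠ 0) {r : H} (hr : D.R r)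
    (h : ¬ D.LC s t ≤ D.C r) : D.LU s t ≤ D.C r ∧ D.W r ≤ D.LC s t := by
  obtain ⟨u, hu, u0, ru⟩ := L.exists_mem hr
  obtain ⟨a, a1, a2, a3⟩ := L.cover hu u0
  have hc : r * a = a * r := a1.comm_of_fix h2 a3 u0 ru
  have hne : ∀ b : H, D.LC s t ≤ D.C b → b ≠ r := fun b hb e => h (e ▸ hb)
  by_cases hex : ∃ b : H, D.R b ∧ D.LC s t ≤ D.C b ∧ b ≠ a ∧ b * r = r * b
  · obtain ⟨b, b1, b2, b3, b4⟩ := hex
    have hU : D.LU s t ≤ D.C r := L.sup_eq h2 a1 b1 b3.symm a2 b2 ▸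
      sup_le (a1.W_le_C h2 hr (hne a a2) hc.symm) (b1.W_le_C h2 hr (hne b b2) b4)
    have key : ∀ c : H, D.R c → D.LC s t ≤ D.C c → D.W r ≤ D.C c := by
      intro c c1 c2
      obtain ⟨w, hw, w0⟩ := D.exists_W c1.1
      exact hr.W_le_C h2 c1 (hne c c2).symm
        (c1.comm_of_fix h2 hw w0 (D.mem_C.mp (hU (L.W_le c1 c2 hw))))
    exact ⟨hU, le_inf (key s L.rs inf_le_left) (key t L.rt inf_le_right)⟩
  exfalso
  push Not at hex
  have hcov : ∀ x ∈ D.LU s t, ∀ w ∈ D.W r, x ∉ D.W a → ∃ g : H, D.R g ∧ x + w ∈ D.W g := by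
    intro x hx w hw hxa
    obtain ⟨b, b1, b2, b3⟩ := L.cover hx (fun e => hxa (e ▸ zero_mem _))
    obtain ⟨g, g1, -, g3⟩ := (Ln.mk b1 hr (hex b b1 b2 (fun e => hxa (e ▸ b3)))).cover
      (Submodule.add_mem_sup b3 hw) (fun e => hne b b2 (b1.eq_of_mem h2 hr b3
        (eq_neg_of_add_eq_zero_left e ▸ neg_mem hw) (fun e => hxa (e ▸ zero_mem _))))
    exact ⟨g, g1, g3⟩
  refine no_plane h2 (D := D) (Y := D.LU s t ⊔ D.W r) ?_ ?_
  · have h3 := Submodule.finrank_sup_add_finrank_inf_eq (D.LU s t) (D.W r)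
    have h4 : D.LU s t ⊓ D.W r = ⊥ := eq_bot_iff.mpr (fun x hx => by
      by_contra x0
      obtain ⟨b, b1, b2, b3⟩ := L.cover hx.1 x0
      exact hne b b2 (b1.eq_of_mem h2 hr b3 hx.2 x0))
    rw [h4, finrank_bot, L.dims.1, hr.2] at h3
    have := hr.pos
    omega
  · intro y hy y0
    obtain ⟨x, hx, w, hw, rfl⟩ := Submodule.mem_sup.mp hy
    by_cases hxa : x ∈ D.W a
    swap
    · exact hcov x hx w hw hxa
    by_cases x0 : x = 0
    · exact ⟨r, hr, by rwa [x0, zero_add]⟩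
    by_cases w0 : w = 0
    · exact ⟨a, a1, by rwa [w0, add_zero]⟩
    obtain ⟨b, b1, b2, b3, b4⟩ := L.G0 (v := x) (fun e => x0 (L.eq_zero e hx))
    have hba : b ≠ a := by
      rintro rfl
      exact x0 (eq_zero_of_neg h2 ((D.invol_W a1.sq hxa).symm.trans b3))
    obtain ⟨g, g1, g2⟩ := hcov (x + (b • w - w)) (add_mem hx (b4 (D.sub_mem_W _ _))) w hw (fun e => by
      refine hex b b1 b2 hba (hr.comm_of_fix h2 hw w0 (sub_eq_zero.mp ?_))
      by_contra e0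
      exact hba (b1.eq_of_mem h2 a1 (D.sub_mem_W _ _) (by simpa using (D.W a).sub_mem e hxa) e0))
    refine ⟨b⁻¹ * g * b⁻¹⁻¹, g1.conj _, ?_⟩
    rw [D.mem_W_conj, inv_inv, smul_add, b3]
    rwa [add_assoc, sub_add_cancel] at g2

theorem Ln.dich (L : D.Ln s t) {r : H} (hr : D.R r) (h : ¬ D.LC s t ≤ D.C r) :
    D.LU s t ≤ D.C r ∧ D.W r ≤ D.LC s t := by
  by_cases h2 : (2 : k) = 0
  · exact L.dich_two h2 hr h
  · exact L.dich_odd h2 hr h

end BD

end Cfsg.Agent.H3
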