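import Mathlib
import Cfsg.Agent.H3.AffBin4

/-! Binary linear groups, part 5: the irreducible case. -/

set_option autoImplicit false

namespace Cfsg.Agent.H3

open Module

namespace BD

variable {k V H : Type*} [Field k] [AddCommGroup V] [Module k V] [Group H]
  [DistribMulAction H V] [SMulCommClass H k V] {D : BD k V H} {s t : H}
  [FiniteDimensional k V] [Finite k] [Finite H]

theorem Ln.WC0 (L : D.Ln s t) {x : V} (x1 : x ∈ D.W s) (x2 : x ∈ D.C t) : x = 0 := by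
  by_cases h2 : (2 : k) = 0
  · exact L.WC' h2 x1 x2
  · by_contra x0
    exact L.nc (L.rs.comm_of_fix h2 x1 x0 (D.mem_C.mp x2)).symm

theorem Ln.conj_line (L : D.Ln s t) (g : H) :
    ((∀ x ∈ D.LU s t, g • x ∈ D.LU s t) ∧ ∀ x ∈ D.LC s t, g • x ∈ D.LC s t) ∨
      ∀ x ∈ D.LU s t, g • x ∈ D.LC s t := by
  have L' : D.Ln (g * s * g⁻¹) (g * t * g⁻¹) := ⟨L.rs.conj g, L.rt.conj g, fun e => L.nc (by
    simpa using e)⟩
  have h1 : ∀ x ∈ D.LU s t, g • x ∈ D.LU (g * s * g⁻¹) (g * t * g⁻¹) := by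
    intro x hx
    obtain ⟨a, ha, b, hb, rfl⟩ := Submodule.mem_sup.mp hx
    rw [smul_add]
    exact Submodule.add_mem_sup (D.smul_mem_W g ha) (D.smul_mem_W g hb)
  have h3 : ∀ x ∈ D.LC s t, g • x ∈ D.LC (g * s * g⁻¹) (g * t * g⁻¹) := fun x hx =>
    ⟨D.mem_C_conj.mpr (by simpa using hx.1), D.mem_C_conj.mpr (by simpa using hx.2)⟩
  have key : ∀ {a b : H}, D.Ln a b → D.LC s t ≤ D.C a → D.LC s t ≤ D.C b := by
    intro a b La ha
    by_contra hb
    obtain ⟨w, hw, w0⟩ := D.exists_W La.rs.1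
    exact w0 (La.WC0 hw ((L.dich La.rt hb).1 (L.W_le La.rs ha hw)))
  by_cases ha : D.LC s t ≤ D.C (g * s * g⁻¹)
  · obtain ⟨e1, e2⟩ := L.line_eq L' ha (key L' ha)
    exact Or.inl ⟨fun x hx => e2 ▸ h1 x hx, fun x hx => e1 ▸ h3 x hx⟩
  · have hb := fun e => ha (key L'.symm e)
    exact Or.inr (fun x hx => sup_le (L.dich L'.rs ha).2 (L.dich L'.rt hb).2 (h1 x hx))

omit [FiniteDimensional k V] [Finite H] in
theorem blocks_aux (h2 : (2 : k) ≠ 0) (X : Submodule k V) (hneg : ∀ x ∈ X, ∃ g : H, g • x = -x)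
    (h : ∀ v ∈ X, ∀ w ∈ X, v ≠ 0 → w ≠ 0 → (¬ ∃ g : H, g • v = w) → ∃ g : H, g • v = v ∧ g • w = -w)
    {x y : V} (hx : x ∈ X) (hy : y ∈ X) (x0 : x ≠ 0) (D : BD k V H) : y = 0 ∨ y = x ∨ y = -x := by
  let r : V → V → Prop := fun a b => ∃ g : H, g • a = b
  have rs : ∀ {a b}, r a b → r b a := by
    rintro a _ ⟨g, rfl⟩; exact ⟨g⁻¹, inv_smul_smul _ _⟩
  have rt : ∀ {a b c}, r a b → r b c → r a c := by
    rintro a _ _ ⟨g, rfl⟩ ⟨g', rfl⟩; exact ⟨g' * g, mul_smul _ _ _⟩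
  have rn : ∀ {a b}, r a b → r (-a) (-b) := by
    rintro a _ ⟨g, rfl⟩; exact ⟨g, smul_neg _ _⟩
  have rr : ∀ a, r a a := fun a => ⟨1, one_smul _ _⟩
  have two : ∀ v ∈ X, v ≠ 0 → r v (v + v) := by
    intro v hv v0
    by_contra e
    have v2 : v + v ≠ 0 := fun e => v0 (two_smul_eq_zero h2 e)
    obtain ⟨g, g1, g2⟩ := h v hv (v + v) (add_mem hv hv) v0 v2 e
    rw [smul_add, g1] at g2
    exact v2 (eq_zero_of_neg h2 g2.symm)
  have three : ∀ v ∈ X, v + v = -v := by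
    intro v hv
    by_cases v0 : v = 0
    · simp [v0]
    obtain ⟨g, g1, g2⟩ := D.bin2 (x := v) (y := v + v) (x' := v) (y' := -v) (rr v)
      (rt (rs (two v hv v0)) (hneg v hv)) (by
        rw [sub_neg_eq_add, show v - (v + v) = -v by abel]
        exact rt (rs (hneg v hv)) (two v hv v0))
    rwa [smul_add, g1] at g2
  have key : ∀ v ∈ X, ∀ w ∈ X, v ≠ 0 → w ≠ 0 → ¬ r v w → ¬ r v (v + w) → False := by
    intro v hv w hw v0 w0 n1 n2
    have vw : v + w ≠ 0 := fun e => n1 (by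
      rw [eq_neg_of_add_eq_zero_right e]; exact hneg v hv)
    obtain ⟨g, g1, g2⟩ := h v hv w hw v0 w0 n1
    obtain ⟨g', g3, g4⟩ := h v hv (v + w) (add_mem hv hw) v0 vw n2
    have e1 : r (v + w) (v - w) := ⟨g, by rw [smul_add, g1, g2, sub_eq_add_neg]⟩
    have e2 : r w (v - w) := ⟨g', by
      rw [smul_add, g3] at g4
      linear_combination (norm := abel) g4 - three v hv⟩
    obtain ⟨f, f1, f2⟩ := D.bin2 (x := v) (y := w) (x' := v) (y' := v + w) (rr v) (rt e2 (rs e1))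
      (by rw [show v - (v + w) = -w by abel]; exact rt (rs e2) (hneg w hw))
    have : v ∈ D.C f ⊓ D.W f := ⟨D.mem_C.mpr f1, D.mem_W.mpr ⟨w, by rw [f2, add_sub_cancel_right]⟩⟩
    rw [D.odd_disj h2, Submodule.mem_bot] at this
    exact v0 this
  have all : ∀ v ∈ X, ∀ w ∈ X, v ≠ 0 → w ≠ 0 → r v w := by
    intro v hv w hw v0 w0
    by_contra n1
    by_cases n2 : r v (v + w)
    · exact key w hw v hv w0 v0 (fun e => n1 (rs e)) (fun e => n1 (rt n2 (rs (add_comm v w ▸ e))))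
    · exact key v hv w hw v0 w0 n1 n2
  by_contra hc
  push Not at hc
  obtain ⟨g, g1, g2⟩ := D.bin2 (x := x) (y := -x) (x' := x) (y' := y) (rr x)
    (all _ (neg_mem hx) _ hy (neg_ne_zero.mpr x0) hc.1)
    (all _ (sub_mem hx (neg_mem hx)) _ (sub_mem hx hy)
      (fun e => x0 (eq_zero_of_neg h2 (sub_eq_zero.mp e).symm)) (sub_ne_zero.mpr hc.2.1.symm))
  rw [smul_neg, g1] at g2
  exact hc.2.2 g2.symm

omit [FiniteDimensional k V] [Finite H] in
theorem blocks (h2 : (2 : k) ≠ 0) {z g₀ : H} (zz : z * z = 1)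
    (hO : ∀ g : H, g * z * g⁻¹ = z ∨ D.W (g * z * g⁻¹) ≤ D.C z) (h0 : g₀ * z * g₀⁻¹ ≠ z) :
    (∀ x ∈ D.W z, ∀ y ∈ D.W z, x ≠ 0 → y = 0 ∨ y = x ∨ y = -x) ∧
      ∃ h : H, h * z * h⁻¹ ≠ z ∧ ∀ x ∈ D.W z, h • h • x = x := by
  have zneg : ∀ x ∈ D.W z, z • x = -x := fun x hx => D.invol_W zz hx
  have O1 : ∀ (g : H) (x : V), x ∈ D.W z → x ≠ 0 → g • x ∈ D.W z → g * z = z * g := by
    intro g x hx x0 hg
    rcases hO g with e | e
    · exact mul_inv_eq_iff_eq_mul.mp e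
    · have h3 := D.mem_C.mp (e (D.smul_mem_W g hx))
      rw [zneg _ hg] at h3
      exact absurd ((smul_eq_zero_iff_eq g).mp (eq_zero_of_neg h2 h3)) x0
  have O2 : ∀ (g : H) (x : V), x ∈ D.W z → g • x ∈ D.W z ∨ z • g • x = g • x := by
    intro g x hx
    rcases hO g with e | e
    · exact Or.inl (e ▸ D.smul_mem_W g hx)
    · exact Or.inr (D.mem_C.mp (e (D.smul_mem_W g hx)))
  have z1 : z ≠ 1 := by rintro rfl; simp at h0
  obtain ⟨v₀, hv₀, v0⟩ := D.exists_W z1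
  obtain ⟨h, -, h1, h3⟩ := D.swap g₀ v₀
  have hn : ∀ x ∈ D.W z, x ≠ 0 → h • x ∉ D.W z := fun x hx x0 e => h0 (by
    have e1 := O1 h x hx x0 e
    have e2 : h • v₀ ∈ D.W z := by
      have := D.smul_mem_W h hv₀
      rwa [e1, mul_inv_cancel_right] at this
    rw [O1 g₀ v₀ hv₀ v0 (h1 ▸ e2), mul_inv_cancel_right])
  have hh : h * h * z = z * (h * h) := O1 _ v₀ hv₀ v0 (by rw [mul_smul, h1, h3]; exact hv₀)
  have hW : ∀ {g : H}, g * z = z * g → ∀ x ∈ D.W z, g • x ∈ D.W z := fun {g} e x hx => by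
    have := D.smul_mem_W g hx
    rwa [e, mul_inv_cancel_right] at this
  have hh' : (h * h)⁻¹ * z = z * (h * h)⁻¹ := by
    rw [inv_mul_eq_iff_eq_mul, ← mul_assoc, hh, mul_inv_cancel_right]
  have zh : ∀ x ∈ D.W z, z • h • x = h • x := fun x hx => by
    by_cases x0 : x = 0
    · simp [x0]
    · exact (O2 h x hx).resolve_left (hn x hx x0)
  have zh' : ∀ x ∈ D.W z, z • h⁻¹ • x = h⁻¹ • x := fun x hx => by
    have := zh _ (hW hh' x hx)
    rwa [mul_inv_rev, mul_smul, smul_inv_smul] at this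
  have main : ∀ x ∈ D.W z, ∀ y ∈ D.W z, x ≠ 0 → y = 0 ∨ y = x ∨ y = -x := by
    intro x hx y hy x0
    refine blocks_aux h2 (D.W z) (fun x hx => ⟨z, zneg x hx⟩) ?_ hx hy x0 D
    intro v hv w hw v0 w0 hvw
    have key : ∀ g : H, g • (v + h⁻¹ • w) = v + h⁻¹ • w → g • v = v ∧ g * z = z * g := by
      intro g e
      rw [smul_add] at e
      have e1 := congrArg (fun u => z • u) e
      simp only [smul_add, zneg v hv, zh' w hw] at e1
      have gv : g • v = v := by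
        rcases O2 g v hv with a | a <;> rcases O2 (g * h⁻¹) w hw with b | b <;>
          rw [mul_smul] at b
        · rw [zneg _ a, zneg _ b] at e1
          have : h⁻¹ • w = 0 := two_smul_eq_zero h2 (by linear_combination (norm := abel) -e - e1)
          exact absurd ((smul_eq_zero_iff_eq _).mp this) w0
        · rw [zneg _ a, b] at e1
          rw [← sub_eq_zero]
          exact two_smul_eq_zero h2 (by linear_combination (norm := abel) e - e1)
        · rw [a, zneg _ b] at e1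
          have : g • v - h⁻¹ • w = 0 :=
            two_smul_eq_zero h2 (by linear_combination (norm := abel) e + e1)
          exact absurd ⟨h * g, by rw [mul_smul, sub_eq_zero.mp this, smul_inv_smul]⟩ hvw
        · rw [a, b] at e1
          exact absurd (two_smul_eq_zero h2 (by linear_combination (norm := abel) e1 - e)) v0
      exact ⟨gv, O1 g v hv v0 (gv.symm ▸ hv)⟩
    have proj : ∀ (g : H) (a b a' b' : V), g * z = z * g → z • a = -a → z • b = b → z • a' = -a' →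
        z • b' = b' → g • (b + a) = b' + a' → g • a = a' := by
      intro g a b a' b' e a1 b1 a2 b2 e1
      have e2 := congrArg (fun u => z • u) e1
      simp only
        [← mul_smul z g, ← e, mul_smul g z, smul_add, a1, b1, a2, b2, smul_neg] at e2
      rw [smul_add] at e1
      rw [← sub_eq_zero]
      exact two_smul_eq_zero h2 (by linear_combination (norm := abel) e1 - e2)
    have hw2 : h⁻¹ • h⁻¹ • w ∈ D.W z := by
      have := hW hh' w hw
      rwa [mul_inv_rev, mul_smul] at this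
    obtain ⟨g, -, g1, g2, -⟩ := D.inv' h (v + h⁻¹ • w)
    obtain ⟨f, -, f1, f2, -⟩ := D.inv' (h * z) (v + h⁻¹ • w)
    obtain ⟨g3, g4⟩ := key g g1
    obtain ⟨f3, f4⟩ := key f f1
    rw [smul_add h, smul_inv_smul, smul_add h⁻¹] at g2
    have g5 := proj g _ _ _ _ g4 (zneg w hw) (zh v hv) (zneg _ hw2) (zh' v hv) g2
    rw [mul_inv_rev, inv_eq_of_mul_eq_one_right zz, mul_smul, mul_smul, smul_add z, zneg v hv,
      zh' w hw, smul_add h, smul_inv_smul, smul_add h⁻¹, smul_add z, zh' v hv, zneg _ hw2] at f2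
    have f5 := proj f _ _ _ _ f4 (zneg w hw) (by rw [smul_neg, smul_neg, zh v hv])
      (zneg _ (neg_mem hw2)) (zh' v hv) f2
    refine ⟨g⁻¹ * f, by rw [mul_smul, f3, inv_smul_eq_iff, g3], ?_⟩
    rw [mul_smul, f5, inv_smul_eq_iff, smul_neg, g5]
  refine ⟨main, h, fun e => hn v₀ hv₀ v0 (e ▸ D.smul_mem_W h hv₀), fun x hx => ?_⟩
  rcases main v₀ hv₀ x hx v0 with rfl | rfl | rfl
  · simp
  · rw [h1, h3]
  · rw [smul_neg, smul_neg, h1, h3]

theorem single_false (h2 : (2 : k) ≠ 0) (hc : ∀ a b : H, D.R a → D.R b → a * b = b * a) {r h : H}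
    (hr : D.R r) (hne : h * r * h⁻¹ ≠ r) (hh : ∀ x ∈ D.W r, h • h • x = x) : False := by
  set r' := h * r * h⁻¹ with hr'
  have r1 : D.R r' := hr.conj h
  have a1 : D.W r ≤ D.C r' := hr.W_le_C h2 r1 hne.symm (hc _ _ hr r1)
  have a2 : D.W r' ≤ D.C r := r1.W_le_C h2 hr hne (hc _ _ r1 hr)
  have b1 : ∀ x ∈ D.W r, (r * r') • (x - h • x) = -(x - h • x) := by
    intro x hx
    have := D.smul_mem_W h hx
    rw [mul_smul, smul_sub r', D.mem_C.mp (a1 hx), D.invol_W r1.sq this, smul_sub, smul_neg,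
      D.invol_W hr.sq hx, D.mem_C.mp (a2 this)]
    abel
  have b2 : ∀ x ∈ D.W r, h • (x - h • x) = -(x - h • x) := fun x hx => by
    rw [smul_sub, hh x hx, neg_sub]
  have b3 : ∀ x ∈ D.W r, h • (x + h • x) = x + h • x := fun x hx => by
    rw [smul_add, hh x hx, add_comm]
  have b4 : ∀ c ∈ D.C r ⊓ D.C r', (r * r') • c = c := fun c hc =>
    D.mem_C.mp (D.le_C_mul (X := D.C r ⊓ D.C r') inf_le_left inf_le_right hc)
  obtain ⟨f, hf⟩ := D.bin ((fun x => (x - h • x, -(x - h • x))) '' (D.W r) ∪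
    ((fun x => (x + h • x, x + h • x)) '' (D.W r) ∪
      (fun x => (x, x)) '' (D.C r ⊓ D.C r' : Submodule k V))) (by
      rintro _ (⟨x, hx, rfl⟩ | ⟨x, hx, rfl⟩ | ⟨x, hx, rfl⟩)
      · exact ⟨h, b2 x hx⟩
      · exact ⟨1, one_smul _ _⟩
      · exact ⟨1, one_smul _ _⟩) (by
      rintro _ (⟨x, hx, rfl⟩ | ⟨x, hx, rfl⟩ | ⟨x, hx, rfl⟩) _
        (⟨y, hy, rfl⟩ | ⟨y, hy, rfl⟩ | ⟨y, hy, rfl⟩)
      · exact ⟨h, by rw [smul_sub h (x - h • x), b2 x hx, b2 y hy]⟩
      · exact ⟨h, by rw [smul_sub h (x - h • x), b2 x hx, b3 y hy]⟩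
      · exact ⟨r * r', by rw [smul_sub _ (x - h • x), b1 x hx, b4 y hy]⟩
      · exact ⟨h, by rw [smul_sub h (x + h • x), b3 x hx, b2 y hy]⟩
      · exact ⟨1, one_smul _ _⟩
      · exact ⟨1, one_smul _ _⟩
      · exact ⟨r * r', by rw [smul_sub _ x, b4 x hx, b1 y hy]⟩
      · exact ⟨1, one_smul _ _⟩
      · exact ⟨1, one_smul _ _⟩)
  have f1 : ∀ x ∈ D.W r, f • (x - h • x) = -(x - h • x) := fun x hx =>
    hf (_, _) (Or.inl ⟨x, hx, rfl⟩)
  have f2 : ∀ x ∈ D.W r, f • (x + h • x) = x + h • x := fun x hx =>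
    hf (_, _) (Or.inr (Or.inl ⟨x, hx, rfl⟩))
  have f3 : ∀ x ∈ D.C r ⊓ D.C r', f • x = x := fun x hx =>
    hf (_, _) (Or.inr (Or.inr ⟨x, hx, rfl⟩))
  have f4 : ∀ x ∈ D.W r, f • x = h • x ∧ f • h • x = x := by
    intro x hx
    have e1 := f1 x hx
    have e2 := f2 x hx
    rw [smul_sub] at e1
    rw [smul_add] at e2
    constructor <;> rw [← sub_eq_zero]
    · exact two_smul_eq_zero h2 (by linear_combination (norm := abel) e1 + e2)
    · exact two_smul_eq_zero h2 (by linear_combination (norm := abel) e2 - e1)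
  obtain ⟨x, hx, x0⟩ := D.exists_W hr.1
  have hx' : h • x ∉ D.W r := fun e =>
    hne (r1.eq_of_mem h2 hr (D.smul_mem_W h hx) e (by rwa [ne_eq, smul_eq_zero_iff_eq]))
  have fne : f ≠ 1 := by
    rintro rfl
    have := (f4 x hx).1
    rw [one_smul] at this
    exact hx' (this ▸ hx)
  have hW : D.W f ≤ (D.W r).map (DistribSMul.toLinearMap k V h - LinearMap.id) := by
    intro w hw
    obtain ⟨v, rfl⟩ := D.mem_W.mp hw
    have v1 := D.sub_mem_W r v
    have v2 := D.sub_mem_W r' v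
    have v3 := D.mem_W_conj.mp v2
    have e1 := D.mem_C.mp (a1 v1)
    have e2 := D.mem_C.mp (a2 v2)
    have e3 := D.invol_W hr.sq v1
    have e4 := D.invol_W r1.sq v2
    rw [smul_sub] at e1 e2 e3 e4
    have e5 := f3 (r • v + r' • v) ⟨D.mem_C.mpr (by
      rw [smul_add]; linear_combination (norm := abel) e2 + e3), D.mem_C.mpr (by
      rw [smul_add]; linear_combination (norm := abel) e1 + e4)⟩
    have e6 := (f4 _ v1).1
    have e7 := (f4 _ v3).2
    rw [smul_inv_smul] at e7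
    rw [← Submodule.smul_mem_iff _ h2]
    refine ⟨h⁻¹ • (r' • v - v) - (r • v - v), sub_mem v3 v1, ?_⟩
    simp only [LinearMap.sub_apply, DistribSMul.toLinearMap_apply, LinearMap.id_coe, id_eq]
    rw [smul_sub h, smul_inv_smul, ← e6, ← e7, two_smul]
    simp only [smul_sub, smul_add] at e5 ⊢
    linear_combination (norm := abel) -e5
  have fR : D.R f := ⟨fne, le_antisymm (((Submodule.finrank_mono hW).trans
    (Submodule.finrank_map_le _ _)).trans hr.2.le) (D.min' fne)⟩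
  have := D.smul_mem_W f hx
  rw [hc f r fR hr, mul_inv_cancel_right, (f4 x hx).1] at this
  exact hx' this

theorem Ln.two_false (L : D.Ln s t) (h2 : (2 : k) = 0) {g₀ : H}
    (h0 : ∀ x ∈ D.LU s t, g₀ • x ∈ D.LC s t) : False := by
  obtain ⟨x, hx, x0⟩ := D.exists_W L.rs.1
  have hxU : x ∈ D.LU s t := Submodule.mem_sup_left hx
  obtain ⟨g, -, g1, g2⟩ := D.swap g₀ x
  obtain ⟨j, hj⟩ := D.odd_sq h2 g
  set h := g * (g * g) ^ j with hh
  have e1 : h • x = g₀ • x := by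
    have : (g * g) ^ j • x = x := (MulAction.stabilizer H x).pow_mem
      (by rw [MulAction.mem_stabilizer_iff, mul_smul, g1, g2]) j
    rw [hh, mul_smul, this, g1]
  have e2 : h * h = 1 := by
    rw [← pow_orderOf_eq_one (g * g), hj, hh, ← pow_two g, ← pow_mul, ← pow_mul, ← pow_succ',
      ← pow_add]
    congr 1; ring
  have e3 : ∀ x ∈ D.LU s t, h • x ∈ D.LC s t := by
    refine (L.conj_line h).resolve_left (fun e => x0 ?_)
    exact (smul_eq_zero_iff_eq h).mp (L.eq_zero (e1 ▸ h0 x hxU) (e.1 x hxU))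
  have r1 := L.rs.conj h
  have e4 : ¬ D.LC s t ≤ D.C (h * s * h⁻¹) := fun e => x0 ((smul_eq_zero_iff_eq h).mp
    (L.eq_zero (e3 x hxU) (L.W_le r1 e (D.smul_mem_W h hx))))
  obtain ⟨e5, e6⟩ := L.dich r1 e4
  have e7 := D.comm_of_le (le_sup_left.trans e5) (e6.trans inf_le_left)
  have e8 : h * s * (h * s) = h * s * h⁻¹ * s := by
    rw [inv_eq_of_mul_eq_one_right e2, mul_assoc (h * s)]
  have e9 : h * s * (h * s) = 1 := D.no4 h2 (by
    rw [e8, mul_assoc, ← mul_assoc s, e7, mul_assoc, mul_assoc _ s s, L.rs.sq, mul_one, ← mul_assoc,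
      r1.sq])
  rw [e8] at e9
  have e10 : h * s * h⁻¹ = s := by rw [← mul_one (h * s * h⁻¹), ← L.rs.sq, ← mul_assoc, e9, one_mul]
  exact e4 (e10.symm ▸ inf_le_left)

theorem main_dich (hirr : ∀ X : Submodule k V, (∀ g : H, ∀ x ∈ X, g • x ∈ X) → X = ⊥ ∨ X = ⊤)
    {r : H} (hr : D.R r) :
    (∀ g : H, g = 1 ∨ ∀ v : V, g • v = -v) ∨ ∃ s t : H, D.Ln s t ∧ D.LC s t = ⊥ := by
  obtain ⟨w, hw, w0⟩ := D.exists_W hr.1
  by_cases hc : ∀ a b : H, D.R a → D.R b → a * b = b * a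
  · by_cases h2 : (2 : k) = 0
    · exfalso
      rcases hirr (⨅ (a : H) (_ : D.R a), D.C a) (by
        simp only [Submodule.mem_iInf]
        intro g x hx a ha
        have := hx _ (ha.conj g⁻¹)
        rwa [D.mem_C_conj, inv_inv] at this) with e | e
      · refine w0 ?_
        rw [← Submodule.mem_bot k, ← e]
        simp only [Submodule.mem_iInf]
        exact fun a ha => D.quad h2 hr.sq ha.sq (hc _ _ hr ha) hw
      · refine hr.1 (D.faith r (fun v => ?_))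
        have : v ∈ ⨅ (a : H) (_ : D.R a), D.C a := e ▸ Submodule.mem_top
        simp only [Submodule.mem_iInf] at this
        exact D.mem_C.mp (this r hr)
    by_cases h3 : ∀ g : H, g * r * g⁻¹ = r
    · left
      have hW : D.W r = ⊤ := (hirr _ (fun g x hx => h3 g ▸ D.smul_mem_W g hx)).resolve_left
        (fun e => hr.1 (D.eq_one_of_W e))
      have hn : ∀ v : V, r • v = -v := fun v => D.invol_W hr.sq (hW ▸ Submodule.mem_top)
      intro g
      by_cases g1 : g = 1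
      · exact Or.inl g1
      have g2 : D.R g := hr.of_le g1 (fun v hv => by
        rw [eq_zero_of_neg h2 ((hn v).symm.trans (D.mem_C.mp hv))]; exact zero_mem _)
      obtain ⟨x, hx, x0⟩ := D.exists_W g1
      rw [g2.eq_of_mem h2 hr hx (hW ▸ Submodule.mem_top) x0]
      exact Or.inr hn
    · exfalso
      push Not at h3
      obtain ⟨g₀, h0⟩ := h3
      obtain ⟨-, h, h4, h5⟩ := blocks h2 (D := D) hr.sq (fun g => by
        by_cases e : g * r * g⁻¹ = r
        · exact Or.inl e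
        · exact Or.inr ((hr.conj g).W_le_C h2 hr e (hc _ _ (hr.conj g) hr))) h0
      exact single_false h2 hc hr h4 h5
  push Not at hc
  obtain ⟨s, t, hs, ht, hst⟩ := hc
  have L : D.Ln s t := ⟨hs, ht, hst⟩
  refine Or.inr ⟨s, t, L, ?_⟩
  obtain ⟨x, hx, x0⟩ := D.exists_W hs.1
  by_cases h3 : ∀ g : H, ∀ x ∈ D.LU s t, g • x ∈ D.LU s t
  · have hU : D.LU s t = ⊤ := (hirr _ h3).resolve_left (fun e => x0 (by
      rw [← Submodule.mem_bot k, ← e]; exact Submodule.mem_sup_left hx))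
    have := L.disj
    rwa [hU, inf_top_eq] at this
  exfalso
  obtain ⟨g₀, h0⟩ := not_forall.mp h3
  have h4 := (L.conj_line g₀).resolve_left (fun e => h0 e.1)
  by_cases h2 : (2 : k) = 0
  · exact L.two_false h2 h4
  obtain ⟨z, z1, z2⟩ := L.exists_z h2
  have zW : D.W z = D.LU s t := by
    refine le_antisymm (fun y hy => ?_) (fun u hu => mem_W_of_neg h2 (z2 u hu))
    obtain ⟨v, rfl⟩ := D.mem_W.mp hy
    obtain ⟨c, hc, u, hu, rfl⟩ := L.decomp v
    rw [smul_add, D.mem_C.mp (z1 hc), z2 u hu, add_sub_add_left_eq_sub]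
    exact sub_mem (neg_mem hu) hu
  have zz : z * z = 1 := D.faith _ (fun v => by
    obtain ⟨c, hc, u, hu, rfl⟩ := L.decomp v
    rw [mul_smul, smul_add z, D.mem_C.mp (z1 hc), z2 u hu, smul_add, D.mem_C.mp (z1 hc), smul_neg,
      z2 u hu, neg_neg])
  have hxU : x ∈ D.LU s t := Submodule.mem_sup_left hx
  obtain ⟨h5, -⟩ := blocks h2 (D := D) (g₀ := g₀) zz (fun g => by
    rcases L.conj_line g with ⟨e1, e2⟩ | e
    · left
      rw [mul_inv_eq_iff_eq_mul]
      refine D.ext (fun v => ?_)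
      obtain ⟨c, hc, u, hu, rfl⟩ := L.decomp v
      rw [mul_smul, mul_smul, smul_add z, D.mem_C.mp (z1 hc), z2 u hu, smul_add, smul_add, smul_add,
        D.mem_C.mp (z1 (e2 c hc)), z2 _ (e1 u hu), smul_neg]
    · right
      intro y hy
      rw [D.mem_W_conj, zW] at hy
      simpa using z1 (e _ hy)) (fun e => by
    have := D.smul_mem_W g₀ (zW ▸ hxU : x ∈ D.W z)
    rw [e, zW] at this
    exact x0 ((smul_eq_zero_iff_eq g₀).mp (L.eq_zero (h4 x hxU) this)))
  obtain ⟨y, hy, y0⟩ := D.exists_W ht.1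
  have hd : ∀ y ∈ D.W t, y ∈ D.W s → y = 0 := fun y h6 h7 => by
    have : y ∈ D.W s ⊓ D.W t := ⟨h7, h6⟩
    rwa [L.dims.2.2, Submodule.mem_bot] at this
  rcases h5 x (zW ▸ hxU) y (zW ▸ Submodule.mem_sup_right hy) x0 with e | e | e
  · exact y0 e
  · exact y0 (hd y hy (e ▸ hx))
  · exact y0 (hd y hy (e ▸ neg_mem hx))

end BD

end Cfsg.Agent.H3
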