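import Mathlib
import Cfsg.Agent.H3.AffBin5
import Cfsg.Agent.H2.Coord

/-! Binary linear groups, part 6: identification with the anisotropic orthogonal group. -/

set_option autoImplicit false

namespace Cfsg.Agent.H3

open Module

namespace BD

variable {k V H : Type*} [Field k] [AddCommGroup V] [Module k V] [Group H]
  [DistribMulAction H V] [SMulCommClass H k V] {D : BD k V H} {s t : H}
  [FiniteDimensional k V] [Finite k] [Finite H]

theorem Ln.eq_one (L : D.Ln s t) (hC : D.LC s t = ⊥) {a : H} (ha : ¬ D.R a) {v : V} (v0 : v ≠ 0)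
    (e : a • v = v) : a = 1 := by
  by_contra a1
  exact ha (L.R_of_fix (hC ▸ bot_le) (by rwa [hC, Submodule.mem_bot]) e a1)

theorem Ln.neg_of_sq (L : D.Ln s t) (hC : D.LC s t = ⊥) {a : H} (ha : ¬ D.R a) (a1 : a ≠ 1)
    (a2 : a * a = 1) (v : V) : a • v = -v := by
  rw [eq_neg_iff_add_eq_zero]
  by_contra e
  exact a1 (L.eq_one hC ha e (by rw [smul_add, ← mul_smul, a2, one_smul, add_comm]))

theorem Ln.inverts' (L : D.Ln s t) (hC : D.LC s t = ⊥) {r a : H} (hr : D.R r) (ha : ¬ D.R a) :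
    r * a * r = a⁻¹ := by
  by_cases a2 : a * a = 1
  · by_cases a1 : a = 1
    · rw [a1, mul_one, hr.sq, inv_one]
    · rw [inv_eq_of_mul_eq_one_right a2]
      refine D.ext (fun v => ?_)
      rw [mul_smul, mul_smul, L.neg_of_sq hC ha a1 a2, L.neg_of_sq hC ha a1 a2, smul_neg,
        ← mul_smul, hr.sq, one_smul]
  · exact L.inverts hr (hC ▸ bot_le) (hC ▸ bot_le) a2

theorem Ln.R_mul (L : D.Ln s t) (hC : D.LC s t = ⊥) {r a : H} (hr : D.R r) (ha : ¬ D.R a) :
    D.R (r * a) := by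
  by_contra h
  have h1 : r * a ≠ 1 := fun e => ha (by
    rwa [← inv_eq_of_mul_eq_one_right e, inv_eq_of_mul_eq_one_right hr.sq])
  have h2 := L.neg_of_sq hC h h1 (by rw [← mul_assoc, L.inverts' hC hr ha, inv_mul_cancel])
  obtain ⟨x, hx, x0⟩ := D.exists_W hr.1
  have h3 : a = 1 := L.eq_one hC ha x0 (MulAction.injective r (by
    simp only
    rw [← mul_smul, h2, D.invol_W hr.sq hx]))
  exact h (by rwa [h3, mul_one])

theorem Ln.not_R_mul (L : D.Ln s t) (hC : D.LC s t = ⊥) {a b : H} (ha : D.R a) (hb : D.R b) :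
    ¬ D.R (a * b) := by
  intro h
  have hc := comm_of_sq ha.sq hb.sq h.sq
  have hab : a ≠ b := fun e => h.1 (e ▸ ha.sq)
  by_cases h2 : (2 : k) = 0
  · obtain ⟨x, hx, x0⟩ := D.exists_W ha.1
    exact hab (L.WC h2 ha hb.1 (hC ▸ bot_le) (hC ▸ bot_le) hx (D.quad h2 ha.sq hb.sq hc hx) x0)
  · have e1 := hb.W_le_C h2 ha hab.symm hc.symm
    have e2 := h.W_le_C h2 ha (fun e => hb.1 (by simpa using e)) (by rw [mul_assoc, ← hc])
    have e3 := L.sup_eq h2 hb h (fun e => ha.1 (by simpa using e)) (hC ▸ bot_le) (hC ▸ bot_le)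
    refine ha.1 (D.faith a (fun v => ?_))
    obtain ⟨c, hc, u, hu, rfl⟩ := L.decomp v
    rw [hC, Submodule.mem_bot] at hc
    rw [hc, zero_add]
    exact D.mem_C.mp (sup_le e1 e2 (e3 ▸ hu))

/-- The rotation subgroup. -/
def Ln.A (L : D.Ln s t) (hC : D.LC s t = ⊥) : Subgroup H where
  carrier := {g | ¬ D.R g}
  one_mem' := fun h => h.1 rfl
  inv_mem' := fun {a} ha h => ha (by rwa [← inv_inv a, inv_eq_of_mul_eq_one_right h.sq])
  mul_mem' := fun {a b} ha hb h => hb (by
    have h1 := L.R_mul hC h ha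
    have h2 := L.inverts' hC h ha
    have h3 : a * b * a = b := by
      rw [← mul_one (a * b * a), ← h.sq, ← mul_assoc, h2, inv_mul_cancel_left]
    rwa [h3] at h1)

theorem Ln.cards (L : D.Ln s t) (hC : D.LC s t = ⊥) :
    Nat.card V = Nat.card (D.C s) ^ 2 ∧ Nat.card (L.A hC) = Nat.card (D.C s) + 1 ∧
      1 < Nat.card (D.C s) := by
  classical
  have : Finite V := Module.finite_of_finite k
  have := Fintype.ofFinite V
  have := Fintype.ofFinite H
  have hn := L.dims.2.1
  rw [hC, finrank_bot, zero_add] at hn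
  have h1 : ∀ r : H, D.R r → Nat.card (D.C r) = Nat.card k ^ D.m := by
    intro r hr
    have := D.dim_WC r
    rw [hr.2] at this
    rw [Module.natCard_eq_pow_finrank (K := k)]
    congr 1; omega
  have h2 : Nat.card V = (Nat.card k ^ D.m) ^ 2 := by
    rw [Module.natCard_eq_pow_finrank (K := k), ← hn, ← pow_mul, mul_comm]
  have h3 : 1 < Nat.card k ^ D.m := Nat.one_lt_pow L.rs.pos.ne' Finite.one_lt_card
  rw [h1 s L.rs]
  refine ⟨h2, ?_, h3⟩
  have h4 : Nat.card (L.A hC) = (Finset.univ.filter (fun r : H => D.R r)).card := by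
    rw [← Fintype.card_subtype, ← Nat.card_eq_fintype_card]
    exact Nat.card_congr ⟨fun a => ⟨s * a, L.R_mul hC L.rs a.2⟩,
      fun r => ⟨s * r, L.not_R_mul hC L.rs r.2⟩,
      fun a => Subtype.ext (by simp [← mul_assoc, L.rs.sq]),
      fun a => Subtype.ext (by simp [← mul_assoc, L.rs.sq])⟩
  have h5 := Finset.card_mul_eq_card_mul (s := Finset.univ.filter (fun r : H => D.R r))
    (t := Finset.univ.erase (0 : V)) (fun r v => r • v = v) (m := Nat.card k ^ D.m - 1) (n := 1)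
    (by
      intro r hr
      rw [← h1 r (by simpa using hr), Nat.card_eq_fintype_card, Fintype.card_subtype,
        ← Finset.card_erase_of_mem (a := 0) (by simp)]
      congr 1
      ext v
      simp [Finset.bipartiteAbove, D.mem_C])
    (by
      intro v hv
      have v0 : v ∉ D.LC s t := by simpa [hC] using hv
      obtain ⟨g, g1, g2, g3, -⟩ := L.G0 v0
      rw [Finset.card_eq_one]
      refine ⟨g, Finset.eq_singleton_iff_unique_mem.mpr ⟨by simp [Finset.bipartiteBelow, g1, g3], ?_⟩⟩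
      intro x hx
      simp only [Finset.bipartiteBelow, Finset.mem_filter, Finset.mem_univ, true_and] at hx
      exact L.uniq (hC ▸ bot_le) g2 v0 hx.2 g3 hx.1.1 g1.1)
  rw [← h4, Finset.card_erase_of_mem (Finset.mem_univ _), Finset.card_univ,
    ← Nat.card_eq_fintype_card, h2, mul_one] at h5
  obtain ⟨q, hq⟩ : ∃ q, Nat.card k ^ D.m = q + 1 := ⟨_, (Nat.sub_add_cancel h3.le).symm⟩
  rw [hq] at h5 h3 ⊢
  refine Nat.eq_of_mul_eq_mul_right (show 0 < q by omega) ?_
  rw [Nat.add_sub_cancel] at h5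
  rw [h5, Nat.sub_eq_of_eq_add (show (q + 1) ^ 2 = (q + 1 + 1) * q + 1 by ring)]

theorem Ln.struct (L : D.Ln s t) (hC : D.LC s t = ⊥)
    (hirr : ∀ X : AddSubgroup V, (∀ g : H, ∀ x ∈ X, g • x ∈ X) → X = ⊥ ∨ X = ⊤) :
    ∃ (F E : Type) (_ : Field F) (_ : Fintype F) (_ : Field E) (_ : Fintype E) (_ : Algebra F E)
      (φ : E ≃+ V), finrank F E = 2 ∧
      (∀ g : H, ∃ (a : E) (θ : E ≃ₐ[F] E), Algebra.norm F a = 1 ∧ ∀ x, g • φ x = φ (a * θ x)) ∧
      ∀ (a : E) (θ : E ≃ₐ[F] E), Algebra.norm F a = 1 → ∃ g : H, ∀ x, g • φ x = φ (a * θ x) := by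
  classical
  have : Finite V := Module.finite_of_finite k
  obtain ⟨v₀, hv₀, sv₀⟩ := L.exists_fix L.rs
  have v0 : v₀ ≠ 0 := by simpa [hC] using hv₀
  have : Nontrivial V := ⟨⟨v₀, 0, v0⟩⟩
  set A := L.A hC with hA
  have memA : ∀ {g : H}, g ∈ A ↔ ¬ D.R g := Iff.rfl
  have : A.Normal := ⟨fun a ha g h => ha (by simpa [mul_assoc] using h.conj g⁻¹)⟩
  have hcomm : ∀ x ∈ A, ∀ y ∈ A, x * y = y * x := by
    intro x hx y hy
    have e1 := L.inverts' hC L.rs (A.mul_mem hx hy)
    have e2 : s * (x * y) * s = (s * x * s) * (s * y * s) := by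
      rw [show s * x * s * (s * y * s) = s * x * (s * s) * y * s by group, L.rs.sq]; group
    rw [e2, L.inverts' hC L.rs hx, L.inverts' hC L.rs hy, ← mul_inv_rev] at e1
    exact (inv_injective e1).symm
  have hI : H2.Irred A V := by
    intro X hX
    by_cases h0 : X = ⊥
    · exact Or.inl h0
    right
    obtain ⟨⟨x, hx⟩, x0⟩ := (AddSubgroup.ne_bot_iff_exists_ne_zero).mp h0
    have x0' : x ≠ 0 := fun e => x0 (Subtype.ext e)
    obtain ⟨r, r1, -, r3, -⟩ := L.G0 (v := x) (by simpa [hC] using x0')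
    have h1 : AddSubgroup.closure {y | ∃ a ∈ A, a • x = y} ≤ X := by
      rw [AddSubgroup.closure_le]
      rintro _ ⟨a, ha, rfl⟩
      exact hX a ha x hx
    refine top_le_iff.mp ((((hirr _ ?_).resolve_left (fun e => x0' ?_)).symm.le).trans h1)
    · intro g y hy
      induction hy using AddSubgroup.closure_induction with
      | mem y hy =>
        obtain ⟨a, ha, rfl⟩ := hy
        refine AddSubgroup.subset_closure ?_
        by_cases hg : D.R g
        · refine ⟨g * r * a⁻¹, A.mul_mem (L.not_R_mul hC hg r1) (A.inv_mem ha), ?_⟩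
          rw [← L.inverts' hC r1 ha, show g * r * (r * a * r) = g * (r * r) * a * r by group, r1.sq,
            mul_one, mul_smul, r3, mul_smul]
        · exact ⟨g * a, A.mul_mem hg ha, mul_smul _ _ _⟩
      | zero => simp
      | add y z _ _ hy hz => rw [smul_add]; exact add_mem hy hz
      | neg y _ hy => rw [smul_neg]; exact neg_mem hy
    · rw [← AddSubgroup.mem_bot, ← e]
      exact AddSubgroup.subset_closure ⟨1, one_mem _, one_smul _ _⟩
  obtain ⟨⟨p, f, hp, hf, hV⟩, hco⟩ := H2.exists_field_coord A hcomm hI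
  have : Fact p.Prime := ⟨hp⟩
  obtain ⟨φ₀, h1, h2⟩ := hco (GaloisField p f) (by rw [GaloisField.card p f hf.ne', hV])
  set E := GaloisField p f
  obtain ⟨c₀, -, θ, hθ⟩ := h2 s
  set x₀ := φ₀.symm v₀ with hx₀
  have x0 : x₀ ≠ 0 := by simpa [hx₀] using v0
  let φ : E ≃+ V := (AddEquiv.ofBijective (AddMonoidHom.mulLeft x₀)
    (mulLeft_bijective₀ x₀ x0)).trans φ₀
  have hφ : ∀ x, φ x = φ₀ (x₀ * x) := fun x => rfl
  have e0 : c₀ * θ x₀ = x₀ := φ₀.injective (by rw [← hθ, hx₀, φ₀.apply_symm_apply, sv₀])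
  have hs : ∀ x, s • φ x = φ (θ x) := fun x => by rw [hφ, hφ, hθ, map_mul θ, ← mul_assoc, e0]
  have hsc : ∀ a ∈ A, ∃ c : E, ∀ x, a • φ x = φ (c * x) := by
    intro a ha
    obtain ⟨c, -, hc⟩ := h1 a (fun x hx => hcomm x hx a ha)
    exact ⟨c, fun x => by rw [hφ, hφ, hc, mul_left_comm]⟩
  choose! c hc using hsc
  obtain ⟨k1, k2, k3⟩ := L.cards hC
  set q := Nat.card (D.C s) with hq
  let F : Subfield E := RingHom.eqLocusField (θ : E →+* E) (RingHom.id E)
  have memF : ∀ x : E, x ∈ F ↔ θ x = x := fun x => Iff.rfl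
  have hF : Nat.card F = q := Nat.card_congr (φ.toEquiv.subtypeEquiv (fun x => by
    rw [memF, D.mem_C]
    change _ ↔ s • φ x = φ x
    rw [hs, φ.injective.eq_iff]))
  have hE : Nat.card E = q ^ 2 := by rw [← k1]; exact Nat.card_congr φ.toEquiv
  have hfin : finrank F E = 2 := by
    have := Module.natCard_eq_pow_finrank (K := F) (V := E)
    rw [hE, hF] at this
    exact (Nat.pow_right_injective k3 this).symm
  have hN : ∀ a : E, Algebra.norm F a = 1 ↔ a ^ (q + 1) = 1 := by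
    intro a
    rw [← (algebraMap F E).injective.eq_iff, FiniteField.algebraMap_norm_eq_pow, map_one, hE, hF]
    have : (q ^ 2 - 1) / (q - 1) = q + 1 := by
      refine Nat.div_eq_of_eq_mul_left (by omega) ?_
      obtain ⟨r, hr⟩ : ∃ r, q = r + 1 := ⟨q - 1, by omega⟩
      rw [hr, Nat.add_sub_cancel]
      exact Nat.sub_eq_of_eq_add (by ring)
    rw [this]
  have cpow : ∀ a ∈ A, ∀ n : ℕ, ∀ x, a ^ n • φ x = φ (c a ^ n * x) := by
    intro a ha n
    induction n with
    | zero => simp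
    | succ n ih => intro x; rw [pow_succ, mul_smul, hc a ha, ih, pow_succ, mul_assoc]
  have cN : ∀ a ∈ A, c a ^ (q + 1) = 1 := by
    intro a ha
    have e1 : a ^ (q + 1) = 1 := by
      rw [← k2]; exact congrArg Subtype.val (pow_card_eq_one' (G := A) (x := ⟨a, ha⟩))
    have := cpow a ha (q + 1) 1
    rw [e1, one_smul, mul_one] at this
    exact (φ.injective this).symm
  have csurj : ∀ b : E, b ^ (q + 1) = 1 → ∃ a ∈ A, c a = b := by
    intro b hb
    have := Fintype.ofFinite H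
    have hsub : (Finset.univ.filter (· ∈ A)).image c ⊆ (Polynomial.nthRoots (q + 1) (1 : E)).toFinset := by
      intro y hy
      obtain ⟨a, ha, rfl⟩ := Finset.mem_image.mp hy
      rw [Multiset.mem_toFinset, Polynomial.mem_nthRoots (by omega)]
      exact cN a (by simpa using ha)
    have hcard : ((Finset.univ.filter (· ∈ A)).image c).card = q + 1 := by
      rw [Finset.card_image_of_injOn, ← Fintype.card_subtype, ← Nat.card_eq_fintype_card, k2]
      intro a ha a' ha' e
      refine D.ext (fun v => ?_)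
      obtain ⟨x, rfl⟩ := φ.surjective v
      rw [hc a (by simpa using ha), hc a' (by simpa using ha'), e]
    have heq := Finset.eq_of_subset_of_card_le hsub (by
      rw [hcard]; exact (Multiset.toFinset_card_le _).trans (Polynomial.card_nthRoots _ _))
    have : b ∈ (Finset.univ.filter (· ∈ A)).image c := by
      rw [heq, Multiset.mem_toFinset, Polynomial.mem_nthRoots (by omega)]; exact hb
    obtain ⟨a, ha, e⟩ := Finset.mem_image.mp this
    exact ⟨a, by simpa using ha, e⟩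
  let θ' : E ≃ₐ[F] E := { θ with commutes' := fun x => x.2 }
  have hθ' : ∀ x, θ' x = θ x := fun x => rfl
  have θ1 : θ' ≠ 1 := fun e => L.rs.1 (D.faith s (fun v => by
    obtain ⟨x, rfl⟩ := φ.surjective v
    rw [hs, ← hθ', e]; rfl))
  have hG : ∀ σ : E ≃ₐ[F] E, σ = 1 ∨ σ = θ' := by
    intro σ
    have h3 : Nat.card (E ≃ₐ[F] E) = 2 := by rw [IsGalois.card_aut_eq_finrank, hfin]
    obtain ⟨y, -, hy⟩ := (Nat.card_eq_two_iff' (1 : E ≃ₐ[F] E)).mp h3
    by_cases e : σ = 1
    · exact Or.inl e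
    · exact Or.inr ((hy σ e).trans (hy θ' θ1).symm)
  refine ⟨F, E, inferInstance, Fintype.ofFinite F, inferInstance, Fintype.ofFinite E, inferInstance,
    φ, hfin, fun g => ?_, fun b σ hb => ?_⟩
  · by_cases hg : D.R g
    · have ha : g * s ∈ A := L.not_R_mul hC hg L.rs
      refine ⟨c (g * s), θ', (hN _).mpr (cN _ ha), fun x => ?_⟩
      rw [← hc _ ha, hθ', ← hs, ← mul_smul, mul_assoc, L.rs.sq, mul_one]
    · exact ⟨c g, 1, (hN _).mpr (cN _ hg), fun x => hc g hg x⟩
  · obtain ⟨a, ha, rfl⟩ := csurj b ((hN b).mp hb)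
    rcases hG σ with rfl | rfl
    · exact ⟨a, fun x => hc a ha x⟩
    · exact ⟨a * s, fun x => by rw [mul_smul, hs, hc a ha, hθ']⟩

end BD

theorem affine_binary_aux (k : Type*) {V H : Type*} [Field k] [AddCommGroup V] [Module k V] [Group H]
    [DistribMulAction H V] [SMulCommClass H k V] [Finite k] [Finite V] [Finite H] (bin : LBin H V)
    (faith : ∀ g : H, (∀ v : V, g • v = v) → g = 1)
    (hirr : ∀ X : AddSubgroup V, (∀ g : H, ∀ x ∈ X, g • x ∈ X) → X = ⊥ ∨ X = ⊤)
    (h1 : ¬ ∀ g : H, g = 1) : (∀ g : H, g = 1 ∨ ∀ v : V, g • v = -v) ∨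
    ∃ (F E : Type) (_ : Field F) (_ : Fintype F) (_ : Field E) (_ : Fintype E) (_ : Algebra F E)
      (φ : E ≃+ V), finrank F E = 2 ∧
      (∀ g : H, ∃ (a : E) (θ : E ≃ₐ[F] E), Algebra.norm F a = 1 ∧ ∀ x, g • φ x = φ (a * θ x)) ∧
      ∀ (a : E) (θ : E ≃ₐ[F] E), Algebra.norm F a = 1 → ∃ g : H, ∀ x, g • φ x = φ (a * θ x) := by
  obtain ⟨r, r1, hr⟩ := Set.exists_min_image {g : H | g ≠ 1} (fun g : H => finrank k
    (LinearMap.range (DistribSMul.toLinearMap k V g - LinearMap.id))) (Set.toFinite _)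
    (not_forall.mp h1)
  let D : BD k V H := ⟨_, bin, faith, hr⟩
  rcases BD.main_dich (D := D) (fun X hX => by
    rcases hirr X.toAddSubgroup hX with e | e
    · exact Or.inl (Submodule.toAddSubgroup_injective e)
    · exact Or.inr (Submodule.toAddSubgroup_injective e)) (r := r) ⟨r1, rfl⟩ with h | ⟨s, t, L, hC⟩
  · exact Or.inl h
  · exact Or.inr (L.struct hC hirr)

theorem affine_binary {V H : Type*} [AddCommGroup V] [Group H] [DistribMulAction H V] [Finite V]
    [Nontrivial V] [Finite H] (bin : LBin H V) (faith : ∀ g : H, (∀ v : V, g • v = v) → g = 1)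
    (hirr : ∀ X : AddSubgroup V, (∀ g : H, ∀ x ∈ X, g • x ∈ X) → X = ⊥ ∨ X = ⊤) :
    ((Nat.card V).Prime ∧ Nat.card H ≤ 2) ∨
    ∃ (F E : Type) (_ : Field F) (_ : Fintype F) (_ : Field E) (_ : Fintype E) (_ : Algebra F E)
      (φ : E ≃+ V), finrank F E = 2 ∧
      (∀ g : H, ∃ (a : E) (θ : E ≃ₐ[F] E), Algebra.norm F a = 1 ∧ ∀ x, g • φ x = φ (a * θ x)) ∧
      ∀ (a : E) (θ : E ≃ₐ[F] E), Algebra.norm F a = 1 → ∃ g : H, ∀ x, g • φ x = φ (a * θ x) := by
  have small : (∀ g : H, g = 1 ∨ ∀ v : V, g • v = -v) → (Nat.card V).Prime ∧ Nat.card H ≤ 2 := by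
    intro h
    have : IsSimpleAddGroup V := ⟨fun X _ => hirr X (fun g x hx => by
      rcases h g with rfl | e
      · rwa [one_smul]
      · rw [e]; exact neg_mem hx)⟩
    refine ⟨IsSimpleAddGroup.prime_card, ?_⟩
    classical
    rw [show 2 = Nat.card Prop by simp]
    refine Nat.card_le_card_of_injective (fun g : H => g = 1) (fun a b e => ?_)
    simp only [eq_iff_iff] at e
    by_cases ha : a = 1
    · rw [ha, e.mp ha]
    · have h1 := (h a).resolve_left ha
      have h2 := (h b).resolve_left (fun hb => ha (e.mpr hb))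
      exact (inv_mul_eq_one.mp (faith (a⁻¹ * b) (fun v => by
        rw [mul_smul, h2, ← h1, inv_smul_smul])))
  by_cases h1 : ∀ g : H, g = 1
  · exact Or.inl (small (fun g => Or.inl (h1 g)))
  obtain ⟨p, hp, hpd⟩ := Nat.exists_prime_and_dvd (n := Nat.card V) Finite.one_lt_card.ne'
  have : Fact p.Prime := ⟨hp⟩
  obtain ⟨x, hx⟩ := exists_prime_addOrderOf_dvd_card' (G := V) p hpd
  have hpV : ∀ v : V, p • v = 0 := by
    have := (hirr (nsmulAddMonoidHom p : V →+ V).ker (fun g x hx => by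
      rw [AddMonoidHom.mem_ker, nsmulAddMonoidHom_apply] at hx ⊢
      rw [smul_comm, hx, smul_zero])).resolve_left (fun e => by
        have : x ∈ (nsmulAddMonoidHom p : V →+ V).ker := by
          rw [AddMonoidHom.mem_ker, nsmulAddMonoidHom_apply, ← hx, addOrderOf_nsmul_eq_zero]
        rw [e, AddSubgroup.mem_bot] at this
        rw [this, addOrderOf_zero] at hx
        exact hp.one_lt.ne hx)
    intro v
    have h2 : v ∈ (nsmulAddMonoidHom p : V →+ V).ker := this ▸ AddSubgroup.mem_top v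
    exact h2
  let _ : Module (ZMod p) V := AddCommGroup.zmodModule hpV
  have : SMulCommClass H (ZMod p) V := ⟨fun g c v =>
    ZMod.map_smul (DistribSMul.toAddMonoidHom V g) c v⟩
  exact (affine_binary_aux (ZMod p) bin faith hirr h1).imp_left small

end Cfsg.Agent.H3
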