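import Mathlib
import Cfsg.Agent.H3.PglMax
import Cfsg.Agent.H3.Binary

/-! Binary actions of `PSL(2, F)`: subgroups of even order. -/

set_option autoImplicit false

namespace Cfsg.Agent.H3

open MulAction Matrix OnePoint
open scoped MatrixGroups
open Matrix.ProjGenLinGroup (mk)
open Cfsg.Agent.H8

variable {F : Type*} [Field F]

/-- A maximal torus, given by its two fixed points. -/
structure Torus (F : Type*) [Field F] (x y : OnePoint (AlgebraicClosure F)) : Prop where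
  ne : x ≠ y
  swap : ∃ s ∈ pairStab F x y, s • x = y
  card : Nat.card (fix2 F x y) = Nat.card F - 1 ∨ Nat.card (fix2 F x y) = Nat.card F + 1
  not_le : (2 : F) ≠ 0 → ¬ fix2 F x y ≤ Lsub F

theorem exists_torus [Finite F] (p : ℕ) [CharP F p] {g : PGL(2, F)} (hg : g ^ p ≠ 1) :
    ∃ x y, Torus F x y ∧ g ∈ fix2 F x y := by
  have h1 : g ≠ 1 := by rintro rfl; exact hg (one_pow p)
  obtain ⟨x, hx⟩ := exists_fixed_of_algClosed (K := AlgebraicClosure F) g
  rcases rat_or_irr h1 hx with ⟨x₀, rfl⟩ | ⟨t, a, b, ht, rfl⟩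
  · rw [← ratPt_smul, ratPt_injective.eq_iff] at hx
    have hu : ¬ IsUnip x₀ g := fun hu => hg (isUnip_pow_char p hu)
    simp only [IsUnip, hx, true_and, not_forall] at hu
    obtain ⟨y, hy, hgy, -⟩ := hu
    refine ⟨ratPt _ x₀, ratPt _ y, ⟨ratPt_injective.ne hy.symm, ?_, ?_, fun h2 => ?_⟩, ?_⟩
    · obtain ⟨s, hs, hsx⟩ := exists_swap_split hy.symm
      exact ⟨s, by rwa [pairStab_ratPt], by rw [← ratPt_smul, hsx]⟩
    · rw [fix2_ratPt, card_fix2_split hy.symm]; exact Or.inl rfl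
    · rw [fix2_ratPt]; exact not_fix2_split_le h2 hy.symm
    · rw [fix2_ratPt]; exact ⟨hx, hgy⟩
  · exact ⟨_, _, ⟨fun e => ht.ne_conj (coe_eq_coe.mp e), exists_swap_irr t a,
      Or.inr (card_fix2_irr ht), fun h2 => not_fix2_irr_le h2 ht⟩, hx, ht.smul_conj hx⟩

theorem conj_in_L [Finite F] (p : ℕ) [CharP F p] {g : PGL(2, F)} (hg : (2 : F) ≠ 0 → g ^ p ≠ 1)
    (k : PGL(2, F)) : ∃ k' ∈ Lsub F, k' * g * k'⁻¹ = k * g * k⁻¹ := by
  by_cases hk : k ∈ Lsub F
  · exact ⟨k, hk, rfl⟩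
  have h2 : (2 : F) ≠ 0 := fun h2 => hk (Lsub_eq_top h2 ▸ Subgroup.mem_top k)
  obtain ⟨x, y, hT, hg'⟩ := exists_torus p (hg h2)
  obtain ⟨c, hc, hcL⟩ := SetLike.not_le_iff_exists.mp (hT.not_le h2)
  refine ⟨k * c, mul_mem_Lsub_of_not hk hcL, ?_⟩
  rw [mul_assoc k, fix2_comm hT.ne hc hg']
  group

/-- Companion matrix. -/
def comp (τ δ : F) (hδ : δ ≠ 0) : GL (Fin 2) F := mat 0 (-δ) 1 τ (by simpa using hδ)

theorem exists_conj_comp {A : GL (Fin 2) F} (hA : mk A ≠ 1) :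
    ∃ k : PGL(2, F), k * mk (comp (tr A) (dt A) (dt_ne A)) * k⁻¹ = mk A := by
  have key : ∀ (a c : F) (h : a * (A 1 0 * a + A 1 1 * c) - (A 0 0 * a + A 0 1 * c) * c ≠ 0),
      ∃ k : PGL(2, F), k * mk (comp (tr A) (dt A) (dt_ne A)) * k⁻¹ = mk A := by
    intro a c h
    refine ⟨mk (mat a (A 0 0 * a + A 0 1 * c) c (A 1 0 * a + A 1 1 * c) h), ?_⟩
    rw [mul_inv_eq_iff_eq_mul, ← map_mul, ← map_mul]
    congr 1
    ext i j
    fin_cases i <;> fin_cases j <;> simp [Matrix.mul_apply, Fin.sum_univ_two, comp, tr, dt] <;> ring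
  by_cases h1 : A 1 0 = 0
  · by_cases h2 : A 0 1 = 0
    · refine key 1 1 (fun e => hA (mk_eq_one_iff.mpr ⟨h2, h1, ?_⟩))
      rw [h1, h2] at e; linear_combination -e
    · exact key 0 1 (by simpa using h2)
  · exact key 1 0 (by simpa using h1)

theorem exists_conj_of_tr {A B : GL (Fin 2) F} (hA : mk A ≠ 1) (hB : mk B ≠ 1) (h1 : tr A = tr B)
    (h2 : dt A = dt B) : ∃ k : PGL(2, F), k * mk A * k⁻¹ = mk B := by
  obtain ⟨k, hk⟩ := exists_conj_comp hA
  obtain ⟨l, hl⟩ := exists_conj_comp hB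
  refine ⟨l * k⁻¹, ?_⟩
  rw [← hk, ← hl]
  simp only [h1, h2]
  group

theorem pow_char_ne_of_invol (p : ℕ) [CharP F p] [Finite F] (h2 : (2 : F) ≠ 0) {G : Type*} [Group G]
    {s : G} (h1 : s ≠ 1) (hs : s * s = 1) : s ^ p ≠ 1 := by
  obtain ⟨m, hm⟩ : Odd p := (CharP.char_is_prime F p).odd_of_ne_two (by
    rintro rfl
    exact h2 (CharP.cast_eq_zero F 2))
  rwa [hm, pow_succ, pow_mul, pow_two, hs, one_pow, one_mul]

theorem invol_conj_L [Finite F] : ∀ s ∈ Lsub F, ∀ t ∈ Lsub F, s ≠ 1 → t ≠ 1 → s * s = 1 →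
    t * t = 1 → ∃ g ∈ Lsub F, g * s * g⁻¹ = t := by
  intro s hs t ht s1 t1 s2 t2
  obtain ⟨A, rfl, dA⟩ := exists_lift hs
  obtain ⟨B, rfl, dB⟩ := exists_lift ht
  obtain ⟨k, hk⟩ := exists_conj_of_tr s1 t1 (by rw [tr_eq_zero s2 s1, tr_eq_zero t2 t1])
    (by rw [dA, dB])
  obtain ⟨p, hp⟩ := CharP.exists F
  rw [← hk]
  exact conj_in_L p (fun h2 => pow_char_ne_of_invol p h2 s1 s2) k

/-- Closure under commuting involutions. -/
def InvClosed (H : Subgroup PGL(2, F)) : Prop :=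
  ∀ s ∈ Lsub F, ∀ t ∈ H, t ≠ 1 → s * s = 1 → t * t = 1 → s * t = t * s → s ∈ H

theorem StarIn.invClosed [Finite F] {H : Subgroup PGL(2, F)} (h : StarIn (Lsub F) H)
    (hH : H ≤ Lsub F) : InvClosed H := fun _ hs _ ht t1 s2 t2 e =>
  h.invol hH invol_conj_L hs ht t1 s2 t2 e

theorem fix_of_fix2 {K : Type*} [Field K] [Algebra F K] {x y z : OnePoint K} (hxy : x ≠ y)
    {g : PGL(2, F)} (hg : g ∈ fix2 F x y) (h1 : g ≠ 1) (hz : g • z = z) : z = x ∨ z = y := by
  by_contra hcon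
  push Not at hcon
  exact h1 (eq_one_of_fix_three hxy hcon.1.symm hcon.2.symm hg.1 hg.2 hz)

theorem InvClosed.exists_cent [Finite F] (h2 : (2 : F) ≠ 0) (h7 : 7 ≤ Nat.card F)
    {H : Subgroup PGL(2, F)} (h : InvClosed H) (hH : H ≤ Lsub F) {t : PGL(2, F)} (ht : t ∈ H)
    (t1 : t ≠ 1) (t2 : t * t = 1) :
    (∃ c ∈ H, c * t = t * c ∧ 4 ≤ orderOf c ∧ Even (orderOf c) ∧ Nat.card F ≤ 2 * orderOf c + 1 ∧
      2 * orderOf c ∣ Nat.card H) ∧
    ∃ x y : OnePoint (AlgebraicClosure F), x ≠ y ∧ t ∈ fix2 F x y ∧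
      ∃ s ∈ H, s • x = y ∧ s • y = x := by
  obtain ⟨p, hp⟩ := CharP.exists F
  obtain ⟨x, y, hT, htx⟩ := exists_torus p (pow_char_ne_of_invol p h2 t1 t2)
  have hsw : ∀ s ∈ pairStab F x y ⊓ Lsub F, s ∉ fix2 F x y → s ∈ H := by
    intro s hs hs'
    obtain ⟨e1, e2⟩ := hs.1.resolve_left hs'
    have s2 := mul_self_of_swap hT.ne e1 e2
    have st2 := mul_self_of_swap (g := s * t) hT.ne (by rw [mul_smul, htx.1, e1])
      (by rw [mul_smul, htx.2, e2])
    refine h s hs.2 t ht t1 s2 t2 ?_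
    rw [← inv_eq_of_mul_eq_one_right st2, _root_.mul_inv_rev, inv_eq_of_mul_eq_one_right s2,
      inv_eq_of_mul_eq_one_right t2]
  obtain ⟨s, hs, hsx⟩ := exists_swap_Lsub hT.swap (hT.not_le h2)
  have hs' : s ∉ fix2 F x y := fun e => hT.ne (e.1.symm.trans hsx)
  have hD : pairStab F x y ⊓ Lsub F ≤ H := by
    intro c hc
    by_cases hc' : c ∈ fix2 F x y
    · have := H.mul_mem (hsw (c * s) (Subgroup.mul_mem _ hc hs) (fun e => hs' (by
        simpa using (fix2 F x y).mul_mem ((fix2 F x y).inv_mem hc') e))) (H.inv_mem (hsw s hs hs'))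
      simpa using this
    · exact hsw c hc hc'
  refine ⟨?_, x, y, hT.ne, htx, s, hD hs, hs.1.resolve_left hs'⟩
  obtain ⟨c, hc, hco⟩ := exists_gen_fix2 (F := F) hT.ne
  obtain ⟨m, hm1, hm2, -, hm3⟩ := dihedral_pairStab_Lsub hT.ne hT.swap (hT.not_le h2) rfl
  have hev : Even m := by
    rw [← hm2]
    have h3 : orderOf t = 2 := orderOf_eq_prime (by rwa [pow_two]) t1
    have h4 := Subgroup.orderOf_dvd_natCard (fix2 F x y ⊓ Lsub F) (x := t) ⟨htx, hH ht⟩
    rw [h3] at h4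
    exact even_iff_two_dvd.mpr h4
  rw [hm2] at hco
  refine ⟨c, hD ⟨fix2_le_pairStab _ _ hc.1, hc.2⟩, fix2_comm hT.ne hc.1 htx, ?_, hco ▸ hev, ?_, ?_⟩
  · obtain ⟨r, hr⟩ := hev
    rcases hT.card with e | e <;> omega
  · rcases hT.card with e | e <;> omega
  · rw [hco, hm1, ← hm3]; exact Subgroup.card_dvd_of_le hD

theorem S4_cent_aux : ∀ g : Equiv.Perm (Fin 4), g * Equiv.swap 0 1 = Equiv.swap 0 1 * g →
    g * g = 1 := by decide

theorem InvClosed.eq_L [Finite F] (h2 : (2 : F) ≠ 0) (h7 : 7 ≤ Nat.card F)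
    {H : Subgroup PGL(2, F)} (h : InvClosed H) (hH : H ≤ Lsub F) {t : PGL(2, F)} (ht : t ∈ H)
    (t1 : t ≠ 1) (t2 : t * t = 1) : H = Lsub F := by
  obtain ⟨p, hp⟩ := CharP.exists F
  have : Fact p.Prime := ⟨CharP.char_is_prime F p⟩
  obtain ⟨⟨c, hc, -, c4, cev, cq, cd⟩, x, y, hxy, htx, s, hs, s1, s2⟩ :=
    h.exists_cent h2 h7 hH ht t1 t2
  have hng : NotGeo H := by
    refine ⟨fun z hz => ?_, fun x' y' hxy' hle => ?_⟩
    · have h3 : ∀ g ∈ H, g • ratPt (AlgebraicClosure F) z = ratPt _ z := fun g hg => by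
        rw [← ratPt_smul, show g • z = z from hz hg]
      have h4 := h3 s hs
      rcases fix_of_fix2 hxy htx t1 (h3 t ht) with e | e <;> rw [e] at h4
      · exact hxy (h4.symm.trans s1)
      · exact hxy (s2.symm.trans h4)
    · obtain ⟨u, hu, hu'⟩ : ∃ u ∈ H, u ∉ fix2 F x' y' := by
        by_contra hcon
        push Not at hcon
        have h4 := (hcon s hs).1
        rcases fix_of_fix2 hxy htx t1 (hcon t ht).1 with e | e <;> rw [e] at h4
        · exact hxy (h4.symm.trans s1)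
        · exact hxy (s2.symm.trans h4)
      obtain ⟨u1, u2⟩ := (hle hu).resolve_left hu'
      have uu := mul_self_of_swap hxy' u1 u2
      obtain ⟨⟨d, hd, du, d4, -⟩, -⟩ := h.exists_cent h2 h7 hH hu
        (fun e => hu' (e ▸ one_mem _)) uu
      refine sq_ne_one_of_orderOf (c := d) (by omega) ?_
      rcases hle hd with ⟨d1, d2⟩ | ⟨d1, d2⟩
      · have := mul_self_of_swap (g := u * d) hxy' (by rw [mul_smul, d1, u1])
          (by rw [mul_smul, d2, u2])
        rwa [mul_assoc, ← mul_assoc d, du, mul_assoc, ← mul_assoc, uu, one_mul] at this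
      · exact mul_self_of_swap hxy' d1 d2
  have hS4 : ¬ Nonempty (H ≃* Equiv.Perm (Fin 4)) := by
    rintro ⟨e⟩
    obtain ⟨⟨d, hd, du, d4, -⟩, -⟩ := h.exists_cent h2 h7 hH (e.symm (Equiv.swap 0 1)).2
      (by rw [ne_eq, OneMemClass.coe_eq_one, map_eq_one_iff _ e.symm.injective]; decide)
      (by rw [← Subgroup.coe_mul, ← map_mul]; simp)
    refine sq_ne_one_of_orderOf (c := d) (by omega) ?_
    have h3 : e ⟨d, hd⟩ * Equiv.swap 0 1 = Equiv.swap 0 1 * e ⟨d, hd⟩ := by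
      apply e.symm.injective
      rw [map_mul, map_mul, MulEquiv.symm_apply_apply]
      exact Subtype.ext du
    have h4 := S4_cent_aux _ h3
    rw [← map_mul, map_eq_one_iff _ e.injective] at h4
    exact congrArg Subtype.val h4
  rcases hng.dickson p with hE | ⟨k, g, hk, h3⟩
  · exfalso
    have h5 := hE.1 c hc
    have h4 : orderOf c = 4 := by obtain ⟨r, hr⟩ := cev; omega
    rw [h4] at cd
    rcases hE.2.2 with ⟨e, -⟩ | ⟨-, e, -⟩ | ⟨e, -⟩
    · rw [e] at cd; norm_num at cd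
    · exact hS4 e
    · rw [e] at cd; norm_num at cd
  by_cases hk' : k = ⊤
  · subst hk'
    exact eq_Lsub_of_top hH h3
  exfalso
  have q2 := sq_le_of_ne_top hk'
  have q3 := orderOf_le_of_mem_PG (le_cj_PG h3 hc)
  have q4 : Nat.card k = 3 := by
    by_contra hQ
    have : 4 ≤ Nat.card k := by omega
    nlinarith
  have h4 : orderOf c = 4 := by omega
  rw [h4] at cd
  rcases h3 with h3 | h3
  · have := card_PS h2 k
    rw [h3, card_cj, show Nat.card (PS k) = 12 by rw [q4] at this; omega] at cd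
    norm_num at cd
  · apply hS4
    rw [h3]
    obtain ⟨e⟩ : Nonempty (PGL(2, k) ≃* Equiv.Perm (Fin 4)) := by
      refine iso_S4 (by rw [card_PGL, q4]; norm_num) (fun a => ?_)
      have hp3 : p = 3 := by
        have := Fintype.ofFinite k
        obtain ⟨n, hpp, hn⟩ := FiniteField.card k p
        rw [← Nat.card_eq_fintype_card, q4] at hn
        exact (Nat.prime_dvd_prime_iff_eq hpp Nat.prime_three).mp (hn ▸ dvd_pow_self p n.ne_zero)
      rcases pow_eq_one_cases p a with e | e | e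
      · rw [hp3] at e; simp [e]
      · rw [q4] at e; simp [e]
      · rw [q4] at e; simp [e]
    exact ⟨(cjEquiv g (PG k)).symm.trans ((pgEquiv k).symm.trans e)⟩

/-- The unipotent subgroup at a point. -/
def Usub (x : OnePoint F) : Subgroup PGL(2, F) where
  carrier := {g | IsUnip x g}
  mul_mem' := isUnip_mul
  one_mem' := isUnip_one x
  inv_mem' := IsUnip.inv

theorem mem_Usub {x : OnePoint F} {g : PGL(2, F)} : g ∈ Usub x ↔ IsUnip x g := Iff.rfl

theorem cj_Usub (k : PGL(2, F)) (x : OnePoint F) : cj k (Usub x) = Usub (k • x) := by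
  ext g
  rw [mem_cj, mem_Usub, mem_Usub, ← isUnip_conj_iff k]
  simp [mul_assoc]

theorem exists_unip_of_pow_char [Finite F] (p : ℕ) [CharP F p] {g : PGL(2, F)} (hg : g ^ p = 1) :
    ∃ x : OnePoint F, IsUnip x g := by
  have : Fact p.Prime := ⟨CharP.char_is_prime F p⟩
  by_cases h1 : g = 1
  · exact ⟨∞, h1 ▸ isUnip_one _⟩
  obtain ⟨x, hx⟩ := exists_fixed_of_algClosed (K := AlgebraicClosure F) g
  rcases rat_or_irr h1 hx with ⟨x₀, rfl⟩ | ⟨t, a, b, ht, rfl⟩
  · rw [← ratPt_smul, ratPt_injective.eq_iff] at hx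
    exact ⟨x₀, isUnip_of_pow_char p hx hg⟩
  · exfalso
    have h2 : orderOf g ∣ Nat.card F + 1 := by
      rw [← card_fix2_irr ht]
      exact Subgroup.orderOf_dvd_natCard _ ⟨hx, ht.smul_conj hx⟩
    rw [orderOf_eq_prime hg h1] at h2
    have := Fintype.ofFinite F
    obtain ⟨n, hpp, hn⟩ := FiniteField.card F p
    rw [Nat.card_eq_fintype_card, hn] at h2
    exact hpp.one_lt.ne' (Nat.dvd_one.mp ((Nat.dvd_add_right (dvd_pow_self p n.ne_zero)).mp h2))

theorem transl_ne_one {s : F} (hs : s ≠ 0) : transl s ≠ 1 := by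
  rw [transl, ne_eq, mk_eq_one_iff]; simp [hs]

theorem exists_mem_Usub (x : OnePoint F) : ∃ u ∈ Usub x, u ≠ 1 := by
  obtain ⟨k, hk⟩ := exists_smul_eq_infty x
  refine ⟨k⁻¹ * transl 1 * k⁻¹⁻¹, ?_, by
    rw [ne_eq, conj_eq_one_iff]; exact transl_ne_one (one_ne_zero (α := F))⟩
  have := (isUnip_transl (1 : F)).conj k⁻¹
  rwa [← hk, inv_smul_smul] at this

theorem Usub_eq_of_le {x y : OnePoint F} (h : Usub x ≤ Usub y) : x = y := by
  obtain ⟨u, hu, u1⟩ := exists_mem_Usub x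
  by_contra hne
  exact u1 (hu.2 y (Ne.symm hne) (h hu).1)

theorem even_infty [Finite F] (h2 : (2 : F) = 0) {H : Subgroup PGL(2, F)} (h : StarIn (Lsub F) H)
    (hH : H ≠ ⊤) {t : PGL(2, F)} (ht : t ∈ H) (t1 : t ≠ 1) (tu : IsUnip (∞ : OnePoint F) t) :
    H = Usub ∞ := by
  classical
  have : CharP F 2 := CharTwo.of_one_ne_zero_of_two_eq_zero one_ne_zero h2
  have hL := Lsub_eq_top h2
  have hsq : ∀ {x : OnePoint F} {g : PGL(2, F)}, IsUnip x g → g * g = 1 := fun hg => by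
    rw [← pow_two]; exact isUnip_pow_char 2 hg
  have hU : Usub ∞ ≤ H := by
    intro u hu
    refine h.invClosed (hL ▸ le_top) u (hL ▸ trivial) t ht t1 (hsq hu) (hsq tu) ?_
    rw [← inv_eq_of_mul_eq_one_right (hsq (isUnip_mul hu tu)), _root_.mul_inv_rev,
      inv_eq_of_mul_eq_one_right (hsq hu), inv_eq_of_mul_eq_one_right (hsq tu)]
  have hB : ∀ g ∈ H, g • (∞ : OnePoint F) = ∞ := by
    intro a ha
    by_contra hne
    obtain ⟨z, hz⟩ := OnePoint.ne_infty_iff_exists.mp hne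
    have h3 : ∀ y : OnePoint F, Usub y ≤ H := by
      intro y
      cases y with
      | infty => exact hU
      | coe w =>
        have h4 : transl (w - z) * a ∈ H := H.mul_mem (hU (isUnip_transl _)) ha
        have h5 : (transl (w - z) * a) • (∞ : OnePoint F) = w := by
          rw [mul_smul, ← hz, transl_smul, add_sub_cancel]
        rw [← h5, ← cj_Usub, ← cj_eq_self_of_mem h4]
        exact cj_mono _ hU
    apply hH
    rw [eq_top_iff, ← hL, ← PS_top]
    refine PS_le_of_transl (fun s _ => hU (isUnip_transl s)) (fun s _ => ?_)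
    obtain ⟨y, hy⟩ := exists_unip_of_pow_char 2 (g := transl' s) (by
      rw [transl']
      exact pow_eq_one_of_useq (n := 1) (by simp [useq, tr]; linear_combination h2))
    exact h3 y hy
  refine le_antisymm (fun g hg => ?_) hU
  by_contra hu
  have hg1 := hB g hg
  have hu' := hu
  simp only [mem_Usub, IsUnip, hg1, true_and, not_forall] at hu'
  obtain ⟨y, hy, hgy, g1⟩ := hu'
  have g2 : g * g ≠ 1 := fun e => hu (isUnip_of_pow_char 2 hg1 (by rwa [pow_two]))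
  obtain ⟨s, hs, hsx⟩ := exists_swap_split hy.symm
  have hsy : s • y = ∞ := (hs.resolve_left (fun e => hy (hsx.symm.trans e.1))).2
  have key : ∀ c ∈ fix2 F ∞ y, ∃ a : PGL(2, F), s * c ∈ cj a H ∧ (s * c) • a • (∞ : OnePoint F) = a • ∞ := by
    intro c hc
    have e := mul_self_of_swap (g := s * c) hy.symm (by rw [mul_smul, hc.1, hsx])
      (by rw [mul_smul, hc.2, hsy])
    obtain ⟨z, hz⟩ := exists_unip_of_pow_char 2 (g := s * c) (by rwa [pow_two])
    obtain ⟨k, hk⟩ := exists_smul_eq_infty z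
    have hk' : k⁻¹ • (∞ : OnePoint F) = z := by rw [← hk, inv_smul_smul]
    refine ⟨k⁻¹, cj_mono _ hU ?_, by rw [hk']; exact hz.1⟩
    rw [cj_Usub, hk']; exact hz
  have hgf : g ∈ fix2 F ∞ y := ⟨hg1, hgy⟩
  obtain ⟨a, a1, a2⟩ := key 1 (one_mem _)
  obtain ⟨b, b1, b2⟩ := key g hgf
  obtain ⟨c, c1, c2⟩ := key (g * g) (mul_mem hgf hgf)
  rw [mul_one] at a1 a2
  have hne : ∀ (d : PGL(2, F)) (z : OnePoint F), d ∈ fix2 F ∞ y → d ≠ 1 → ∀ e ∈ fix2 F ∞ y,
      (s * e) • z = z → (s * (e * d)) • z ≠ z := by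
    intro d z hd d1 e he h3 h4
    have h5 : d • z = z := by
      apply MulAction.injective (s * e)
      simp only
      rw [h3, ← mul_smul, mul_assoc, h4]
    rcases fix_of_fix2 hy.symm hd d1 h5 with rfl | rfl
    · rw [mul_smul, he.1, hsx] at h3; exact hy h3
    · rw [mul_smul, he.2, hsy] at h3; exact hy h3.symm
  obtain ⟨r, hr, hr'⟩ := h {a, b, c} 1 s (by simp [hL]) (one_mem _) (by simp [hL]) (by
    intro x hx
    simp only [Finset.mem_insert, Finset.mem_singleton] at hx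
    rw [cj_one]
    rcases hx with rfl | rfl | rfl
    · exact ⟨s, a1, by simp⟩
    · exact ⟨_, b1, by simpa using hg⟩
    · exact ⟨_, c1, by simpa using H.inv_mem (H.mul_mem hg hg)⟩)
  have hfix : ∀ x ∈ ({a, b, c} : Finset PGL(2, F)), r • x • (∞ : OnePoint F) = x • ∞ := by
    intro x hx
    have := hB _ (mem_cj.mp (hr x hx))
    rwa [mul_smul, mul_smul, inv_smul_eq_iff] at this
  have r1 : r = 1 := by
    refine eq_one_of_fix_three (K := F) ?_ ?_ ?_ (hfix a (by simp)) (hfix b (by simp)) (hfix c (by simp))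
    · intro e
      exact hne g _ hgf g1 1 (one_mem _) (by rwa [mul_one]) (by rw [one_mul, e, b2])
    · intro e
      exact hne (g * g) _ (mul_mem hgf hgf) g2 1 (one_mem _) (by rwa [mul_one])
        (by rw [one_mul, e, c2])
    · intro e
      exact hne g _ hgf g1 g hgf b2 (by rw [e, c2])
  rw [r1, cj_one, inv_one, one_mul] at hr'
  exact hy (hsx.symm.trans (hB s hr'))

theorem even_case [Finite F] (h2 : (2 : F) = 0) {H : Subgroup PGL(2, F)} (h : StarIn (Lsub F) H)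
    (hH : H ≠ ⊤) {t : PGL(2, F)} (ht : t ∈ H) (t1 : t ≠ 1) (t2 : t * t = 1) :
    ∃ x, H = Usub x := by
  have : CharP F 2 := CharTwo.of_one_ne_zero_of_two_eq_zero one_ne_zero h2
  obtain ⟨x, hx⟩ := exists_unip_of_pow_char 2 (g := t) (by rwa [pow_two])
  obtain ⟨k, hk⟩ := exists_smul_eq_infty x
  have := even_infty h2 (h.conj k) (fun e => hH (by rw [← cj_inv_cj k H, e, cj_normal]))
    (t := k * t * k⁻¹) (by simpa [mem_cj, mul_assoc] using ht) (by simpa using t1)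
    (hk ▸ hx.conj k)
  exact ⟨k⁻¹ • ∞, by rw [← cj_Usub, ← this, cj_inv_cj]⟩

end Cfsg.Agent.H3
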