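import Mathlib
import Cfsg.Agent.H3.BinPsl1

/-! Binary actions of `PSL(2, F)`: subgroups of odd order, and sufficiency. -/

set_option autoImplicit false

namespace Cfsg.Agent.H3

open MulAction Matrix OnePoint
open scoped MatrixGroups
open Matrix.ProjGenLinGroup (mk)
open Cfsg.Agent.H8

variable {F : Type*} [Field F]

/-- No involutions. -/
def NoInv {G : Type*} [Group G] (H : Subgroup G) : Prop := ∀ g ∈ H, g * g = 1 → g = 1

theorem NoInv.conj {G : Type*} [Group G] {H : Subgroup G} (h : NoInv H) (k : G) : NoInv (cj k H) := by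
  intro g hg e
  have := h _ (mem_cj.mp hg) (by
    rw [show k⁻¹ * g * k * (k⁻¹ * g * k) = k⁻¹ * (g * g) * k by group, e]; group)
  have h2 : g = k * (k⁻¹ * g * k) * k⁻¹ := by group
  rw [h2, this]; group

theorem odd_unip_infty [Finite F] {H : Subgroup PGL(2, F)} (h : StarIn (Lsub F) H) (hL : H ≤ Lsub F)
    (hn : NoInv H) (hB : ∀ g ∈ H, g • (∞ : OnePoint F) = ∞) {u : PGL(2, F)} (hu : u ∈ H)
    (uu : IsUnip (∞ : OnePoint F) u) : u = 1 := by
  by_contra u1
  have h2 : (2 : F) ≠ 0 := fun h2 => by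
    have : CharP F 2 := CharTwo.of_one_ne_zero_of_two_eq_zero one_ne_zero h2
    exact u1 (hn u hu (by rw [← pow_two]; exact isUnip_pow_char 2 uu))
  obtain ⟨a, rfl⟩ := exists_transl_of_isUnip uu
  have ha : a ≠ 0 := by
    rintro rfl
    exact u1 (by rw [transl, mk_eq_one_iff]; simp)
  let S : PGL(2, F) := mk (mat 0 (-(a / 2)) (2 / a) 0 (by field_simp; simp))
  have hS : S ∈ Lsub F := mk_mem_Lsub_of_dt (by simp [dt]; field_simp)
  have hT : transl' (2 / a) ∈ Lsub F := PS_le_Lsub ⊤ (transl'_mem_PS trivial)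
  have e1 : transl' (-4 / a) * S = S * transl a := by
    simp only [S, transl, transl', ← map_mul]
    congr 1
    ext i j
    fin_cases i <;> fin_cases j <;> simp [Matrix.mul_apply, Fin.sum_univ_two]
    field_simp; ring
  have e2 : transl a * transl' (-4 / a) * transl' (2 / a) * transl a = transl' (2 / a) := by
    simp only [transl, transl', ← map_mul]
    refine mk_eq_of_smul (-1) (by simp) (fun i j => ?_)
    fin_cases i <;> fin_cases j <;> simp [Matrix.mul_apply, Fin.sum_univ_two] <;> field_simp <;> ring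
  obtain ⟨g, g1, g2, g3⟩ := h.tri hL (u := transl a) (v := transl' (-4 / a)) hT (one_mem _) hS
    (by rwa [cj_one]) (by rw [mem_cj, mul_assoc, e1]; simpa using hu) (by
      rw [mem_cj, mul_assoc, eq_mul_inv_of_mul_eq e2]
      simpa using hu)
  rw [cj_one] at g2
  have f1 := hB _ (mem_cj.mp g1)
  have f2 := hB _ g2
  have f3 := hB _ (mem_cj.mp g3)
  have p1 : transl' (2 / a) • (∞ : OnePoint F) = (a / 2 : F) := by
    rw [transl', smul_infty_eq_coe]; simp; field_simp
  have p2 : S • (∞ : OnePoint F) = (0 : F) := by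
    rw [smul_infty_eq_coe]; simp
  rw [mul_smul, mul_smul, inv_smul_eq_iff, p1] at f1
  rw [mul_smul, mul_smul, mul_smul, inv_smul_eq_iff, p2, inv_smul_eq_iff, transl_smul, zero_add] at f3
  induction g using ProjGenLinGroup.induction_on with | mk B =>
  have f4 := f3.symm
  rw [smul_infty_eq_infty] at f2
  rw [smul_coe_eq_coe] at f1 f4
  simp only [Algebra.algebraMap_self, RingHom.id_apply, f2] at f1 f4
  have h3 : mk B * mk B = 1 := by
    rw [← pow_two]
    refine pow_eq_one_of_useq (n := 1) ?_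
    simp only [useq, tr]
    have : a * (B 0 0 + B 1 1) = 0 := by
      field_simp at f1
      exact mul_left_cancel₀ h2 (by linear_combination f1 - 4 * f4)
    simpa [ha] using this
  rw [hn _ g2 h3, one_smul, coe_eq_coe] at f3
  exact ha f3

theorem exists_dg {g : PGL(2, F)} (hg : g ∈ fix2 F (∞ : OnePoint F) (0 : F)) :
    ∃ (a : F) (ha : a ≠ 0), g = dg a ha := by
  induction g using ProjGenLinGroup.induction_on with | mk B =>
  obtain ⟨f1, f2⟩ := mem_fix2.mp hg
  rw [smul_infty_eq_infty] at f1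
  rw [smul_coe_eq_coe] at f2
  simp only [Algebra.algebraMap_self, RingHom.id_apply, mul_zero, zero_add, zero_mul] at f2
  have hd := dt_ne B
  simp only [dt, f1, mul_zero, sub_zero, ne_eq, mul_eq_zero, not_or] at hd
  refine ⟨B 0 0 / B 1 1, div_ne_zero hd.1 hd.2, (mk_eq_of_smul (B 1 1) hd.2 (fun i j => ?_)).symm⟩
  fin_cases i <;> fin_cases j <;> simp [f1, f2]
  field_simp [hd.2]

theorem dg_mul_transl (a : F) (ha : a ≠ 0) (s : F) :
    dg a ha * transl s = transl (a * s) * dg a ha := by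
  simp only [dg, transl, ← map_mul]
  congr 1
  ext i j
  fin_cases i <;> fin_cases j <;> simp [Matrix.mul_apply, Fin.sum_univ_two]

theorem transl_zero : transl (0 : F) = 1 := by rw [transl, mk_eq_one_iff]; simp

theorem transl_inv (s : F) : (transl s)⁻¹ = transl (-s) :=
  inv_eq_of_mul_eq_one_right (by rw [transl_mul, add_neg_cancel, transl_zero])

theorem odd_split_std [Finite F] {H : Subgroup PGL(2, F)} (h : StarIn (Lsub F) H) (hL : H ≤ Lsub F)
    (hn : NoInv H) (hB : H ≤ fix2 F (∞ : OnePoint F) (0 : F)) {u : PGL(2, F)} (hu : u ∈ H) :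
    u = 1 := by
  by_contra u1
  obtain ⟨a, ha, rfl⟩ := exists_dg (hB hu)
  have a1 : 1 + a ≠ 0 := by
    intro e
    refine u1 (hn _ hu ?_)
    rw [← pow_two, dg]
    exact pow_eq_one_of_useq (n := 1) (by simp [useq, tr]; linear_combination e)
  have hT : ∀ s : F, transl s ∈ Lsub F := fun s => PS_le_Lsub ⊤ (transl_mem_PS trivial)
  obtain ⟨g, g1, g2, g3⟩ := h.tri hL (u := dg a ha) (v := transl 1 * dg a ha * (transl 1)⁻¹)
    (hT (a / (1 + a))) (one_mem _) (hT 1) (by rwa [cj_one]) (by simpa [mem_cj, mul_assoc] using hu) (by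
      have : dg a ha * (transl 1 * dg a ha * (transl 1)⁻¹) * transl (a / (1 + a)) =
          transl (a / (1 + a)) * (dg a ha * dg a ha) := by
        rw [transl_inv, ← mul_assoc, ← mul_assoc, dg_mul_transl, mul_assoc, transl_mul,
          mul_assoc, dg_mul_transl, ← mul_assoc, mul_assoc _ _ (transl _), dg_mul_transl,
          ← mul_assoc, transl_mul, mul_assoc]
        congr 2
        field_simp; ring
      rw [mem_cj, mul_assoc, this, inv_mul_cancel_left]
      exact H.mul_mem hu hu)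
  rw [cj_one] at g2
  have f1 := (cj_mono _ hB g1)
  have f3 := (cj_mono _ hB g3)
  rw [cj_fix2, transl_smul, zero_add] at f1 f3
  have hg : g = 1 := eq_one_of_fix_three (K := F) (infty_ne_coe _) (infty_ne_coe _)
    (fun e => div_ne_zero ha a1 (coe_eq_coe.mp e).symm) (hB g2).1 (hB g2).2 f1.2
  rw [hg, inv_one, one_mul] at f3
  exact u1 (eq_one_of_fix_std (hB hu).1 (hB hu).2 f3.2)

theorem odd_borel [Finite F] {H : Subgroup PGL(2, F)} (h : StarIn (Lsub F) H) (hL : H ≤ Lsub F)
    (hn : NoInv H) {x : OnePoint F} (hB : H ≤ stabilizer PGL(2, F) x) : H = ⊥ := by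
  have hU : ∀ u ∈ H, IsUnip x u → u = 1 := by
    intro u hu uu
    obtain ⟨k, hk⟩ := exists_smul_eq_infty x
    have := odd_unip_infty (h.conj k) (by simpa only [cj_normal] using cj_mono k hL) (hn.conj k)
      (fun g hg => by have := cj_mono k hB hg; rwa [cj_stabilizer, hk] at this)
      (u := k * u * k⁻¹) (by simpa [mem_cj, mul_assoc] using hu) (hk ▸ uu.conj k)
    simpa using this
  rw [eq_bot_iff]
  intro u hu
  by_contra u1
  have hu' : ¬ IsUnip x u := fun e => u1 (hU u hu e)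
  have ux : u • x = x := hB hu
  simp only [IsUnip, ux, true_and, not_forall] at hu'
  obtain ⟨y, hy, huy, -⟩ := hu'
  have hle : H ≤ fix2 F x y := by
    intro g hg
    refine ⟨hB hg, ?_⟩
    obtain ⟨χ, hχ⟩ := exists_multiplier x
    let g' : stabilizer PGL(2, F) x := ⟨g, hB hg⟩
    let u' : stabilizer PGL(2, F) x := ⟨u, hB hu⟩
    have e1 : χ (u'⁻¹ * g'⁻¹ * u' * g') = 1 := by
      have a1 : χ u'⁻¹ * χ u' = 1 := by rw [← map_mul, inv_mul_cancel, map_one]
      have a2 : χ g'⁻¹ * χ g' = 1 := by rw [← map_mul, inv_mul_cancel, map_one]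
      simp only [map_mul]
      linear_combination (χ g'⁻¹ * χ g') * a1 + a2
    have e2 : u⁻¹ * g⁻¹ * u * g = 1 :=
      hU _ (H.mul_mem (H.mul_mem (H.mul_mem (H.inv_mem hu) (H.inv_mem hg)) hu) hg) ((hχ _).1 e1)
    have e3 : u * g = g * u := by
      rw [← mul_one (g * u), ← e2]; group
    have e4 : u • g • y = g • y := by rw [← mul_smul, e3, mul_smul, huy]
    refine (fix_of_fix2 hy.symm ⟨ux, huy⟩ u1 e4).resolve_left (fun e => hy ?_)
    exact MulAction.injective g (e.trans (hB hg).symm)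
  obtain ⟨k, k1, k2⟩ := exists_smul_two hy.symm
  have := odd_split_std (h.conj k) (by simpa only [cj_normal] using cj_mono k hL) (hn.conj k)
    (by rw [← k1, ← k2, ← cj_fix2]; exact cj_mono k hle)
    (u := k * u * k⁻¹) (by simpa [mem_cj, mul_assoc] using hu)
  exact u1 (by simpa using this)

theorem mk_ne_one_of_tr {A : GL (Fin 2) F} (d : dt A = 1) (h : tr A ^ 2 ≠ 4) : mk A ≠ 1 := by
  intro e
  obtain ⟨e1, e2, e3⟩ := mk_eq_one_iff.mp e
  apply h
  simp only [tr, dt, e1, e3] at d ⊢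
  linear_combination 4 * d

theorem exists_conj_of_tr_sq {A B : GL (Fin 2) F} (dA : dt A = 1) (dB : dt B = 1)
    (h : tr A ^ 2 ≠ 4) (e : tr B ^ 2 = tr A ^ 2) : ∃ k : PGL(2, F), k * mk A * k⁻¹ = mk B := by
  have hA := mk_ne_one_of_tr dA h
  have hB := mk_ne_one_of_tr dB (e ▸ h)
  rcases sq_eq_sq_iff_eq_or_eq_neg.mp e with e | e
  · exact exists_conj_of_tr hA hB e.symm (by rw [dA, dB])
  · rw [← mk_neg B] at hB ⊢
    exact exists_conj_of_tr hA hB (by simp only [tr] at e ⊢; simp; linear_combination e)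
      (by rw [dA, ← dB]; simp [dt])

theorem exists_traces [Finite F] {τ : F} (h : τ ^ 2 ≠ 4) (σ : F) :
    ∃ B : GL (Fin 2) F, dt B = 1 ∧ tr B = τ ∧ tr (comp τ 1 one_ne_zero * B) = σ := by
  obtain ⟨b, d, e⟩ : ∃ b d : F, (τ - d) * d - b * (b + τ * d - σ) = 1 := by
    by_cases h2 : (2 : F) = 0
    · have : CharP F 2 := CharTwo.of_one_ne_zero_of_two_eq_zero one_ne_zero h2
      obtain ⟨d, hd⟩ := FiniteField.isSquare_of_char_two (ringChar.eq F 2) σ
      exact ⟨1, d, by linear_combination hd - h2⟩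
    · have := Fintype.ofFinite F
      obtain ⟨u, c, huc⟩ := FiniteField.exists_root_sum_quadratic (R := F)
        (f := Polynomial.C 1 * Polynomial.X ^ 2 + Polynomial.C (-τ) * Polynomial.X + Polynomial.C 0)
        (g := Polynomial.C (4 - τ ^ 2) * Polynomial.X ^ 2 +
          Polynomial.C (τ ^ 2 - 2 * σ) * Polynomial.X + Polynomial.C 1)
        (Polynomial.degree_quadratic one_ne_zero)
        (Polynomial.degree_quadratic (sub_ne_zero.mpr h.symm))
        (FiniteField.odd_card_of_char_ne_two (ringChar_ne_two h2))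
      simp only [Polynomial.eval_pow, Polynomial.eval_X, Polynomial.eval_add, Polynomial.eval_mul,
        Polynomial.eval_C] at huc
      exact ⟨2 * c, u - τ * c, by linear_combination -huc⟩
  refine ⟨mat (τ - d) b (b + τ * d - σ) d (by rw [e]; exact one_ne_zero), e, by simp [tr], ?_⟩
  simp [tr, comp, Matrix.mul_apply, Fin.sum_univ_two]

theorem kappa_id (A B : GL (Fin 2) F) :
    tr A ^ 2 * dt B + tr B ^ 2 * dt A + tr (A * B) ^ 2 - tr A * tr B * tr (A * B) - 4 * dt A * dt B =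
      ((A * B) 0 0 - (B * A) 0 0) ^ 2 + ((A * B) 0 1 - (B * A) 0 1) * ((A * B) 1 0 - (B * A) 1 0) := by
  simp only [tr, dt, Units.val_mul, Matrix.mul_apply, Fin.sum_univ_two]
  ring

theorem odd_irr [Finite F] {H : Subgroup PGL(2, F)} (h : StarIn (Lsub F) H) (hL : H ≤ Lsub F)
    (hn : NoInv H) {t : AlgebraicClosure F} {a b : F} (ht : Irr t a b)
    (hB : H ≤ fix2 F (t : OnePoint (AlgebraicClosure F)) (algebraMap F _ a - t : AlgebraicClosure F))
    {u : PGL(2, F)} (hu : u ∈ H) (u1 : u ≠ 1) : (2 : F) = 0 ∧ u ^ 3 = 1 := by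
  obtain ⟨p, hp⟩ := CharP.exists F
  have hxy : (t : OnePoint (AlgebraicClosure F)) ≠ (algebraMap F _ a - t : AlgebraicClosure F) :=
    fun e => ht.ne_conj (coe_eq_coe.mp e)
  have hup : u ^ p ≠ 1 := fun e => by
    obtain ⟨x, hx⟩ := exists_unip_of_pow_char p e
    exact u1 (irr_eq_one ht (hB hu).1 hx.1)
  obtain ⟨A, rfl, dA⟩ := exists_lift (hL hu)
  have t0 : tr A ≠ 0 := fun e => u1 (hn _ hu (by
    rw [← pow_two]; exact pow_eq_one_of_useq (n := 1) (by simp [useq, e])))
  have t4 : tr A ^ 2 ≠ 4 := by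
    intro e
    by_cases h2 : (2 : F) = 0
    · exact t0 (pow_eq_zero_iff two_ne_zero |>.mp (by linear_combination e + 2 * h2))
    · obtain ⟨e1, e2⟩ := ht.smul_eq_iff.mp (hB hu).1
      have h10 : A 1 0 ≠ 0 := fun e0 => u1 (mk_eq_one_iff.mpr ⟨by rw [e2, e0, mul_zero], e0,
        by rw [e1, e0, mul_zero, add_zero]⟩)
      refine irr_norm_ne ht (c := 2) (d := -a) (Or.inl h2) (mul_left_cancel₀ (pow_ne_zero 2 h10) ?_)
      simp only [tr, dt, e1, e2] at e dA
      linear_combination -e + 4 * dA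
  have main : ∀ σ : F, σ ^ 2 = tr A ^ 2 → 3 * tr A ^ 2 - tr A ^ 2 * σ - 4 = 0 := by
    intro σ hσ
    obtain ⟨B, dB, tB, tCB⟩ := exists_traces t4 σ
    set C := comp (tr A) 1 one_ne_zero with hC
    have dC : dt C = 1 := by simp [hC, comp, dt]
    have tC : tr C = tr A := by simp [hC, comp, tr]
    obtain ⟨k, hk⟩ := exists_conj_of_tr_sq dA dC t4 (by rw [tC])
    obtain ⟨k₁, hk₁⟩ := exists_conj_of_tr_sq dA dB t4 (by rw [tB])
    obtain ⟨k₂, hk₂⟩ := exists_conj_of_tr_sq dA (B := C * B) (by rw [dt_mul, dC, dB, one_mul]) t4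
      (by rw [tCB, hσ])
    obtain ⟨c, hc, hc'⟩ := conj_in_L p (fun _ => hup) (k⁻¹ * k₁)
    obtain ⟨d, hd, hd'⟩ := conj_in_L p (fun _ => hup) (k⁻¹ * k₂)
    have ev : c * mk A * c⁻¹ = k⁻¹ * mk B * k := by rw [hc', ← hk₁]; group
    have ew : d * mk A * d⁻¹ = mk A * (k⁻¹ * mk B * k) := by
      rw [hd', show k⁻¹ * k₂ * mk A * (k⁻¹ * k₂)⁻¹ = k⁻¹ * (k₂ * mk A * k₂⁻¹) * k by group, hk₂,
        map_mul, ← hk]
      group
    have mv : k⁻¹ * mk B * k ∈ cj c H := by rw [← ev]; simpa [mem_cj, mul_assoc] using hu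
    have mw : mk A * (k⁻¹ * mk B * k) ∈ cj d H := by rw [← ew]; simpa [mem_cj, mul_assoc] using hu
    obtain ⟨g, g1, g2, g3⟩ := h.tri hL hd (one_mem _) hc (by rwa [cj_one]) mv mw
    rw [cj_one] at g2
    have hcomm : mk A * (k⁻¹ * mk B * k) = (k⁻¹ * mk B * k) * mk A := by
      by_cases hg : g = 1
      · rw [hg, inv_one, one_mul] at g3
        have f1 := cj_mono _ hB g3
        have f2 := cj_mono _ hB mv
        rw [cj_fix2] at f1 f2
        exact fix2_comm ((MulAction.injective c).ne hxy) f1 f2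
      · have f1 := cj_mono _ hB g1
        have f2 := cj_mono _ hB mw
        rw [cj_fix2] at f1 f2
        have f3 : mk A * (k⁻¹ * mk B * k) ∈ fix2 F (t : OnePoint (AlgebraicClosure F))
            (algebraMap F _ a - t : AlgebraicClosure F) := by
          have hne := (MulAction.injective d).ne hxy
          rcases fix_of_fix2 hxy (hB g2) hg f1.1 with e1 | e1 <;>
            rcases fix_of_fix2 hxy (hB g2) hg f1.2 with e2 | e2 <;> rw [e1, e2] at f2 hne
          · exact absurd rfl hne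
          · exact f2
          · exact ⟨f2.2, f2.1⟩
          · exact absurd rfl hne
        have := fix2_comm hxy (hB hu) f3
        rw [mul_assoc (mk A) _ (mk A)] at this
        exact mul_left_cancel this
    have hcomm' : mk C * mk B = mk B * mk C := by
      rw [← hk]
      have := congrArg (fun z => k * z * k⁻¹) hcomm
      simpa [mul_assoc] using this
    have hCB : C * B = B * C := by
      refine (comm_or_anti hcomm').elim id (fun e => ?_)
      by_cases h2 : (2 : F) = 0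
      · rw [e]; ext i j
        simp only [Units.val_neg, Matrix.neg_apply]
        linear_combination (-(B * C : GL (Fin 2) F) i j) * h2
      · exfalso
        have e1 : tr (C * B) = tr (B * C) := by
          simp only [tr, Units.val_mul, Matrix.mul_apply, Fin.sum_univ_two]; ring
        have e2 : tr (C * B) = - tr (B * C) := by rw [e]; simp [tr]; ring
        have e3 : σ = 0 := mul_left_cancel₀ h2 (by linear_combination e1 + e2 - 2 * tCB)
        exact t0 (pow_eq_zero_iff two_ne_zero |>.mp (by rw [← hσ, e3]; ring))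
    have := kappa_id C B
    rw [← hCB, tCB, tC, tB, dC, dB] at this
    linear_combination this - hσ
  have m1 := main (tr A) rfl
  have m2 := main (-tr A) (by ring)
  have n2 : (tr A - 2) ^ 2 ≠ 0 := pow_ne_zero 2 (fun e => t4 (by linear_combination (tr A + 2) * e))
  have n3 : (tr A + 2) ^ 2 ≠ 0 := pow_ne_zero 2 (fun e => t4 (by linear_combination (tr A - 2) * e))
  have r1 : tr A + 1 = 0 := mul_left_cancel₀ n2 (by linear_combination -m1)
  have r2 : tr A - 1 = 0 := mul_left_cancel₀ n3 (by linear_combination m2)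
  refine ⟨by linear_combination r1 - r2, pow_eq_one_of_useq (n := 2) ?_⟩
  simp only [useq, dA]
  linear_combination (tr A - 1) * r1

theorem NoInv.odd_card {G : Type*} [Group G] [Finite G] {H : Subgroup G} (hn : NoInv H) :
    ¬ 2 ∣ Nat.card H := by
  intro h
  have : Fact (Nat.Prime 2) := ⟨Nat.prime_two⟩
  obtain ⟨x, hx⟩ := exists_prime_orderOf_dvd_card' 2 h
  have h1 : x ^ 2 = 1 := hx ▸ pow_orderOf_eq_one x
  have h2 : x = 1 := Subtype.ext (hn x x.2 (by rw [← pow_two]; exact congrArg Subtype.val h1))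
  rw [h2, orderOf_one] at hx
  omega

theorem odd_case [Finite F] {H : Subgroup PGL(2, F)} (h : StarIn (Lsub F) H) (hL : H ≤ Lsub F)
    (hn : NoInv H) : H = ⊥ ∨ ((2 : F) = 0 ∧ 3 ∣ Nat.card F + 1 ∧ Nat.card H = 3) := by
  obtain ⟨p, hp⟩ := CharP.exists F
  have : Fact p.Prime := ⟨CharP.char_is_prime F p⟩
  have hfix : ∀ {K : Type _} [Field K] [Algebra F K] {x y : OnePoint K}, x ≠ y →
      H ≤ pairStab F x y → H ≤ fix2 F x y := by
    intro K _ _ x y hxy hle g hg
    rcases hle hg with e | e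
    · exact e
    · rw [hn g hg (mul_self_of_swap hxy e.1 e.2)]; exact one_mem _
  rcases dickson2 p H with ⟨x, hx⟩ | ⟨x, y, hxy, hx⟩ | ⟨t, a, b, ht, hx⟩ | hE | ⟨k, g, hk, h3⟩
  · exact Or.inl (odd_borel h hL hn hx)
  · refine Or.inl (odd_borel h hL hn (x := x) (fun g hg => ?_))
    rcases hx hg with e | e
    · exact e.1
    · rw [hn g hg (mul_self_of_swap hxy e.1 e.2)]; exact one_mem _
  · have hxy : (t : OnePoint (AlgebraicClosure F)) ≠ (algebraMap F _ a - t : AlgebraicClosure F) :=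
      fun e => ht.ne_conj (coe_eq_coe.mp e)
    have hB := hfix hxy hx
    by_cases hb : H = ⊥
    · exact Or.inl hb
    right
    have := isCyclic_fix2 (F := F) hxy
    have : IsCyclic H := Subgroup.isCyclic_of_le hB
    obtain ⟨c, hc⟩ := IsCyclic.exists_ofOrder_eq_natCard (α := H)
    have c1 : (c : PGL(2, F)) ≠ 1 := by
      intro e
      rw [show c = 1 from Subtype.ext e, orderOf_one] at hc
      exact hb (Subgroup.card_eq_one.mp hc.symm)
    obtain ⟨h2, c3⟩ := odd_irr h hL hn ht hB c.2 c1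
    have : Fact (Nat.Prime 3) := ⟨Nat.prime_three⟩
    have h4 : Nat.card H = 3 := by rw [← hc, ← Subgroup.orderOf_coe, orderOf_eq_prime c3 c1]
    refine ⟨h2, ?_, h4⟩
    rw [← card_fix2_irr ht, ← h4]
    exact Subgroup.card_dvd_of_le hB
  · exfalso
    apply hn.odd_card
    rcases hE.2.2 with ⟨e, -⟩ | ⟨e, -⟩ | ⟨e, -⟩ <;> rw [e] <;> norm_num
  · exfalso
    have h4 : cj g (PS k) ≤ H := by
      rcases h3 with h3 | h3
      · exact h3.ge
      · exact h3 ▸ cj_mono g (PS_le_PG k)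
    have h5 : mk (jStd F) ∈ PS k := mem_PS.mpr ⟨_, rfl, fun i j => by
      fin_cases i <;> fin_cases j <;> simp [jStd, k.one_mem, k.zero_mem], 1, k.one_mem, by simp [jStd]⟩
    have h6 := (hn.conj g⁻¹) (mk (jStd F)) (by
      have := cj_mono g⁻¹ h4
      rw [cj_inv_cj] at this
      exact this h5) (by
      rw [← pow_two]; exact pow_eq_one_of_useq (n := 1) (by simp [useq, tr, jStd]))
    rw [mk_eq_one_iff] at h6
    simp [jStd] at h6

theorem starIn_Usub [Finite F] (h2 : (2 : F) = 0) (x : OnePoint F) : StarIn (Lsub F) (Usub x) := by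
  have : CharP F 2 := CharTwo.of_one_ne_zero_of_two_eq_zero one_ne_zero h2
  have hsq : ∀ {x : OnePoint F} {g : PGL(2, F)}, IsUnip x g → g * g = 1 := fun hg => by
    rw [← pow_two]; exact isUnip_pow_char 2 hg
  refine starIn_of_noTri (fun a _ b _ c _ u hu v hv huv => ?_)
  rw [cj_Usub] at hu hv huv ⊢
  rw [cj_Usub, cj_Usub]
  by_cases hab : a • x = b • x
  · left; rw [hab]
  right
  by_cases v1 : v = 1
  · simpa [v1] using huv
  have e : u * v = v * u := by
    have h1 := hsq huv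
    rw [inv_eq_of_mul_eq_one_right (hsq hu)] at h1
    rw [← inv_eq_of_mul_eq_one_right h1, _root_.mul_inv_rev,
      inv_eq_of_mul_eq_one_right (hsq hu), inv_eq_of_mul_eq_one_right (hsq hv)]
  have e2 : u • b • x = b • x := by
    by_contra hne
    exact v1 (hv.2 _ hne (by rw [← mul_smul, ← e, mul_smul, hv.1]))
  rw [hu.2 _ (Ne.symm hab) e2]
  exact one_mem _

theorem three_tri [Finite F] (h2 : (2 : F) = 0) (h3 : 3 ∣ Nat.card F + 1) {u w : PGL(2, F)}
    (u1 : u ≠ 1) (w1 : w ≠ 1) (uw1 : u * w ≠ 1) (u3 : u ^ 3 = 1) (w3 : w ^ 3 = 1)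
    (uw3 : (u * w) ^ 3 = 1) : w = u := by
  have hL := Lsub_eq_top h2
  have hfix : ∀ x : OnePoint F, u • x ≠ x := by
    intro x hx
    have : Fact (Nat.Prime 3) := ⟨Nat.prime_three⟩
    have h4 := Subgroup.orderOf_dvd_natCard (stabilizer PGL(2, F) x) (x := u) hx
    rw [orderOf_eq_prime u3 u1, card_stabilizer_pt] at h4
    have h5 : 1 < Nat.card F := Finite.one_lt_card
    rcases (Nat.Prime.dvd_mul Nat.prime_three).mp h4 with h | h <;> omega
  obtain ⟨A, rfl, dA⟩ := exists_lift (hL ▸ Subgroup.mem_top u)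
  obtain ⟨B, rfl, dB⟩ := exists_lift (hL ▸ Subgroup.mem_top w)
  have ht : ∀ C : GL (Fin 2) F, dt C = 1 → mk C ≠ 1 → mk C ^ 3 = 1 → tr C = 1 := by
    intro C dC c1 c3
    have := useq_eq_zero (n := 2) c3 c1
    simp only [useq, dC] at this
    have h4 : (tr C - 1) ^ 2 = 0 := by linear_combination this + (1 - tr C) * h2
    exact sub_eq_zero.mp (pow_eq_zero_iff two_ne_zero |>.mp h4)
  rw [← map_mul] at uw1 uw3
  have tA := ht A dA u1 u3
  have tB := ht B dB w1 w3
  have tAB := ht (A * B) (by rw [dt_mul, dA, dB, one_mul]) uw1 uw3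
  have hk := kappa_id A B
  rw [tA, tB, tAB, dA, dB] at hk
  have h10 : A 1 0 ≠ 0 := fun e => hfix ∞ (smul_infty_eq_infty.mpr e)
  simp only [tr, dt, Units.val_mul, Matrix.mul_apply, Fin.sum_univ_two] at hk tA tB tAB dA dB
  set r := A 0 0 * B 0 0 + A 0 1 * B 1 0 - (B 0 0 * A 0 0 + B 0 1 * A 1 0) with hr
  set s := A 0 0 * B 0 1 + A 0 1 * B 1 1 - (B 0 0 * A 0 1 + B 0 1 * A 1 1) with hs
  set w := A 1 0 * B 0 0 + A 1 1 * B 1 0 - (B 1 0 * A 0 0 + B 1 1 * A 1 0) with hw
  have hk' : r ^ 2 + s * w = 0 := by linear_combination -hk - h2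
  have htr : r * A 0 0 + s * A 1 0 + w * A 0 1 - r * A 1 1 = 0 := by rw [hr, hs, hw]; ring
  have w0 : w = 0 := by
    by_contra hne
    refine hfix (r / w : F) (smul_coe_eq_coe.mpr ?_)
    simp only [Algebra.algebraMap_self, RingHom.id_apply]
    field_simp
    linear_combination w * htr - A 1 0 * hk'
  have r0 : r = 0 := pow_eq_zero_iff two_ne_zero |>.mp (by rw [w0] at hk'; linear_combination hk')
  have e10 : B 1 0 = A 1 0 := by
    linear_combination hw.symm + w0 - A 1 0 * tB - B 1 0 * tA + (B 1 0 * A 0 0 + A 1 0 * B 1 1 - A 1 0) * h2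
  have e01 : B 0 1 = A 0 1 := mul_left_cancel₀ h10 (by
    linear_combination hr - r0 + A 0 1 * e10)
  have e : (B 0 0 - A 0 0) * (B 0 0 - A 1 1) = 0 := by
    rw [e10, e01] at dB
    linear_combination dA - dB + B 0 0 * tB - B 0 0 * tA
  rcases mul_eq_zero.mp e with e | e
  · congr 1
    ext i j
    fin_cases i <;> fin_cases j <;> simp [e10, e01]
    · linear_combination e
    · linear_combination tB - tA - e
  · exfalso
    apply uw1
    rw [mk_eq_one_iff]
    simp only [Units.val_mul, Matrix.mul_apply, Fin.sum_univ_two, e10, e01]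
    refine ⟨?_, ?_, ?_⟩
    · linear_combination A 0 1 * (tB - tA - e) + A 0 0 * A 0 1 * h2
    · linear_combination A 1 0 * e + A 1 0 * A 1 1 * h2
    · linear_combination A 0 0 * e - A 1 1 * (tB - tA - e)

theorem eq_of_card_three {G : Type*} [Group G] {A B : Subgroup G} (hA : Nat.card A = 3)
    (hB : Nat.card B = 3) {u : G} (u1 : u ≠ 1) (ha : u ∈ A) (hb : u ∈ B) : A = B := by
  have key : ∀ {A : Subgroup G}, Nat.card A = 3 → u ∈ A → Subgroup.zpowers u = A := by
    intro A hA ha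
    have : Finite A := Nat.finite_of_card_ne_zero (by omega)
    refine Subgroup.eq_of_le_of_card_ge (Subgroup.zpowers_le.mpr ha) ?_
    have h1 := Subgroup.orderOf_dvd_natCard A ha
    rw [hA] at h1 ⊢
    rw [Nat.card_zpowers]
    rcases (Nat.dvd_prime Nat.prime_three).mp h1 with h | h
    · exact absurd (orderOf_eq_one_iff.mp h) u1
    · omega
  rw [← key hA ha, key hB hb]

theorem starIn_three [Finite F] (h2 : (2 : F) = 0) (h3 : 3 ∣ Nat.card F + 1)
    {H : Subgroup PGL(2, F)} (hH : Nat.card H = 3) : StarIn (Lsub F) H := by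
  have hc : ∀ a : PGL(2, F), Nat.card (cj a H) = 3 := fun a => by rw [card_cj, hH]
  have hp : ∀ a : PGL(2, F), ∀ g ∈ cj a H, g ^ 3 = 1 := fun a g hg => by
    rw [← hc a]
    exact congrArg Subtype.val (pow_card_eq_one' (G := cj a H) (x := ⟨g, hg⟩))
  refine starIn_of_noTri (fun a _ b _ c _ u hu v hv huv => ?_)
  by_cases u1 : u = 1
  · right; rw [u1]; exact one_mem _
  by_cases v1 : v = 1
  · right; simpa [v1] using huv
  left
  refine eq_of_card_three (hc a) (hc b) v1 ?_ hv
  by_cases w1 : u⁻¹ * v = 1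
  · rwa [← inv_mul_eq_one.mp w1]
  have := three_tri h2 h3 u1 w1 (by simpa using v1) (hp a u hu) (hp c _ huv)
    (by simpa using hp b v hv)
  rw [inv_mul_eq_iff_eq_mul] at this
  rw [this]
  exact mul_mem hu hu

theorem le_Usub_of_isPGroup [Finite F] (p : ℕ) [Fact p.Prime] [CharP F p] {Q : Subgroup PGL(2, F)}
    (hQ : IsPGroup p Q) : ∃ y, Q ≤ Usub y := by
  obtain ⟨y, hy⟩ := hQ.nonempty_fixed_point_of_prime_not_dvd_card (OnePoint F) (by
    have := Fintype.ofFinite F
    obtain ⟨n, hpp, hn⟩ := FiniteField.card F p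
    rw [card_onePoint, Nat.card_eq_fintype_card, hn]
    intro h2
    exact hpp.one_lt.ne' (Nat.dvd_one.mp ((Nat.dvd_add_right (dvd_pow_self p n.ne_zero)).mp h2)))
  refine ⟨y, fun g hg => ?_⟩
  obtain ⟨χ, hχ⟩ := exists_multiplier y
  have hx : g • y = y := hy ⟨g, hg⟩
  apply (hχ ⟨g, hx⟩).1
  obtain ⟨k, hk⟩ := hQ ⟨g, hg⟩
  have h1 : (⟨g, hx⟩ : stabilizer PGL(2, F) y) ^ p ^ k = 1 := Subtype.ext (by
    simpa using congrArg Subtype.val hk)
  have h2 : χ ⟨g, hx⟩ ^ p ^ k = 1 := by rw [← map_pow, h1, map_one]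
  have h3 : (χ ⟨g, hx⟩ - 1) ^ p ^ k = 0 := by rw [sub_pow_char_pow, h2, one_pow, sub_self]
  exact sub_eq_zero.mp (pow_eq_zero_iff (pow_ne_zero k (Fact.out : p.Prime).ne_zero) |>.mp h3)

theorem isPGroup_Usub (p : ℕ) [CharP F p] (x : OnePoint F) : IsPGroup p (Usub x) := fun g =>
  ⟨1, Subtype.ext (by simpa using isUnip_pow_char p g.2)⟩

end Cfsg.Agent.H3
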