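import Cfsg.Agent.H3.RegNormal
import Cfsg.Agent.H3.Orbits

set_option autoImplicit false

/-! Burnside's theorem on minimal normal subgroups of doubly transitive groups. -/

namespace Cfsg.Agent.H3

open MulAction Function
open scoped Pointwise

variable {G α : Type*} [Group G] [MulAction G α]

theorem card_fpf [Finite G] [Finite α] [Nonempty α] (ht : IsPretransitive G α)
    (hsharp : ∀ g : G, ∀ x y : α, x ≠ y → g • x = x → g • y = y → g = 1) :
    {g : G | ∀ x : α, g • x ≠ x}.ncard + 1 = Nat.card α := by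
  classical
  have := Fintype.ofFinite G
  have := Fintype.ofFinite α
  have h := sum_card_fixedBy_eq_card_orbits_mul_card_group G α
  have h1 : Fintype.card (Quotient (orbitRel G α)) = 1 := by
    rw [Fintype.card_eq_one_iff_nonempty_unique]
    exact (pretransitive_iff_unique_quotient_of_nonempty G α).1 ht
  rw [h1, one_mul] at h
  have h2 : ∀ g : G, Fintype.card (fixedBy α g) + (if ∀ x : α, g • x ≠ x then 1 else 0) =
      1 + (if g = 1 then Fintype.card α - 1 else 0) := by
    intro g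
    by_cases hg : g = 1
    · subst hg
      have : 0 < Fintype.card α := Fintype.card_pos
      simp; omega
    · rw [if_neg hg]
      split_ifs with hx
      · rw [(Fintype.card_eq_zero_iff (α := fixedBy α g)).2 ⟨fun x => hx x x.2⟩]
      · push Not at hx
        obtain ⟨x, hx⟩ := hx
        rw [(Fintype.card_eq_one_iff (α := fixedBy α g)).2 ⟨⟨x, hx⟩, fun y => Subtype.ext (by
          by_contra hne
          exact hg (hsharp g _ _ hne y.2 hx))⟩]
  have h3 := Finset.sum_congr (rfl : (Finset.univ : Finset G) = _) (fun g _ => h2 g)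
  rw [Finset.sum_add_distrib, Finset.sum_add_distrib, h] at h3
  simp only [Finset.sum_boole, Finset.sum_const, Finset.card_univ, smul_eq_mul, mul_one,
    Finset.sum_ite_eq', Finset.mem_univ, if_true, Nat.cast_id] at h3
  have : 0 < Fintype.card α := Fintype.card_pos
  rw [Nat.card_eq_fintype_card, Set.ncard_eq_toFinset_card', Set.toFinset_ofPred]
  omega

theorem sharp_of_imprimitive_normal [Finite α] (hG : IsMultiplyPretransitive G α 2)
    (N : Subgroup G) [hNn : N.Normal] (hNt : IsPretransitive N α) (hnp : ¬ IsPreprimitive N α) :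
    ∀ n ∈ N, ∀ x y : α, x ≠ y → n • x = x → n • y = y → ∀ z : α, n • z = z := by
  rw [is_two_pretransitive_iff] at hG
  have hex : ∃ m, ∃ B : Set α, IsBlock N B ∧ B.Nontrivial ∧ B ≠ Set.univ ∧ B.ncard = m := by
    by_contra hcon
    apply hnp
    refine { isTrivialBlock_of_isBlock := fun {B} hB => ?_ }
    by_contra h
    rw [IsTrivialBlock, not_or, Set.not_subsingleton_iff] at h
    exact hcon ⟨_, B, hB, h.1, h.2, rfl⟩
  classical
  obtain ⟨B, hB, ⟨a, ha, b, hb, hab⟩, hBu, hBc⟩ := Nat.find_spec hex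
  have hmin : ∀ C : Set α, IsBlock N C → C.Nontrivial → C ≠ Set.univ → B.ncard ≤ C.ncard :=
    fun C h1 h2 h3 => hBc ▸ Nat.find_min' hex ⟨C, h1, h2, h3, rfl⟩
  have hblock : ∀ g : G, IsBlock N (g • B) := by
    intro g
    apply isBlock_of_mem
    rintro ⟨n, hn⟩ _ ⟨x, hx, rfl⟩ hnx _ ⟨y, hy, rfl⟩
    change n • g • x ∈ g • B at hnx
    change n • g • y ∈ g • B
    rw [Set.mem_smul_set_iff_inv_smul_mem, ← mul_smul, ← mul_smul] at hnx ⊢
    exact IsBlock_mem hB (g := ⟨_, hNn.conj_mem' n hn g⟩) hx hnx hy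
  have hne : ∀ g : G, g • B ≠ Set.univ := fun g h => hBu (by
    rw [← inv_smul_smul g B, h, Set.smul_set_univ])
  have hline : ∀ x y : α, x ≠ y → ∃ g : G, x ∈ g • B ∧ y ∈ g • B := by
    intro x y hxy
    obtain ⟨g, rfl, rfl⟩ := hG hab hxy
    exact ⟨g, Set.smul_mem_smul_set ha, Set.smul_mem_smul_set hb⟩
  have huniq : ∀ (g h : G) (x y : α), x ≠ y → x ∈ g • B → y ∈ g • B → x ∈ h • B → y ∈ h • B →
      g • B ⊆ h • B := by
    intro g h x y hxy h1 h2 h3 h4
    have := hmin (g • B ∩ h • B) ((hblock g).inter (hblock h)) ⟨x, ⟨h1, h3⟩, y, ⟨h2, h4⟩, hxy⟩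
      (fun h => hne g (Set.eq_univ_of_subset Set.inter_subset_left h))
    have h5 : g • B ∩ h • B = g • B :=
      Set.eq_of_subset_of_ncard_le Set.inter_subset_left (by rwa [Set.ncard_smul_set])
    exact h5 ▸ Set.inter_subset_right
  have key : ∀ n ∈ N, ∀ x y : α, x ≠ y → n • x = x → n • y = y → ∀ g : G, x ∈ g • B → y ∈ g • B →
      ∀ c ∉ g • B, n • c = c := by
    intro n hn x y hxy hx hy g hxg hyg c hc
    obtain ⟨g1, h1, h1'⟩ := hline x c (fun h => hc (h ▸ hxg))
    obtain ⟨g2, h2, h2'⟩ := hline y c (fun h => hc (h ▸ hyg))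
    have e1 : n • c ∈ g1 • B :=
      IsBlock_mem (hblock g1) (g := ⟨n, hn⟩) h1 (by change n • x ∈ _; rwa [hx]) h1'
    have e2 : n • c ∈ g2 • B :=
      IsBlock_mem (hblock g2) (g := ⟨n, hn⟩) h2 (by change n • y ∈ _; rwa [hy]) h2'
    by_contra hcon
    have e3 := huniq g1 g2 _ _ hcon e1 h1' e2 h2' h1
    exact hc (huniq g2 g x y hxy e3 h2 hxg hyg h2')
  intro n hn x y hxy hx hy z
  obtain ⟨g, hxg, hyg⟩ := hline x y hxy
  by_cases hz : z ∈ g • B
  · obtain ⟨c, hc⟩ := (Set.ne_univ_iff_exists_notMem _).1 (hne g)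
    have hxc : x ≠ c := fun h => hc (h ▸ hxg)
    obtain ⟨g1, h1, h1'⟩ := hline x c hxc
    by_cases hzx : z = x
    · rw [hzx, hx]
    · exact key n hn x c hxc hx (key n hn x y hxy hx hy g hxg hyg c hc) g1 h1 h1' z
        (fun h => hc (huniq g1 g z x hzx h h1 hz hxg h1'))
  · exact key n hn x y hxy hx hy g hxg hyg z hz

theorem prim_of_minimal_normal [Finite G] [Finite α] (hG : IsMultiplyPretransitive G α 2)
    (hf : ∀ g : G, (∀ x : α, g • x = x) → g = 1) (N : Subgroup G) [hNn : N.Normal]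
    (hmin : ∀ M : Subgroup G, M.Normal → M ≤ N → M = ⊥ ∨ M = N) {a : α}
    (ha : stabilizer N a ≠ ⊥) : IsPreprimitive N α := by
  obtain ⟨n0, hn0, hn0a, hn01⟩ : ∃ n ∈ N, n • a = a ∧ n ≠ 1 := by
    by_contra hcon
    push Not at hcon
    exact ha (stabilizer_eq_bot_iff.2 hcon)
  obtain ⟨b0, hb0⟩ : ∃ b : α, n0 • b ≠ b := by
    by_contra hcon
    push Not at hcon
    exact hn01 (hf _ hcon)
  have hNt : IsPretransitive N α := normal_trans (isPreprimitive_of_is_two_pretransitive hG) N hn0 hb0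
  by_contra hnp
  have hsharp := sharp_of_imprimitive_normal hG N hNt hnp
  have : Nonempty α := ⟨a⟩
  have hc := card_fpf hNt (fun g x y hxy hx hy => Subtype.ext (hf _ (hsharp g g.2 x y hxy hx hy)))
  set D := {g : N | ∀ x : α, g • x ≠ x} with hD
  have hconj : ∀ d ∈ D, ∀ g : G, (⟨g * d * g⁻¹, hNn.conj_mem _ d.2 g⟩ : N) ∈ D := by
    intro d hd g x hx
    change (g * d * g⁻¹) • x = x at hx
    rw [mul_smul, mul_smul, ← eq_inv_smul_iff] at hx
    exact hd _ hx
  have h2 : 2 ≤ Nat.card α := Finite.one_lt_card_iff_nontrivial.2 ⟨⟨_, _, hb0⟩⟩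
  obtain ⟨d0, hd0⟩ : D.Nonempty := (Set.ncard_pos (Set.toFinite _)).1 (by omega)
  have hinj : ∀ x : α, Set.InjOn (fun d : N => d • x) D := by
    intro x
    apply Set.injOn_of_ncard_image_eq _ (Set.toFinite _)
    have : (fun d : N => d • x) '' D = {x}ᶜ := by
      ext y
      constructor
      · rintro ⟨d, hd, rfl⟩; exact hd x
      · intro hy
        obtain ⟨g, hg1, hg2⟩ := is_two_pretransitive_iff.1 hG (hd0 x).symm (Ne.symm hy)
        refine ⟨_, hconj d0 hd0 g, ?_⟩
        change (g * d0 * g⁻¹) • x = y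
        rw [← conj_smul_of_fix hg1]; exact hg2
    rw [this]
    have := Set.ncard_add_ncard_compl ({x} : Set α)
    rw [Set.ncard_singleton] at this
    omega
  have hinvD : ∀ d ∈ D, d⁻¹ ∈ D := fun d hd x hx => hd x (by rw [inv_smul_eq_iff] at hx; exact hx.symm)
  let K : Subgroup G :=
    { carrier := {g | ∃ h : g ∈ N, g = 1 ∨ (⟨g, h⟩ : N) ∈ D}
      one_mem' := ⟨N.one_mem, Or.inl rfl⟩
      mul_mem' := by
        rintro x y ⟨hx, rfl | hx'⟩ ⟨hy, hy'⟩
        · rw [one_mul]; exact ⟨hy, hy'⟩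
        rcases hy' with rfl | hy'
        · rw [mul_one]; exact ⟨hx, Or.inr hx'⟩
        refine ⟨N.mul_mem hx hy, ?_⟩
        by_contra hcon
        push Not at hcon
        obtain ⟨h1, h2⟩ := hcon
        simp only [hD, Set.mem_ofPred_eq, not_forall, not_not] at h2
        obtain ⟨z, hz⟩ := h2
        change (x * y) • z = z at hz
        rw [mul_smul, ← eq_inv_smul_iff] at hz
        have := congrArg Subtype.val (hinj z hy' (hinvD _ hx') hz)
        exact h1 (by simp only at this; rw [this]; simp)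
      inv_mem' := by
        rintro x ⟨hx, rfl | hx'⟩
        · rw [inv_one]; exact ⟨N.one_mem, Or.inl rfl⟩
        · exact ⟨N.inv_mem hx, Or.inr (hinvD _ hx')⟩ }
  have hK : K.Normal := ⟨by
    rintro x ⟨hx, rfl | hx'⟩ g
    · simp
    · exact ⟨_, Or.inr (hconj _ hx' g)⟩⟩
  rcases hmin K hK (fun x hx => hx.1) with h | h
  · have : (d0 : G) ∈ K := ⟨d0.2, Or.inr hd0⟩
    rw [h, Subgroup.mem_bot] at this
    apply hd0 a
    change (d0 : G) • a = a
    rw [this, one_smul]
  · obtain ⟨_, h1 | h1⟩ : n0 ∈ K := h ▸ hn0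
    · exact hn01 h1
    · exact h1 a hn0a

theorem exists_minimal_normal_le {H : Type*} [Group H] [Finite H] (L : Subgroup H) [hL : L.Normal]
    (hb : L ≠ ⊥) : ∃ M : Subgroup H, M.Normal ∧ M ≠ ⊥ ∧ M ≤ L ∧
      ∀ K : Subgroup H, K.Normal → K ≤ M → K = ⊥ ∨ K = M := by
  obtain ⟨M, hML, hM⟩ := exists_minimal_le_of_wellFoundedLT
    (fun M : Subgroup H => M.Normal ∧ M ≠ ⊥) L ⟨hL, hb⟩
  refine ⟨M, hM.1.1, hM.1.2, hML, fun K hK hKM => ?_⟩
  by_cases h : K = ⊥
  · exact Or.inl h
  · exact Or.inr (le_antisymm hKM (hM.2 ⟨hK, h⟩ hKM))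

theorem simple_of_minimal_normal [Finite G] [Finite α] (hG : IsMultiplyPretransitive G α 2)
    (hf : ∀ g : G, (∀ x : α, g • x = x) → g = 1) (N : Subgroup G) [hNn : N.Normal]
    (hmin : ∀ M : Subgroup G, M.Normal → M ≤ N → M = ⊥ ∨ M = N) {a : α}
    (ha : stabilizer N a ≠ ⊥) : IsSimpleGroup N := by
  have hprim := prim_of_minimal_normal hG hf N hmin ha
  have hfN : ∀ g : N, (∀ x : α, g • x = x) → g = 1 := fun g hg => Subtype.ext (hf g hg)
  have htr : ∀ M : Subgroup N, M.Normal → M ≠ ⊥ → IsPretransitive M α := by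
    intro M hM hMb
    obtain ⟨⟨m, hm⟩, hm1⟩ := (Subgroup.ne_bot_iff_exists_ne_one).1 hMb
    obtain ⟨x, hx⟩ : ∃ x : α, m • x ≠ x := by
      by_contra hcon
      push Not at hcon
      exact hm1 (Subtype.ext (hfN m hcon))
    exact normal_trans hprim M hm hx
  have : Nontrivial N := by
    by_contra h
    rw [not_nontrivial_iff_subsingleton] at h
    exact ha (Subsingleton.elim _ _)
  refine ⟨fun L hL => ?_⟩
  by_contra hcon
  push Not at hcon
  obtain ⟨M, hM, hMb, hML, hMmin⟩ := exists_minimal_normal_le L hcon.1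
  have hMt : M ≠ ⊤ := fun h => hcon.2 (top_le_iff.1 (h ▸ hML))
  set C := Subgroup.centralizer (M : Set N) with hC
  have hconj : ∀ g : G, ∀ m ∈ M, MulAut.conjNormal g m ∈ M ⊔ C := by
    intro g m hm
    set M' := M.map (MulAut.conjNormal g : MulAut N).toMonoidHom with hM'
    have hM'n : M'.Normal := hM.map _ (MulAut.conjNormal g : MulAut N).surjective
    have hmem : MulAut.conjNormal g m ∈ M' := ⟨m, hm, rfl⟩
    by_cases he : M = M'
    · exact Subgroup.mem_sup_left (he ▸ hmem)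
    · apply Subgroup.mem_sup_right
      rw [hC, Subgroup.mem_centralizer_iff]
      intro x hx
      refine commute_of_minimal_normal hMb ?_ hMmin ?_ he x hx _ hmem
      · rwa [hM', ne_eq, Subgroup.map_eq_bot_iff_of_injective _ (MulEquiv.injective _)]
      · intro K hK hKM
        rcases hMmin (K.comap (MulAut.conjNormal g : MulAut N).toMonoidHom) (hK.comap _) (by
          intro x hx
          obtain ⟨y, hy, hxy⟩ := hKM hx
          rwa [← (MulEquiv.injective _) hxy]) with h | h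
        · left
          rw [← Subgroup.map_comap_eq_self_of_surjective (MulAut.conjNormal g : MulAut N).surjective K]
          change Subgroup.map (MulAut.conjNormal g : MulAut N).toMonoidHom
            (K.comap (MulAut.conjNormal g : MulAut N).toMonoidHom) = ⊥
          rw [h, Subgroup.map_bot]
        · right
          rw [hM', ← h]
          exact (Subgroup.map_comap_eq_self_of_surjective
            (MulAut.conjNormal g : MulAut N).surjective K).symm
  have hsup : M ⊔ C = ⊤ := by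
    have h1 : Subgroup.normalClosure ((M.map N.subtype : Subgroup G) : Set G) = N := by
      refine (hmin _ inferInstance (Subgroup.normalClosure_le_normal
        (Subgroup.map_subtype_le _))).resolve_left fun h => hMb ?_
      have := Subgroup.le_normalClosure (H := M.map N.subtype)
      rwa [h, le_bot_iff, Subgroup.map_eq_bot_iff_of_injective _ N.subtype_injective] at this
    have h2 : Subgroup.normalClosure ((M.map N.subtype : Subgroup G) : Set G) ≤
        (M ⊔ C).map N.subtype := by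
      rw [Subgroup.normalClosure, Subgroup.closure_le]
      intro x hx
      obtain ⟨_, ⟨m, hm, rfl⟩, hx⟩ := Group.mem_conjugatesOfSet_iff.1 hx
      obtain ⟨g, rfl⟩ := isConj_iff.1 hx
      exact ⟨_, hconj g m hm, rfl⟩
    rw [h1] at h2
    rw [eq_top_iff]
    rintro x -
    obtain ⟨y, hy, hyx⟩ := h2 x.2
    rwa [← Subtype.ext hyx]
  have hCb : C ≠ ⊥ := fun h => hMt (by rwa [h, sup_bot_eq] at hsup)
  have hCt := htr C inferInstance hCb
  have hMt' := htr M hM hMb
  have hMreg : stabilizer M a = ⊥ := stabilizer_eq_bot_iff.2 fun m hm hma =>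
    hfN m (fix_all_of_commute hCt (fun c hc => (Subgroup.mem_centralizer_iff.1 hc m hm).symm) hma)
  have hCreg : stabilizer C a = ⊥ := stabilizer_eq_bot_iff.2 fun c hc hca =>
    hfN c (fix_all_of_commute hMt' (fun m hm => Subgroup.mem_centralizer_iff.1 hc m hm) hca)
  have h1 : C.index ∣ Nat.card α := by
    rw [← Subgroup.relIndex_top_right, ← hsup, Subgroup.relIndex_sup_right,
      ← card_eq_of_regular hMt' hMreg]
    exact Subgroup.relIndex_dvd_card _ _
  have hpos : 0 < Nat.card α := @Nat.card_pos _ ⟨a⟩ _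
  have h2 : Nat.card (stabilizer N a) = C.index := by
    have e1 := Subgroup.index_mul_card (stabilizer N a)
    have e2 := Subgroup.card_mul_index C
    rw [index_stabilizer_of_transitive] at e1
    rw [card_eq_of_regular hCt hCreg, ← e1] at e2
    exact (Nat.eq_of_mul_eq_mul_left hpos e2).symm
  set K : Subgroup G := N ⊓ stabilizer G a with hK
  have h3 : Nat.card K = Nat.card (stabilizer N a) := by
    have : stabilizer N a = K.subgroupOf N := by
      ext x; simp [hK, Subgroup.mem_subgroupOf, mem_stabilizer_iff, Subgroup.smul_def]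
    rw [this]
    exact (Nat.card_congr (Subgroup.subgroupOfEquivOfLe inf_le_left).toEquiv).symm
  apply ha
  rw [stabilizer_eq_bot_iff]
  intro n hn hna
  apply hf
  intro b
  by_cases hb : b = a
  · rw [hb, hna]
  have h4 : (orbit K b).ncard ∣ Nat.card α := (ncard_orbit_dvd_card K b).trans (h3 ▸ h2 ▸ h1)
  have h5 : (orbit K b).ncard ∣ ({a}ᶜ : Set α).ncard := by
    apply ncard_orbit_dvd K (Set.toFinite _)
    · rintro k ⟨-, hk⟩ x hx hkx
      exact hx (smul_left_cancel k (hkx.trans (show k • a = a from hk).symm))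
    · intro x hx
      obtain ⟨g, hg1, hg2⟩ := is_two_pretransitive_iff.1 hG (Ne.symm hb) (Ne.symm hx)
      have hg : g ∈ stabilizer G a := hg1
      rw [← hg2, ncard_orbit_smul K g]
      · rintro k ⟨hk, hk'⟩
        exact ⟨hNn.conj_mem k hk g, Subgroup.mul_mem _ (Subgroup.mul_mem _ hg hk')
          (Subgroup.inv_mem _ hg)⟩
      · rintro k ⟨hk, hk'⟩
        exact ⟨hNn.conj_mem' k hk g, Subgroup.mul_mem _
          (Subgroup.mul_mem _ (Subgroup.inv_mem _ hg) hk') hg⟩
  have h6 := Set.ncard_add_ncard_compl ({a} : Set α)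
  rw [Set.ncard_singleton] at h6
  rw [← h6] at h4
  obtain ⟨y, hy⟩ := Set.ncard_eq_one.1 (Nat.dvd_one.1 ((Nat.dvd_add_left h5).1 h4))
  have e1 : n • b ∈ orbit K b := ⟨⟨n, hn, hna⟩, rfl⟩
  have e2 : b ∈ orbit K b := mem_orbit_self _
  rw [hy] at e1 e2
  exact e1.trans e2.symm

theorem elementary_of_regular_minimal_normal [Finite G] (hG : IsMultiplyPretransitive G α 2)
    (N : Subgroup G) [hNn : N.Normal] (hN : N ≠ ⊥) (hNt : IsPretransitive N α)
    (hmin : ∀ M : Subgroup G, M.Normal → M ≤ N → M = ⊥ ∨ M = N) {a : α}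
    (ha : stabilizer N a = ⊥) : IsMulCommutative N ∧ ∃ p : ℕ, p.Prime ∧ ∀ n ∈ N, n ^ p = 1 := by
  have hinj : ∀ n ∈ N, ∀ m ∈ N, n • a = m • a → n = m := fun n hn m hm h =>
    congrArg Subtype.val ((bijective_smul_of_regular hNt ha).1 (a₁ := ⟨n, hn⟩)
      (a₂ := ⟨m, hm⟩) h)
  have h1 : Nat.card N ≠ 1 := by rwa [ne_eq, Subgroup.card_eq_one]
  obtain ⟨p, hp, hpd⟩ := Nat.exists_prime_and_dvd h1
  have : Fact p.Prime := ⟨hp⟩
  obtain ⟨⟨x, hx⟩, hxo⟩ := exists_prime_orderOf_dvd_card' (G := N) p hpd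
  rw [Subgroup.orderOf_mk] at hxo
  have hx1 : x ≠ 1 := by rintro rfl; rw [orderOf_one] at hxo; exact hp.one_lt.ne hxo
  have hexp : ∀ n ∈ N, n ^ p = 1 := by
    intro n hn
    by_cases hn1 : n = 1
    · rw [hn1, one_pow]
    obtain ⟨g, hg1, hg2⟩ := is_two_pretransitive_iff.1 hG
      (show a ≠ x • a from fun h => hx1 (hinj _ hx _ N.one_mem (by rw [one_smul, ← h])))
      (show a ≠ n • a from fun h => hn1 (hinj _ hn _ N.one_mem (by rw [one_smul, ← h])))
    rw [conj_smul_of_fix hg1] at hg2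
    rw [← hinj _ (hNn.conj_mem x hx g) _ hn hg2, conj_pow, ← hxo, pow_orderOf_eq_one, mul_one,
      mul_inv_cancel]
  refine ⟨?_, p, hp, hexp⟩
  have hP : IsPGroup p N := fun n => ⟨1, Subtype.ext (by simpa using hexp n n.2)⟩
  have : Nontrivial N := (Subgroup.nontrivial_iff_ne_bot N).2 hN
  obtain ⟨⟨z, hz⟩, hz1⟩ := (Subgroup.ne_bot_iff_exists_ne_one).1 hP.bot_lt_center.ne'
  rcases hmin (N ⊓ Subgroup.centralizer (N : Set G)) inferInstance inf_le_left with h | h
  · exfalso
    have : (z : G) ∈ N ⊓ Subgroup.centralizer (N : Set G) :=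
      ⟨z.2, Subgroup.mem_centralizer_iff.2 fun y hy =>
        congrArg Subtype.val (Subgroup.mem_center_iff.1 hz ⟨y, hy⟩)⟩
    rw [h, Subgroup.mem_bot] at this
    exact hz1 (Subtype.ext (Subtype.ext this))
  · refine ⟨⟨fun x y => Subtype.ext ?_⟩⟩
    have : (y : G) ∈ N ⊓ Subgroup.centralizer (N : Set G) := h.symm ▸ y.2
    exact Subgroup.mem_centralizer_iff.1 this.2 x x.2

end Cfsg.Agent.H3
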