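import Cfsg.Agent.H3.CompLen
import Cfsg.Agent.H3.ONanScott
import Cfsg.Agent.H3.Burnside2
import Cfsg.Agent.H3.SylowOrbit

set_option autoImplicit false

/-! The composition length of a permutation group is at most `4/3 (n - r)`. -/

namespace Cfsg.Agent.H3

open MulAction Function
open scoped ArithmeticFunction.Omega Pointwise

universe v

theorem cb_numA' (j : ℕ) (hj : 5 ≤ j) : 3 * ((j + 1) * (j + 1)) + 4 ≤ 4 * 2 ^ j := by
  induction j, hj using Nat.le_induction with
  | base => norm_num
  | succ j hj ih => rw [pow_succ]; nlinarith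

theorem cb_numB' (j : ℕ) (hj : 8 ≤ j) : 3 * ((j + 1) * (4 * j + 3)) + 4 ≤ 4 * 2 ^ j := by
  induction j, hj using Nat.le_induction with
  | base => norm_num
  | succ j hj ih => rw [pow_succ]; nlinarith

theorem cb_numA {n k c : ℕ} (hn : 16 ≤ n) (hk : 2 ^ k ≤ n) (hc : 2 ^ c ≤ n * n ^ k) :
    3 * c + 4 ≤ 4 * n := by
  set j := Nat.log 2 n with hj
  have h1 : 2 ^ j ≤ n := Nat.pow_log_le_self 2 (by omega)
  have h2 : n < 2 ^ (j + 1) := Nat.lt_pow_succ_log_self one_lt_two n
  have h3 : k ≤ j := Nat.le_log_of_pow_le one_lt_two hk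
  have h4 : 2 ^ c ≤ n ^ (j + 1) := by
    rw [← pow_succ'] at hc
    exact hc.trans (Nat.pow_le_pow_right (by omega) (by omega))
  have h5 : 4 ≤ j := Nat.le_log_of_pow_le one_lt_two hn
  rcases h5.eq_or_lt with h | h
  · rw [← h] at h2 h4
    by_cases h19 : 19 ≤ n
    · have := h4.trans_lt (Nat.pow_lt_pow_left h2 (by norm_num))
      rw [← pow_mul, Nat.pow_lt_pow_iff_right one_lt_two] at this
      omega
    · have := h4.trans_lt ((Nat.pow_le_pow_left (show n ≤ 18 by omega) _).trans_lt
        (show 18 ^ (4 + 1) < 2 ^ 21 by norm_num))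
      rw [Nat.pow_lt_pow_iff_right one_lt_two] at this
      omega
  · have := h4.trans (Nat.pow_le_pow_left h2.le _)
    rw [← pow_mul, Nat.pow_le_pow_iff_right one_lt_two] at this
    have := cb_numA' j h
    omega

theorem cb_numB {n k c : ℕ} (hn : 256 ≤ n) (hk : 2 ^ k ≤ n ^ 2) (hc : 2 ^ c ≤ n * (n ^ 2) ^ k) :
    3 * c + 4 ≤ 4 * n := by
  set j := Nat.log 2 n with hj
  have h1 : 2 ^ j ≤ n := Nat.pow_log_le_self 2 (by omega)
  have h2 : n < 2 ^ (j + 1) := Nat.lt_pow_succ_log_self one_lt_two n
  have h3 := hk.trans_lt (Nat.pow_lt_pow_left h2 (by norm_num))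
  rw [← pow_mul, Nat.pow_lt_pow_iff_right one_lt_two] at h3
  have h4 : 2 ^ c ≤ n ^ (4 * j + 3) := by
    rw [← pow_mul, ← pow_succ'] at hc
    exact hc.trans (Nat.pow_le_pow_right (by omega) (by omega))
  have h5 : 8 ≤ j := Nat.le_log_of_pow_le one_lt_two hn
  have := h4.trans (Nat.pow_le_pow_left h2.le _)
  rw [← pow_mul, Nat.pow_le_pow_iff_right one_lt_two] at this
  have := cb_numB' j h5
  omega

theorem cb_num_small {n g k : ℕ} (hn : n = 4 ∨ n = 8 ∨ n = 9) (hg : g ∣ n.factorial)
    (hk : 2 ^ k ≤ n) (hgk : g ≤ n * n ^ k) : 3 * Ω g + 4 ≤ 4 * n := by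
  obtain ⟨e, he⟩ := hg
  have h0 := n.factorial_ne_zero
  rw [he, mul_ne_zero_iff] at h0
  have h1 := ArithmeticFunction.cardFactors_mul h0.1 h0.2
  have hk3 : k ≤ 3 := by
    have : 2 ^ k < 2 ^ 4 := by omega
    rw [Nat.pow_lt_pow_iff_right one_lt_two] at this; omega
  have h2 : g ≤ n * n ^ 3 := hgk.trans (Nat.mul_le_mul_left _ (Nat.pow_le_pow_right (by omega) hk3))
  have h3 : e ≤ 7 ^ Ω e := le_pow_cardFactors h0.2 fun p hp hpe => by
    have := (hp.dvd_factorial).1 (hpe.trans (Dvd.intro_left _ he.symm))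
    by_contra hc
    have : p = 8 ∨ p = 9 := by omega
    rcases this with rfl | rfl <;> norm_num at hp
  rw [← he] at h1
  rcases hn with rfl | rfl | rfl
  · have : Ω (Nat.factorial 4) = 4 := by simp [ArithmeticFunction.cardFactors_apply, Nat.factorial]
    omega
  · have : Ω (Nat.factorial 8) = 11 := by simp [ArithmeticFunction.cardFactors_apply, Nat.factorial]
    by_contra hc
    have h4 := h3.trans (Nat.pow_le_pow_right (by norm_num) (show Ω e ≤ 1 by omega))
    have := Nat.mul_le_mul h2 h4
    rw [← he] at this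
    norm_num [Nat.factorial] at this
  · have : Ω (Nat.factorial 9) = 13 := by simp [ArithmeticFunction.cardFactors_apply, Nat.factorial]
    by_contra hc
    have h4 := h3.trans (Nat.pow_le_pow_right (by norm_num) (show Ω e ≤ 2 by omega))
    have := Nat.mul_le_mul h2 h4
    rw [← he] at this
    norm_num [Nat.factorial] at this

theorem card_stab_le {G α : Type*} [Group G] [Finite G] [MulAction G α]
    (hf : ∀ g : G, (∀ x : α, g • x = x) → g = 1) (N : Subgroup G) [N.Normal]
    (hN : IsPretransitive N α) (a : α) :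
    ∃ k, 2 ^ k ≤ Nat.card N ∧ Nat.card (stabilizer G a) ≤ Nat.card N ^ k := by
  obtain ⟨s, hs, hs'⟩ := exists_small_gen N
  refine ⟨s.card, hs', ?_⟩
  have := Nat.card_le_card_of_injective
    (fun (g : stabilizer G a) (x : s) => MulAut.conjNormal (g : G) (x : N)) (fun g h hgh => by
      have h1 : MulAut.conjNormal (H := N) (g : G) = MulAut.conjNormal (h : G) := by
        apply MulEquiv.toMonoidHom_injective
        exact MonoidHom.eq_of_eqOn_dense hs fun x hx => congrFun hgh ⟨x, hx⟩
      have h2 := hf ((h : G)⁻¹ * g) (fix_all_of_commute hN (fun m hm => by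
        have := congrArg Subtype.val (MulEquiv.congr_fun h1 ⟨m, hm⟩)
        simp only [MulAut.conjNormal_apply] at this
        calc m * ((h : G)⁻¹ * g) = (h : G)⁻¹ * (h * m * (h : G)⁻¹) * g := by group
          _ = _ := by rw [← this]; group) (a := a) (h⁻¹ * g).2)
      exact Subtype.ext (inv_mul_eq_one.1 h2).symm)
  rwa [Nat.card_fun, Nat.card_eq_fintype_card (α := s), Fintype.card_coe] at this

theorem cb_prim_case {α : Type*} [Finite α] (H : Subgroup (Equiv.Perm α)) [hH : IsPreprimitive H α]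
    (h1 : Nontrivial H) (a : α) (hstab : 3 * cl (stabilizer H a) + 8 ≤ 4 * Nat.card α) :
    3 * cl H + 4 ≤ 4 * Nat.card α := by
  classical
  have hf : ∀ g : H, (∀ x : α, g • x = x) → g = 1 := fun g hg => Subtype.ext (Equiv.ext hg)
  obtain ⟨N, hNn, hN, -, hmin⟩ := exists_minimal_normal_le (⊤ : Subgroup H) top_ne_bot
  have hNt : IsPretransitive N α := normal_trans_of_ne_bot hH N hN
  have e1 : cl H = cl N + cl (H ⧸ N) := cl_add N.subtype_injective (QuotientGroup.mk'_surjective N)
    (by rw [Subgroup.range_subtype, QuotientGroup.ker_mk'])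
  let ι : stabilizer N a →* stabilizer H a :=
    (N.subtype.comp (stabilizer N a).subtype).codRestrict _ fun x => x.2
  have e2 : cl (stabilizer H a) = cl (stabilizer N a) + cl (H ⧸ N) := by
    refine cl_add (g := ι) (f := (QuotientGroup.mk' N).comp (stabilizer H a).subtype)
      (fun x y h => Subtype.ext (Subtype.ext
        (congrArg (fun z : stabilizer H a => (z : H)) h))) (fun q => ?_) ?_
    · obtain ⟨g, rfl⟩ := QuotientGroup.mk'_surjective N q
      obtain ⟨n, hn⟩ := hNt.exists_smul_eq (g⁻¹ • a) a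
      refine ⟨⟨g * (n : H)⁻¹, ?_⟩, ?_⟩
      · rw [mem_stabilizer_iff, mul_smul, ← eq_inv_smul_iff, inv_smul_eq_iff]; exact hn.symm
      · exact (QuotientGroup.mk'_eq_mk' N).2 ⟨n, n.2, by simp⟩
    · ext x
      rw [MonoidHom.mem_ker, MonoidHom.comp_apply, QuotientGroup.mk'_apply, QuotientGroup.eq_one_iff]
      exact ⟨by rintro ⟨y, rfl⟩; exact y.1.2, fun h => ⟨⟨⟨x, h⟩, x.2⟩, rfl⟩⟩
  by_cases hc : cl N ≤ cl (stabilizer N a) + 1
  · omega
  obtain ⟨k, hk1, hk2⟩ := card_stab_le hf N hNt a
  have e3 := card_mul_card_stabilizer (G := H) a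
  have e4 := card_mul_card_stabilizer (G := N) a
  have e5 := two_pow_cl_le H
  have e6 : Nat.card H ≤ Nat.card α * Nat.card N ^ k := e3 ▸ Nat.mul_le_mul_left _ hk2
  have hpi : ∀ (T : Type) [Group T] [Finite T] (m : ℕ), cl (Fin m → T) = m * cl T := fun T _ _ m => by
    rw [cl_pi]; simp
  by_cases hX : stabilizer N a = ⊥
  · have hn : Nat.card N = Nat.card α := card_eq_of_regular hNt hX
    have : Nontrivial N := (Subgroup.nontrivial_iff_ne_bot N).2 hN
    obtain ⟨T, _, π, hT, hπ⟩ := exists_simple_quotient N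
    have : Finite T := Finite.of_surjective π hπ
    obtain ⟨m, ⟨e⟩⟩ := exists_pi_equiv_of_separating (N := N) (T := T) fun n hn => by
      obtain ⟨g, hg⟩ := separating_of_minimal_normal N hmin π hπ n hn
      exact ⟨π.comp (MulAut.conjNormal g : MulAut N).toMonoidHom,
        hπ.comp (MulAut.conjNormal g : MulAut N).surjective, hg⟩
    have f1 := cl_congr e
    rw [hpi] at f1
    have f2 : m * cl T ≤ m * 1 := Nat.mul_le_mul_left _ cl_simple
    have f3 := Nat.card_congr e.toEquiv
    rw [Nat.card_fun, Nat.card_eq_fintype_card (α := Fin m), Fintype.card_fin, hn] at f3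
    have f4 : 2 ≤ Nat.card T := Finite.one_lt_card
    rw [hn] at hk1 e6
    by_cases h16 : 16 ≤ Nat.card α
    · exact cb_numA h16 hk1 (e5.trans e6)
    have hm : 2 ≤ m := by omega
    have hsmall : Nat.card α = 4 ∨ Nat.card α = 8 ∨ Nat.card α = 9 := by
      have g1 : 2 ^ m < 2 ^ 4 := (Nat.pow_le_pow_left f4 m).trans_lt (by omega)
      rw [Nat.pow_lt_pow_iff_right one_lt_two] at g1
      have g2 : Nat.card T ^ 2 < 4 ^ 2 := (Nat.pow_le_pow_right (by omega) hm).trans_lt (by omega)
      rw [Nat.pow_lt_pow_iff_left (by norm_num)] at g2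
      generalize Nat.card T = t at *
      interval_cases t <;> interval_cases m <;> omega
    have := cb_num_small hsmall (Nat.card_perm (α := α) ▸ H.card_subgroup_dvd_card) hk1 e6
    have := cl_le_cardFactors H
    omega
  have hnab : ¬ IsMulCommutative N := fun hcomm => hX (stabilizer_eq_bot_iff.2 fun n hn hna =>
    hf n (fix_all_of_commute hNt (fun m hm => congrArg Subtype.val
      (hcomm.is_comm.comm (⟨m, hm⟩ : N) ⟨n, hn⟩)) hna))
  obtain ⟨T, _, m, e, hT, hTna, hm, hcase⟩ := onan_scott_core H N hN hmin hnab a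
  have : Finite (Fin m → T) := Finite.of_equiv _ e.toEquiv
  have : Finite T := Finite.of_injective (fun (t : T) (_ : Fin m) => t)
    fun s t h => congrFun h ⟨0, hm⟩
  have f0 : cl T = 1 := le_antisymm cl_simple cl_pos
  have f1 := cl_congr e
  rw [hpi, f0, mul_one] at f1
  rcases hcase with ⟨K, hK, hK'⟩ | ⟨r, c, hr, hc1, hc2⟩
  · exfalso
    have hnt : ∀ j, Nontrivial (K j) := by
      intro j
      rw [Subgroup.nontrivial_iff_ne_bot]
      intro hj
      let M : Subgroup N := ((Pi.evalMonoidHom (fun _ => T) j).comp e.toMonoidHom).ker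
      have hM : ∀ x : N, x ∈ M ↔ e x j = 1 := fun x => Iff.rfl
      have hle : (M.map N.subtype).normalCore ≤ N :=
        (Subgroup.normalCore_le _).trans (Subgroup.map_subtype_le _)
      rcases hmin _ inferInstance hle with h | h
      · apply hX
        rw [eq_bot_iff]
        intro x hx
        have : (x : H) ∈ (M.map N.subtype).normalCore := by
          intro g
          obtain ⟨n, hn⟩ := hNt.exists_smul_eq a (g • a)
          change (n : H) • a = g • a at hn
          have hx' : (x : H) • a = a := hx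
          have h2 : (MulAut.conjNormal ((n : H)⁻¹ * g) x : N) ∈ M := by
            rw [hM, ← Subgroup.mem_bot, ← hj]
            refine (hK' _).1 ?_ j
            rw [MulAut.conjNormal_apply, mem_stabilizer_iff, mul_inv_rev, inv_inv]
            simp only [mul_smul]
            rw [hn, inv_smul_smul, hx', ← hn, inv_smul_smul]
          refine ⟨_, (inferInstance : M.Normal).conj_mem _ h2 n, ?_⟩
          simp [mul_assoc]
        rw [h, Subgroup.mem_bot] at this
        exact Subtype.ext this
      · obtain ⟨t, ht⟩ := exists_ne (1 : T)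
        obtain ⟨y, hy, hy'⟩ := Subgroup.normalCore_le _ (h.ge (e.symm fun _ => t).2)
        rw [Subtype.ext hy', SetLike.mem_coe, hM] at hy
        exact ht (by simpa using hy)
    let φ : stabilizer N a →* (∀ j, K j) := MonoidHom.pi fun j =>
      (((Pi.evalMonoidHom (fun _ => T) j).comp e.toMonoidHom).comp (stabilizer N a).subtype).codRestrict
        (K j) fun x => (hK' x).1 x.2 j
    have hφ : Bijective φ := ⟨fun x y h => Subtype.ext (e.injective (funext fun j =>
      congrArg Subtype.val (congrFun h j))), fun f => ⟨⟨e.symm fun j => f j, (hK' _).2 fun j => by simp⟩,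
        funext fun j => Subtype.ext (by simp [φ])⟩⟩
    have f2 := cl_congr (MulEquiv.ofBijective φ hφ)
    rw [cl_pi] at f2
    have f3 : ∑ j : Fin m, 1 ≤ ∑ j, cl (K j) := Finset.sum_le_sum fun j _ => cl_pos
    simp only [Finset.sum_const, Finset.card_univ, Fintype.card_fin, smul_eq_mul, mul_one] at f3
    omega
  · set l := Fintype.card (Set.range c) with hl
    let q : Set.range c ≃ Fin l := Fintype.equivFin _
    let φ : (Fin l → T) →* stabilizer N a := (e.symm.toMonoidHom.comp
      (MonoidHom.pi fun i => Pi.evalMonoidHom (fun _ => T) (q ⟨c i, i, rfl⟩))).codRestrict _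
      fun f => (hc2 _).2 fun i j hij => by simp [hij]
    have hφ' : ∀ f i, e (φ f) i = f (q ⟨c i, i, rfl⟩) := fun f i => by simp [φ]
    have hφ : Bijective φ := by
      refine ⟨fun f g h => funext fun j => ?_, fun x => ⟨fun j => e x (q.symm j).2.choose, ?_⟩⟩
      · obtain ⟨⟨_, i, rfl⟩, rfl⟩ := q.surjective j
        exact (hφ' f i).symm.trans (h ▸ hφ' g i)
      · refine Subtype.ext (e.injective (funext fun i => ?_))
        rw [hφ']
        refine (hc2 x).1 x.2 _ _ ?_
        have := (q.symm (q ⟨c i, i, rfl⟩)).2.choose_spec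
        simpa using this
    have f2 := cl_congr (MulEquiv.ofBijective φ hφ)
    rw [hpi, f0, mul_one] at f2
    have f3 := Nat.card_congr e.toEquiv
    have f4 := Nat.card_eq_of_bijective φ hφ
    rw [Nat.card_fun, Nat.card_eq_fintype_card (α := Fin _), Fintype.card_fin] at f3 f4
    have f5 : 2 * l ≤ m := by
      have := Finset.card_eq_sum_card_image c Finset.univ
      rw [Finset.card_univ, Fintype.card_fin] at this
      have h2 : (Finset.univ.image c).card = l := by
        rw [hl, ← Set.toFinset_card, Set.toFinset_range]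
      rw [this, ← h2, mul_comm, ← smul_eq_mul]
      refine Finset.card_nsmul_le_sum _ _ _ fun j hj => ?_
      obtain ⟨i, -, rfl⟩ := Finset.mem_image.1 hj
      rw [← Fintype.card_subtype, ← Nat.card_eq_fintype_card]
      have : 0 < Nat.card {i' // c i' = c i} := Nat.card_pos_iff.2 ⟨⟨i, rfl⟩, inferInstance⟩
      rcases hc1 (c i) with h | h <;> omega
    have f6 := sixteen_le_card hTna
    obtain ⟨d, hd⟩ : ∃ d, m = d + l := ⟨m - l, by omega⟩
    have f7 : Nat.card α = Nat.card T ^ d := by
      rw [f3, ← f4, hd, pow_add] at e4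
      exact Nat.eq_of_mul_eq_mul_right (by positivity) e4
    have f8 : Nat.card N ≤ Nat.card α ^ 2 := by
      rw [f3, f7, ← pow_mul]
      exact Nat.pow_le_pow_right (by omega) (by omega)
    refine cb_numB (k := k) ?_ (hk1.trans f8) (e5.trans (e6.trans (by gcongr)))
    rw [f7]
    exact (Nat.pow_le_pow_left f6 2).trans (Nat.pow_le_pow_right (by omega) (by omega))

/-- points of `S` lie in pairwise distinct orbits -/
def Sep (G : Type*) {α : Type*} [Group G] [MulAction G α] (S : Finset α) : Prop :=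
  ∀ x ∈ S, ∀ y ∈ S, ∀ g : G, g • x = y → x = y

theorem cb_quot {G α : Type v} [Group G] [Finite G] [MulAction G α] [Finite α]
    (ih : ∀ (G' α' : Type v) [Group G'] [Finite G'] [MulAction G' α'] [Finite α'],
      Nat.card α' + Nat.card G' < Nat.card α + Nat.card G →
      (∀ g : G', (∀ x : α', g • x = x) → g = 1) → ∀ S : Finset α', Sep G' S →
      3 * cl G' + 4 * S.card ≤ 4 * Nat.card α')
    (hf : ∀ g : G, (∀ x : α, g • x = x) → g = 1) (r : Setoid α)
    (hinv : ∀ (g : G) x y, r x y → r (g • x) (g • y)) (horb : ∀ x y, r x y → ∃ g : G, g • x = y)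
    (h1 : ∃ x y, x ≠ y ∧ r x y) (h2 : ∃ (g : G) (x : α), ¬ r (g • x) x)
    (S : Finset α) (hS : Sep G S) : 3 * cl G + 4 * S.card ≤ 4 * Nat.card α := by
  classical
  let _ : MulAction G (Quotient r) :=
    { smul := fun g => Quotient.map (g • ·) (hinv g)
      one_smul := fun q => Quotient.inductionOn q fun x => congrArg (Quotient.mk r) (one_smul G x)
      mul_smul := fun g h q => Quotient.inductionOn q fun x =>
        congrArg (Quotient.mk r) (mul_smul g h x) }
  have hsm : ∀ (g : G) x, g • Quotient.mk r x = Quotient.mk r (g • x) := fun g x => rfl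
  let f := toPermHom G (Quotient r)
  have := Fintype.ofFinite (Quotient r)
  have c1 : Nat.card (Quotient r) < Nat.card α := by
    obtain ⟨x, y, hxy, h⟩ := h1
    have := Fintype.ofFinite α
    rw [Nat.card_eq_fintype_card, Nat.card_eq_fintype_card]
    exact Fintype.card_lt_of_surjective_not_injective _ Quotient.mk_surjective
      fun hi => hxy (hi (Quotient.sound h))
  have c2 : Nat.card f.range ≤ Nat.card G := Nat.card_le_card_of_surjective _ f.rangeRestrict_surjective
  have c3 : Nat.card f.ker < Nat.card G := by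
    obtain ⟨g, x, h⟩ := h2
    refine Finite.card_subtype_lt (x := g) fun hg => h ?_
    exact Quotient.exact (Equiv.congr_fun (MonoidHom.mem_ker.1 hg) (Quotient.mk r x))
  have k1 := ih f.range (Quotient r) (by omega) (fun g hg => Subtype.ext (Equiv.ext hg))
    (S.image (Quotient.mk r)) (by
      intro _ hx _ hy ⟨_, g, rfl⟩ h
      obtain ⟨x, hx', rfl⟩ := Finset.mem_image.1 hx
      obtain ⟨y, hy', rfl⟩ := Finset.mem_image.1 hy
      obtain ⟨g', hg'⟩ := horb _ _ (Quotient.exact (show Quotient.mk r (g • x) = _ from h))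
      rw [hS x hx' y hy' (g' * g) (by rw [mul_smul, hg'])])
  have k2 := ih f.ker α (by omega) (fun g hg => Subtype.ext (hf g hg))
    (Finset.univ.image (Quotient.out (s := r))) (by
      intro _ hx _ hy g h
      obtain ⟨x, -, rfl⟩ := Finset.mem_image.1 hx
      obtain ⟨y, -, rfl⟩ := Finset.mem_image.1 hy
      have e := Equiv.congr_fun (MonoidHom.mem_ker.1 g.2) x
      change (g : G) • x = x at e
      have e2 := hsm g x.out
      rw [x.out_eq, e, show (g : G) • x.out = y.out from h, y.out_eq] at e2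
      rw [e2])
  rw [Finset.card_image_of_injOn fun x hx y hy h => by
    obtain ⟨g, hg⟩ := horb _ _ (Quotient.exact h)
    exact hS x hx y hy g hg] at k1
  rw [Finset.card_image_of_injective _ Quotient.out_injective, Finset.card_univ,
    ← Nat.card_eq_fintype_card] at k2
  rw [cl_ker_range f]
  omega

theorem cb_main (n : ℕ) : ∀ (G α : Type v) [Group G] [Finite G] [MulAction G α] [Finite α],
    Nat.card α + Nat.card G = n → (∀ g : G, (∀ x : α, g • x = x) → g = 1) →
    ∀ S : Finset α, Sep G S → 3 * cl G + 4 * S.card ≤ 4 * Nat.card α := by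
  induction n using Nat.strong_induction_on with
  | _ n ih =>
  intro G α _ _ _ _ hn hf S hS
  classical
  replace ih : ∀ (G' α' : Type v) [Group G'] [Finite G'] [MulAction G' α'] [Finite α'],
      Nat.card α' + Nat.card G' < Nat.card α + Nat.card G →
      (∀ g : G', (∀ x : α', g • x = x) → g = 1) → ∀ S : Finset α', Sep G' S →
      3 * cl G' + 4 * S.card ≤ 4 * Nat.card α' :=
    fun G' α' _ _ _ _ h => ih _ (hn ▸ h) G' α' rfl
  have := Fintype.ofFinite α
  rcases subsingleton_or_nontrivial G with h1 | h1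
  · have := S.card_le_univ
    rw [cl_eq_zero, Nat.card_eq_fintype_card]
    omega
  by_cases hfix : ∃ a : α, ∀ g : G, g • a = a
  · obtain ⟨a, ha⟩ := hfix
    let B : SubMulAction G α := ⟨{x | x ≠ a}, fun g x hx h => hx (smul_left_cancel g (h.trans (ha g).symm))⟩
    have c1 : Nat.card B + 1 = Nat.card α := by
      have : Nat.card B = ({a}ᶜ : Set α).ncard := rfl
      rw [this, ← Set.ncard_singleton a, add_comm, Set.ncard_add_ncard_compl]
    have := ih G B (by omega) (fun g hg => hf g fun x => by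
      by_cases hx : x = a
      · rw [hx, ha]
      · exact congrArg Subtype.val (hg ⟨x, hx⟩)) (S.subtype (· ∈ B))
      fun x hx y hy g h => Subtype.ext (hS x (by simpa using hx) y (by simpa using hy) g
        (congrArg Subtype.val h))
    rw [Finset.card_subtype] at this
    have c2 : S.card ≤ (S.filter (· ∈ B)).card + 1 :=
      (Finset.card_le_card (t := insert a (S.filter (· ∈ B))) fun x hx => by
        by_cases h : x = a
        · simp [h]
        · exact Finset.mem_insert_of_mem (Finset.mem_filter.2 ⟨hx, h⟩)).trans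
        (Finset.card_insert_le _ _)
    omega
  push Not at hfix
  by_cases htr : ¬ IsPretransitive G α
  · rw [isPretransitive_iff] at htr
    push Not at htr
    obtain ⟨a, b, hab⟩ := htr
    have hb : ∀ g : G, g • b ∉ orbit G a := fun g ⟨h, hh⟩ =>
      hab (g⁻¹ * h) (by rw [mul_smul, inv_smul_eq_iff]; exact hh)
    refine cb_quot ih hf ⟨fun x y => x = y ∨ (x ∈ orbit G a ∧ y ∈ orbit G a), fun _ => Or.inl rfl,
      fun h => h.imp Eq.symm And.symm, ?_⟩ ?_ ?_ ?_ ?_ S hS
    · rintro x y z (rfl | h) (rfl | h')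
      exacts [Or.inl rfl, Or.inr h', Or.inr h, Or.inr ⟨h.1, h'.2⟩]
    · rintro g x y (rfl | h)
      exacts [Or.inl rfl, Or.inr ⟨mem_orbit_of_mem_orbit _ h.1, mem_orbit_of_mem_orbit _ h.2⟩]
    · rintro x y (rfl | ⟨⟨g, rfl⟩, ⟨h, rfl⟩⟩)
      exacts [⟨1, one_smul _ _⟩, ⟨h * g⁻¹, by simp [mul_smul]⟩]
    · obtain ⟨g, hg⟩ := hfix a
      exact ⟨_, _, hg, Or.inr ⟨mem_orbit _ _, mem_orbit_self _⟩⟩
    · obtain ⟨g, hg⟩ := hfix b
      exact ⟨g, b, fun h => h.elim hg fun h => hb g h.1⟩
  push Not at htr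
  by_cases hpr : ¬ IsPreprimitive G α
  · have := mt prim_of_block hpr
    push Not at this
    obtain ⟨B, hB, a, ha, b, hb, hab, c, hc⟩ := this
    refine cb_quot ih hf ⟨fun x y => ∃ g : G, g • x ∈ B ∧ g • y ∈ B, fun x => ?_,
      fun ⟨g, h, h'⟩ => ⟨g, h', h⟩, ?_⟩ ?_ (fun x y _ => exists_smul_eq G x y)
      ⟨a, b, hab, 1, by simpa using ha, by simpa using hb⟩ ?_ S hS
    · obtain ⟨g, hg⟩ := exists_smul_eq G x a
      exact ⟨g, hg ▸ ha, hg ▸ ha⟩
    · rintro x y z ⟨g, h1, h2⟩ ⟨h, h3, h4⟩
      exact ⟨h, by simpa [mul_smul] using hB (h * g⁻¹) _ h2 (by simpa [mul_smul] using h3) _ h1, h4⟩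
    · rintro g x y ⟨h, h1, h2⟩
      exact ⟨h * g⁻¹, by simpa [mul_smul] using h1, by simpa [mul_smul] using h2⟩
    · obtain ⟨g, rfl⟩ := exists_smul_eq G a c
      refine ⟨g, a, fun ⟨h, h1, h2⟩ => hc ?_⟩
      simpa using hB h⁻¹ _ h2 (by simpa using ha) _ h1
  push Not at hpr
  obtain ⟨g0, hg0⟩ := exists_ne (1 : G)
  obtain ⟨a, ha⟩ : ∃ a : α, g0 • a ≠ a := by
    by_contra hc; push Not at hc; exact hg0 (hf g0 hc)
  have hS1 : S.card ≤ 1 := Finset.card_le_one.2 fun x hx y hy => by
    obtain ⟨g, hg⟩ := exists_smul_eq G x y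
    exact hS x hx y hy g hg
  have hinj : Injective (toPermHom G α) := (injective_iff_map_eq_one _).2 fun g hg =>
    hf g (Equiv.congr_fun hg)
  set H := (toPermHom G α).range with hH
  have e : G ≃* H := MonoidHom.ofInjective hinj
  have hHt : IsPretransitive H α := ⟨fun x y => by
    obtain ⟨g, hg⟩ := exists_smul_eq G x y
    exact ⟨⟨_, g, rfl⟩, hg⟩⟩
  have hHp : IsPreprimitive H α := prim_of_block fun B hB a ha b hb hab x =>
    prim_block hpr (fun g => hB ⟨_, g, rfl⟩) ha hb hab x
  have k1 := ih (stabilizer H a) α (by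
      rw [Nat.card_congr e.toEquiv]
      exact Nat.add_lt_add_left (Finite.card_subtype_lt (x := (⟨_, g0, rfl⟩ : H)) ha) _)
    (fun g hg => Subtype.ext (Subtype.ext (Equiv.ext hg))) {a, g0 • a} (by
      intro x hx y hy g h
      simp only [Finset.mem_insert, Finset.mem_singleton] at hx hy
      have hg : g • a = a := g.2
      rcases hx with rfl | rfl <;> rcases hy with rfl | rfl
      · rfl
      · exact hg.symm.trans h
      · exact smul_left_cancel g (h.trans hg.symm)
      · rfl)
  rw [Finset.card_pair ha.symm] at k1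
  have := cb_prim_case H e.symm.toEquiv.nontrivial a k1
  rw [cl_congr e]
  omega

end Cfsg.Agent.H3
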