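import Mathlib

set_option autoImplicit false

/-! Composition length of a finite group as the maximal length of a subnormal chain. -/

namespace Cfsg.Agent.H3

open Function Subgroup
open scoped ArithmeticFunction.Omega

/-- a strict subnormal chain of length `l` from `A` to `B` -/
inductive Ch {G : Type*} [Group G] : Subgroup G → Subgroup G → ℕ → Prop
  | refl (A : Subgroup G) : Ch A A 0
  | step {A B C : Subgroup G} {l : ℕ} : Ch A B l → B < C → (∀ c ∈ C, ∀ b ∈ B, c * b * c⁻¹ ∈ B) →
      Ch A C (l + 1)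

section
variable {G N Q : Type*} [Group G] [Group N] [Group Q]

theorem Ch.trans {A B C : Subgroup G} {l m : ℕ} (h1 : Ch A B l) (h2 : Ch B C m) :
    Ch A C (l + m) := by
  induction h2 with
  | refl => exact h1
  | step _ hlt hn ih => exact ih.step hlt hn

theorem Ch.step' {A B C : Subgroup G} {l : ℕ} (h : Ch A B l) (hle : B ≤ C)
    (hn : ∀ c ∈ C, ∀ b ∈ B, c * b * c⁻¹ ∈ B) :
    ∃ l', Ch A C l' ∧ l ≤ l' ∧ (B ≠ C → l + 1 ≤ l') := by
  rcases hle.eq_or_lt with rfl | hlt
  · exact ⟨l, h, le_rfl, fun h => absurd rfl h⟩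
  · exact ⟨l + 1, h.step hlt hn, by omega, fun _ => le_rfl⟩

theorem Ch.le_cardFactors [Finite G] {A B : Subgroup G} {l : ℕ} (h : Ch A B l) :
    l + Ω (Nat.card A) ≤ Ω (Nat.card B) := by
  induction h with
  | refl => simp
  | @step B C l _ hlt _ ih =>
    obtain ⟨m, hm⟩ := card_dvd_of_le hlt.le
    have h0 : m ≠ 0 := by rintro rfl; exact (Nat.card_pos (α := C)).ne' hm
    have h1 : m ≠ 1 := by
      rintro rfl
      exact hlt.ne (eq_of_le_of_card_ge hlt.le (by omega))
    have := ArithmeticFunction.cardFactors_pos_iff_one_lt.2 (show 1 < m by omega)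
    rw [hm, ArithmeticFunction.cardFactors_mul Nat.card_pos.ne' h0]
    omega

theorem Ch.split {g : N →* G} {f : G →* Q} (hex : f.ker ≤ g.range) {A B : Subgroup G} {l : ℕ}
    (h : Ch A B l) : ∃ l₁ l₂, l ≤ l₁ + l₂ ∧ Ch (A.comap g) (B.comap g) l₁ ∧
      Ch (A.map f) (B.map f) l₂ := by
  induction h with
  | refl => exact ⟨0, 0, le_rfl, .refl _, .refl _⟩
  | @step B C l _ hlt hn ih =>
    obtain ⟨l₁, l₂, hl, h1, h2⟩ := ih
    obtain ⟨m₁, k1, k2, k3⟩ := h1.step' (comap_mono hlt.le) fun c hc b hb => by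
      simpa using hn _ hc _ hb
    obtain ⟨m₂, j1, j2, j3⟩ := h2.step' (map_mono hlt.le) (by
      rintro _ ⟨c, hc, rfl⟩ _ ⟨b, hb, rfl⟩
      exact ⟨_, hn c hc b hb, by simp⟩)
    refine ⟨m₁, m₂, ?_, k1, j1⟩
    by_cases e1 : B.comap g = C.comap g
    · by_cases e2 : B.map f = C.map f
      · refine absurd (fun c hc => ?_) hlt.not_ge
        obtain ⟨b, hb, hbc⟩ : f c ∈ B.map f := e2 ▸ mem_map_of_mem f hc
        obtain ⟨n, hn⟩ := hex (show b⁻¹ * c ∈ f.ker by simp [MonoidHom.mem_ker, hbc])
        have : n ∈ B.comap g := e1 ▸ (show g n ∈ C from hn ▸ C.mul_mem (C.inv_mem (hlt.le hb)) hc)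
        rw [mem_comap, hn] at this
        simpa using B.mul_mem hb this
      · have := j3 e2; omega
    · have := k3 e1; omega

theorem Ch.comap {f : G →* Q} (hf : Surjective f) {A B : Subgroup Q} {l : ℕ} (h : Ch A B l) :
    Ch (A.comap f) (B.comap f) l := by
  induction h with
  | refl => exact .refl _
  | step _ hlt hn ih =>
    exact ih.step (lt_of_le_of_ne (comap_mono hlt.le) fun e => hlt.ne (comap_injective hf e))
      fun c hc b hb => by simpa using hn _ hc _ hb

theorem Ch.map {g : N →* G} (hg : Injective g) {A B : Subgroup N} {l : ℕ} (h : Ch A B l) :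
    Ch (A.map g) (B.map g) l := by
  induction h with
  | refl => exact .refl _
  | step _ hlt hn ih =>
    refine ih.step (lt_of_le_of_ne (map_mono hlt.le) fun e => hlt.ne (map_injective hg e)) ?_
    rintro _ ⟨c, hc, rfl⟩ _ ⟨b, hb, rfl⟩
    exact ⟨_, hn c hc b hb, by simp⟩

/-- composition length -/
noncomputable def cl (G : Type*) [Group G] : ℕ := sSup {l | Ch (⊥ : Subgroup G) ⊤ l}

theorem ch_bdd [Finite G] : BddAbove {l | Ch (⊥ : Subgroup G) ⊤ l} :=
  ⟨_, fun _ h => (Nat.le_add_right _ _).trans (Ch.le_cardFactors h)⟩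

theorem Ch.le_cl [Finite G] {l : ℕ} (h : Ch (⊥ : Subgroup G) ⊤ l) : l ≤ cl G := le_csSup ch_bdd h

variable (G) in
theorem ch_cl [Finite G] : Ch (⊥ : Subgroup G) ⊤ (cl G) := by
  obtain ⟨l, h, -⟩ := (Ch.refl (⊥ : Subgroup G)).step' (C := ⊤) bot_le (by simp)
  exact Nat.sSup_mem (s := {l | Ch (⊥ : Subgroup G) ⊤ l}) ⟨l, h⟩ ch_bdd

theorem cl_add [Finite G] {g : N →* G} {f : G →* Q} (hg : Injective g) (hf : Surjective f)
    (hex : g.range = f.ker) : cl G = cl N + cl Q := by
  have : Finite N := Finite.of_injective g hg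
  have : Finite Q := Finite.of_surjective f hf
  apply le_antisymm
  · obtain ⟨l₁, l₂, hl, h1, h2⟩ := (ch_cl G).split hex.ge
    rw [MonoidHom.comap_bot, (MonoidHom.ker_eq_bot_iff g).2 hg, comap_top] at h1
    rw [Subgroup.map_bot, map_top_of_surjective f hf] at h2
    have := h1.le_cl
    have := h2.le_cl
    omega
  · have h1 := (ch_cl N).map hg
    have h2 := (ch_cl Q).comap hf
    rw [Subgroup.map_bot, ← MonoidHom.range_eq_map, hex] at h1
    rw [MonoidHom.comap_bot, comap_top] at h2
    exact (h1.trans h2).le_cl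

variable (G) in
theorem cl_le_cardFactors [Finite G] : cl G ≤ Ω (Nat.card G) := by
  simpa using (ch_cl G).le_cardFactors

theorem cl_eq_zero [Subsingleton G] : cl G = 0 := by
  simpa using cl_le_cardFactors G

theorem cl_congr [Finite G] (e : G ≃* Q) : cl G = cl Q := by
  rw [cl_add (g := (⊥ : Subgroup G).subtype) (f := e.toMonoidHom) (subtype_injective _) e.surjective
    (by rw [range_subtype, (MonoidHom.ker_eq_bot_iff _).2 e.injective]), cl_eq_zero, zero_add]

theorem cl_ker_range [Finite G] (f : G →* Q) : cl G = cl f.ker + cl f.range :=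
  cl_add (subtype_injective _) f.rangeRestrict_surjective
    (by rw [range_subtype, MonoidHom.ker_rangeRestrict])

theorem cl_pos [Finite G] [Nontrivial G] : 1 ≤ cl G :=
  ((Ch.refl (⊥ : Subgroup G)).step bot_lt_top (by simp)).le_cl

theorem cl_simple [Finite G] [IsSimpleGroup G] : cl G ≤ 1 := by
  have h := ch_cl G
  generalize cl G = l at h
  generalize hT : (⊤ : Subgroup G) = T at h
  cases h with
  | refl => omega
  | @step B _ l h hlt hn =>
    subst hT
    rcases (show B.Normal from ⟨fun b hb c => hn c trivial b hb⟩).eq_bot_or_eq_top with rfl | rfl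
    · have := h.le_cardFactors; omega
    · exact absurd hlt (lt_irrefl _)

theorem cl_pi (m : ℕ) : ∀ (R : Fin m → Type*) [∀ i, Group (R i)] [∀ i, Finite (R i)],
    cl (∀ i, R i) = ∑ i, cl (R i) := by
  induction m with
  | zero => intro R _ _; simp [cl_eq_zero]
  | succ m ih =>
    intro R _ _
    rw [Fin.sum_univ_succ, ← ih]
    refine cl_add (g := MonoidHom.mulSingle R 0)
      (f := MonoidHom.pi fun i : Fin m => Pi.evalMonoidHom R i.succ) (Pi.mulSingle_injective 0)
      (fun y => ⟨Fin.cons 1 y, rfl⟩) ?_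
    ext x
    constructor
    · rintro ⟨y, rfl⟩
      ext i
      simp
    · intro hx
      refine ⟨x 0, funext fun i => Fin.cases (by simp) (fun i => ?_) i⟩
      have := congrFun hx i
      simp only [MonoidHom.pi_apply, Pi.evalMonoidHom_apply, Pi.one_apply] at this
      simp [this]

theorem two_pow_cardFactors_le {n : ℕ} (hn : n ≠ 0) : 2 ^ Ω n ≤ n := by
  rw [ArithmeticFunction.cardFactors_apply]
  conv_rhs => rw [← Nat.prod_primeFactorsList hn]
  exact List.pow_card_le_prod _ _ fun p hp => (Nat.prime_of_mem_primeFactorsList hp).two_le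

theorem le_pow_cardFactors {n q : ℕ} (hn : n ≠ 0) (h : ∀ p, p.Prime → p ∣ n → p ≤ q) :
    n ≤ q ^ Ω n := by
  rw [ArithmeticFunction.cardFactors_apply]
  conv_lhs => rw [← Nat.prod_primeFactorsList hn]
  exact List.prod_le_pow_card _ _ fun p hp =>
    h p (Nat.prime_of_mem_primeFactorsList hp) (Nat.dvd_of_mem_primeFactorsList hp)

variable (G) in
theorem two_pow_cl_le [Finite G] : 2 ^ cl G ≤ Nat.card G :=
  (Nat.pow_le_pow_right two_pos (cl_le_cardFactors G)).trans (two_pow_cardFactors_le Nat.card_pos.ne')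

variable (G) in
theorem exists_small_gen [Finite G] :
    ∃ s : Finset G, closure (s : Set G) = ⊤ ∧ 2 ^ s.card ≤ Nat.card G := by
  classical
  obtain ⟨s, hs, hmax⟩ := Set.Finite.exists_maximalFor (fun s : Finset G => closure (s : Set G))
    {s | 2 ^ s.card ≤ Nat.card (closure (s : Set G))} (Set.toFinite _) ⟨∅, by simp⟩
  have htop : closure (s : Set G) = ⊤ := by
    rw [eq_top_iff]
    intro x _
    by_contra hx
    have hle : closure (s : Set G) ≤ closure ((insert x s : Finset G) : Set G) :=
      closure_mono (by simp)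
    have hx' : x ∈ closure ((insert x s : Finset G) : Set G) := subset_closure (by simp)
    refine hx (hmax (j := insert x s) ?_ hle hx')
    obtain ⟨m, hm⟩ := card_dvd_of_le hle
    have h0 : m ≠ 0 := by rintro rfl; exact (Nat.card_pos).ne' hm
    have h1 : m ≠ 1 := by
      rintro rfl
      exact hx (eq_of_le_of_card_ge hle (by omega) ▸ hx')
    have h2 := Nat.pow_le_pow_right two_pos (Finset.card_insert_le x s)
    simp only [Set.mem_ofPred_eq] at hs ⊢
    rw [hm]
    exact h2.trans (by rw [pow_succ]; exact Nat.mul_le_mul hs (by omega))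
  exact ⟨s, htop, by simpa [htop] using hs⟩

theorem sixteen_le_card [Finite G] [IsSimpleGroup G] (hG : ¬ IsMulCommutative G) :
    16 ≤ Nat.card G := by
  have hns : ¬ Group.IsSolvable G := fun h =>
    hG ⟨⟨IsSimpleGroup.comm_iff_isSolvable.2 h⟩⟩
  have h1 : ¬ Squarefree (Nat.card G) := fun h => by
    have := IsZGroup.of_squarefree h
    exact hns inferInstance
  have h2 : ∀ p k : ℕ, p.Prime → Nat.card G ≠ p ^ k := fun p k hp h => by
    have : Fact p.Prime := ⟨hp⟩
    have := (IsPGroup.of_card h).isNilpotent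
    exact hns inferInstance
  have h3 : Nat.card G ≠ 12 := fun h => by
    obtain ⟨H, hH⟩ := Sylow.exists_subgroup_card_pow_prime (G := G) 2 (n := 2) (by rw [h]; norm_num)
    have hi : H.index = 3 := by have := H.card_mul_index; rw [hH, h] at this; omega
    rcases (inferInstance : H.normalCore.Normal).eq_bot_or_eq_top with h' | h'
    · rw [normalCore_eq_ker, MonoidHom.ker_eq_bot_iff] at h'
      have := card_dvd_of_injective _ h'
      rw [Nat.card_perm, ← index_eq_card, hi, h] at this
      norm_num [Nat.factorial] at this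
    · have : H = ⊤ := top_le_iff.1 (h' ▸ H.normalCore_le)
      rw [this, index_top] at hi
      omega
  by_contra hlt
  have h0 : 0 < Nat.card G := Nat.card_pos
  have := h2 2 2 Nat.prime_two
  have := h2 2 3 Nat.prime_two
  have := h2 3 2 Nat.prime_three
  apply h1
  generalize Nat.card G = n at *
  rw [Nat.squarefree_iff_prime_squarefree]
  intro p hp hd
  have h4 := hp.two_le
  have h5 : p < 4 := by have := Nat.le_of_dvd h0 hd; nlinarith
  interval_cases p <;> omega

end

end Cfsg.Agent.H3
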