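import Cfsg.Agent.H3.SylowOrbit

set_option autoImplicit false

/-! Normal subgroups outside of which every element has exactly one fixed point. -/

namespace Cfsg.Agent.H3

open MulAction Function
open scoped Pointwise

section
variable {G : Type*} [Group G]

/-- `L` maps onto `G ⧸ D`. -/
def Cov (D L : Subgroup G) : Prop := ∀ g : G, ∃ d ∈ D, d * g ∈ L

theorem Cov.mono {D L L' : Subgroup G} (h : Cov D L) (hle : L ≤ L') : Cov D L' :=
  fun g => (h g).imp (fun _ hd => ⟨hd.1, hle hd.2⟩)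

theorem cov_top (D : Subgroup G) : Cov D ⊤ := fun _ => ⟨1, one_mem _, trivial⟩

theorem cov_iff {D L : Subgroup G} [D.Normal] : Cov D L ↔ D ⊔ L = ⊤ := by
  constructor
  · intro h
    rw [eq_top_iff]
    intro g _
    obtain ⟨d, hd, hg⟩ := h g
    have := mul_mem (Subgroup.mem_sup_left (T := L) (inv_mem hd)) (Subgroup.mem_sup_right hg)
    simpa using this
  · intro h g
    have : g ∈ ((D ⊔ L : Subgroup G) : Set G) := by rw [h]; trivial
    rw [Subgroup.normal_mul] at this
    obtain ⟨d, hd, l, hl, rfl⟩ := this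
    exact ⟨d⁻¹, inv_mem hd, by simpa using hl⟩

theorem cov_iff_relIndex [Finite G] {D L : Subgroup G} [D.Normal] :
    Cov D L ↔ D.relIndex L = D.index := by
  rw [cov_iff, ← Subgroup.relIndex_sup_left, ← Subgroup.relIndex_mul_index (le_sup_left : D ≤ D ⊔ L),
    ← Subgroup.index_eq_one]
  have : 0 < D.relIndex (D ⊔ L) := Nat.pos_of_ne_zero Subgroup.index_ne_zero_of_finite
  constructor
  · intro h; rw [h, mul_one]
  · intro h
    exact Nat.eq_of_mul_eq_mul_left this (by rw [mul_one]; exact h.symm)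

theorem Cov.exists_notMem {D L : Subgroup G} (h : Cov D L) (hD : D ≠ ⊤) : ∃ x ∈ L, x ∉ D := by
  by_contra hc
  push Not at hc
  apply hD
  rw [eq_top_iff]
  intro g _
  obtain ⟨d, hd, hg⟩ := h g
  simpa using mul_mem (inv_mem hd) (hc _ hg)

theorem Cov.index_le {D L : Subgroup G} [hD : D.Normal] (h : Cov D L) {Y : Type*} (f : G → Y)
    {S : Set Y} (hS : S.Finite) (hf : ∀ l ∈ L, f l ∈ S)
    (hinj : ∀ a ∈ L, ∀ b ∈ L, f a = f b → a⁻¹ * b ∈ D) : D.index ≤ S.ncard := by
  choose d hd hl using h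
  have key : ∀ g : G, ((d g * g : G) : G ⧸ D) = g := fun g => by
    rw [QuotientGroup.mk_mul, (QuotientGroup.eq_one_iff _).2 (hd g), one_mul]
  have : Finite S := hS
  rw [Subgroup.index, ← Nat.card_coe_set_eq]
  refine Nat.card_le_card_of_injective (fun q : G ⧸ D => (⟨f (d q.out * q.out), hf _ (hl _)⟩ : S))
    (fun a b e => ?_)
  have := QuotientGroup.eq.2 (hinj _ (hl _) _ (hl _) (congrArg Subtype.val e))
  rwa [key, key, QuotientGroup.out_eq', QuotientGroup.out_eq'] at this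

theorem Cov.sylow [Finite G] {p : ℕ} (hp : p.Prime) {D L P : Subgroup G} [hD : D.Normal]
    (h : Cov D L) (hP : SylowIn p P (D ⊓ L)) : Cov D (L ⊓ Subgroup.normalizer (P : Set G)) := by
  intro g
  obtain ⟨d, hd, hg⟩ := h g
  obtain ⟨y, hy, hy'⟩ := hP.adjust hp (x := d * g) (fun u hu =>
    ⟨hD.conj_mem _ (hP.le hu).1 _, L.mul_mem (L.mul_mem hg (hP.le hu).2) (L.inv_mem hg)⟩)
  refine ⟨y * d, mul_mem hy.1 hd, ?_⟩
  rw [mul_assoc]
  exact ⟨mul_mem hy.2 hg, mem_normalizer_of_conj_mem hy'⟩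

theorem relIndex_mul_ncard_diff [Finite G] (D K : Subgroup G) :
    D.relIndex K * {x | x ∈ K ∧ x ∉ D}.ncard + Nat.card K = D.relIndex K * Nat.card K := by
  have h1 : Nat.card (D ⊓ K : Subgroup G) * D.relIndex K = Nat.card K := by
    rw [← Subgroup.card_mul_index (D.subgroupOf K), Subgroup.relIndex, ← Subgroup.inf_subgroupOf_right,
      Nat.card_congr (Subgroup.subgroupOfEquivOfLe (inf_le_right : D ⊓ K ≤ K)).toEquiv]
  have h2 : {x | x ∈ K ∧ x ∉ D}.ncard + Nat.card (D ⊓ K : Subgroup G) = Nat.card K := by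
    have := Set.ncard_sdiff_add_ncard_of_subset (s := ((D ⊓ K : Subgroup G) : Set G)) (t := (K : Set G))
      (fun x hx => hx.2) (Set.toFinite _)
    rw [← Nat.card_coe_set_eq (K : Set G), ← Nat.card_coe_set_eq ((D ⊓ K : Subgroup G) : Set G)] at this
    have e : {x | x ∈ K ∧ x ∉ D} = (K : Set G) \ ((D ⊓ K : Subgroup G) : Set G) := by
      ext x
      simp only [Set.mem_ofPred_eq, Set.mem_sdiff, SetLike.mem_coe, Subgroup.mem_inf]
      tauto
    rw [e]
    exact this
  calc _ = D.relIndex K * ({x | x ∈ K ∧ x ∉ D}.ncard + Nat.card (D ⊓ K : Subgroup G)) := by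
        rw [mul_add, mul_comm _ (Nat.card _), h1]
    _ = _ := by rw [h2]

end

variable {G Ω : Type*} [Group G] [MulAction G Ω]

open Classical in
theorem sum_fix_orbit [Fintype G] [Fintype Ω] (D L : Subgroup G) [hD : D.Normal] (β : Ω) :
    D.relIndex (L ⊓ stabilizer G β) *
      (∑ x ∈ Finset.univ.filter (fun x => x ∈ L ∧ x ∉ D),
        (Finset.univ.filter (fun γ => γ ∈ orbit L β ∧ x • γ = γ)).card) + Nat.card L =
      D.relIndex (L ⊓ stabilizer G β) * Nat.card L := by
  have h1 : ∑ x ∈ Finset.univ.filter (fun x => x ∈ L ∧ x ∉ D),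
      (Finset.univ.filter (fun γ => γ ∈ orbit L β ∧ x • γ = γ)).card =
      (orbit L β).ncard * {x | x ∈ L ⊓ stabilizer G β ∧ x ∉ D}.ncard := by
    have := Finset.sum_card_bipartiteAbove_eq_sum_card_bipartiteBelow
      (s := Finset.univ.filter (fun x : G => x ∈ L ∧ x ∉ D))
      (t := Finset.univ.filter (fun γ => γ ∈ orbit L β)) (fun x γ => x • γ = γ)
    simp only [Finset.bipartiteAbove, Finset.bipartiteBelow, Finset.filter_filter] at this
    rw [this, Finset.sum_const_nat (m := {x | x ∈ L ⊓ stabilizer G β ∧ x ∉ D}.ncard)]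
    · congr 1
      rw [Set.ncard_eq_toFinset_card']
      congr 1
      ext; simp
    · intro γ hγ
      obtain ⟨⟨l, hl⟩, rfl⟩ := (Finset.mem_filter.1 hγ).2
      rw [← Set.ncard_coe_finset]
      symm
      refine Set.ncard_congr (fun x _ => l * x * l⁻¹) ?_ ?_ ?_
      · rintro x ⟨⟨h1, h2⟩, h3⟩
        simp only [Finset.coe_filter, Finset.mem_univ, true_and, Set.mem_ofPred_eq]
        refine ⟨⟨mul_mem (mul_mem hl h1) (inv_mem hl), fun h => h3 (by simpa [mul_assoc] using hD.conj_mem _ h l⁻¹)⟩, ?_⟩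
        change (l * x * l⁻¹) • l • β = l • β
        rw [mul_smul, inv_smul_smul, mul_smul, h2]
      · intro a b _ _ e
        simpa using e
      · intro y hy
        simp only [Finset.coe_filter, Finset.mem_univ, true_and, Set.mem_ofPred_eq] at hy
        obtain ⟨⟨h1, h3⟩, h2⟩ := hy
        refine ⟨l⁻¹ * y * l, ⟨⟨L.mul_mem (L.mul_mem (L.inv_mem hl) h1) hl, ?_⟩,
          fun h => h3 (by simpa [mul_assoc] using hD.conj_mem _ h l)⟩, by group⟩
        change (l⁻¹ * y * l) • β = β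
        change y • l • β = l • β at h2
        rw [mul_smul, mul_smul, h2, inv_smul_smul]
  rw [h1, ← card_orbit_mul_card_inf L β]
  have := relIndex_mul_ncard_diff D (L ⊓ stabilizer G β)
  calc _ = (orbit L β).ncard * (D.relIndex (L ⊓ stabilizer G β) *
        {x | x ∈ L ⊓ stabilizer G β ∧ x ∉ D}.ncard + Nat.card (L ⊓ stabilizer G β : Subgroup G)) := by ring
    _ = _ := by rw [this]; ring

/-- Every element outside the normal subgroup `D` has exactly one fixed point. -/
structure DP (Ω : Type*) [MulAction G Ω] (D : Subgroup G) : Prop where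
  normal : D.Normal
  ex : ∀ g, g ∉ D → ∃ a : Ω, g • a = a
  uniq : ∀ g, g ∉ D → ∀ a b : Ω, g • a = a → g • b = b → a = b

theorem DP.count [Finite G] [Finite Ω] {D : Subgroup G} (h : DP Ω D) (L : Subgroup G) (β : Ω) :
    D.relIndex (L ⊓ stabilizer G β) *
      {x | (x ∈ L ∧ x ∉ D) ∧ ∃ γ ∈ orbit L β, x • γ = γ}.ncard + Nat.card L =
      D.relIndex (L ⊓ stabilizer G β) * Nat.card L := by
  classical
  have := Fintype.ofFinite G
  have := Fintype.ofFinite Ω
  have := h.normal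
  rw [← sum_fix_orbit D L β]
  congr 2
  rw [Set.ncard_eq_toFinset_card', Finset.card_eq_sum_ones]
  symm
  rw [← Finset.sum_filter_add_sum_filter_not _ (fun x => ∃ γ ∈ orbit L β, x • γ = γ),
    Finset.sum_eq_zero (s := Finset.filter (fun x => ¬ _) _), add_zero]
  · apply Finset.sum_congr
    · ext; simp
    · intro x hx
      simp only [Set.mem_toFinset, Set.mem_ofPred_eq] at hx
      obtain ⟨⟨-, h2⟩, γ, h3, h4⟩ := hx
      rw [Finset.card_eq_one]
      refine ⟨γ, ?_⟩
      ext y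
      simp only [Finset.mem_filter, Finset.mem_univ, true_and, Finset.mem_singleton]
      exact ⟨fun hy => h.uniq x h2 _ _ hy.2 h4, by rintro rfl; exact ⟨h3, h4⟩⟩
  · intro x hx
    rw [Finset.card_eq_zero, Finset.filter_eq_empty_iff]
    intro γ _ hγ
    exact (Finset.mem_filter.1 hx).2 ⟨γ, hγ⟩

theorem DP.fix_orbit [Finite G] [Finite Ω] {D : Subgroup G} (h : DP Ω D) {L : Subgroup G} {β : Ω}
    (hc : Cov D (L ⊓ stabilizer G β)) {x : G} (hx : x ∈ L) (hxD : x ∉ D) :
    ∃ γ ∈ orbit L β, x • γ = γ := by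
  have := h.normal
  have h1 := h.count L β
  have h2 := relIndex_mul_ncard_diff D L
  rw [cov_iff_relIndex.1 hc] at h1
  rw [cov_iff_relIndex.1 (hc.mono inf_le_left)] at h2
  have h3 := Nat.eq_of_mul_eq_mul_left (Nat.pos_of_ne_zero Subgroup.index_ne_zero_of_finite)
    (Nat.add_right_cancel (h1.trans h2.symm))
  have h4 := Set.eq_of_subset_of_ncard_le (fun x hx => hx.1) h3.ge (Set.toFinite _)
  have : x ∈ {x | x ∈ L ∧ x ∉ D} := ⟨hx, hxD⟩
  rw [← h4] at this
  exact this.2

theorem DP.exists_cov [Finite G] [Finite Ω] {D : Subgroup G} (h : DP Ω D) (hD : D ≠ ⊤)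
    {L : Subgroup G} (hc : Cov D L) : ∃ β : Ω, Cov D (L ⊓ stabilizer G β) := by
  have := h.normal
  have h2 := relIndex_mul_ncard_diff D L
  rw [cov_iff_relIndex.1 hc] at h2
  have hL : 0 < Nat.card L := Nat.card_pos
  have big : ∀ x ∈ L, x ∉ D → ∀ β : Ω, x • β = β →
      Nat.card L ≤ 2 * {x | (x ∈ L ∧ x ∉ D) ∧ ∃ γ ∈ orbit L β, x • γ = γ}.ncard := by
    intro x hx hxD β hβ
    have h1 := h.count L β
    have h3 : D.relIndex (L ⊓ stabilizer G β) ≠ 1 := fun e =>
      hxD (Subgroup.relIndex_eq_one.1 e ⟨hx, hβ⟩)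
    have h4 : D.relIndex (L ⊓ stabilizer G β) ≠ 0 := Subgroup.index_ne_zero_of_finite
    generalize D.relIndex (L ⊓ stabilizer G β) = a at *
    generalize Set.ncard _ = w at *
    obtain ⟨b, rfl⟩ : ∃ b, a = b + 2 := ⟨a - 2, by omega⟩
    by_contra hlt
    nlinarith
  obtain ⟨x, hx, hxD⟩ := hc.exists_notMem hD
  obtain ⟨β, hβ⟩ := h.ex x hxD
  refine ⟨β, cov_iff_relIndex.2 ?_⟩
  have hw : {x | x ∈ L ∧ x ∉ D}.ncard < Nat.card L := by
    have : 0 < D.index := Nat.pos_of_ne_zero Subgroup.index_ne_zero_of_finite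
    by_contra hge
    nlinarith
  by_cases hall : ∀ y ∈ L, y ∉ D → ∃ γ ∈ orbit L β, y • γ = γ
  · have h1 := h.count L β
    have e : {x | (x ∈ L ∧ x ∉ D) ∧ ∃ γ ∈ orbit L β, x • γ = γ} = {x | x ∈ L ∧ x ∉ D} :=
      Set.ext (fun y => ⟨fun hy => hy.1, fun hy => ⟨hy, hall y hy.1 hy.2⟩⟩)
    rw [e] at h1
    generalize D.relIndex (L ⊓ stabilizer G β) = a at *
    generalize Set.ncard _ = w at *
    obtain ⟨u, hu⟩ : ∃ u, Nat.card L = w + (u + 1) := ⟨Nat.card L - w - 1, by omega⟩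
    rw [hu] at h1 h2
    exact Nat.eq_of_mul_eq_mul_right (Nat.succ_pos u) (by nlinarith)
  · exfalso
    push Not at hall
    obtain ⟨y, hy, hyD, hy'⟩ := hall
    obtain ⟨β', hβ'⟩ := h.ex y hyD
    have h5 := big x hx hxD β hβ
    have h6 := big y hy hyD β' hβ'
    have h7 := Set.ncard_union_eq (s := {x | (x ∈ L ∧ x ∉ D) ∧ ∃ γ ∈ orbit L β, x • γ = γ})
      (t := {x | (x ∈ L ∧ x ∉ D) ∧ ∃ γ ∈ orbit L β', x • γ = γ}) (by
        rw [Set.disjoint_left]
        rintro z ⟨⟨-, hz⟩, γ, h1, h2⟩ ⟨-, γ', h3, h4⟩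
        obtain rfl := h.uniq z hz _ _ h2 h4
        refine hy' β' ?_ hβ'
        rw [← orbit_eq_iff.2 h1, orbit_eq_iff.2 h3]
        exact mem_orbit_self _) (Set.toFinite _) (Set.toFinite _)
    have h8 := Set.ncard_le_ncard (s := {x | (x ∈ L ∧ x ∉ D) ∧ ∃ γ ∈ orbit L β, x • γ = γ} ∪
      {x | (x ∈ L ∧ x ∉ D) ∧ ∃ γ ∈ orbit L β', x • γ = γ}) (t := {x | x ∈ L ∧ x ∉ D})
      (by rintro z (hz | hz) <;> exact hz.1) (Set.toFinite _)
    omega

/-- The subgroup generated by the derangements. -/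
theorem dp_derangements [Finite G] [Finite Ω] [Nonempty Ω] [IsPretransitive G Ω] :
    DP Ω (Subgroup.closure {g : G | ∀ ω : Ω, g • ω ≠ ω}) ∧
      IsPretransitive (Subgroup.closure {g : G | ∀ ω : Ω, g • ω ≠ ω}) Ω := by
  classical
  have := Fintype.ofFinite G
  have := Fintype.ofFinite Ω
  set D := Subgroup.closure {g : G | ∀ ω : Ω, g • ω ≠ ω}
  have hD : D.Normal := ⟨fun n hn g => by
    induction hn using Subgroup.closure_induction with
    | mem x hx =>
      refine Subgroup.subset_closure (fun ω e => hx (g⁻¹ • ω) ?_)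
      rw [mul_smul, mul_smul] at e
      rw [eq_inv_smul_iff, e]
    | one => simp
    | mul x y _ _ h1 h2 => simpa [mul_assoc] using mul_mem h1 h2
    | inv x _ h => simpa [mul_assoc] using inv_mem h⟩
  have ex : ∀ g, g ∉ D → ∃ a : Ω, g • a = a := fun g hg => by
    by_contra hc
    push Not at hc
    exact hg (Subgroup.subset_closure hc)
  obtain ⟨β⟩ := ‹Nonempty Ω›
  have h1 := sum_fix_orbit D ⊤ β
  have h2 := relIndex_mul_ncard_diff D ⊤
  have horb : ∀ γ, γ ∈ orbit (⊤ : Subgroup G) β := fun γ => by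
    obtain ⟨g, rfl⟩ := exists_smul_eq G β γ
    exact ⟨⟨g, trivial⟩, rfl⟩
  rw [Subgroup.card_top] at h1 h2
  simp only [horb, true_and, Subgroup.mem_top, top_inf_eq, Subgroup.relIndex_top_right] at h1 h2
  rw [Set.ncard_eq_toFinset_card', Set.toFinset_ofPred] at h2
  have h3 : ∀ x ∈ Finset.univ.filter (fun x => x ∉ D),
      1 ≤ (Finset.univ.filter (fun γ : Ω => x • γ = γ)).card := fun x hx => by
    obtain ⟨a, ha⟩ := ex x (Finset.mem_filter.1 hx).2
    exact Finset.card_pos.2 ⟨a, by simpa using ha⟩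
  have h4 := Finset.sum_le_sum h3
  rw [← Finset.card_eq_sum_ones] at h4
  have h5 : D.relIndex (stabilizer G β) ≤ D.index := by
    rw [← Subgroup.relIndex_top_right]
    exact Subgroup.relIndex_le_of_le_right le_top Subgroup.index_ne_zero_of_finite
  have h6 : 0 < D.relIndex (stabilizer G β) := Nat.pos_of_ne_zero Subgroup.index_ne_zero_of_finite
  have h7 : 0 < Nat.card G := Nat.card_pos
  have h8 : D.relIndex (stabilizer G β) = D.index ∧ ∑ x ∈ Finset.univ.filter (fun x => x ∉ D),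
      (Finset.univ.filter (fun γ : Ω => x • γ = γ)).card =
        (Finset.univ.filter (fun x => x ∉ D)).card := by
    generalize D.relIndex (stabilizer G β) = a at *
    generalize D.index = t at *
    generalize ∑ x ∈ Finset.univ.filter (fun x => x ∉ D),
      (Finset.univ.filter (fun γ : Ω => x • γ = γ)).card = s at *
    generalize (Finset.univ.filter (fun x => x ∉ D)).card = w at *
    generalize Nat.card G = N at *
    have : s < N := by by_contra hge; nlinarith
    obtain ⟨u, rfl⟩ : ∃ u, N = s + (u + 1) := ⟨N - s - 1, by omega⟩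
    obtain ⟨v, rfl⟩ : ∃ v, s = w + v := ⟨s - w, by omega⟩
    obtain ⟨b, rfl⟩ : ∃ b, t = a + b := ⟨t - a, by omega⟩
    have e1 : a * (u + 1) = w + v + (u + 1) := by nlinarith
    have e2 : (a + b) * (v + (u + 1)) = w + v + (u + 1) := by nlinarith
    have hb : b = 0 := by by_contra hb; have := Nat.pos_of_ne_zero hb; nlinarith
    have hv : v = 0 := by by_contra hv; have := Nat.pos_of_ne_zero hv; nlinarith
    omega
  refine ⟨⟨hD, ex, fun g hg a b ha hb => ?_⟩, ⟨fun a b => ?_⟩⟩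
  · have := (Finset.sum_eq_sum_iff_of_le h3).1 (by rw [h8.2, Finset.card_eq_sum_ones]) g
      (by simpa using hg)
    exact Finset.card_le_one.1 this.ge a (by simpa using ha) b (by simpa using hb)
  · have hc := cov_iff_relIndex.2 h8.1
    have key : ∀ a : Ω, ∃ d : D, d • a = β := fun a => by
      obtain ⟨g, rfl⟩ := exists_smul_eq G β a
      obtain ⟨d, hd, h⟩ := hc g
      exact ⟨⟨d, hd⟩, by change d • g • β = β; rw [← mul_smul]; exact h⟩
    obtain ⟨d, hd⟩ := key a
    obtain ⟨e, he⟩ := key b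
    exact ⟨e⁻¹ * d, by rw [mul_smul, hd, inv_smul_eq_iff, he]⟩

end Cfsg.Agent.H3
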