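import Cfsg.Agent.H3.Der1

set_option autoImplicit false

/-! Index bounds for a normal subgroup outside of which every element has exactly one fixed point:
imprimitive groups and degrees that are not prime powers. -/

namespace Cfsg.Agent.H3

open MulAction Function
open scoped Pointwise

variable {G Ω : Type*} [Group G] [MulAction G Ω]

theorem cov_stab {D : Subgroup G} (ht : IsPretransitive D Ω) (a : Ω) : Cov D (stabilizer G a) :=
  fun g => by
    obtain ⟨⟨d, hd⟩, h⟩ := ht.exists_smul_eq (g • a) a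
    exact ⟨d, hd, by rw [mem_stabilizer_iff, mul_smul]; exact h⟩

theorem DP.index_lt [Finite Ω] {D L : Subgroup G} (h : DP Ω D) {a b : Ω}
    (hc : Cov D (L ⊓ stabilizer G a)) {B : Set Ω} (ha : a ∈ B) (hb : b ∈ B) (hab : a ≠ b)
    (hB : ∀ l ∈ L, l • a = a → l • b ∈ B) : D.index + 1 ≤ B.ncard := by
  have := h.normal
  have h1 := hc.index_le (fun l => l • b) (S := B \ {a}) (Set.toFinite _)
    (fun l hl => ⟨hB l hl.1 hl.2, fun e => hab (MulAction.injective l (hl.2.trans e.symm))⟩)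
    (fun x hx y hy e => by
      by_contra hn
      refine hab (h.uniq _ hn _ _ ?_ ?_)
      · rw [mul_smul, hy.2, inv_smul_eq_iff, hx.2]
      · rw [mul_smul, inv_smul_eq_iff]; exact e.symm)
  rw [Set.ncard_sdiff_singleton_of_mem ha] at h1
  have := (Set.ncard_pos (Set.toFinite B)).2 ⟨a, ha⟩
  omega

theorem DP.imprim [Finite G] [Finite Ω] {D : Subgroup G} (h : DP Ω D)
    (ht : IsPretransitive D Ω) (hnp : ¬ IsPreprimitive G Ω) : (D.index + 1) ^ 2 ≤ Nat.card Ω := by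
  have := h.normal
  have htG : IsPretransitive G Ω := ⟨fun a b => by
    obtain ⟨d, hd⟩ := ht.exists_smul_eq a b
    exact ⟨d, hd⟩⟩
  obtain ⟨B, hB, hnt⟩ : ∃ B : Set Ω, IsBlock G B ∧ ¬ IsTrivialBlock B := by
    by_contra hc
    push Not at hc
    exact hnp { isTrivialBlock_of_isBlock := fun {B} hB => hc B hB }
  rw [IsTrivialBlock, not_or, Set.not_subsingleton_iff] at hnt
  obtain ⟨⟨a, ha, b, hb, hab⟩, hne⟩ := hnt
  obtain ⟨c, hc⟩ := (Set.ne_univ_iff_exists_notMem B).1 hne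
  obtain ⟨g, rfl⟩ := exists_smul_eq G a c
  have h1 : D.index + 1 ≤ B.ncard := h.index_lt (L := ⊤) (by simpa using cov_stab ht a) ha hb hab
    (fun l _ hl => IsBlock_mem hB ha (by rwa [hl]) hb)
  have hne' : ∀ l : G, l • a = a → l • g • B ≠ B := fun l hl e => by
    have h3 : l • B = B := hB.smul_eq_of_mem ha (by rwa [hl])
    have h4 : g • B = B := MulAction.injective l (e.trans h3.symm)
    exact hc (h4 ▸ Set.smul_mem_smul_set ha)
  have h2 := (cov_stab ht a).index_le (fun l => l • g • B) (S := orbit G B \ {B}) (Set.toFinite _)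
    (fun l hl => ⟨⟨l * g, mul_smul _ _ _⟩, hne' l hl⟩) (fun x hx y hy e => by
      by_contra hn
      have hga : g • a ∈ g • B := Set.smul_mem_smul_set ha
      have hx' : (x⁻¹ * y) • a = a := (stabilizer G a).mul_mem (inv_mem hx) hy
      obtain ⟨_, ⟨⟨l, hl⟩, rfl⟩, h5⟩ := h.fix_orbit (L := stabilizer G (g • B)) (β := g • a)
        ((cov_stab ht _).mono (le_inf ((hB.translate g).stabilizer_le hga) le_rfl)) (x := x⁻¹ * y)
        (by rw [mem_stabilizer_iff, mul_smul, inv_smul_eq_iff]; exact e.symm) hn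
      have h6 : a = l • g • a := h.uniq _ hn _ _ hx' h5
      have h7 : a ∈ g • B := by
        rw [h6, ← mem_stabilizer_iff.1 hl]
        exact Set.smul_mem_smul_set hga
      rcases hB.smul_eq_or_disjoint g with h8 | h8
      · exact hc (h8 ▸ hga)
      · exact Set.disjoint_left.1 h8 h7 ha)
  rw [Set.ncard_sdiff_singleton_of_mem (mem_orbit_self B)] at h2
  have h3 := (Set.ncard_pos (Set.toFinite (orbit G B))).2 ⟨B, mem_orbit_self B⟩
  rw [← hB.ncard_block_mul_ncard_orbit_eq ⟨a, ha⟩, sq]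
  exact Nat.mul_le_mul h1 (by omega)

theorem card_mul_card_inf_stab {D : Subgroup G} (ht : IsPretransitive D Ω) (a : Ω) :
    Nat.card Ω * Nat.card (D ⊓ stabilizer G a : Subgroup G) = Nat.card D := by
  rw [← card_orbit_mul_card_inf D a, orbit_eq_univ, Set.ncard_univ]

theorem exists_normalizer_notMem [Finite G] {p : ℕ} (hp : p.Prime) {P Q : Subgroup G}
    (hP : IsPGroup p P) (hlt : Q < P) : ∃ x ∈ P, x ∉ Q ∧ x ∈ Subgroup.normalizer (Q : Set G) := by
  have : Fact p.Prime := ⟨hp⟩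
  have := hP.isNilpotent
  have h1 := Group.normalizerCondition_of_isNilpotent (G := P) (Q.subgroupOf P)
    (lt_top_iff_ne_top.2 (fun e => hlt.not_ge (Subgroup.subgroupOf_eq_top.1 e)))
  obtain ⟨⟨x, hx⟩, h2, h3⟩ := SetLike.exists_of_lt h1
  refine ⟨x, hx, h3, mem_normalizer_of_conj_mem (fun y hy => ?_)⟩
  exact (Subgroup.mem_normalizer_iff.1 h2 ⟨y, hlt.le hy⟩).1 hy

theorem DP.prime_bound [Finite G] [Finite Ω] {D : Subgroup G} (h : DP Ω D) (hD : D ≠ ⊤)
    (ht : IsPretransitive D Ω) {p : ℕ} (hp : p.Prime) (hpd : p ∣ Nat.card Ω) (α : Ω) :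
    ∃ k, p ^ k ∣ Nat.card Ω ∧ D.index + 1 ≤ p ^ k := by
  have := h.normal
  have : Fact p.Prime := ⟨hp⟩
  obtain ⟨Q, hQ⟩ := exists_sylowIn hp (D ⊓ stabilizer G α)
  have c1 := (cov_stab ht α).sylow hp hQ
  rw [inf_comm] at c1
  set L := Subgroup.normalizer (Q : Set G) with hL
  obtain ⟨P, hP, hQP⟩ := exists_sylowIn_ge hp hQ.pgroup (K := D ⊓ L)
    (le_inf (hQ.le.trans inf_le_left) Subgroup.le_normalizer)
  have c2 := (c1.mono inf_le_left).sylow hp hP
  obtain ⟨β, c3⟩ := h.exists_cov hD c2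
  obtain ⟨x, ⟨⟨hxL, -⟩, hxβ⟩, hxD⟩ := c3.exists_notMem hD
  obtain ⟨_, ⟨⟨l, hl⟩, rfl⟩, h5⟩ := h.fix_orbit c1 hxL hxD
  have hβ : β = l • α := h.uniq x hxD _ _ hxβ h5
  have hQβ : Q ≤ stabilizer G β := fun q hq => by
    have h1 : l⁻¹ * q * l⁻¹⁻¹ ∈ Q := (Subgroup.mem_normalizer_iff.1 (inv_mem hl) q).1 hq
    have h2 : (l⁻¹ * q * l⁻¹⁻¹) • α = α := (hQ.le h1).2
    rw [inv_inv, mul_smul, mul_smul, inv_smul_eq_iff] at h2
    rw [mem_stabilizer_iff, hβ, h2]
  have hn : 0 < Nat.card Ω := Nat.card_pos_iff.2 ⟨⟨α⟩, inferInstance⟩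
  have e1 := card_mul_card_inf_stab ht α
  have e2 := card_mul_card_inf_stab ht β
  have hQβ' : SylowIn p Q (D ⊓ stabilizer G β) :=
    sylowIn_of_card hp (le_inf (hQ.le.trans inf_le_left) hQβ) (by
      rw [Nat.eq_of_mul_eq_mul_left hn (e2.trans e1.symm)]; exact hQ.card_eq hp)
  have e3 : P ⊓ stabilizer G β = Q := hQβ'.eq_of_le hp (hP.pgroup.to_le inf_le_left)
    (inf_le_inf_right _ (hP.le.trans inf_le_left)) (le_inf hQP hQβ)
  have e4 := card_orbit_mul_card_inf P β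
  rw [e3] at e4
  obtain ⟨j, hj⟩ := IsPGroup.iff_card.1 hP.pgroup
  obtain ⟨k, -, hk⟩ := (Nat.dvd_prime_pow hp).1 (hj ▸ Dvd.intro _ e4)
  refine ⟨k, ?_, ?_⟩
  · have h1 : Nat.card P ∣ Nat.card D := Subgroup.card_dvd_of_le (hP.le.trans inf_le_left)
    rw [← e4, hk, ← e1, ← hQ.card_mul, mul_comm (Nat.card Q), ← mul_assoc] at h1
    exact (((Nat.Prime.coprime_iff_not_dvd hp).2 hQ.not_dvd).pow_left k).dvd_of_dvd_mul_right
      (Nat.dvd_of_mul_dvd_mul_right Nat.card_pos h1)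
  · obtain ⟨y, hy, hyβ⟩ : ∃ y ∈ P, y • β ≠ β := by
      by_contra hc
      push Not at hc
      have e5 : P = Q := by rw [← e3, inf_eq_left.2 hc]
      obtain ⟨R, hR, hQR⟩ := exists_sylowIn_ge hp hQ.pgroup (K := D) (hQ.le.trans inf_le_left)
      have hlt : Q < R := lt_of_le_of_ne hQR (fun e => by
        have h1 := hR.card_mul
        rw [← e, ← e1, ← hQ.card_mul, mul_left_comm] at h1
        apply hR.not_dvd
        rw [← e, Nat.eq_of_mul_eq_mul_left Nat.card_pos h1]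
        exact hpd.mul_right _)
      obtain ⟨z, hz, hzQ, hzL⟩ := exists_normalizer_notMem hp hR.pgroup hlt
      have := hP.eq_of_le hp (Q := R ⊓ L) (hR.pgroup.to_le inf_le_left)
        (inf_le_inf_right _ hR.le) (e5 ▸ le_inf hQR Subgroup.le_normalizer)
      exact hzQ (by rw [← e5, ← this]; exact ⟨hz, hzL⟩)
    rw [← hk]
    refine h.index_lt c3 (mem_orbit_self β) ⟨⟨y, hy⟩, rfl⟩ hyβ.symm (fun m hm hmβ => ?_)
    refine ⟨⟨m * y * m⁻¹, (Subgroup.mem_normalizer_iff.1 hm.2 y).1 hy⟩, ?_⟩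
    change (m * y * m⁻¹) • β = m • y • β
    rw [mul_smul, mul_smul, inv_smul_eq_iff.2 hmβ.symm]

theorem DP.prime_pow [Finite G] [Finite Ω] [Nontrivial Ω] {D : Subgroup G} (h : DP Ω D)
    (hD : D ≠ ⊤) (ht : IsPretransitive D Ω) (hlt : Nat.card Ω < (D.index + 1) ^ 2) :
    ∃ p k, p.Prime ∧ Nat.card Ω = p ^ k := by
  obtain ⟨α⟩ : Nonempty Ω := inferInstance
  obtain ⟨p, hp, hpd⟩ := Nat.exists_prime_and_dvd (n := Nat.card Ω) Finite.one_lt_card.ne'
  refine ⟨p, _, hp, Nat.eq_prime_pow_of_unique_prime_dvd Nat.card_pos.ne' (fun {q} hq hqd => ?_)⟩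
  by_contra hne
  obtain ⟨k, h1, h2⟩ := h.prime_bound hD ht hp hpd α
  obtain ⟨l, h3, h4⟩ := h.prime_bound hD ht hq hqd α
  have h5 := Nat.le_of_dvd Nat.card_pos
    ((((Nat.coprime_primes hq hp).2 hne).pow l k).mul_dvd_of_dvd_of_dvd h3 h1)
  have := Nat.mul_le_mul h4 h2
  rw [sq] at hlt
  omega

theorem SylowIn.trans_of_prime_pow [Finite G] [Finite Ω] {D P : Subgroup G} {p k : ℕ} (hp : p.Prime)
    (hP : SylowIn p P D) (ht : IsPretransitive D Ω) (hn : Nat.card Ω = p ^ k) :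
    IsPretransitive P Ω := by
  refine ⟨fun a b => ?_⟩
  have hP' : SylowIn p (P.subgroupOf D) ⊤ :=
    ⟨le_top, hP.pgroup.comap_subtype, by rw [Subgroup.relIndex_top_right]; exact hP.not_dvd⟩
  have h1 := pow_dvd_ncard_orbit_sylow hp hP' (dvd_of_eq hn.symm) a
  have h2 : orbit (P.subgroupOf D) a = Set.univ := by
    apply Set.eq_of_subset_of_ncard_le (Set.subset_univ _) _ (Set.toFinite _)
    rw [Set.ncard_univ, hn]
    exact Nat.le_of_dvd ((Set.ncard_pos (Set.toFinite _)).2 ⟨a, mem_orbit_self a⟩) h1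
  obtain ⟨⟨⟨x, hx⟩, hx'⟩, e⟩ : b ∈ orbit (P.subgroupOf D) a := h2 ▸ Set.mem_univ b
  exact ⟨⟨x, hx'⟩, e⟩

theorem DP.subgroupOf {D : Subgroup G} (h : DP Ω D) (L : Subgroup G) : DP Ω (D.subgroupOf L) :=
  ⟨h.normal.subgroupOf L, fun g hg => h.ex g hg, fun g hg => h.uniq g hg⟩

end Cfsg.Agent.H3
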