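import Cfsg.Agent.H3.Der2

set_option autoImplicit false

/-! Linear groups with a normal subgroup outside of which all elements are fixed-point-free. -/

namespace Cfsg.Agent.H3

open MulAction Function
open scoped Pointwise

theorem sq_le_pow_aux (z s : ℕ) : 2 + 2 * s * z + s * s * z ^ 2 ≤ 2 * (z + 1) ^ s + s * z ^ 2 := by
  induction s with
  | zero => simp
  | succ s ih =>
    have h1 : s ≤ s * s := Nat.le_mul_self s
    obtain ⟨u, hu⟩ := Nat.exists_eq_add_of_le h1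
    rw [pow_succ (z + 1)]
    rw [hu] at ih
    have : (s + 1) * (s + 1) = s + u + 2 * s + 1 := by rw [← hu]; ring
    rw [this]
    have h2 : 2 + 2 * s * z + u * z ^ 2 ≤ 2 * (z + 1) ^ s := by nlinarith
    have h3 := Nat.mul_le_mul_right (z + 1) h2
    nlinarith [Nat.zero_le (u * z ^ 3)]

theorem sq_le_pow {t s y : ℕ} (hs : 2 ≤ s) (hy : 1 ≤ y) (h : 2 * t ≤ s * (y - 1)) :
    (t + 1) ^ 2 ≤ y ^ s := by
  obtain ⟨z, rfl⟩ : ∃ z, y = z + 1 := ⟨y - 1, by omega⟩
  rw [Nat.add_sub_cancel] at h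
  have h1 := sq_le_pow_aux z s
  have h2 : (2 * t + 2) ^ 2 ≤ (s * z + 2) ^ 2 := Nat.pow_le_pow_left (by omega) 2
  have h3 : 2 * s * z ^ 2 ≤ s * s * z ^ 2 := Nat.mul_le_mul_right _ (Nat.mul_le_mul_right _ hs)
  nlinarith

variable {H V : Type*} [Group H] [AddCommGroup V] [DistribMulAction H V]

/-- `x` acts without non-zero fixed vectors. -/
def Fpf (V : Type*) [AddCommGroup V] [DistribMulAction H V] (x : H) : Prop :=
  ∀ v : V, x • v = v → v = 0

/-- Common fixed vectors. -/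
def fxs (V : Type*) [AddCommGroup V] [DistribMulAction H V] (S : Set H) : AddSubgroup V where
  carrier := {v | ∀ x ∈ S, x • v = v}
  add_mem' ha hb x hx := by rw [smul_add, ha x hx, hb x hx]
  zero_mem' x _ := smul_zero x
  neg_mem' ha x hx := by rw [smul_neg, ha x hx]

theorem mem_fxs {S : Set H} {v : V} : v ∈ fxs V S ↔ ∀ x ∈ S, x • v = v := Iff.rfl

theorem card_fxs_conj {S T : Set H} (g : H) (h : ∀ x, x ∈ S ↔ g * x * g⁻¹ ∈ T) :
    Nat.card (fxs V S) = Nat.card (fxs V T) := by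
  refine Nat.card_congr ⟨fun v => ⟨g • v.1, fun x hx => ?_⟩, fun v => ⟨g⁻¹ • v.1, fun x hx => ?_⟩,
    fun v => by simp, fun v => by simp⟩
  · have := v.2 (g⁻¹ * x * g) ((h _).2 (by simpa [mul_assoc] using hx))
    rwa [mul_smul, mul_smul, inv_smul_eq_iff] at this
  · have := v.2 _ ((h x).1 hx)
    rw [mul_smul, mul_smul] at this
    rw [eq_inv_smul_iff, this]

theorem pow_card_le [Finite V] {ι : Type*} [Finite ι] (W : ι → AddSubgroup V) {y : ℕ}
    (hy : ∀ i, Nat.card (W i) = y)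
    (h : ∀ i j, i ≠ j → ∃ b : H, (∀ w ∈ W j, b • w = w) ∧ (∀ k, ∀ w ∈ W k, b • w ∈ W k) ∧
      ∀ w ∈ W i, b • w = w → w = 0) : y ^ Nat.card ι ≤ Nat.card V := by
  classical
  have := Fintype.ofFinite ι
  have key : ∀ (S : Finset ι) (w : ι → V), (∀ i, w i ∈ W i) → ∑ i ∈ S, w i = 0 → ∀ i ∈ S, w i = 0 := by
    intro S
    induction S using Finset.induction_on with
    | empty => simp
    | insert j S hj ih =>
      intro w hw hs
      have h1 : ∀ i ∈ S, w i = 0 := fun i hi => by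
        obtain ⟨b, h1, h2, h3⟩ := h i j (fun e => hj (e ▸ hi))
        refine h3 _ (hw i) (sub_eq_zero.1 (ih (fun k => b • w k - w k)
          (fun k => sub_mem (h2 k _ (hw k)) (hw k)) ?_ i hi))
        have h4 : ∑ k ∈ insert j S, (b • w k - w k) = 0 := by
          rw [Finset.sum_sub_distrib, ← Finset.smul_sum, hs, smul_zero, sub_zero]
        rwa [Finset.sum_insert hj, h1 _ (hw j), sub_self, zero_add] at h4
      intro i hi
      rcases Finset.mem_insert.1 hi with rfl | hi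
      · rwa [Finset.sum_insert hj, Finset.sum_eq_zero h1, add_zero] at hs
      · exact h1 i hi
  have h1 : Nat.card (∀ i, W i) ≤ Nat.card V :=
    Nat.card_le_card_of_injective (fun w => ∑ i, (w i : V)) (fun a b e => by
      funext i
      exact Subtype.ext (sub_eq_zero.1 (key Finset.univ (fun i => (a i : V) - b i)
        (fun i => sub_mem (a i).2 (b i).2) (by rw [Finset.sum_sub_distrib, sub_eq_zero]; exact e) i
        (Finset.mem_univ i))))
  rw [Nat.card_pi, Finset.prod_congr rfl (fun i _ => hy i), Finset.prod_const] at h1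
  rwa [Nat.card_eq_fintype_card]

theorem pow_card_le_pair [Finite V] {ι : Type*} [Finite ι] (Z : Subgroup H)
    (hZ : ∀ z ∈ Z, z ≠ 1 → Fpf V z) {a b : H} (hab : a * b = b * a)
    (hZa : ∀ z ∈ Z, z * a = a * z) (hZb : ∀ z ∈ Z, z * b = b * z)
    (hZZ : ∀ z ∈ Z, ∀ z' ∈ Z, z * z' = z' * z) (e c d : ι → H) (hc : ∀ i, c i ∈ Z)
    (hd : ∀ i, d i ∈ Z) (ha : ∀ i, e i * a * (e i)⁻¹ = c i * a)
    (hb : ∀ i, e i * b * (e i)⁻¹ = d i * b) (hinj : ∀ i j, c i = c j → d i = d j → i = j) :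
    Nat.card (fxs V {a, b}) ^ Nat.card ι ≤ Nat.card V := by
  have comm : ∀ z ∈ Z, ∀ z' ∈ Z, ∀ x ∈ ({a, b} : Set H), ∀ x' ∈ ({a, b} : Set H),
      Commute (z * x) (z' * x') := by
    have h1 : ∀ z ∈ Z, ∀ x ∈ ({a, b} : Set H), Commute z x := by
      rintro z hz x (rfl | rfl)
      exacts [hZa z hz, hZb z hz]
    intro z hz z' hz' x hx x' hx'
    refine Commute.mul_left (Commute.mul_right (hZZ z hz z' hz') (h1 z hz x' hx'))
      (Commute.mul_right (h1 z' hz' x hx).symm ?_)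
    rcases hx with rfl | rfl <;> rcases hx' with rfl | rfl
    exacts [rfl, hab, hab.symm, rfl]
  have key : ∀ z ∈ Z, ∀ x ∈ ({a, b} : Set H), ∀ k, ∀ w ∈ fxs V {c k * a, d k * b},
      (z * x) • w ∈ fxs V {c k * a, d k * b} := by
    rintro z hz x hx k w hw u (rfl | rfl)
    · rw [← mul_smul, (comm _ (hc k) _ hz a (by simp) x hx).eq, mul_smul, hw _ (by simp)]
    · rw [← mul_smul, (comm _ (hd k) _ hz b (by simp) x hx).eq, mul_smul, hw _ (by simp)]
  have fp : ∀ z ∈ Z, ∀ z' ∈ Z, z ≠ z' → ∀ (x : H) (w : V), (z * x) • w = w → (z' * x) • w = w →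
      w = 0 := by
    intro z hz z' hz' hne x w h1 h2
    have := hZ (z⁻¹ * z') (mul_mem (inv_mem hz) hz') (fun e => hne (inv_mul_eq_one.1 e)) (x • w)
      (by rw [mul_smul, inv_smul_eq_iff, ← mul_smul, ← mul_smul, h1, h2])
    exact (smul_eq_zero_iff_eq x).1 this
  refine pow_card_le (H := H) (fun i => fxs V {c i * a, d i * b}) (fun i => ?_) (fun i j hij => ?_)
  · refine (card_fxs_conj (e i) (fun x => ?_)).symm
    rw [← ha, ← hb]
    simp
  · by_cases hcc : c i = c j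
    · have hdd : d i ≠ d j := fun e => hij (hinj i j hcc e)
      exact ⟨d j * b, fun w hw => hw _ (by simp), key _ (hd j) b (by simp),
        fun w hw h => fp _ (hd i) _ (hd j) hdd b w (hw _ (by simp)) h⟩
    · exact ⟨c j * a, fun w hw => hw _ (by simp), key _ (hc j) a (by simp),
        fun w hw h => fp _ (hc i) _ (hc j) hcc a w (hw _ (by simp)) h⟩

theorem Fpf.neg {u : H} (hu : Fpf V u) (h2 : u * u = 1) (v : V) : u • v = -v := by
  rw [eq_neg_iff_add_eq_zero]
  exact hu _ (by rw [smul_add, ← mul_smul, h2, one_smul, add_comm])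

variable [Finite H] [Finite V] {R : Subgroup H}

theorem index_mul_orbit_le (hR : ∀ g, g ∉ R → Fpf V g) {E : Subgroup H} (hE : E ≤ R) {v : V}
    (hv : v ≠ 0) : R.index * (orbit E v).ncard ≤ (orbit H v).ncard := by
  have h1 := card_orbit_mul_card_inf R v
  have h2 := (stabilizer H v).index_mul_card
  have h3 : stabilizer H v ≤ R := fun g hg => by
    by_contra hn
    exact hv (hR g hn v hg)
  rw [inf_eq_right.2 h3] at h1
  rw [index_stabilizer, ← R.index_mul_card, ← h1, ← mul_assoc] at h2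
  rw [Nat.eq_of_mul_eq_mul_right Nat.card_pos h2]
  refine Nat.mul_le_mul_left _ (Set.ncard_le_ncard ?_ (Set.toFinite _))
  rintro _ ⟨⟨x, hx⟩, rfl⟩
  exact ⟨⟨x, hE hx⟩, rfl⟩

omit [Finite H] in
theorem lin_reducible [R.Normal] (hR : ∀ g, g ∉ R → Fpf V g) {U : AddSubgroup V}
    (hU : ∀ g : H, ∀ x ∈ U, g • x ∈ U) (h1 : U ≠ ⊥) (h2 : U ≠ ⊤) :
    (R.index + 1) ^ 2 ≤ Nat.card V := by
  obtain ⟨⟨u, hu⟩, hu0⟩ := AddSubgroup.ne_bot_iff_exists_ne_zero.1 h1
  have hu0' : u ≠ 0 := fun e => hu0 (Subtype.ext e)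
  obtain ⟨w, hw⟩ : ∃ w, w ∉ U := by
    by_contra hc
    push Not at hc
    exact h2 (eq_top_iff.2 (fun x _ => hc x))
  have h3 := (cov_top R).index_le (fun g => g • u) (S := (U : Set V) \ {0}) (Set.toFinite _)
    (fun g _ => ⟨hU g u hu, fun e => hu0' ((smul_eq_zero_iff_eq g).1 e)⟩) (fun a _ b _ e => by
      by_contra hn
      exact hu0' (hR _ hn u (by rw [mul_smul, inv_smul_eq_iff]; exact e.symm)))
  have h4 := (cov_top R).index_le (fun g => ((g • w : V) : V ⧸ U)) (S := Set.univ \ {0})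
    (Set.toFinite _)
    (fun g _ => ⟨trivial, fun e => hw (by
      simpa using hU g⁻¹ _ ((QuotientAddGroup.eq_zero_iff _).1 e))⟩) (fun a _ b _ e => by
      by_contra hn
      have h5 : (a⁻¹ * b) • w - w ∈ U := by
        have := hU a⁻¹ _ (QuotientAddGroup.eq.1 e)
        rwa [smul_add, smul_neg, inv_smul_smul, neg_add_eq_sub, ← mul_smul] at this
      have h6 : Injective (fun x : U => (⟨(a⁻¹ * b) • (x : V) - x, sub_mem (hU _ _ x.2) x.2⟩ : U)) := by
        intro x y e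
        have e' : (a⁻¹ * b) • (x : V) - x = (a⁻¹ * b) • (y : V) - y := congrArg Subtype.val e
        refine Subtype.ext (sub_eq_zero.1 (hR _ hn _ ?_))
        rw [smul_sub]
        linear_combination (norm := abel) e'
      obtain ⟨x, hx⟩ := Finite.injective_iff_surjective.1 h6 ⟨_, h5⟩
      have e' : (a⁻¹ * b) • (x : V) - x = (a⁻¹ * b) • w - w := congrArg Subtype.val hx
      have : (x : V) = w := sub_eq_zero.1 (hR _ hn _ (by
        rw [smul_sub]
        linear_combination (norm := abel) e'))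
      exact hw (this ▸ x.2))
  rw [Set.ncard_sdiff_singleton_of_mem U.zero_mem, ← Nat.card_coe_set_eq] at h3
  rw [Set.ncard_sdiff_singleton_of_mem (Set.mem_univ _), Set.ncard_univ] at h4
  have h5 : 0 < Nat.card (U : Set V) := Nat.card_pos_iff.2 ⟨⟨⟨0, U.zero_mem⟩⟩, inferInstance⟩
  have h6 : 0 < Nat.card (V ⧸ U) := Nat.card_pos
  rw [AddSubgroup.card_eq_card_quotient_mul_card_addSubgroup U, sq]
  exact Nat.mul_le_mul (by omega) (show _ ≤ Nat.card (U : Set V) by omega)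

omit [Finite H] [Finite V] in
theorem mem_inf_stab_conj {E : Subgroup H} [hE : E.Normal] (g : H) (v : V) (x : H) :
    x ∈ E ⊓ stabilizer H v ↔ g * x * g⁻¹ ∈ E ⊓ stabilizer H (g • v) := by
  simp only [Subgroup.mem_inf, mem_stabilizer_iff, mul_smul, inv_smul_smul, smul_left_cancel_iff]
  exact and_congr_left' ⟨fun h => hE.conj_mem _ h g, fun h => by
    simpa [mul_assoc] using hE.conj_mem _ h g⁻¹⟩

omit [Finite H] [Finite V] in
theorem card_inf_stab_smul {E : Subgroup H} [hE : E.Normal] (g : H) (v : V) :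
    Nat.card (E ⊓ stabilizer H (g • v) : Subgroup H) = Nat.card (E ⊓ stabilizer H v : Subgroup H) :=
  (Nat.card_congr ((MulAut.conj g).toEquiv.subtypeEquiv (mem_inf_stab_conj g v))).symm

theorem ncard_le_mul {ι : Type*} [Finite ι] (W : ι → AddSubgroup V) {y : ℕ}
    (hy : ∀ i, Nat.card (W i) ≤ y) {X : Set V} (hX : ∀ x ∈ X, x ≠ 0 ∧ ∃ i, x ∈ W i) :
    X.ncard ≤ Nat.card ι * (y - 1) := by
  classical
  have := Fintype.ofFinite ι
  have h1 : X ⊆ ⋃ i, ((W i : Set V) \ {0}) := fun x hx => by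
    obtain ⟨h0, i, hi⟩ := hX x hx
    exact Set.mem_iUnion.2 ⟨i, hi, h0⟩
  refine (Set.ncard_le_ncard h1 (Set.toFinite _)).trans ((Set.ncard_iUnion_le_of_fintype _).trans ?_)
  rw [Nat.card_eq_fintype_card, ← Finset.card_univ, ← smul_eq_mul]
  refine Finset.sum_le_card_nsmul _ _ _ (fun i _ => ?_)
  rw [Set.ncard_sdiff_singleton_of_mem (W i).zero_mem, ← Nat.card_coe_set_eq]
  exact Nat.sub_le_sub_right (hy i) 1

theorem lin_abelian (faith : ∀ g : H, (∀ v : V, g • v = v) → g = 1) (hR : ∀ g, g ∉ R → Fpf V g)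
    (hirr : ∀ U : AddSubgroup V, (∀ g : H, ∀ x ∈ U, g • x ∈ U) → U = ⊥ ∨ U = ⊤)
    {E : Subgroup H} [hEn : E.Normal] (hE : E ≤ R) (hc : ∀ a ∈ E, ∀ b ∈ E, a * b = b * a)
    {r : H} (hr : r ∈ E) (hr1 : r ≠ 1) (hrf : ¬ Fpf V r) : (R.index + 1) ^ 2 ≤ Nat.card V := by
  simp only [Fpf, not_forall] at hrf
  obtain ⟨v₀, hv₀, hv₀'⟩ := hrf
  obtain ⟨v, hv, hmax⟩ := Set.exists_max_image {v : V | v ≠ 0}
    (fun v => Nat.card (E ⊓ stabilizer H v : Subgroup H)) (Set.toFinite _) ⟨v₀, hv₀'⟩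
  let ι := Set.range (fun g : H => E ⊓ stabilizer H (g • v))
  have hcard : ∀ i : ι, Nat.card i.1 = Nat.card (E ⊓ stabilizer H v : Subgroup H) := by
    rintro ⟨_, g, rfl⟩
    exact card_inf_stab_smul g v
  have hle : ∀ i : ι, i.1 ≤ E := by
    rintro ⟨_, g, rfl⟩
    exact inf_le_left
  have h1 := pow_card_le (H := H) (fun i : ι => fxs V (i.1 : Set H))
    (y := Nat.card (fxs V ((E ⊓ stabilizer H v : Subgroup H) : Set H))) (by
      rintro ⟨_, g, rfl⟩
      exact (card_fxs_conj g (mem_inf_stab_conj g v)).symm) (fun i j hij => by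
      obtain ⟨b, hbj, hbi⟩ : ∃ b ∈ j.1, b ∉ i.1 := by
        by_contra hn
        push Not at hn
        exact hij (Subtype.ext (Subgroup.eq_of_le_of_card_ge hn (by rw [hcard, hcard])).symm)
      refine ⟨b, fun w hw => hw b hbj, fun k w hw x hx => ?_, fun w hw hb => ?_⟩
      · rw [← mul_smul, hc x (hle k hx) b (hle j hbj), mul_smul, hw x hx]
      · by_contra h0
        have : i.1 = E ⊓ stabilizer H w := Subgroup.eq_of_le_of_card_ge
          (le_inf (hle i) (fun x hx => hw x hx)) (by rw [hcard]; exact hmax w h0)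
        exact hbi (this ▸ ⟨hle j hbj, hb⟩))
  have hs : 2 ≤ Nat.card ι := by
    by_contra hlt
    have : Subsingleton ι := Finite.card_le_one_iff_subsingleton.1 (by omega)
    have h2 : ∀ g : H, E ⊓ stabilizer H (g • v) = E ⊓ stabilizer H v := fun g => by
      have := congrArg Subtype.val (Subsingleton.elim (⟨_, g, rfl⟩ : ι) ⟨_, 1, rfl⟩)
      simpa using this
    rcases hirr (fxs V ((E ⊓ stabilizer H v : Subgroup H) : Set H)) (fun g w hw x hx => by
      have h3 : g⁻¹ * x * g⁻¹⁻¹ ∈ E ⊓ stabilizer H v := h2 g⁻¹ ▸ (mem_inf_stab_conj g⁻¹ v x).1 hx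
      have := hw _ h3
      rwa [inv_inv, mul_smul, mul_smul, inv_smul_eq_iff] at this) with h | h
    · exact hv ((AddSubgroup.eq_bot_iff_forall _).1 h v (fun x hx => hx.2))
    · have h3 : E ⊓ stabilizer H v = ⊥ := (Subgroup.eq_bot_iff_forall _).2 (fun x hx =>
        faith x (fun w => (h ▸ AddSubgroup.mem_top w : w ∈ fxs V _) x hx))
      have h4 := hmax v₀ hv₀'
      simp only [h3, Subgroup.card_bot] at h4
      exact hr1 ((Subgroup.eq_bot_iff_forall _).1 (Subgroup.card_le_one_iff_eq_bot _ |>.1 h4) r ⟨hr, hv₀⟩)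
  have h2 : 2 ≤ (orbit E v).ncard := by
    by_contra hlt
    have h3 : E ⊓ stabilizer H v = E := inf_eq_left.2 (fun x hx =>
      (Set.ncard_le_one (Set.toFinite _)).1 (show (orbit E v).ncard ≤ 1 by omega) _ ⟨⟨x, hx⟩, rfl⟩ _
        (mem_orbit_self v))
    have h4 : ∀ i : ι, i.1 = E := fun i => Subgroup.eq_of_le_of_card_ge (hle i) (by rw [hcard, h3])
    have : Subsingleton ι := ⟨fun i j => Subtype.ext ((h4 i).trans (h4 j).symm)⟩
    have := Finite.card_le_one_iff_subsingleton.2 this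
    omega
  have h3 := index_mul_orbit_le hR hE hv
  have h4 := ncard_le_mul (fun i : ι => fxs V (i.1 : Set H))
    (y := Nat.card (fxs V ((E ⊓ stabilizer H v : Subgroup H) : Set H))) (X := orbit H v) (by
      rintro ⟨_, g, rfl⟩
      exact (card_fxs_conj g (mem_inf_stab_conj g v)).ge) (by
      rintro _ ⟨g, rfl⟩
      exact ⟨fun e => hv ((smul_eq_zero_iff_eq g).1 e), ⟨_, g, rfl⟩, fun x hx => hx.2⟩)
  refine (sq_le_pow hs Nat.card_pos ?_).trans h1
  calc 2 * R.index ≤ R.index * (orbit E v).ncard := by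
        rw [mul_comm]; exact Nat.mul_le_mul_left _ h2
    _ ≤ _ := h3.trans h4

theorem lin_count (hR : ∀ g, g ∉ R → Fpf V g) {E : Subgroup H} [hEn : E.Normal] (hE : E ≤ R)
    {v : V} (hv : v ≠ 0) {y : ℕ} (hy : ∀ x ∈ E, x ≠ 1 → ¬ Fpf V x → Nat.card (fxs V {x}) ≤ y) :
    R.index * Nat.card E * (Nat.card (E ⊓ stabilizer H v : Subgroup H) - 1) ≤
      Nat.card (E ⊓ stabilizer H v : Subgroup H) * ({x | x ∈ E ∧ x ≠ 1 ∧ ¬ Fpf V x}.ncard * (y - 1)) := by
  classical
  have := Fintype.ofFinite H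
  have := Fintype.ofFinite V
  have h1 := index_mul_orbit_le hR hE hv
  have h2 := Finset.card_mul_le_card_mul (s := (orbit H v).toFinset)
    (t := {x | x ∈ E ∧ x ≠ 1 ∧ ¬ Fpf V x}.toFinset) (fun w x => x • w = w)
    (m := Nat.card (E ⊓ stabilizer H v : Subgroup H) - 1) (n := y - 1) (fun w hw => by
      obtain ⟨g, rfl⟩ := Set.mem_toFinset.1 hw
      rw [← card_inf_stab_smul g v, ← Set.ncard_coe_finset]
      change Nat.card ((E ⊓ stabilizer H (g • v) : Subgroup H) : Set H) - 1 ≤ _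
      rw [Nat.card_coe_set_eq, ← Set.ncard_sdiff_singleton_of_mem (one_mem _)]
      refine Set.ncard_le_ncard (fun x hx => ?_) (Set.toFinite _)
      simp only [Finset.coe_bipartiteAbove, Set.mem_toFinset, Set.mem_ofPred_eq]
      exact ⟨⟨hx.1.1, hx.2, fun h => hv ((smul_eq_zero_iff_eq g).1 (h _ hx.1.2))⟩, hx.1.2⟩)
    (fun x hx => by
      obtain ⟨h3, h4, h5⟩ := Set.mem_toFinset.1 hx
      refine le_trans ?_ (Nat.sub_le_sub_right (hy x h3 h4 h5) 1)
      rw [← Set.ncard_coe_finset]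
      change _ ≤ Nat.card ((fxs V {x} : AddSubgroup V) : Set V) - 1
      rw [Nat.card_coe_set_eq, ← Set.ncard_sdiff_singleton_of_mem (zero_mem _)]
      refine Set.ncard_le_ncard (fun w hw => ?_) (Set.toFinite _)
      simp only [Finset.coe_bipartiteBelow, Set.mem_toFinset, Set.mem_ofPred_eq] at hw
      obtain ⟨⟨g, rfl⟩, h6⟩ := hw
      exact ⟨fun _ e => e ▸ h6, fun e => hv ((smul_eq_zero_iff_eq g).1 e)⟩)
  rw [← Set.ncard_eq_toFinset_card', ← Set.ncard_eq_toFinset_card'] at h2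
  rw [← card_orbit_mul_card_inf E v]
  generalize Nat.card (E ⊓ stabilizer H v : Subgroup H) = b at *
  calc _ = b * (R.index * (orbit E v).ncard * (b - 1)) := by ring
    _ ≤ _ := Nat.mul_le_mul_left _ ((Nat.mul_le_mul_right _ h1).trans h2)

end Cfsg.Agent.H3
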