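import Cfsg.Agent.H3.Der3

set_option autoImplicit false

/-! Minimal normal `q`-subgroups that are not fixed-point-free. -/

namespace Cfsg.Agent.H3

open MulAction Function
open scoped Pointwise

section
variable {H : Type*} [Group H]

/-- The centre of a subgroup. -/
def zc (K : Subgroup H) : Subgroup H := K ⊓ Subgroup.centralizer (K : Set H)

theorem mem_zc {K : Subgroup H} {x : H} : x ∈ zc K ↔ x ∈ K ∧ ∀ k ∈ K, k * x = x * k := Iff.rfl

instance zc_normal (K : Subgroup H) [K.Normal] : (zc K).Normal := by unfold zc; infer_instance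

/-- Elements of the second centre with `q`-th power in the centre. -/
def om (q : ℕ) (K : Subgroup H) [K.Normal] : Subgroup H where
  carrier := {y | y ∈ K ∧ (∀ e ∈ K, Commute (e : H ⧸ zc K) (y : H ⧸ zc K)) ∧ (y : H ⧸ zc K) ^ q = 1}
  one_mem' := ⟨one_mem _, fun e _ => by simp, by simp⟩
  mul_mem' {a b} ha hb := ⟨mul_mem ha.1 hb.1, fun e he => by
    rw [QuotientGroup.mk_mul]; exact (ha.2.1 e he).mul_right (hb.2.1 e he), by
    rw [QuotientGroup.mk_mul, (hb.2.1 a ha.1).mul_pow, ha.2.2, hb.2.2, one_mul]⟩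
  inv_mem' {a} ha := ⟨inv_mem ha.1, fun e he => by
    rw [QuotientGroup.mk_inv]; exact (ha.2.1 e he).inv_right, by
    rw [QuotientGroup.mk_inv, inv_pow, ha.2.2, inv_one]⟩

variable {q : ℕ} {K : Subgroup H} [hK : K.Normal]

theorem mem_om {y : H} : y ∈ om q K ↔
    y ∈ K ∧ (∀ e ∈ K, e * y * e⁻¹ * y⁻¹ ∈ zc K) ∧ y ^ q ∈ zc K := by
  refine and_congr_right (fun _ => and_congr (forall₂_congr (fun e _ => ?_)) ?_)
  · rw [← QuotientGroup.eq_one_iff, ← commutatorElement_eq_one_iff_commute]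
    rfl
  · rw [← QuotientGroup.eq_one_iff]
    rfl

instance om_normal : (om q K).Normal := ⟨fun y hy g => by
  rw [mem_om] at hy ⊢
  refine ⟨hK.conj_mem _ hy.1 g, fun e he => ?_, ?_⟩
  · have := (zc_normal K).conj_mem _ (hy.2.1 _ (hK.conj_mem _ he g⁻¹)) g
    convert this using 1
    group
  · rw [conj_pow]
    exact (zc_normal K).conj_mem _ hy.2.2 g⟩

theorem om_le : om q K ≤ K := fun _ h => h.1

theorem zc_le_om : zc K ≤ om q K := fun z hz => mem_om.2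
  ⟨hz.1, fun e he => by rw [hz.2 e he]; simp, pow_mem hz q⟩

theorem om_conj {y : H} (hy : y ∈ om q K) {e : H} (he : e ∈ K) :
    ∃ c ∈ zc K, c ^ q = 1 ∧ e * y * e⁻¹ = c * y := by
  rw [mem_om] at hy
  refine ⟨_, hy.2.1 e he, ?_, by group⟩
  have h1 : (e * y * e⁻¹) ^ q = y ^ q := by rw [conj_pow, hy.2.2.2 e he]; group
  have h2 : Commute (e * y * e⁻¹ * y⁻¹) y := ((hy.2.1 e he).2 y hy.1).symm
  have h3 := h2.mul_pow q
  rw [inv_mul_cancel_right, h1] at h3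
  exact (mul_eq_right.1 h3.symm)

theorem exists_om [Finite H] (hq : q.Prime) (hP : IsPGroup q K)
    (hnc : ¬ ∀ a ∈ K, ∀ b ∈ K, a * b = b * a) : ∃ y ∈ om q K, y ∉ zc K := by
  have : Fact q.Prime := ⟨hq⟩
  have h1 := hP.map (QuotientGroup.mk' (zc K))
  have : Nontrivial (K.map (QuotientGroup.mk' (zc K))) := by
    rw [Subgroup.nontrivial_iff_ne_bot]
    intro h
    rw [Subgroup.map_eq_bot_iff, QuotientGroup.ker_mk'] at h
    exact hnc (fun a ha b hb => (h hb).2 a ha)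
  have := h1.center_nontrivial
  obtain ⟨n, hn0, hn⟩ := (h1.to_subgroup (Subgroup.center _)).nontrivial_iff_card.1 this
  obtain ⟨⟨⟨u, hu'⟩, hu⟩, h2⟩ := exists_prime_orderOf_dvd_card' (G := Subgroup.center
    (K.map (QuotientGroup.mk' (zc K)))) q (hn ▸ dvd_pow_self q hn0.ne')
  rw [Subgroup.orderOf_mk, Subgroup.orderOf_mk] at h2
  obtain ⟨y, hy, rfl⟩ := hu'
  refine ⟨y, ⟨hy, fun e he => ?_, ?_⟩, fun h => ?_⟩
  · exact congrArg Subtype.val (Subgroup.mem_center_iff.1 hu ⟨_, e, he, rfl⟩)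
  · rw [← h2]; exact pow_orderOf_eq_one _
  · rw [QuotientGroup.mk'_apply, (QuotientGroup.eq_one_iff _).2 h, orderOf_one] at h2
    exact hq.one_lt.ne h2

end

variable {H V : Type*} [Group H] [AddCommGroup V] [DistribMulAction H V] [Finite H] [Finite V]

/-- A minimal normal `q`-subgroup that is not fixed-point-free, non-abelian case. -/
structure MinN (V : Type*) [AddCommGroup V] [DistribMulAction H V] (q : ℕ) (E : Subgroup H) : Prop where
  prime : q.Prime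
  pgroup : IsPGroup q E
  faith : ∀ g : H, (∀ v : V, g • v = v) → g = 1
  min : ∀ K : Subgroup H, K.Normal → K < E → ∀ x ∈ K, x ≠ 1 → Fpf V x
  nc : ¬ ∀ a ∈ E, ∀ b ∈ E, a * b = b * a

namespace MinN
variable {q : ℕ} {E : Subgroup H} [hE : E.Normal]

omit [Finite H] [Finite V] in
theorem zc_fpf (h : MinN V q E) : ∀ x ∈ zc E, x ≠ 1 → Fpf V x :=
  h.min _ inferInstance (lt_of_le_of_ne inf_le_left (fun e =>
    h.nc (fun a ha b hb => (e.ge hb).2 a ha)))

omit [Finite V] in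
theorem cent_fpf (h : MinN V q E) : ∀ x ∈ E, (∀ y ∈ om q E, y * x = x * y) → x ≠ 1 → Fpf V x := by
  intro x hx hx'
  refine h.min (E ⊓ Subgroup.centralizer (om q E : Set H)) inferInstance
    (lt_of_le_of_ne inf_le_left (fun e => ?_)) x ⟨hx, hx'⟩
  obtain ⟨y, hy, hy'⟩ := exists_om h.prime h.pgroup h.nc
  exact hy' ⟨hy.1, fun k hk => ((e.ge hk).2 y hy).symm⟩

theorem single (h : MinN V q E) {x : H} (hx : x ∈ E) (hx1 : x ≠ 1) (hxf : ¬ Fpf V x) :
    Nat.card (fxs V {x}) ^ q ≤ Nat.card V := by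
  have : Fact q.Prime := ⟨h.prime⟩
  obtain ⟨y, hy, hxy⟩ : ∃ y ∈ om q E, y * x ≠ x * y := by
    by_contra hc
    push Not at hc
    exact hxf (h.cent_fpf x hx hc hx1)
  obtain ⟨c, hc, hcq, e⟩ := om_conj hy hx
  have hc1 : c ≠ 1 := by
    rintro rfl
    exact hxy (by rw [one_mul, mul_inv_eq_iff_eq_mul] at e; exact e.symm)
  have e1 : y⁻¹ * x * y = c * x := by
    rw [mul_inv_eq_iff_eq_mul] at e
    rw [mul_assoc, e, ← hc.2 y hy.1]
    group
  have e2 : ∀ i : ℕ, y⁻¹ ^ i * x * (y⁻¹ ^ i)⁻¹ = c ^ i * x := fun i => by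
    induction i with
    | zero => simp
    | succ i ih =>
      calc _ = y⁻¹ * (y⁻¹ ^ i * x * (y⁻¹ ^ i)⁻¹) * y := by group
        _ = c ^ i * (y⁻¹ * x * y) := by
          rw [ih, ← mul_assoc, (pow_mem hc i).2 _ (inv_mem hy.1)]; group
        _ = _ := by rw [e1, pow_succ, mul_assoc]
  have := pow_card_le_pair (V := V) (ι := Fin q) (zc E) h.zc_fpf (a := x) (b := x) rfl
    (fun z hz => (hz.2 x hx).symm) (fun z hz => (hz.2 x hx).symm)
    (fun z hz z' hz' => hz'.2 z hz.1) (fun i => y⁻¹ ^ (i : ℕ)) (fun i => c ^ (i : ℕ))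
    (fun i => c ^ (i : ℕ)) (fun i => pow_mem hc _) (fun i => pow_mem hc _) (fun i => e2 i)
    (fun i => e2 i) (fun i j e _ => Fin.ext (pow_injOn_Iio_orderOf
      (by rw [orderOf_eq_prime hcq hc1]; exact i.2) (by rw [orderOf_eq_prime hcq hc1]; exact j.2) e))
  rwa [Set.pair_eq_singleton, Nat.card_fin] at this

theorem exists_bound (h : MinN V q E) {r : H} (hr : r ∈ E) (hr1 : r ≠ 1) (hrf : ¬ Fpf V r) :
    ∃ y, 1 ≤ y ∧ y ^ q ≤ Nat.card V ∧
      ∀ x ∈ E, x ≠ 1 → ¬ Fpf V x → Nat.card (fxs V {x}) ≤ y := by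
  obtain ⟨x, hx, hmax⟩ := Set.exists_max_image {x : H | x ∈ E ∧ x ≠ 1 ∧ ¬ Fpf V x}
    (fun x => Nat.card (fxs V {x})) (Set.toFinite _) ⟨r, hr, hr1, hrf⟩
  exact ⟨_, Nat.card_pos, h.single hx.1 hx.2.1 hx.2.2, fun z h1 h2 h3 => hmax z ⟨h1, h2, h3⟩⟩

theorem odd (h : MinN V q E) (hq : q ≠ 2) {R : Subgroup H} (hR : ∀ g, g ∉ R → Fpf V g)
    (hER : E ≤ R) {r : H} (hr : r ∈ E) (hr1 : r ≠ 1) (hrf : ¬ Fpf V r) :
    (R.index + 1) ^ 2 ≤ Nat.card V := by
  have : Fact q.Prime := ⟨h.prime⟩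
  obtain ⟨y, hy1, hy2, hy3⟩ := h.exists_bound hr hr1 hrf
  have hq3 : 3 ≤ q := by have := h.prime.two_le; omega
  simp only [Fpf, not_forall] at hrf
  obtain ⟨v, hv, hv0⟩ := hrf
  have h1 := lin_count hR hER hv0 hy3
  have h2 : {x | x ∈ E ∧ x ≠ 1 ∧ ¬ Fpf V x}.ncard ≤ Nat.card E :=
    Set.ncard_le_ncard (t := (E : Set H)) (fun x hx => hx.1) (Set.toFinite _)
  have h3 : q ≤ Nat.card (E ⊓ stabilizer H v : Subgroup H) := by
    have : Nontrivial (E ⊓ stabilizer H v : Subgroup H) :=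
      ⟨⟨⟨r, hr, hv⟩, 1, fun e => hr1 (congrArg Subtype.val e)⟩⟩
    obtain ⟨n, hn0, hn⟩ := (h.pgroup.to_le (inf_le_left (b := stabilizer H v))).nontrivial_iff_card.1 this
    rw [hn]
    exact Nat.le_self_pow hn0.ne' q
  refine (sq_le_pow (s := 3) (by norm_num) hy1 ?_).trans
    ((Nat.pow_le_pow_right hy1 hq3).trans hy2)
  have h4 := h1.trans (Nat.mul_le_mul_left _ (Nat.mul_le_mul_right _ h2))
  have h5 : 0 < Nat.card E := Nat.card_pos
  generalize Nat.card (E ⊓ stabilizer H v : Subgroup H) = b at *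
  obtain ⟨c, rfl⟩ : ∃ c, b = c + 3 := ⟨b - 3, by omega⟩
  have h6 : R.index * (c + 2) ≤ (c + 3) * (y - 1) :=
    Nat.le_of_mul_le_mul_left (c := Nat.card E) (by
      rw [show c + 3 - 1 = c + 2 by omega] at h4
      nlinarith) h5
  by_contra hlt
  nlinarith

theorem pf (h : MinN V 2 E) {R : Subgroup H} (hR : ∀ g, g ∉ R → Fpf V g)
    (hER : E ≤ R) {r : H} (hr : r ∈ E) (hr1 : r ≠ 1) (hrf : ¬ Fpf V r)
    (hpf : ∀ x ∈ E, ∀ y ∈ E, x ≠ 1 → y ≠ 1 → ¬ Fpf V x → ¬ Fpf V y → x * y ≠ 1 → Fpf V (x * y)) :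
    (R.index + 1) ^ 2 ≤ Nat.card V := by
  obtain ⟨y, hy1, hy2, hy3⟩ := h.exists_bound hr hr1 hrf
  have hrf' := hrf
  simp only [Fpf, not_forall] at hrf'
  obtain ⟨v, hv, hv0⟩ := hrf'
  have h1 := lin_count hR hER hv0 hy3
  have h2 : 2 * {x | x ∈ E ∧ x ≠ 1 ∧ ¬ Fpf V x}.ncard ≤ Nat.card E := by
    have h3 := Set.ncard_sdiff_add_ncard_of_subset (s := {x | x ∈ E ∧ x ≠ 1 ∧ ¬ Fpf V x})
      (t := (E : Set H)) (fun x hx => hx.1) (Set.toFinite _)
    have h4 := Set.ncard_le_ncard_of_injOn (s := {x | x ∈ E ∧ x ≠ 1 ∧ ¬ Fpf V x})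
      (t := (E : Set H) \ {x | x ∈ E ∧ x ≠ 1 ∧ ¬ Fpf V x}) (fun x => r * x)
      (fun x hx => ⟨mul_mem hr hx.1, fun h5 =>
        h5.2.2 (hpf r hr x hx.1 hr1 hx.2.1 hrf hx.2.2 h5.2.1)⟩)
      (fun a _ b _ e => mul_left_cancel e) (Set.toFinite _)
    change _ ≤ Nat.card (E : Set H)
    rw [Nat.card_coe_set_eq]
    omega
  have h3 : Nat.card (E ⊓ stabilizer H v : Subgroup H) = 2 := by
    change Nat.card ((E ⊓ stabilizer H v : Subgroup H) : Set H) = 2
    rw [Nat.card_coe_set_eq, Set.ncard_eq_two]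
    refine ⟨1, r⁻¹, fun e => hr1 (inv_eq_one.1 e.symm), Set.ext (fun x => ⟨fun hx => ?_, ?_⟩)⟩
    · by_cases hx1 : x = 1
      · exact Or.inl hx1
      · refine Or.inr (eq_inv_of_mul_eq_one_right ?_)
        by_contra hne
        exact hv0 (hpf r hr x hx.1 hr1 hx1 hrf (fun e => hv0 (e v hx.2)) hne v
          (by rw [mul_smul, hx.2, hv]))
    · rintro (rfl | rfl)
      · exact one_mem _
      · exact inv_mem (show r ∈ E ⊓ stabilizer H v from ⟨hr, hv⟩)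
  rw [h3] at h1
  have h5 : 0 < Nat.card E := Nat.card_pos
  refine le_trans (Nat.pow_le_pow_left ?_ 2) hy2
  have : R.index ≤ y - 1 := Nat.le_of_mul_le_mul_left (c := Nat.card E) (by nlinarith) h5
  omega

omit [Finite H] [Finite V] hE in
theorem invol_eq (h : MinN V q E) {u u' : H} (hu : Fpf V u) (hu' : Fpf V u') (h1 : u * u = 1)
    (h2 : u' * u' = 1) : u = u' :=
  inv_mul_eq_one.1 (h.faith _ (fun v => by
    rw [mul_smul, inv_smul_eq_iff, hu.neg h1, hu'.neg h2]))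

omit [Finite V] in
theorem exists_z (h : MinN V 2 E) : ∃ z ∈ zc E, z ≠ 1 ∧ z * z = 1 ∧
    (∀ y ∈ om 2 E, ∀ e ∈ E, e * y = y * e ∨ e * y = z * (y * e)) ∧
    ∀ u : H, Fpf V u → u * u = 1 → u = z := by
  obtain ⟨y, hy, hy'⟩ := exists_om h.prime h.pgroup h.nc
  obtain ⟨e, he, hey⟩ : ∃ e ∈ E, e * y ≠ y * e := by
    by_contra hc
    push Not at hc
    exact hy' ⟨hy.1, hc⟩
  obtain ⟨z, hz, hz2, e1⟩ := om_conj hy he
  have hz1 : z ≠ 1 := by
    rintro rfl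
    exact hey (by rwa [one_mul, mul_inv_eq_iff_eq_mul] at e1)
  rw [sq] at hz2
  have key : ∀ u : H, Fpf V u → u * u = 1 → u = z := fun u hu h2 =>
    h.invol_eq hu (h.zc_fpf z hz hz1) h2 hz2
  refine ⟨z, hz, hz1, hz2, fun y hy e he => ?_, key⟩
  obtain ⟨c, hc, hc2, e2⟩ := om_conj hy he
  rw [mul_inv_eq_iff_eq_mul] at e2
  by_cases hc1 : c = 1
  · exact Or.inl (by rwa [hc1, one_mul] at e2)
  · exact Or.inr (by rwa [key c (h.zc_fpf c hc hc1) (by rwa [sq] at hc2), mul_assoc] at e2)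

omit [Finite V] in
theorem mul_mem_zc (h : MinN V 2 E) (hY : om 2 E ≠ E) {y y' : H} (hy : y ∈ om 2 E) (hy' : y' ∈ om 2 E)
    (h1 : y ∉ zc E) (h2 : y' ∉ zc E) (hc : y * y' = y' * y) : y * y' ∈ zc E := by
  obtain ⟨z, hz, hz1, hz2, -, hz4⟩ := h.exists_z
  have hf := h.min _ inferInstance (lt_of_le_of_ne om_le hY)
  let f : zc E →* zc E := MonoidHom.mk' (fun c => c ^ 2) (fun a b =>
    (show Commute a b from Subtype.ext (b.2.2 a a.2.1)).mul_pow 2)
  have key : ∀ u (hu : u ∈ om 2 E), (⟨u ^ 2, (mem_om.1 hu).2.2⟩ : zc E) ∈ f.range → u ∈ zc E := by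
    rintro u hu ⟨⟨c, hc⟩, e⟩
    have e' : c ^ 2 = u ^ 2 := congrArg Subtype.val e
    have h3 : Commute u c⁻¹ := (show Commute u c from hc.2 u hu.1).inv_right
    have h4 : u * c⁻¹ * (u * c⁻¹) = 1 := by rw [← sq, h3.mul_pow, inv_pow, e', mul_inv_cancel]
    have h5 : u * c⁻¹ ∈ zc E := by
      by_cases h6 : u * c⁻¹ = 1
      · rw [h6]; exact one_mem _
      · rw [hz4 _ (hf _ (mul_mem hu (inv_mem (zc_le_om hc))) h6) h4]; exact hz
    simpa using mul_mem h5 hc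
  have h3 : f.range.index ≤ 2 := by
    rw [Subgroup.index_range]
    change Nat.card (f.ker : Set (zc E)) ≤ 2
    rw [Nat.card_coe_set_eq]
    refine (Set.ncard_le_ncard (t := {1, ⟨z, hz⟩}) (fun c hc => ?_) (Set.toFinite _)).trans
      ((Set.ncard_insert_le _ _).trans (by rw [Set.ncard_singleton]))
    by_cases h4 : c = 1
    · exact Or.inl h4
    · exact Or.inr (Subtype.ext (hz4 _ (h.zc_fpf c c.2 (fun e => h4 (Subtype.ext e)))
        (by rw [← sq]; exact congrArg Subtype.val hc)))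
  have h4 : f.range.index ≠ 0 := Subgroup.index_ne_zero_of_finite
  have h5 : f.range.index ≠ 1 := fun e =>
    h1 (key y hy (by rw [Subgroup.index_eq_one.1 e]; trivial))
  apply key _ (mul_mem hy hy')
  have h6 := (Subgroup.mul_mem_iff_of_index_two (show f.range.index = 2 by omega)).2
    (iff_of_false (fun e => h1 (key y hy e)) (fun e => h2 (key y' hy' e)))
  convert h6 using 1
  exact Subtype.ext ((show Commute y y' from hc).mul_pow 2)

omit [Finite V] in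
theorem exists_central (h : MinN V 2 E) (hY : om 2 E ≠ E) :
    ∃ y ∈ om 2 E, y ∉ zc E ∧ ∀ u ∈ om 2 E, u * y = y * u := by
  obtain ⟨z, hz, hz1, hz2, hz3, hz4⟩ := h.exists_z
  obtain ⟨y₁, hy₁, hy₁'⟩ := exists_om h.prime h.pgroup h.nc
  by_contra hc
  push Not at hc
  obtain ⟨y₂, hy₂, h12⟩ := hc y₁ hy₁ hy₁'
  have hy₂' : y₂ ∉ zc E := fun e => h12 (e.2 y₁ hy₁.1).symm
  have zc' : ∀ g ∈ E, z * g = g * z := fun g hg => (hz.2 g hg).symm
  -- fixing commutation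
  have fix : ∀ a ∈ om 2 E, ∀ b ∈ E, b * a ≠ a * b → ∀ e ∈ E, e * a ≠ a * e →
      b * e * a = a * (b * e) := by
    intro a ha b hb hab e he hea
    have e1 := (hz3 a ha b hb).resolve_left hab
    have e2 := (hz3 a ha e he).resolve_left hea
    calc b * e * a = b * z * a * e := by rw [mul_assoc, e2]; group
      _ = z * (b * a) * e := by rw [← zc' b hb]; group
      _ = (z * z) * (a * (b * e)) := by rw [e1]; group
      _ = _ := by rw [hz2, one_mul]
  have cY : ∀ e ∈ E, e * y₁ = y₁ * e → e * y₂ = y₂ * e → ∀ u ∈ om 2 E, u * e = e * u := by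
    intro e he h1 h2
    have c1 : ∀ u ∈ om 2 E, u * y₁ = y₁ * u → Commute u e := fun u hu huc => by
      by_cases h3 : u ∈ zc E
      · exact (h3.2 e he).symm
      · have h4 := h.mul_mem_zc hY hu hy₁ h3 hy₁' huc
        have h5 : Commute (u * y₁) e := (h4.2 e he).symm
        simpa using h5.mul_left (show Commute y₁ e from h1.symm).inv_left
    intro u hu
    by_cases h3 : u * y₁ = y₁ * u
    · exact c1 u hu h3
    · have := c1 _ (mul_mem hy₂ hu) (fix y₁ hy₁ y₂ hy₂.1 h12 u hu.1 h3)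
      simpa using ((show Commute y₂ e from h2.symm).inv_left.mul_left this).eq
  let C := E ⊓ Subgroup.centralizer (om 2 E : Set H)
  have dec : ∀ e ∈ E, ∃ u ∈ om 2 E, u * e ∈ C := by
    have d1 : ∀ e ∈ E, e * y₁ = y₁ * e → ∃ u ∈ om 2 E, u * e ∈ C := fun e he h1 => by
      by_cases h2 : e * y₂ = y₂ * e
      · exact ⟨1, one_mem _, by rw [one_mul]; exact ⟨he, cY e he h1 h2⟩⟩
      · exact ⟨y₁, hy₁, mul_mem hy₁.1 he, cY _ (mul_mem hy₁.1 he) (by rw [mul_assoc, h1])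
          (fix y₂ hy₂ y₁ hy₁.1 (Ne.symm h12) e he h2)⟩
    intro e he
    by_cases h1 : e * y₁ = y₁ * e
    · exact d1 e he h1
    · obtain ⟨u, hu, hu'⟩ := d1 _ (mul_mem hy₂.1 he) (fix y₁ hy₁ y₂ hy₂.1 h12 e he h1)
      exact ⟨u * y₂, mul_mem hu hy₂, by rwa [mul_assoc]⟩
  have zC : zc C ≤ zc E := fun c hc => ⟨hc.1.1, fun e he => by
    obtain ⟨u, hu, hu'⟩ := dec e he
    have h1 : Commute (u * e) c := hc.2 _ hu'
    have h2 : Commute u c := hc.1.2 u hu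
    simpa using (h2.inv_left.mul_left h1).eq⟩
  by_cases hC : ∀ a ∈ C, ∀ b ∈ C, a * b = b * a
  · refine hY (le_antisymm om_le (fun e he => ?_))
    obtain ⟨u, hu, hu'⟩ := dec e he
    simpa using mul_mem (inv_mem hu) (zc_le_om (zC ⟨hu', fun k hk => hC k hk _ hu'⟩))
  · obtain ⟨c, hc, hc'⟩ := exists_om (K := C) h.prime (h.pgroup.to_le inf_le_left) hC
    rw [mem_om] at hc
    have h1 : c ∈ om 2 E := mem_om.2 ⟨hc.1.1, fun e he => by
      obtain ⟨u, hu, hu'⟩ := dec e he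
      have h2 := zC (hc.2.1 _ hu')
      have h3 : u * c = c * u := hc.1.2 u hu
      have h4 := (zc_normal E).conj_mem _ h2 u⁻¹
      convert h4 using 1
      calc _ = e * c * e⁻¹ * u⁻¹ * (u * c⁻¹ * u⁻¹) * u := by group
        _ = _ := by rw [← conj_inv, h3]; group, zC hc.2.2⟩
    have h2 : c ∉ zc E := fun e => hc' ⟨hc.1, fun k hk => e.2 k hk.1⟩
    have h3 := h.mul_mem_zc hY hy₁ h1 hy₁' h2 (hc.1.2 y₁ hy₁)
    have h4 : Commute y₂ (y₁ * c) := h3.2 y₂ hy₂.1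
    have h5 : Commute y₂ c := hc.1.2 y₂ hy₂
    exact h12 (by simpa using (h4.mul_right h5.inv_right).eq)

omit [Finite V] in
theorem pf_of_ne (h : MinN V 2 E) (hY : om 2 E ≠ E) :
    ∀ x ∈ E, ∀ y ∈ E, x ≠ 1 → y ≠ 1 → ¬ Fpf V x → ¬ Fpf V y → x * y ≠ 1 → Fpf V (x * y) := by
  obtain ⟨z, hz, hz1, hz2, hz3, hz4⟩ := h.exists_z
  obtain ⟨y₀, hy₀, hy₀', hc⟩ := h.exists_central hY
  have key : ∀ e ∈ E, e * y₀ = y₀ * e → e ≠ 1 → Fpf V e := fun e he h1 =>
    h.cent_fpf e he (fun u hu => by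
      by_cases h3 : u ∈ zc E
      · exact (h3.2 e he).symm
      · have h4 := h.mul_mem_zc hY hu hy₀ h3 hy₀' (hc u hu)
        have h5 : Commute (u * y₀) e := (h4.2 e he).symm
        simpa using (h5.mul_left (show Commute y₀ e from h1.symm).inv_left).eq)
  intro x hx y hy hx1 hy1 hxf hyf
  apply key _ (mul_mem hx hy)
  have e1 := (hz3 y₀ hy₀ x hx).resolve_left (fun e => hxf (key x hx e hx1))
  have e2 := (hz3 y₀ hy₀ y hy).resolve_left (fun e => hyf (key y hy e hy1))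
  calc x * y * y₀ = x * z * y₀ * y := by rw [mul_assoc, e2]; group
    _ = z * (x * y₀) * y := by rw [hz.2 x hx]; group
    _ = (z * z) * (y₀ * (x * y)) := by rw [e1]; group
    _ = _ := by rw [hz2, one_mul]

end MinN

end Cfsg.Agent.H3
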