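import Cfsg.Agent.H3.Der4

set_option autoImplicit false

/-! The linear case of the index bound for the derangement subgroup. -/

namespace Cfsg.Agent.H3

open MulAction Function Module
open scoped Pointwise

theorem exists_poly_le : ∃ N : ℕ, ∀ d n : ℕ, 2 ^ d ≤ n → N ≤ n → 5 ^ 6 * d ^ 24 ≤ n := by
  have h := (tendsto_pow_const_div_const_pow_of_one_lt 24 (r := 2) (by norm_num)).eventually
    (gt_mem_nhds (show (0 : ℝ) < 1 / 5 ^ 6 by norm_num))
  obtain ⟨d₀, hd₀⟩ := Filter.eventually_atTop.1 h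
  refine ⟨5 ^ 6 * d₀ ^ 24, fun d n h1 h2 => ?_⟩
  by_cases hd : d₀ ≤ d
  · refine le_trans ?_ h1
    have h3 := hd₀ d hd
    rw [div_lt_div_iff₀ (by positivity) (by positivity), one_mul, mul_comm] at h3
    exact_mod_cast h3.le
  · exact (Nat.mul_le_mul_left _ (Nat.pow_le_pow_left (by omega) 24)).trans h2

variable {H V : Type*} [Group H] [AddCommGroup V] [DistribMulAction H V] [Finite H] [Finite V]

namespace MinN
variable {q : ℕ} {E : Subgroup H} [hE : E.Normal]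

omit [Finite H] in
theorem card_le_sq (h : MinN V q E) (hY : om q E = E) (k : Type*) [Field k] [Module k V]
    [SMulCommClass H k V] [Nontrivial V] {ι : Type*} [Fintype ι] (a : ι → H) (ha : ∀ i, a i ∈ E)
    (hinj : ∀ i j, a i * (a j)⁻¹ ∈ zc E → i = j) : Fintype.card ι ≤ finrank k V ^ 2 := by
  classical
  let ρ := DistribMulAction.toModuleEnd k V (S := H)
  have hρ : ∀ g v, ρ g v = g • v := fun _ _ => rfl
  have key : ∀ (S : Finset ι) (c : ι → Module.End k V), (∀ i, ∀ e ∈ E, ρ e * c i = c i * ρ e) →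
      ∑ i ∈ S, c i * ρ (a i) = 0 → ∀ i ∈ S, c i = 0 := by
    intro S
    induction S using Finset.induction_on with
    | empty => simp
    | insert j S hj ih =>
      intro c hc hs
      have h1 : ∀ i ∈ S, c i = 0 := fun i hi => by
        obtain ⟨e, he, hne⟩ : ∃ e ∈ E, e * (a i * (a j)⁻¹) ≠ a i * (a j)⁻¹ * e := by
          by_contra hn
          push Not at hn
          exact hj (hinj i j ⟨E.mul_mem (ha i) (E.inv_mem (ha j)), hn⟩ ▸ hi)
        choose z hz _ hz' using fun l => om_conj (q := q) (hY.ge (ha l)) he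
        have h2 : z i ≠ z j := fun e1 => hne (by
          calc _ = e * a i * e⁻¹ * (e * a j * e⁻¹)⁻¹ * e := by group
            _ = z j * (a i * (a j)⁻¹) * (z j)⁻¹ * e := by rw [hz', hz', e1]; group
            _ = _ := by rw [← (hz j).2 _ (mul_mem (ha i) (inv_mem (ha j)))]; group)
        have h3 : ∑ l ∈ insert j S, (ρ (z l) - ρ (z j)) * c l * ρ (a l) = 0 := by
          have h4 : ∀ l, (ρ (z l) - ρ (z j)) * c l * ρ (a l) =
              ρ e * (c l * ρ (a l)) * ρ e⁻¹ - ρ (z j) * (c l * ρ (a l)) := fun l => by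
            rw [← mul_assoc (ρ e), hc l e he, mul_assoc (c l), mul_assoc (c l), ← map_mul, ← map_mul,
              hz', map_mul, ← mul_assoc (c l), ← hc l _ (hz l).1, sub_mul, sub_mul, mul_assoc (ρ (z j))]
          simp only [h4]
          rw [Finset.sum_sub_distrib, ← Finset.sum_mul, ← Finset.mul_sum, ← Finset.mul_sum, hs]
          simp
        rw [Finset.sum_insert hj, sub_self, zero_mul, zero_mul, zero_add] at h3
        have h5 := ih (fun l => (ρ (z l) - ρ (z j)) * c l) (fun l e he => by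
          have : ∀ l, ρ e * ρ (z l) = ρ (z l) * ρ e := fun l => by
            rw [← map_mul, (hz l).2 e he, map_mul]
          rw [← mul_assoc, mul_sub, this, this, ← sub_mul, mul_assoc, hc l e he, mul_assoc]) h3 i hi
        ext v
        have h6 := LinearMap.congr_fun h5 v
        rw [Module.End.mul_apply, LinearMap.sub_apply, hρ, hρ, LinearMap.zero_apply, sub_eq_zero] at h6
        exact h.zc_fpf ((z j)⁻¹ * z i) (mul_mem (inv_mem (hz j)) (hz i))
          (fun e => h2 (inv_mul_eq_one.1 e).symm) _ (by rw [mul_smul, h6, inv_smul_smul])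
      intro i hi
      rcases Finset.mem_insert.1 hi with rfl | hi
      · rw [Finset.sum_insert hj, Finset.sum_eq_zero (fun l hl => by rw [h1 l hl, zero_mul]),
          add_zero] at hs
        rw [← mul_one (c i), ← map_one ρ, ← mul_inv_cancel (a i), map_mul, ← mul_assoc, hs, zero_mul]
      · exact h1 i hi
  have h1 : LinearIndependent k (fun i => ρ (a i)) := by
    rw [linearIndependent_iff']
    intro S g hg i hi
    have := key S (fun i => g i • 1) (fun i e _ => by simp) (by simpa using hg) i hi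
    exact (smul_eq_zero.1 this).resolve_right one_ne_zero
  have := h1.fintype_card_le_finrank
  rwa [Module.finrank_linearMap, ← sq] at this

theorem ncard_invol_le (h : MinN V 2 E) (hY : om 2 E = E) (k : Type*) [Field k] [Module k V]
    [SMulCommClass H k V] [Nontrivial V] :
    {a | a ∈ E ∧ a * a = 1}.ncard ≤ 2 * finrank k V ^ 2 := by
  classical
  obtain ⟨z, hz, hz1, hz2, -, hz4⟩ := h.exists_z
  rw [Set.ncard_eq_toFinset_card _ (Set.toFinite _)]
  set s := (Set.toFinite {a | a ∈ E ∧ a * a = 1}).toFinset with hs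
  have hs' : ∀ a, a ∈ s ↔ a ∈ E ∧ a * a = 1 := fun a => by simp [hs]
  refine (Finset.card_le_mul_card_image (f := fun a : H => (a : H ⧸ zc E)) s 2 ?_).trans
    (Nat.mul_le_mul_left _ ?_)
  · intro u hu
    obtain ⟨b, hb, rfl⟩ := Finset.mem_image.1 hu
    refine (Finset.card_le_card (t := {b, b * z}) (fun a ha => ?_)).trans Finset.card_le_two
    obtain ⟨ha, e⟩ := Finset.mem_filter.1 ha
    rw [hs'] at ha hb
    have h1 := QuotientGroup.eq.1 e.symm
    rw [Finset.mem_insert, Finset.mem_singleton]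
    by_cases h2 : b⁻¹ * a = 1
    · exact Or.inl (inv_mul_eq_one.1 h2).symm
    · refine Or.inr ?_
      rw [← hz4 _ (h.zc_fpf _ h1 h2) ?_, mul_inv_cancel_left]
      rw [← mul_assoc, h1.2 _ (inv_mem hb.1) |>.symm, mul_assoc, mul_assoc, ha.2, mul_one,
        ← mul_inv_rev, hb.2, inv_one]
  · rw [← Fintype.card_coe]
    choose a ha ha' using fun u : (s.image (fun a : H => (a : H ⧸ zc E))) => Finset.mem_image.1 u.2
    refine h.card_le_sq hY k a (fun u => ((hs' _).1 (ha u)).1) (fun u w e => Subtype.ext ?_)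
    rw [← ha', ← ha', eq_comm, QuotientGroup.eq]
    simpa [mul_assoc] using (zc_normal E).conj_mem _ e (a w)⁻¹

theorem klein (h : MinN V 2 E) (hY : om 2 E = E) {a b : H} (ha : a ∈ E) (hb : b ∈ E)
    (hab : a * b = b * a) (h1 : a ∉ zc E) (h2 : b ∉ zc E) (h3 : a * b ∉ zc E) :
    Nat.card (fxs V {a, b}) ^ 3 ≤ Nat.card V := by
  obtain ⟨z, hz, hz1, hz2, hz3, -⟩ := h.exists_z
  rw [hY] at hz3
  have conj : ∀ x ∈ E, ∀ e ∈ E, ∃ c ∈ zc E, (c = 1 ∨ c = z) ∧ e * x * e⁻¹ = c * x := fun x hx e he => by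
    rcases hz3 x hx e he with h | h
    · exact ⟨1, one_mem _, Or.inl rfl, by rw [h]; group⟩
    · exact ⟨z, hz, Or.inr rfl, by rw [h]; group⟩
  have ex : ∀ x ∈ E, x ∉ zc E → ∃ e ∈ E, e * x * e⁻¹ ≠ x := fun x hx hx' => by
    by_contra hn
    push Not at hn
    exact hx' ⟨hx, fun e he => mul_inv_eq_iff_eq_mul.1 (hn e he)⟩
  obtain ⟨e, he, f, hf, c, hc, d, hd, c', hc', d', hd', e1, e2, e3, e4, n1, n2, n3⟩ :
      ∃ e ∈ E, ∃ f ∈ E, ∃ c ∈ zc E, ∃ d ∈ zc E, ∃ c' ∈ zc E, ∃ d' ∈ zc E, e * a * e⁻¹ = c * a ∧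
        e * b * e⁻¹ = d * b ∧ f * a * f⁻¹ = c' * a ∧ f * b * f⁻¹ = d' * b ∧
        (c = 1 → d ≠ 1) ∧ (c' = 1 → d' ≠ 1) ∧ (c = c' → d ≠ d') := by
    obtain ⟨e, he, hne⟩ := ex _ (mul_mem ha hb) h3
    obtain ⟨c, hc, hc1, e1⟩ := conj a ha e he
    obtain ⟨d, hd, hd1, e2⟩ := conj b hb e he
    have h4 : c * d ≠ 1 := fun e3 => hne (by
      calc _ = e * a * e⁻¹ * (e * b * e⁻¹) := by group
        _ = c * (a * d) * b := by rw [e1, e2]; group
        _ = c * d * (a * b) := by rw [hd.2 a ha]; group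
        _ = _ := by rw [e3, one_mul])
    rcases hc1 with rfl | rfl <;> rcases hd1 with rfl | rfl
    · exact absurd (one_mul 1) h4
    · obtain ⟨f, hf, hnf⟩ := ex a ha h1
      obtain ⟨c', hc', -, e3⟩ := conj a ha f hf
      obtain ⟨d', hd', -, e4⟩ := conj b hb f hf
      have : c' ≠ 1 := by rintro rfl; exact hnf (by rw [e3, one_mul])
      exact ⟨e, he, f, hf, 1, hc, d, hd, c', hc', d', hd', e1, e2, e3, e4, fun _ => hz1,
        fun e => absurd e this, fun e => absurd e.symm this⟩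
    · obtain ⟨f, hf, hnf⟩ := ex b hb h2
      obtain ⟨c', hc', -, e3⟩ := conj a ha f hf
      obtain ⟨d', hd', -, e4⟩ := conj b hb f hf
      have : d' ≠ 1 := by rintro rfl; exact hnf (by rw [e4, one_mul])
      exact ⟨e, he, f, hf, c, hc, 1, hd, c', hc', d', hd', e1, e2, e3, e4, fun e => absurd e hz1,
        fun _ => this, fun _ => this.symm⟩
    · exact absurd hz2 h4
  have := pow_card_le_pair (V := V) (ι := Fin 3) (zc E) h.zc_fpf hab
    (fun z hz => (hz.2 a ha).symm) (fun z hz => (hz.2 b hb).symm)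
    (fun z hz z' hz' => hz'.2 z hz.1) ![1, e, f] ![1, c, c'] ![1, d, d']
    (fun i => by fin_cases i <;> simp [hc, hc']) (fun i => by fin_cases i <;> simp [hd, hd'])
    (fun i => by fin_cases i <;> simp [e1, e3]) (fun i => by fin_cases i <;> simp [e2, e4])
    (fun i j => by
      fin_cases i <;> fin_cases j <;> simp <;> intro x y
      exacts [n1 x.symm y.symm, n2 x.symm y.symm, n1 x y, n3 x y, n2 x y, n3 x.symm y.symm])
  rwa [Nat.card_fin] at this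

theorem big (h : MinN V 2 E) (hY : om 2 E = E) (k : Type*) [Field k] [Module k V]
    [SMulCommClass H k V] {R : Subgroup H} [R.Normal] (hR : ∀ g, g ∉ R → Fpf V g) {x y : H}
    (hx : x ∈ E) (hy : y ∈ E) (hx1 : x ≠ 1) (hy1 : y ≠ 1) (hxf : ¬ Fpf V x) (hyf : ¬ Fpf V y)
    (hxy1 : x * y ≠ 1) (hxyf : ¬ Fpf V (x * y)) :
    ∃ m, 1 ≤ m ∧ m ^ 3 ≤ Nat.card V ∧ R.index ≤ 4 * finrank k V ^ 4 * m := by
  obtain ⟨z, hz, hz1, hz2, -, -⟩ := h.exists_z
  have nz : ∀ u, u ≠ 1 → ¬ Fpf V u → u ∉ zc E := fun u h1 h2 h3 => h2 (h.zc_fpf u h3 h1)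
  have sq1 : ∀ u ∈ E, ¬ Fpf V u → u * u = 1 := fun u hu huf => by
    by_contra hne
    exact huf (fun v hv => h.zc_fpf _ (by rw [← sq]; exact (mem_om.1 (hY.ge hu)).2.2) hne v
      (by rw [mul_smul, hv, hv]))
  have hc : x * y = y * x := by
    have e1 := sq1 _ (mul_mem hx hy) hxyf
    rw [eq_inv_of_mul_eq_one_left e1, mul_inv_rev, ← eq_inv_of_mul_eq_one_left (sq1 x hx hxf),
      ← eq_inv_of_mul_eq_one_left (sq1 y hy hyf)]
  let T : Set (H × H) := {p | (p.1 ∈ E ∧ p.1 * p.1 = 1) ∧ (p.2 ∈ E ∧ p.2 * p.2 = 1) ∧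
    p.1 * p.2 = p.2 * p.1 ∧ p.1 ∉ zc E ∧ p.2 ∉ zc E ∧ p.1 * p.2 ∉ zc E}
  obtain ⟨b, hb, v, hv0, hxv, hbv⟩ : ∃ b, (x, b) ∈ T ∧ ∃ v : V, v ≠ 0 ∧ x • v = v ∧ b • v = v := by
    have hxf' := hxf
    simp only [Fpf, not_forall] at hxf'
    obtain ⟨v, hv, hv0⟩ := hxf'
    by_cases h1 : v + y • v = 0
    · refine ⟨z * y, ⟨⟨hx, sq1 x hx hxf⟩, ⟨mul_mem hz.1 hy, ?_⟩, ?_, nz x hx1 hxf, fun e => ?_,
        fun e => ?_⟩, v, hv0, hv, ?_⟩
      · change z * y * (z * y) = 1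
        rw [mul_assoc, ← mul_assoc y, hz.2 y hy, mul_assoc, sq1 y hy hyf, mul_one, hz2]
      · change x * (z * y) = z * y * x
        rw [← mul_assoc, hz.2 x hx, mul_assoc, hc, mul_assoc]
      · exact nz y hy1 hyf (by simpa using mul_mem (inv_mem hz) e)
      · change x * (z * y) ∈ zc E at e
        rw [← mul_assoc, hz.2 x hx, mul_assoc] at e
        exact nz _ hxy1 hxyf (by simpa using mul_mem (inv_mem hz) e)
      · rw [mul_smul, (h.zc_fpf z hz hz1).neg hz2, neg_eq_iff_add_eq_zero, add_comm, h1]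
    · refine ⟨y, ⟨⟨hx, sq1 x hx hxf⟩, ⟨hy, sq1 y hy hyf⟩, hc, nz x hx1 hxf, nz y hy1 hyf,
        nz _ hxy1 hxyf⟩, v + y • v, h1, ?_, ?_⟩
      · rw [smul_add, ← mul_smul, hc, mul_smul, hv]
      · rw [smul_add, ← mul_smul, sq1 y hy hyf, one_smul, add_comm]
  have : Nontrivial V := ⟨⟨v, 0, hv0⟩⟩
  obtain ⟨p, hp, hmax⟩ := Set.exists_max_image T (fun p => Nat.card (fxs V {p.1, p.2}))
    (Set.toFinite _) ⟨_, hb⟩
  refine ⟨_, Nat.card_pos, h.klein hY hp.1.1 hp.2.1.1 hp.2.2.1 hp.2.2.2.1 hp.2.2.2.2.1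
    hp.2.2.2.2.2, ?_⟩
  have h1 := (cov_top R).index_le (fun g => g • v) (S := orbit H v) (Set.toFinite _)
    (fun g _ => ⟨g, rfl⟩) (fun a _ b _ e => by
      by_contra hn
      exact hv0 (hR _ hn v (by rw [mul_smul, inv_smul_eq_iff]; exact e.symm)))
  have h2 := ncard_le_mul (fun t : T => fxs V {t.1.1, t.1.2}) (fun t => hmax t.1 t.2)
    (X := orbit H v) (by
      rintro _ ⟨g, rfl⟩
      have nz' : ∀ u, u ∉ zc E → g * u * g⁻¹ ∉ zc E := fun u h1 h2 =>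
        h1 (by simpa [mul_assoc] using (zc_normal E).conj_mem _ h2 g⁻¹)
      refine ⟨fun e => hv0 ((smul_eq_zero_iff_eq g).1 e), ⟨(g * x * g⁻¹, g * b * g⁻¹),
        ⟨hE.conj_mem _ hb.1.1 g, ?_⟩, ⟨hE.conj_mem _ hb.2.1.1 g, ?_⟩, ?_, nz' _ hb.2.2.2.1,
        nz' _ hb.2.2.2.2.1, ?_⟩, ?_⟩
      · simp only [conj_mul]; rw [hb.1.2]; simp
      · simp only [conj_mul]; rw [hb.2.1.2]; simp
      · simp only [conj_mul]; rw [hb.2.2.1]
      · simp only [conj_mul]; exact nz' _ hb.2.2.2.2.2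
      · rintro _ (rfl | rfl) <;> simp [mul_smul, hxv, hbv])
  have h3 : Nat.card T ≤ (2 * finrank k V ^ 2) * (2 * finrank k V ^ 2) := by
    have h4 := h.ncard_invol_le hY k
    rw [Nat.card_coe_set_eq]
    refine (Set.ncard_le_ncard (t := {a | a ∈ E ∧ a * a = 1} ×ˢ {a | a ∈ E ∧ a * a = 1})
      (fun t ht => ⟨ht.1, ht.2.1⟩) (Set.toFinite _)).trans ?_
    rw [Set.ncard_prod]
    exact Nat.mul_le_mul h4 h4
  refine h1.trans (h2.trans (Nat.mul_le_mul (h3.trans (le_of_eq (by ring))) (Nat.sub_le _ _)))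

theorem big' (h : MinN V 2 E) {N : ℕ} (hN : ∀ d n : ℕ, 2 ^ d ≤ n → N ≤ n → 5 ^ 6 * d ^ 24 ≤ n)
    (hV : N ≤ Nat.card V) (hY : om 2 E = E) (k : Type*) [Field k] [Finite k] [Module k V]
    [SMulCommClass H k V] [Nontrivial V] {R : Subgroup H} [R.Normal] (hR : ∀ g, g ∉ R → Fpf V g)
    {x y : H} (hx : x ∈ E) (hy : y ∈ E) (hx1 : x ≠ 1) (hy1 : y ≠ 1) (hxf : ¬ Fpf V x)
    (hyf : ¬ Fpf V y) (hxy1 : x * y ≠ 1) (hxyf : ¬ Fpf V (x * y)) :
    (R.index + 1) ^ 2 ≤ Nat.card V := by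
  obtain ⟨m, hm1, hm2, hm3⟩ := h.big hY k hR hx hy hx1 hy1 hxf hyf hxy1 hxyf
  have hd : 1 ≤ finrank k V := by
    by_contra h0
    have h1 := Module.natCard_eq_pow_finrank (K := k) (V := V)
    rw [show finrank k V = 0 by omega, pow_zero] at h1
    exact Finite.one_lt_card.ne' h1
  have h1 := hN (finrank k V) _ (by
    rw [Module.natCard_eq_pow_finrank (K := k)]
    exact Nat.pow_le_pow_left Finite.one_lt_card _) hV
  generalize finrank k V = d at *
  generalize Nat.card V = n at *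
  have h2 : R.index + 1 ≤ 5 * d ^ 4 * m := by
    have : 1 ≤ d ^ 4 * m := Nat.mul_pos (pow_pos hd 4) hm1
    nlinarith
  refine (Nat.pow_le_pow_iff_left (n := 3) (by norm_num)).1 ?_
  calc ((R.index + 1) ^ 2) ^ 3 ≤ ((5 * d ^ 4 * m) ^ 2) ^ 3 :=
        Nat.pow_le_pow_left (Nat.pow_le_pow_left h2 2) 3
    _ = 5 ^ 6 * d ^ 24 * (m ^ 3 * m ^ 3) := by ring
    _ ≤ n * (n * n) := Nat.mul_le_mul h1 (Nat.mul_le_mul hm2 hm2)
    _ = _ := by ring

end MinN

theorem lin_normal {N : ℕ} (hN : ∀ d n : ℕ, 2 ^ d ≤ n → N ≤ n → 5 ^ 6 * d ^ 24 ≤ n)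
    (hV : N ≤ Nat.card V) (faith : ∀ g : H, (∀ v : V, g • v = v) → g = 1) {R : Subgroup H} [R.Normal]
    (hR : ∀ g, g ∉ R → Fpf V g) {q : ℕ} (hq : q.Prime) {Q : Subgroup H} (hQn : Q.Normal)
    (hQ : IsPGroup q Q) (hQR : Q ≤ R) {r : H} (hr : r ∈ Q) (hr1 : r ≠ 1) (hrf : ¬ Fpf V r) :
    (R.index + 1) ^ 2 ≤ Nat.card V := by
  by_cases hirr : ∀ U : AddSubgroup V, (∀ g : H, ∀ x ∈ U, g • x ∈ U) → U = ⊥ ∨ U = ⊤
  swap
  · push Not at hirr
    obtain ⟨U, h1, h2, h3⟩ := hirr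
    exact lin_reducible hR h1 h2 h3
  obtain ⟨E, ⟨hEn, hEQ, r, hr, hr1, hrf⟩, hmin⟩ := exists_minimal_of_wellFoundedLT
    (fun E : Subgroup H => E.Normal ∧ E ≤ Q ∧ ∃ r ∈ E, r ≠ 1 ∧ ¬ Fpf V r) ⟨Q, hQn, le_rfl, r, hr, hr1, hrf⟩
  by_cases hc : ∀ a ∈ E, ∀ b ∈ E, a * b = b * a
  · exact lin_abelian faith hR hirr (hEQ.trans hQR) hc hr hr1 hrf
  have h : MinN V q E := ⟨hq, hQ.to_le hEQ, faith, fun K hK hlt x hx hx1 => by
    by_contra hxf
    exact hlt.not_ge (hmin ⟨hK, hlt.le.trans hEQ, x, hx, hx1, hxf⟩ hlt.le), hc⟩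
  by_cases hq2 : q = 2
  swap
  · exact h.odd hq2 hR (hEQ.trans hQR) hr hr1 hrf
  subst hq2
  by_cases hpf : ∀ x ∈ E, ∀ y ∈ E, x ≠ 1 → y ≠ 1 → ¬ Fpf V x → ¬ Fpf V y → x * y ≠ 1 → Fpf V (x * y)
  · exact h.pf hR (hEQ.trans hQR) hr hr1 hrf hpf
  have hY : om 2 E = E := by
    by_contra hY
    exact hpf (h.pf_of_ne hY)
  push Not at hpf
  obtain ⟨x, hx, y, hy, hx1, hy1, hxf, hyf, hxy1, hxyf⟩ := hpf
  have : Nontrivial V := by
    simp only [Fpf, not_forall] at hrf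
    obtain ⟨v, -, hv⟩ := hrf
    exact ⟨⟨v, 0, hv⟩⟩
  obtain ⟨p, hp, hpd⟩ := Nat.exists_prime_and_dvd (n := Nat.card V) Finite.one_lt_card.ne'
  have : Fact p.Prime := ⟨hp⟩
  obtain ⟨w, hw⟩ := exists_prime_addOrderOf_dvd_card' (G := V) p hpd
  have hpV : ∀ v : V, p • v = 0 := by
    have := (hirr (nsmulAddMonoidHom p : V →+ V).ker (fun g x hx => by
      rw [AddMonoidHom.mem_ker, nsmulAddMonoidHom_apply] at hx ⊢
      rw [smul_comm, hx, smul_zero])).resolve_left (fun e => by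
        have : w ∈ (nsmulAddMonoidHom p : V →+ V).ker := by
          rw [AddMonoidHom.mem_ker, nsmulAddMonoidHom_apply, ← hw, addOrderOf_nsmul_eq_zero]
        rw [e, AddSubgroup.mem_bot] at this
        rw [this, addOrderOf_zero] at hw
        exact hp.one_lt.ne hw)
    intro v
    have h2 : v ∈ (nsmulAddMonoidHom p : V →+ V).ker := this ▸ AddSubgroup.mem_top v
    exact h2
  let _ : Module (ZMod p) V := AddCommGroup.zmodModule hpV
  have : SMulCommClass H (ZMod p) V := ⟨fun g c v =>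
    ZMod.map_smul (DistribSMul.toAddMonoidHom V g) c v⟩
  exact h.big' hN hV hY (ZMod p) hR hx hy hx1 hy1 hxf hyf hxy1 hxyf

theorem lin_bound {N : ℕ} (hN : ∀ d n : ℕ, 2 ^ d ≤ n → N ≤ n → 5 ^ 6 * d ^ 24 ≤ n)
    (hV : N ≤ Nat.card V) (faith : ∀ g : H, (∀ v : V, g • v = v) → g = 1) {R : Subgroup H} [R.Normal]
    (hR : ∀ g, g ∉ R → Fpf V g) {r : H} (hr1 : r ≠ 1) (hrf : ¬ Fpf V r) :
    (R.index + 1) ^ 2 ≤ Nat.card V := by
  obtain ⟨K, ⟨hK, r, hr, hr1, hrf⟩, hmin⟩ := exists_minimal_of_wellFoundedLT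
    (fun K : Subgroup H => Cov R K ∧ ∃ r ∈ K, r ≠ 1 ∧ ¬ Fpf V r) ⟨⊤, cov_top R, r, trivial, hr1, hrf⟩
  obtain ⟨q, hq, hqd⟩ := Nat.exists_prime_and_dvd (n := orderOf r) (by simpa using hr1)
  obtain ⟨j, hj⟩ := hqd
  have ho : orderOf (r ^ j) = q := by
    have h0 := orderOf_pos r
    have hj0 : j ≠ 0 := by rintro rfl; omega
    rw [orderOf_pow_of_dvd hj0 (Dvd.intro_left _ hj.symm), hj, Nat.mul_div_cancel _ (Nat.pos_of_ne_zero hj0)]
  have hs1 : r ^ j ≠ 1 := fun e => by rw [e, orderOf_one] at ho; exact hq.one_lt.ne ho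
  have hsf : ¬ Fpf V (r ^ j) := fun e => hrf (fun v hv => e v (pow_mem (show r ∈ stabilizer H v from hv) j))
  have hsR : r ^ j ∈ R := by
    by_contra hn
    exact hsf (hR _ hn)
  obtain ⟨Q, hQ, hQ'⟩ := exists_sylowIn_ge hq (Q := Subgroup.zpowers (r ^ j)) (K := R ⊓ K)
    (isPGroup_zpowers (e := 1) (by rw [pow_one, ← ho, pow_orderOf_eq_one]))
    (Subgroup.zpowers_le.2 ⟨hsR, pow_mem hr j⟩)
  have hs := hQ' (Subgroup.mem_zpowers _)
  have h1 := hmin ⟨hK.sylow hq hQ, r ^ j, ⟨pow_mem hr j, Subgroup.le_normalizer hs⟩, hs1, hsf⟩ inf_le_left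
  have h2 := lin_normal (H := K) hN hV (fun g hg => Subtype.ext (faith g hg)) (R := R.subgroupOf K)
    (fun g hg => hR g hg) hq (Q := Q.subgroupOf K) ⟨fun x hx g =>
      (Subgroup.mem_normalizer_iff.1 (h1 g.2).2 x).1 hx⟩ hQ.pgroup.comap_subtype
    (fun x hx => (hQ.le hx).1) (r := ⟨r ^ j, pow_mem hr j⟩) hs
    (fun e => hs1 (congrArg Subtype.val e)) hsf
  rwa [← cov_iff_relIndex.1 hK]

end Cfsg.Agent.H3
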