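import Cfsg.Agent.H3.Der2

set_option autoImplicit false

/-! Fourier analysis for a group containing a regular abelian TI subgroup. -/

namespace Cfsg.Agent.H3

open MulAction Function Matrix
open scoped Pointwise ComplexConjugate

section pm
variable {K Y : Type*} [Group K] [MulAction K Y] [Fintype Y] [DecidableEq Y]

/-- Permutation matrix. -/
def pm (Y : Type*) [MulAction K Y] [DecidableEq Y] (g : K) : Matrix Y Y ℂ :=
  Matrix.of fun x y => if x = g • y then 1 else 0

theorem pm_mul_apply {Z : Type*} (g : K) (T : Matrix Y Z ℂ) (x : Y) (z : Z) :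
    (pm Y g * T) x z = T (g⁻¹ • x) z := by
  simp only [pm, Matrix.mul_apply, Matrix.of_apply, ← inv_smul_eq_iff, ite_mul, one_mul, zero_mul,
    Finset.sum_ite_eq, Finset.mem_univ, if_true]

theorem mul_pm_apply {Z : Type*} (g : K) (T : Matrix Z Y ℂ) (z : Z) (y : Y) :
    (T * pm Y g) z y = T z (g • y) := by
  simp [pm, Matrix.mul_apply]

theorem pm_mul (g h : K) : pm Y (g * h) = pm Y g * pm Y h := by
  ext x y
  rw [mul_pm_apply, pm, pm, Matrix.of_apply, Matrix.of_apply, mul_smul]

omit [Fintype Y] in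
theorem pm_one : pm Y (1 : K) = 1 := by
  ext x y
  simp [pm, Matrix.one_apply]

omit [Fintype Y] in
theorem pm_inv (g : K) : pm Y g⁻¹ = (pm Y g)ᴴ := by
  ext x y
  simp only [pm, Matrix.of_apply, Matrix.conjTranspose_apply, eq_inv_smul_iff, eq_comm (a := y)]
  split_ifs <;> simp

theorem pm_comm_iff (g : K) (T : Matrix Y Y ℂ) :
    pm Y g * T = T * pm Y g ↔ ∀ x y, T (g • x) (g • y) = T x y := by
  constructor
  · intro h x y
    have := congrFun (congrFun h (g • x)) y
    rw [pm_mul_apply, mul_pm_apply, inv_smul_smul] at this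
    exact this.symm
  · intro h
    ext x y
    rw [pm_mul_apply, mul_pm_apply, ← h, smul_inv_smul]

end pm

section fourier
variable (V : Type*) [AddCommGroup V] [Fintype V]

/-- Character table. -/
def cU : Matrix V (AddChar V ℂ) ℂ := Matrix.of fun x l => l x

/-- Conjugation by the character table. -/
noncomputable def cΦ (T : Matrix V V ℂ) : Matrix (AddChar V ℂ) (AddChar V ℂ) ℂ :=
  (Fintype.card V : ℂ)⁻¹ • ((cU V)ᴴ * T * cU V)

variable {V}

theorem sum_conj_mul (l m : AddChar V ℂ) [Decidable (l = m)] :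
    ∑ x, conj (l x) * m x = if l = m then (Fintype.card V : ℂ) else 0 := by
  classical
  have := AddChar.sum_eq_ite (m - l)
  simp only [sub_eq_zero, eq_comm (a := m)] at this
  convert this using 2 with x
  rw [AddChar.sub_apply', div_eq_mul_inv, AddChar.inv_apply_eq_conj, mul_comm]

variable [DecidableEq V] [DecidableEq (AddChar V ℂ)]

omit [DecidableEq V] in
theorem cU_left : (cU V)ᴴ * cU V = (Fintype.card V : ℂ) • 1 := by
  ext l m
  simp only [cU, Matrix.mul_apply, Matrix.conjTranspose_apply, Matrix.of_apply, Matrix.smul_apply,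
    Matrix.one_apply, smul_eq_mul, mul_ite, mul_one, mul_zero]
  exact sum_conj_mul l m

omit [DecidableEq (AddChar V ℂ)] in
theorem cU_right : cU V * (cU V)ᴴ = (Fintype.card V : ℂ) • 1 := by
  ext x y
  simp only [cU, Matrix.mul_apply, Matrix.conjTranspose_apply, Matrix.of_apply, Matrix.smul_apply,
    Matrix.one_apply, smul_eq_mul, mul_ite, mul_one, mul_zero]
  have := AddChar.sum_apply_eq_ite (x - y)
  simp only [sub_eq_zero] at this
  convert this using 2 with l
  rw [sub_eq_add_neg, AddChar.map_add_eq_mul, AddChar.map_neg_eq_conj]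
  rfl

omit [DecidableEq V] [DecidableEq (AddChar V ℂ)] in
theorem card_ne : (Fintype.card V : ℂ) ≠ 0 := Nat.cast_ne_zero.2 Fintype.card_ne_zero

omit [DecidableEq (AddChar V ℂ)] in
theorem cΦ_mul (S T : Matrix V V ℂ) : cΦ V (S * T) = cΦ V S * cΦ V T := by
  simp only [cΦ, Matrix.smul_mul, Matrix.mul_smul, Matrix.mul_assoc]
  rw [← Matrix.mul_assoc (cU V), cU_right, Matrix.smul_mul, Matrix.mul_smul, Matrix.mul_smul,
    smul_smul _ (Fintype.card V : ℂ), inv_mul_cancel₀ card_ne, one_smul, Matrix.one_mul]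

omit [DecidableEq (AddChar V ℂ)] in
theorem cΦ_inj {S T : Matrix V V ℂ} (h : cΦ V S = cΦ V T) : S = T := by
  have key : ∀ S : Matrix V V ℂ, cU V * cΦ V S * (cU V)ᴴ = (Fintype.card V : ℂ) • S := fun S => by
    simp only [cΦ, Matrix.smul_mul, Matrix.mul_smul, Matrix.mul_assoc]
    rw [← Matrix.mul_assoc (cU V), cU_right, Matrix.smul_mul, Matrix.mul_smul,
      smul_smul _ (Fintype.card V : ℂ), inv_mul_cancel₀ card_ne, one_smul, Matrix.one_mul,
      Matrix.mul_one]
  have := key S
  rw [h, key] at this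
  exact (smul_right_injective _ card_ne this).symm

omit [DecidableEq V] [DecidableEq (AddChar V ℂ)] in
theorem cΦ_star (T : Matrix V V ℂ) : cΦ V Tᴴ = (cΦ V T)ᴴ := by
  simp [cΦ, Matrix.mul_assoc]

omit [DecidableEq V] in
theorem cΦ_eq {T : Matrix V V ℂ} {M : Matrix (AddChar V ℂ) (AddChar V ℂ) ℂ}
    (h : T * cU V = cU V * M) : cΦ V T = M := by
  rw [cΦ, Matrix.mul_assoc, h, ← Matrix.mul_assoc, cU_left, Matrix.smul_mul, smul_smul,
    inv_mul_cancel₀ card_ne, one_smul, Matrix.one_mul]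

omit [DecidableEq (AddChar V ℂ)] in
theorem cΦ_comm {S T : Matrix V V ℂ} : cΦ V S * cΦ V T = cΦ V T * cΦ V S ↔ S * T = T * S := by
  rw [← cΦ_mul, ← cΦ_mul]
  exact ⟨cΦ_inj, fun h => by rw [h]⟩

end fourier

section
variable (G V : Type*) [Group G] [AddCommGroup V] [MulAction G V]

/-- The elements acting additively. -/
def lin : Subgroup G where
  carrier := {g | ∀ u v : V, g • (u + v) = g • u + g • v}
  one_mem' u v := by simp
  mul_mem' ha hb u v := by rw [mul_smul, hb, ha, mul_smul, mul_smul]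
  inv_mem' {a} ha u v := by rw [inv_smul_eq_iff, ha, smul_inv_smul, smul_inv_smul]

variable {G V}

theorem lin_zero {g : G} (hg : g ∈ lin G V) : g • (0 : V) = 0 := by
  have := hg 0 0
  rwa [add_zero, left_eq_add] at this

instance linDistrib : DistribMulAction (lin G V) V where
  smul_zero g := lin_zero g.2
  smul_add g := g.2

theorem lin_sub {g : G} (hg : g ∈ lin G V) (u v : V) : g • (u - v) = g • u - g • v :=
  smul_sub (⟨g, hg⟩ : lin G V) u v

instance linDual : MulAction (lin G V) (AddChar V ℂ) where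
  smul h l := l.compAddMonoidHom (DistribSMul.toAddMonoidHom V h⁻¹)
  one_smul l := by
    ext x
    change l ((1 : lin G V)⁻¹ • x) = l x
    rw [inv_one, one_smul]
  mul_smul a b l := by
    ext x
    change l ((a * b)⁻¹ • x) = l (b⁻¹ • a⁻¹ • x)
    rw [_root_.mul_inv_rev, mul_smul]

theorem linDual_apply (h : lin G V) (l : AddChar V ℂ) (x : V) : (h • l) x = l (h⁻¹ • x) := rfl

theorem linDual_zero (h : lin G V) : h • (0 : AddChar V ℂ) = 0 := rfl

end

variable {G V : Type*} [Group G] [AddCommGroup V] [MulAction G V]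

/-- The setting: regular abelian TI subgroup of translations. -/
structure TS (D : Subgroup G) (τ : V → G) : Prop where
  dp : DP V D
  mem : ∀ u, τ u ∈ D
  smul : ∀ u v : V, τ u • v = u + v
  faith : ∀ g : G, (∀ v : V, g • v = v) → g = 1
  cov : Cov D (lin G V)
  fpf : ∀ h ∈ lin G V, h ≠ 1 → ∀ v : V, h • v = v → v = 0
  ti : ∀ g ∈ D, ∀ u w : V, u ≠ 0 → g * τ u * g⁻¹ = τ w → ∃ b, ∃ c ∈ lin G V, g = τ b * c

variable [Fintype V] [DecidableEq V] [DecidableEq (AddChar V ℂ)]

/-- The permutation representation in the basis of characters. -/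
noncomputable def cA (V : Type*) [AddCommGroup V] [MulAction G V] [Fintype V] [DecidableEq V]
    (g : G) : Matrix (AddChar V ℂ) (AddChar V ℂ) ℂ := cΦ V (pm V g)

omit [DecidableEq (AddChar V ℂ)] in
theorem cA_mul (g h : G) : cA V (g * h) = cA V g * cA V h := by rw [cA, pm_mul, cΦ_mul]; rfl

theorem cA_one : cA V (1 : G) = 1 := by rw [cA, pm_one]; exact cΦ_eq (by simp)

omit [DecidableEq (AddChar V ℂ)] in
theorem cA_inv (g : G) : cA V g⁻¹ = (cA V g)ᴴ := by rw [cA, pm_inv, cΦ_star]; rfl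

theorem cA_lin (h : lin G V) : cA V (h : G) = pm _ h :=
  cΦ_eq (by ext x l; rw [pm_mul_apply, mul_pm_apply]; rfl)

/-- The commutant of `D`. -/
def Cm (D : Subgroup G) (M : Matrix (AddChar V ℂ) (AddChar V ℂ) ℂ) : Prop :=
  ∀ g ∈ D, cA V g * M = M * cA V g

/-- Characters in the same constituent. -/
def Rel (D : Subgroup G) (l m : AddChar V ℂ) : Prop := ∀ M, Cm D M → M l l = M m m

namespace TS
variable {D : Subgroup G} {τ : V → G} (h : TS D τ)
include h

theorem cA_τ (u : V) : cA V (τ u) = Matrix.diagonal (fun l => l (-u)) :=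
  cΦ_eq (by
    ext x l
    rw [pm_mul_apply, Matrix.mul_diagonal, show (τ u)⁻¹ • x = x + -u by
      rw [inv_smul_eq_iff, h.smul]; abel]
    exact AddChar.map_add_eq_mul _ _ _)

theorem diag {M : Matrix (AddChar V ℂ) (AddChar V ℂ) ℂ}
    (hM : ∀ u, cA V (τ u) * M = M * cA V (τ u)) {l m : AddChar V ℂ} (hne : l ≠ m) : M l m = 0 := by
  obtain ⟨u, hu⟩ := DFunLike.ne_iff.1 hne
  have := congrFun (congrFun (hM (-u)) l) m
  rw [h.cA_τ, Matrix.diagonal_mul, Matrix.mul_diagonal, neg_neg, mul_comm] at this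
  by_contra h0
  exact hu (mul_left_cancel₀ h0 this)

theorem cm_diag {M : Matrix (AddChar V ℂ) (AddChar V ℂ) ℂ} (hM : Cm D M) {l m : AddChar V ℂ}
    (hne : l ≠ m) : M l m = 0 := h.diag (fun u => hM _ (h.mem u)) hne

theorem rel_of_ne {g : G} (hg : g ∈ D) {l m : AddChar V ℂ} (hne : cA V g l m ≠ 0) : Rel D l m := by
  intro M hM
  have e : M = Matrix.diagonal (fun l => M l l) := by
    ext a b
    by_cases hab : a = b
    · subst hab; simp
    · rw [h.cm_diag hM hab, Matrix.diagonal_apply_ne _ hab]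
  have := congrFun (congrFun (hM g hg) l) m
  rw [e, Matrix.diagonal_mul, Matrix.mul_diagonal, mul_comm] at this
  exact (mul_right_cancel₀ hne this).symm

theorem cm_of_const {f : AddChar V ℂ → ℂ} (hf : ∀ l m, Rel D l m → f l = f m) :
    Cm D (Matrix.diagonal f) := by
  intro g hg
  ext l m
  rw [Matrix.diagonal_mul, Matrix.mul_diagonal, mul_comm]
  by_cases h0 : cA V g l m = 0
  · simp [h0]
  · rw [hf _ _ (h.rel_of_ne hg h0)]

theorem rel_smul (k : lin G V) {l m : AddChar V ℂ} (hr : Rel D l m) : Rel D (k • l) (k • m) := by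
  intro M hM
  have := hr (cA V ((k⁻¹ : lin G V) : G) * M * cA V (k : G)) (fun g hg => by
    have h1 := hM _ (h.dp.normal.conj_mem g hg k)
    have e1 : g * ((k⁻¹ : lin G V) : G) = ((k⁻¹ : lin G V) : G) * (k * g * (k : G)⁻¹) := by
      simp [mul_assoc]
    have e2 : (k : G) * g = (k * g * (k : G)⁻¹) * k := by simp [mul_assoc]
    rw [← Matrix.mul_assoc, ← Matrix.mul_assoc, ← cA_mul, e1, cA_mul, Matrix.mul_assoc _ _ M, h1,
      Matrix.mul_assoc, Matrix.mul_assoc, ← cA_mul, ← e2, cA_mul]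
    simp only [Matrix.mul_assoc])
  simpa only [cA_lin, mul_pm_apply, pm_mul_apply, inv_inv] using this

theorem rel_lin {k : lin G V} (hk : (k : G) ∈ D) (l : AddChar V ℂ) : Rel D (k • l) l :=
  h.rel_of_ne hk (by rw [cA_lin]; simp [pm])

omit h [DecidableEq (AddChar V ℂ)] in
theorem cm_cΦ {T : Matrix V V ℂ} : Cm D (cΦ V T) ↔ ∀ g ∈ D, ∀ x y, T (g • x) (g • y) = T x y :=
  forall₂_congr (fun g _ => by rw [cA, cΦ_comm, pm_comm_iff])

omit h in
theorem rel_zero {l : AddChar V ℂ} (hr : Rel D l 0) : l = 0 := by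
  have := hr (cΦ V (Matrix.of fun _ _ => 1)) (cm_cΦ.2 (fun _ _ _ _ => rfl))
  simp only [cΦ, cU, Matrix.smul_apply, Matrix.mul_apply, Matrix.of_apply, mul_one,
    ← Finset.mul_sum, AddChar.sum_eq_ite, Matrix.conjTranspose_apply, if_true] at this
  by_contra hl
  simp [hl] at this
  exact card_ne this.symm

omit [DecidableEq (AddChar V ℂ)] h in
theorem avg [Fintype D] (l m : AddChar V ℂ) :
    Cm D (Matrix.of fun a b => ∑ g : D, cA V (g : G) a l * cA V (g : G)⁻¹ m b) := by
  intro d hd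
  ext a b
  simp only [Matrix.mul_apply, Matrix.of_apply, Finset.mul_sum, Finset.sum_mul]
  rw [Finset.sum_comm, Finset.sum_comm (s := Finset.univ (α := AddChar V ℂ))]
  refine Fintype.sum_equiv (Equiv.mulLeft (⟨d, hd⟩ : D)) _ _ (fun g => ?_)
  simp only [← mul_assoc, ← Finset.sum_mul]
  simp only [mul_assoc, ← Finset.mul_sum, ← Matrix.mul_apply, ← cA_mul]
  simp

open Classical in
theorem orth [Fintype D] (l : AddChar V ℂ) :
    ∑ g : D, (∑ a ∈ Finset.univ.filter (Rel D · l), cA V (g : G) a a) *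
      (∑ a ∈ Finset.univ.filter (Rel D · l), cA V (g : G)⁻¹ a a) = Fintype.card D := by
  set S := Finset.univ.filter (Rel D · l) with hS
  have hl : l ∈ S := Finset.mem_filter.2 ⟨Finset.mem_univ _, fun _ _ => rfl⟩
  have key : ∀ a ∈ S, (S.card : ℂ) * ∑ g : D, cA V (g : G) a a * cA V (g : G)⁻¹ a a =
      Fintype.card D := by
    intro a ha
    have ha' : Rel D a l := (Finset.mem_filter.1 ha).2
    have h1 : ∑ b, ∑ g : D, cA V (g : G) b a * cA V (g : G)⁻¹ a b = Fintype.card D := by
      rw [Finset.sum_comm]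
      simp only [mul_comm (cA V _ _ a), ← Matrix.mul_apply, ← cA_mul, inv_mul_cancel, cA_one]
      simp
    rw [← h1, ← nsmul_eq_mul, ← Finset.sum_const]
    symm
    rw [← Finset.sum_subset (Finset.subset_univ S)]
    · refine Finset.sum_congr rfl (fun b hb => ?_)
      have hb' : Rel D b l := (Finset.mem_filter.1 hb).2
      exact (hb' _ (avg a a)).trans (ha' _ (avg a a)).symm
    · intro b _ hb
      refine Finset.sum_eq_zero (fun g _ => mul_eq_zero_of_left ?_ _)
      by_contra h0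
      exact hb (Finset.mem_filter.2 ⟨Finset.mem_univ _, fun M hM =>
        (h.rel_of_ne g.2 h0 M hM).trans (ha' M hM)⟩)
  simp only [Finset.sum_mul_sum]
  rw [Finset.sum_comm]
  have h2 : ∀ a ∈ S, ∑ g : D, ∑ b ∈ S, cA V (g : G) a a * cA V (g : G)⁻¹ b b =
      ∑ g : D, cA V (g : G) a a * cA V (g : G)⁻¹ a a := fun a ha => by
    rw [Finset.sum_comm]
    exact Finset.sum_eq_single_of_mem a ha (fun b _ hb => h.cm_diag (avg a b) hb.symm)
  rw [Finset.sum_congr rfl h2]
  apply mul_left_cancel₀ (Nat.cast_ne_zero.2 (Finset.card_ne_zero_of_mem hl) : (S.card : ℂ) ≠ 0)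
  rw [Finset.mul_sum, Finset.sum_congr rfl key, Finset.sum_const, nsmul_eq_mul]

omit [Fintype V] [DecidableEq V] [DecidableEq (AddChar V ℂ)] in
theorem τ_inj {u w : V} (e : τ u = τ w) : u = w := by
  have := h.smul u 0
  rwa [e, h.smul, add_left_inj, eq_comm] at this

omit [DecidableEq (AddChar V ℂ)] in
theorem ti_sum [Fintype D] [Finite G] (F : G → ℝ) (hF : ∀ g, 0 ≤ F g) :
    ∑ p ∈ (Finset.univ : Finset D) ×ˢ (Finset.univ.erase (0 : V)), F (p.1 * τ p.2 * (p.1 : G)⁻¹) ≤
      ∑ g : D, (Fintype.card V * Nat.card (D ⊓ lin G V : Subgroup G) : ℕ) * F g := by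
  classical
  have := Fintype.ofFinite (D ⊓ lin G V : Subgroup G)
  refine (Finset.sum_fiberwise' _ (fun p : D × V => p.1 * ⟨τ p.2, h.mem _⟩ * p.1⁻¹)
    (fun g : D => F g)).symm.trans_le (Finset.sum_le_sum (fun g _ => ?_))
  rw [Finset.sum_const, nsmul_eq_mul]
  refine mul_le_mul_of_nonneg_right (Nat.cast_le.2 ?_) (hF _)
  rcases Finset.eq_empty_or_nonempty (((Finset.univ : Finset D) ×ˢ (Finset.univ.erase (0 : V))).filter
    (fun p : D × V => p.1 * ⟨τ p.2, h.mem _⟩ * p.1⁻¹ = g)) with e | ⟨⟨x₀, u₀⟩, hx₀⟩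
  · rw [e]; simp
  · rw [Nat.card_eq_fintype_card, ← Fintype.card_prod, ← Finset.card_univ]
    refine le_trans ?_ (Finset.card_image_le (f := fun q : V × (D ⊓ lin G V : Subgroup G) =>
      τ q.1 * q.2))
    refine Finset.card_le_card_of_injOn (fun p => (x₀ : G)⁻¹ * p.1) (fun p hp => ?_)
      (fun p hp p' hp' e => ?_)
    · have e1 : (x₀ : G) * τ u₀ * (x₀ : G)⁻¹ = g := congrArg Subtype.val (Finset.mem_filter.1 hx₀).2
      obtain ⟨hp1, hp2⟩ := Finset.mem_filter.1 hp
      have e2 : (p.1 : G) * τ p.2 * (p.1 : G)⁻¹ = g := congrArg Subtype.val hp2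
      have hm : (x₀ : G)⁻¹ * p.1 ∈ D := mul_mem (inv_mem x₀.2) p.1.2
      obtain ⟨b, c, hc, e3⟩ := h.ti _ hm p.2 u₀
        (Finset.mem_erase.1 (Finset.mem_product.1 hp1).2).1 (by
          calc _ = (x₀ : G)⁻¹ * ((p.1 : G) * τ p.2 * (p.1 : G)⁻¹) * x₀ := by group
            _ = _ := by rw [e2, ← e1]; group)
      refine Finset.mem_coe.2 (Finset.mem_image.2 ⟨(b, ⟨c, ?_, hc⟩), Finset.mem_univ _, e3.symm⟩)
      rw [e3] at hm
      simpa using mul_mem (inv_mem (h.mem b)) hm
    · have e1 : p.1 = p'.1 := Subtype.ext (mul_left_cancel e)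
      have e2 := (Finset.mem_filter.1 hp).2.trans (Finset.mem_filter.1 hp').2.symm
      rw [e1] at e2
      exact Prod.ext e1 (h.τ_inj (congrArg Subtype.val (mul_left_cancel (mul_right_cancel e2))))

open Classical in
theorem class_bound [Finite G] (l : AddChar V ℂ) :
    Fintype.card V * (Finset.univ.filter (Rel D · l)).card ≤
      Fintype.card V * Nat.card (D ⊓ lin G V : Subgroup G) + (Finset.univ.filter (Rel D · l)).card ^ 2 := by
  have := Fintype.ofFinite G
  set S := Finset.univ.filter (Rel D · l) with hS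
  let F : G → ℝ := fun g => Complex.normSq (∑ a ∈ S, cA V g a a)
  have hF : ∀ g, (F g : ℂ) = (∑ a ∈ S, cA V g a a) * ∑ a ∈ S, cA V g⁻¹ a a := fun g => by
    simp only [F, cA_inv, Matrix.conjTranspose_apply, Complex.star_def, ← map_sum, Complex.mul_conj]
  have h1 : ∑ g : D, F g = Fintype.card D := by
    have := h.orth l
    simp only [← hS, ← hF] at this
    exact_mod_cast this
  have h2 : ∀ x ∈ D, ∀ g, F (x * g * x⁻¹) = F g := fun x hx g => by
    have e : ∀ g : G, ∑ a ∈ S, cA V g a a =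
        Matrix.trace (Matrix.diagonal (fun a => if a ∈ S then (1 : ℂ) else 0) * cA V g) := fun g => by
      simp [Matrix.trace, Matrix.diagonal_mul]
    have hE := h.cm_of_const (f := fun a => if a ∈ S then (1 : ℂ) else 0) (fun a b hab => by
      have : a ∈ S ↔ b ∈ S := by
        simp only [hS, Finset.mem_filter, Finset.mem_univ, true_and]
        exact ⟨fun h1 M hM => (hab M hM).symm.trans (h1 M hM), fun h1 M hM => (hab M hM).trans (h1 M hM)⟩
      simp only [this])
    simp only [F, e]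
    rw [cA_mul, ← Matrix.mul_assoc, Matrix.trace_mul_comm, ← Matrix.mul_assoc, hE _ (inv_mem hx),
      Matrix.mul_assoc, ← cA_mul, inv_mul_cancel_left]
  have h3 : ∑ u, F (τ u) = Fintype.card V * S.card := by
    have : ∑ u, (F (τ u) : ℂ) = Fintype.card V * S.card := by
      simp only [hF, cA_inv, h.cA_τ, Matrix.conjTranspose_apply, Matrix.diagonal_apply_eq,
        Finset.sum_mul_sum]
      rw [Finset.sum_comm, mul_comm, ← nsmul_eq_mul, ← Finset.sum_const]
      refine Finset.sum_congr rfl (fun a ha => ?_)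
      rw [Finset.sum_comm]
      have : ∀ b : AddChar V ℂ, ∑ u, a (-u) * star (b (-u)) = if a = b then (Fintype.card V : ℂ) else 0 :=
        fun b => by
          rw [← sum_conj_mul]
          simp [AddChar.map_neg_eq_conj]
      simp only [this, Finset.sum_ite_eq, ha, if_true]
    exact_mod_cast this
  have h4 : F (τ 0) = (S.card : ℝ) ^ 2 := by
    simp [F, h.cA_τ, sq]
  have h5 := h.ti_sum F (fun g => Complex.normSq_nonneg _)
  rw [Finset.sum_product, ← Finset.mul_sum, h1] at h5
  simp only [fun (x : D) g => h2 x x.2 g, Finset.sum_const, Finset.card_univ, nsmul_eq_mul] at h5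
  rw [← Finset.add_sum_erase _ _ (Finset.mem_univ 0), h4] at h3
  have h6 : (0 : ℝ) < Fintype.card D := Nat.cast_pos.2 Fintype.card_pos
  have h7 := le_of_mul_le_mul_left (h5.trans_eq (mul_comm _ _)) h6
  have : ((Fintype.card V * S.card : ℕ) : ℝ) ≤
      ((Fintype.card V * Nat.card (D ⊓ lin G V : Subgroup G) + S.card ^ 2 : ℕ) : ℝ) := by
    push_cast at h7 ⊢
    linarith
  exact_mod_cast this

end TS

end Cfsg.Agent.H3
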