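import Cfsg.Agent.H3.Der6

set_option autoImplicit false

/-! The case of a Frobenius normaliser of a regular abelian Sylow subgroup. -/

namespace Cfsg.Agent.H3

open MulAction Function Matrix
open scoped Pointwise ComplexConjugate

variable {G V : Type*} [Group G] [AddCommGroup V] [MulAction G V]

theorem ncard_orbit_of_free {K Y : Type*} [Group K] [MulAction K Y] (C : Subgroup K) {y : Y}
    (hy : ∀ k : K, k • y = y → k = 1) : (orbit C y).ncard = Nat.card C := by
  rw [← card_orbit_mul_card_inf C y, show stabilizer K y = ⊥ from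
    (Subgroup.eq_bot_iff_forall _).2 hy, inf_bot_eq, Subgroup.card_bot, mul_one]

namespace TS
variable {D : Subgroup G} {τ : V → G} (h : TS D τ)
include h

theorem free_dual [Finite V] {l : AddChar V ℂ} (hl : l ≠ 0) (k : lin G V) (hk : k • l = l) :
    k = 1 := by
  by_contra hne
  have h1 : Injective (fun x : V => k⁻¹ • x - x) := fun x y e => by
    refine sub_eq_zero.1 (h.fpf _ k⁻¹.2 (fun e => hne (inv_eq_one.1 (Subtype.ext e))) _ ?_)
    change k⁻¹ • (x - y) = _
    rw [smul_sub]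
    dsimp only at e
    linear_combination (norm := abel) e
  apply hl
  ext y
  obtain ⟨x, rfl⟩ := Finite.injective_iff_surjective.1 h1 y
  have := DFunLike.congr_fun hk x
  rw [linDual_apply] at this
  simp only [AddChar.map_sub_eq_div, this, AddChar.zero_apply, div_one]
  exact div_self (a := l x) (norm_ne_zero_iff.1 (by rw [AddChar.norm_apply]; exact one_ne_zero))

theorem card_lin [Finite G] :
    Nat.card (lin G V) = D.index * Nat.card (D ⊓ lin G V : Subgroup G) := by
  have := h.dp.normal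
  rw [← cov_iff_relIndex.1 h.cov, ← (D.subgroupOf (lin G V)).index_mul_card,
    ← Subgroup.inf_subgroupOf_right D,
    Nat.card_congr (Subgroup.subgroupOfEquivOfLe (inf_le_right : D ⊓ lin G V ≤ _)).toEquiv,
    Subgroup.inf_subgroupOf_right]
  rfl

variable [Fintype V] [DecidableEq V] [DecidableEq (AddChar V ℂ)] [Finite G]

omit [Finite G] in
theorem not_all_rel [Nontrivial V] (hD : D ≠ ⊤) {l : AddChar V ℂ} :
    ¬ ∀ m : AddChar V ℂ, m ≠ 0 → Rel D m l := by
  classical
  intro hall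
  obtain ⟨k, hk, hkD⟩ := h.cov.exists_notMem hD
  obtain ⟨β, hβ⟩ := exists_ne (0 : V)
  let T : Matrix V V ℂ := Matrix.of fun x y => if ∃ d ∈ D, d • (0 : V) = x ∧ d • β = y then 1 else 0
  have hT : Cm D (cΦ V T) := cm_cΦ.2 (fun g hg x y => by
    simp only [T, Matrix.of_apply]
    refine if_congr ⟨?_, ?_⟩ rfl rfl
    · rintro ⟨d, hd, h1, h2⟩
      exact ⟨g⁻¹ * d, mul_mem (inv_mem hg) hd, by rw [mul_smul, h1, inv_smul_smul],
        by rw [mul_smul, h2, inv_smul_smul]⟩
    · rintro ⟨d, hd, rfl, rfl⟩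
      exact ⟨g * d, mul_mem hg hd, mul_smul _ _ _, mul_smul _ _ _⟩)
  have h1 : cA V k * cΦ V T = cΦ V T * cA V k := by
    rw [cA_lin ⟨k, hk⟩, pm_comm_iff]
    intro a b
    by_cases hab : a = b
    · subst hab
      by_cases ha : a = 0
      · rw [ha, linDual_zero]
      · exact (hall _ (fun e => ha (MulAction.injective (⟨k, hk⟩ : lin G V) e)) _ hT).trans
          (hall _ ha _ hT).symm
    · rw [h.cm_diag hT hab, h.cm_diag hT (fun e => hab (MulAction.injective _ e))]
  rw [cA, cΦ_comm, pm_comm_iff] at h1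
  have h2 := h1 0 β
  simp only [T, Matrix.of_apply] at h2
  rw [if_pos (show ∃ d ∈ D, d • (0 : V) = 0 ∧ d • β = β from ⟨1, one_mem _, one_smul _ _, one_smul _ _⟩),
    ite_eq_left_iff, imp_iff_not zero_ne_one, not_not] at h2
  obtain ⟨d, hd, h3, h4⟩ := h2
  refine hβ (h.dp.uniq (d⁻¹ * k) (fun e => hkD (by simpa using mul_mem hd e)) _ _ ?_ ?_)
  · rw [mul_smul, ← h4, inv_smul_smul]
  · rw [mul_smul, ← h3, inv_smul_smul]

theorem rel_orbit [Nontrivial V] (hD : D ≠ ⊤) {l m : AddChar V ℂ} (hr : Rel D m l) :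
    ∃ k : lin G V, (k : G) ∈ D ∧ k • l = m := by
  classical
  by_cases hl : l = 0
  · subst hl
    exact ⟨1, one_mem _, by rw [one_smul, rel_zero hr]⟩
  by_contra hcon
  have hb := h.class_bound l
  rw [← Set.ncard_coe_finset, Finset.coe_filter] at hb
  simp only [Finset.mem_univ, true_and] at hb
  set S := {x | Rel D x l} with hS
  have tr : ∀ {a b c : AddChar V ℂ}, Rel D a b → Rel D b c → Rel D a c :=
    fun h1 h2 M hM => (h1 M hM).trans (h2 M hM)
  have sy : ∀ {a b : AddChar V ℂ}, Rel D a b → Rel D b a := fun h1 M hM => (h1 M hM).symm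
  have h0 : ∀ a ∈ S, a ≠ 0 := fun a ha e => hl (rel_zero (sy (e ▸ ha)))
  let C := D.subgroupOf (lin G V)
  have hC : Nat.card C = Nat.card (D ⊓ lin G V : Subgroup G) := by
    rw [← Nat.card_congr (Subgroup.subgroupOfEquivOfLe (inf_le_right : D ⊓ lin G V ≤ _)).toEquiv,
      Subgroup.inf_subgroupOf_right]
  have h1 : 2 * Nat.card (D ⊓ lin G V : Subgroup G) ≤ S.ncard := by
    have e1 := ncard_orbit_of_free C (h.free_dual hl)
    have e2 := ncard_orbit_of_free C (h.free_dual (h0 m hr))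
    have e3 := Set.ncard_union_eq (s := orbit C l) (t := orbit C m) (by
      rw [Set.disjoint_left]
      intro a h1 h2
      obtain ⟨k, hk⟩ : m ∈ orbit C l := by
        rw [← orbit_eq_iff.2 h1, orbit_eq_iff.2 h2]; exact mem_orbit_self m
      exact hcon ⟨k.1, k.2, hk⟩) (Set.toFinite _) (Set.toFinite _)
    have e4 := Set.ncard_le_ncard (s := orbit C l ∪ orbit C m) (t := S) (by
      rintro _ (⟨k, rfl⟩ | ⟨k, rfl⟩)
      · exact h.rel_lin k.2 l
      · exact tr (h.rel_lin k.2 m) hr) (Set.toFinite _)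
    omega
  have hn : Nat.card (AddChar V ℂ) = Fintype.card V := by
    rw [Nat.card_eq_fintype_card, AddChar.card_eq]
  have hc : 0 < Nat.card (D ⊓ lin G V : Subgroup G) := Nat.card_pos
  have h2 : Fintype.card V ≤ 2 * S.ncard := by
    by_contra hlt
    nlinarith
  have h3 : Fintype.card V ≤ S.ncard + 2 * Nat.card (D ⊓ lin G V : Subgroup G) := by
    by_contra hlt
    nlinarith
  have h4 : ∀ k : lin G V, Rel D (k • l) l := fun k => by
    by_contra hk
    have e3 := Set.ncard_union_eq (s := S) (t := k • S) (by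
      rw [Set.disjoint_left]
      rintro _ h1 ⟨a, ha, rfl⟩
      exact hk (tr (sy (h.rel_smul k ha)) h1)) (Set.toFinite _) (Set.toFinite _)
    have e4 := Set.ncard_le_ncard (s := S ∪ k • S) (t := Set.univ \ {0}) (by
      rintro _ (ha | ⟨a, ha, rfl⟩)
      · exact ⟨trivial, h0 _ ha⟩
      · exact ⟨trivial, fun e => h0 a ha (MulAction.injective k e)⟩) (Set.toFinite _)
    rw [Set.ncard_sdiff_singleton_of_mem (Set.mem_univ _), Set.ncard_univ, hn] at e4
    rw [Set.ncard_smul_set] at e3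
    have : 0 < Fintype.card V := Fintype.card_pos
    omega
  refine h.not_all_rel hD (l := l) (fun a ha => ?_)
  by_contra ha'
  have e1 := ncard_orbit_of_free ⊤ (h.free_dual ha)
  rw [Subgroup.card_top, h.card_lin] at e1
  have e2 : 2 ≤ D.index := by
    have := Subgroup.index_ne_zero_of_finite (H := D)
    have := (Subgroup.index_eq_one (H := D)).not.2 hD
    omega
  have e3 := Set.ncard_union_eq (s := S) (t := orbit (⊤ : Subgroup (lin G V)) a) (by
    rw [Set.disjoint_left]
    rintro _ h1 ⟨k, rfl⟩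
    refine ha' (tr ?_ (h4 k.1⁻¹))
    have := h.rel_smul k.1⁻¹ h1
    rwa [show k.1⁻¹ • (fun m => m • a) k = a from inv_smul_smul k.1 a] at this)
    (Set.toFinite _) (Set.toFinite _)
  have e4 := Set.ncard_le_ncard (s := S ∪ orbit (⊤ : Subgroup (lin G V)) a) (t := Set.univ \ {0}) (by
    rintro _ (hb | ⟨k, rfl⟩)
    · exact ⟨trivial, h0 _ hb⟩
    · exact ⟨trivial, fun e => ha (MulAction.injective k.1 e)⟩) (Set.toFinite _)
  rw [Set.ncard_sdiff_singleton_of_mem (Set.mem_univ _), Set.ncard_univ, hn] at e4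
  have : 0 < Fintype.card V := Fintype.card_pos
  have := Nat.mul_le_mul_right (Nat.card (D ⊓ lin G V : Subgroup G)) e2
  omega

theorem orbital [Nontrivial V] (hD : D ≠ ⊤) {d : G} (hd : d ∈ D) (x y : V) :
    ∃ c ∈ D ⊓ lin G V, d • y - d • x = c • (y - x) := by
  classical
  let T : Matrix V V ℂ := Matrix.of fun a b => if ∃ c ∈ D ⊓ lin G V, b - a = c • (y - x) then 1 else 0
  have h1 : ∀ u, cA V (τ u) * cΦ V T = cΦ V T * cA V (τ u) := fun u => by
    rw [cA, cΦ_comm, pm_comm_iff]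
    intro a b
    simp only [T, Matrix.of_apply, h.smul, add_sub_add_left_eq_sub]
  have h2 : ∀ k : lin G V, (k : G) ∈ D → ∀ l, cΦ V T (k • l) (k • l) = cΦ V T l l := fun k hk l => by
    refine (pm_comm_iff k _).1 ?_ l l
    rw [← cA_lin, cA, cΦ_comm, pm_comm_iff]
    intro a b
    simp only [T, Matrix.of_apply, ← lin_sub k.2]
    refine if_congr ⟨?_, ?_⟩ rfl rfl
    · rintro ⟨c, hc, e⟩
      exact ⟨(k : G)⁻¹ * c, mul_mem (inv_mem (show (k : G) ∈ D ⊓ lin G V from ⟨hk, k.2⟩)) hc,
        by rw [mul_smul, ← e, inv_smul_smul]⟩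
    · rintro ⟨c, hc, e⟩
      exact ⟨k * c, mul_mem (show (k : G) ∈ D ⊓ lin G V from ⟨hk, k.2⟩) hc, by rw [mul_smul, e]⟩
  have e : cΦ V T = Matrix.diagonal (fun l => cΦ V T l l) := by
    ext a b
    by_cases hab : a = b
    · subst hab; simp
    · rw [h.diag h1 hab, Matrix.diagonal_apply_ne _ hab]
  have h3 : Cm D (cΦ V T) := by
    rw [e]
    refine h.cm_of_const (fun l m hr => ?_)
    obtain ⟨k, hk, rfl⟩ := h.rel_orbit hD hr
    exact h2 k hk m
  have h4 := cm_cΦ.1 h3 d hd x y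
  simp only [T, Matrix.of_apply] at h4
  rwa [if_pos (show ∃ c ∈ D ⊓ lin G V, y - x = c • (y - x) from ⟨1, one_mem _, (one_smul _ _).symm⟩),
    ite_eq_left_iff, imp_iff_not zero_ne_one, not_not] at h4

theorem fix_le [Nontrivial V] (hD : D ≠ ⊤) {g : G} (hg : g ∈ D) (hg1 : g ≠ 1) :
    {x : V | g • x = x}.ncard + 1 ≤ Nat.card (D ⊓ lin G V : Subgroup G) := by
  obtain ⟨β, hβ⟩ : ∃ β : V, g • β ≠ β := by
    by_contra hc
    push Not at hc
    exact hg1 (h.faith g hc)
  choose c hc hc' using fun x => h.orbital hD hg x β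
  have h1 := Set.ncard_le_ncard_of_injOn (s := {x : V | g • x = x})
    (t := ((D ⊓ lin G V : Subgroup G) : Set G) \ {1}) c (fun x hx => ⟨hc x, fun e => hβ (by
      have := hc' x
      rwa [show c x = 1 from e, one_smul, hx, sub_left_inj] at this)⟩) (fun x hx y hy e => by
      have e1 := hc' x
      have e2 := hc' y
      rw [hx, lin_sub (hc x).2] at e1
      rw [hy, ← e, lin_sub (hc x).2] at e2
      refine sub_eq_zero.1 (h.fpf _ (hc x).2 (fun e => hβ ?_) _ ?_)
      · rwa [e, one_smul, one_smul, sub_left_inj] at e1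
      · rw [lin_sub (hc x).2]
        linear_combination (norm := abel) e1 - e2) (Set.toFinite _)
  rw [Set.ncard_sdiff_singleton_of_mem (one_mem _),
    ← Nat.card_coe_set_eq ((D ⊓ lin G V : Subgroup G) : Set G)] at h1
  have : 0 < Nat.card (D ⊓ lin G V : Subgroup G) := Nat.card_pos
  change _ ≤ Nat.card (D ⊓ lin G V : Subgroup G) - 1 at h1
  omega

theorem main [Nontrivial V] (hD : D ≠ ⊤) (hlt : Nat.card V < (D.index + 1) ^ 2) :
    D ⊓ stabilizer G (0 : V) ≤ lin G V := by
  classical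
  have := Fintype.ofFinite G
  by_contra hne
  set C := D ⊓ lin G V with hC
  set D₀ := D ⊓ stabilizer G (0 : V) with hD₀
  have hCD : C ≤ D₀ := fun c hc => ⟨hc.1, lin_zero hc.2⟩
  have hc : 0 < Nat.card C := Nat.card_pos
  have h1 : ∀ β : V, β ≠ 0 → Nat.card C * Nat.card (D₀ ⊓ stabilizer G β : Subgroup G) = Nat.card D₀ := by
    intro β hβ
    rw [← card_orbit_mul_card_inf D₀ β, ← card_orbit_mul_card_inf C β,
      show C ⊓ stabilizer G β = ⊥ from (Subgroup.eq_bot_iff_forall _).2 (fun c hc => by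
        by_contra h1
        exact hβ (h.fpf c hc.1.2 h1 β hc.2)), Subgroup.card_bot, mul_one]
    congr 2
    ext y
    constructor
    · rintro ⟨⟨c, hc⟩, rfl⟩
      exact ⟨⟨c, hCD hc⟩, rfl⟩
    · rintro ⟨⟨d, hd⟩, rfl⟩
      obtain ⟨c, hc, e⟩ := h.orbital hD hd.1 0 β
      rw [show d • (0 : V) = 0 from hd.2, sub_zero, sub_zero] at e
      exact ⟨⟨c, hc⟩, e.symm⟩
  obtain ⟨β₀, hβ₀⟩ := exists_ne (0 : V)
  obtain ⟨e, he⟩ : ∃ e, Nat.card D₀ = Nat.card C * (e + 2) := by
    have h2 := h1 β₀ hβ₀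
    have h3 : Nat.card (D₀ ⊓ stabilizer G β₀ : Subgroup G) ≠ 1 := fun e => hne (by
      rw [e, mul_one] at h2
      rw [← Subgroup.eq_of_le_of_card_ge hCD h2.ge]
      exact inf_le_right)
    have h4 : 0 < Nat.card (D₀ ⊓ stabilizer G β₀ : Subgroup G) := Nat.card_pos
    exact ⟨Nat.card (D₀ ⊓ stabilizer G β₀ : Subgroup G) - 2, by rw [← h2]; congr 1; omega⟩
  have h2 := Finset.card_mul_le_card_mul (s := Finset.univ.erase (0 : V))
    (t := ((D₀ : Set G) \ (C : Set G)).toFinset) (fun x g => g • x = x) (m := e + 1)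
    (n := Nat.card C - 2) (fun β hβ => by
      have hβ' := (Finset.mem_erase.1 hβ).1
      have h3 := Nat.eq_of_mul_eq_mul_left hc ((h1 β hβ').trans he)
      have h4 := Set.ncard_le_ncard (s := ((D₀ ⊓ stabilizer G β : Subgroup G) : Set G) \ {1})
        (t := (((D₀ : Set G) \ (C : Set G)).toFinset.bipartiteAbove (fun x g => g • x = x) β : Set G))
        (fun g hg => by
          simp only [Finset.coe_bipartiteAbove, Set.mem_toFinset, Set.mem_ofPred_eq]
          exact ⟨⟨hg.1.1, fun hgC => hβ' (h.fpf g hgC.2 hg.2 β hg.1.2)⟩, hg.1.2⟩) (Set.toFinite _)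
      rw [Set.ncard_sdiff_singleton_of_mem (one_mem _), ← Nat.card_coe_set_eq,
        Set.ncard_coe_finset] at h4
      change Nat.card (D₀ ⊓ stabilizer G β : Subgroup G) - 1 ≤ _ at h4
      omega) (fun g hg => by
      have hg' := Set.mem_toFinset.1 hg
      have h3 := h.fix_le hD hg'.1.1 (fun e => hg'.2 (e ▸ one_mem C))
      have h4 := Set.ncard_le_ncard (t := {x : V | g • x = x} \ {0})
        (s := ((Finset.univ.erase (0 : V)).bipartiteBelow (fun x g => g • x = x) g : Set V))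
        (fun x hx => by
          simp only [Finset.coe_bipartiteBelow, Finset.mem_erase, Set.mem_ofPred_eq] at hx
          exact ⟨hx.2, hx.1.1⟩) (Set.toFinite _)
      rw [Set.ncard_sdiff_singleton_of_mem (show (0 : V) ∈ {x : V | g • x = x} from hg'.1.2),
        Set.ncard_coe_finset] at h4
      rw [← hC] at h3
      omega)
  rw [← Set.ncard_eq_toFinset_card', Set.ncard_sdiff' hCD (Set.toFinite _), ← Nat.card_coe_set_eq,
    ← Nat.card_coe_set_eq, Finset.card_erase_of_mem (Finset.mem_univ _), Finset.card_univ,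
    ← Nat.card_eq_fintype_card] at h2
  change _ ≤ (Nat.card D₀ - Nat.card C) * _ at h2
  have h3 := ncard_orbit_of_free (⊤ : Subgroup (lin G V)) (y := β₀) (fun k hk => by
    by_contra h1
    exact hβ₀ (h.fpf k k.2 (fun e => h1 (Subtype.ext e)) β₀ hk))
  have h4 := Set.ncard_le_ncard (s := orbit (⊤ : Subgroup (lin G V)) β₀) (t := Set.univ \ {0}) (by
    rintro _ ⟨k, rfl⟩
    exact ⟨trivial, fun e => hβ₀ ((smul_eq_zero_iff_eq k.1).1 e)⟩) (Set.toFinite _)
  rw [Set.ncard_sdiff_singleton_of_mem (Set.mem_univ _), Set.ncard_univ, h3, Subgroup.card_top,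
    h.card_lin, ← hC] at h4
  have h5 : 0 < Nat.card V := Nat.card_pos
  rw [he, show Nat.card C * (e + 2) - Nat.card C = Nat.card C * (e + 1) by
    rw [show e + 2 = (e + 1) + 1 from rfl, mul_add_one, Nat.add_sub_cancel], mul_right_comm] at h2
  have h6 := Nat.le_of_mul_le_mul_right h2 (Nat.succ_pos e)
  have h7 := Nat.le_of_mul_le_mul_left ((mul_comm _ _).le.trans (h4.trans h6)) hc
  have h8 : 0 < D.index := Nat.pos_of_ne_zero Subgroup.index_ne_zero_of_finite
  have h9 := Nat.mul_le_mul_left D.index (show D.index + 2 ≤ Nat.card C by omega)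
  have : (D.index + 1) ^ 2 = D.index * (D.index + 2) + 1 := by ring
  omega

end TS

theorem eq_of_normalizer_le [Finite G] {Ω : Type*} [MulAction G Ω] [Finite Ω] {p k : ℕ} (hp : p.Prime)
    (hn : Nat.card Ω = p ^ k) (faith : ∀ g : G, (∀ v : Ω, g • v = v) → g = 1) {P W : Subgroup G}
    (hP : SylowIn p P W) (ht : IsPretransitive P Ω)
    (hN : ∀ x ∈ W, x ∈ Subgroup.normalizer (P : Set G) → ∀ y ∈ P, y * x = x * y) : W = P := by
  have : Fact p.Prime := ⟨hp⟩
  let S : Sylow p W := (hP.pgroup.comap_subtype (K := W)).toSylow hP.not_dvd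
  have hS : Subgroup.normalizer ((S : Subgroup W) : Set W) ≤
      Subgroup.centralizer ((S : Subgroup W) : Set W) := fun x hx y hy =>
    Subtype.ext (hN x x.2 (mem_normalizer_of_conj_mem (fun z hz =>
      (Subgroup.mem_normalizer_iff.1 hx ⟨z, hP.le hz⟩).1 hz)) y hy)
  have h1 := MonoidHom.ker_transferSylow_isComplement' S hS
  have h2 := MonoidHom.not_dvd_card_ker_transferSylow S hS
  set K := (MonoidHom.transferSylow S hS).ker
  have h3 : K = ⊥ := (Subgroup.eq_bot_iff_forall _).2 (fun x hx => Subtype.ext (faith _ (fun a => by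
    have e1 : (orbit K a).ncard ∣ p ^ k := by
      rw [← hn, ← Set.ncard_univ]
      refine ncard_orbit_dvd K (Set.toFinite _) (fun _ _ _ _ => Set.mem_univ _) (fun b _ => ?_)
      obtain ⟨⟨y, hy⟩, rfl⟩ := ht.exists_smul_eq a b
      exact dvd_of_eq (ncard_orbit_smul K (⟨y, hP.le hy⟩ : W)
        (fun z hz => Subgroup.Normal.conj_mem inferInstance z hz _)
        (fun z hz => Subgroup.Normal.conj_mem' inferInstance z hz _) a).symm
    have e2 := Nat.eq_one_of_dvd_coprimes (((Nat.Prime.coprime_iff_not_dvd hp).2 h2).pow_left k) e1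
      (ncard_orbit_dvd_card K a)
    exact (Set.ncard_le_one (Set.toFinite _)).1 e2.le _ ⟨⟨x, hx⟩, rfl⟩ _ (mem_orbit_self a))))
  have h4 := h1.sup_eq_top
  rw [h3, bot_sup_eq] at h4
  exact le_antisymm (fun x hx => (h4.ge (Subgroup.mem_top (⟨x, hx⟩ : W)) : _)) hP.le

end Cfsg.Agent.H3
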